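import Mathlib
import Cfsg.Agent.S0018
import Cfsg.Agent.S0217
import Cfsg.Agent.S0205
import Cfsg.Agent.Lib.H27.LayerFree
import Cfsg.Agent.Lib.H59.EarlyTwo
import Cfsg.Agent.Lib.H51.SPE
import Cfsg.Agent.Lib.H1.Cores

/-!
Finite groups with abelian Sylow 2-subgroups of rank at least three and solvable involution centralizers:
a strongly embedded subgroup from the signalizer functor theorem (towards S3188).
-/

set_option autoImplicit false
set_option linter.unusedSectionVars false
set_option linter.style.haveILetI false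

open Subgroup Cfsg

namespace H38.AbSol

universe u

/-- solvable groups have trivial `p`-layer -/
theorem pLayer_eq_bot {X : Type*} [Group X] [Finite X] (h : Group.IsSolvable X) (p : ℕ) : Cfsg.pLayer p X = ⊥ := by
  rw [Cfsg.pLayer, sSup_eq_bot]
  rintro K ⟨-, hK, -⟩
  exfalso
  obtain ⟨-, hp, hs⟩ := hK
  set Q := K.map (QuotientGroup.mk' (pPrimeCore p X)) with hQ
  have h1 : Group.IsSolvable (X ⧸ pPrimeCore p X) := inferInstance
  have h2 : Group.IsSolvable Q := inferInstance
  have hnt : Nontrivial (Q ⧸ center Q) := hs.toNontrivial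
  have hntQ : Nontrivial Q := (QuotientGroup.mk'_surjective (center Q)).nontrivial
  have h3 := Group.IsSolvable.commutator_lt_top_of_nontrivial Q
  exact absurd hp.commutator_eq_top (ne_of_lt h3)

variable {G : Type u} [Group G] [Finite G]

/-- the local factorization `C(a) = O(C(a)) N_{C(a)}(S)` -/
theorem cent_le (S : Sylow 2 G) (hS : ∀ a ∈ (S : Subgroup G), ∀ b ∈ (S : Subgroup G), a * b = b * a) {a : G}
    (ha : a ∈ (S : Subgroup G)) (hC : Group.IsSolvable ↥(centralizer ({a} : Set G))) :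
    centralizer ({a} : Set G) ≤ centralizerPPrimeCore 2 a ⊔ normalizer ((S : Subgroup G) : Set G) := by
  haveI : Fact (Nat.Prime 2) := ⟨Nat.prime_two⟩
  set C := centralizer ({a} : Set G) with hCd
  have hSC : (S : Subgroup G) ≤ C := by
    intro s hs
    rw [hCd, mem_centralizer_singleton_iff]
    exact hS s hs a ha
  let T : Sylow 2 C := S.subtype hSC
  have hTab : IsMulCommutative (T : Subgroup C) := by
    refine ⟨⟨fun x y => ?_⟩⟩
    apply Subtype.ext
    apply Subtype.ext
    exact hS _ x.2 _ y.2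
  have hn := Cfsg.Agent.S0018.result 2 T hTab
  have hfr := Sylow.normalizer_sup_eq_top' T (N := (T : Subgroup C) ⊔ pPrimeCore 2 C) le_sup_left
  have hfr' : pPrimeCore 2 C ⊔ normalizer ((T : Subgroup C) : Set C) = ⊤ := by
    rw [eq_top_iff, ← hfr]
    refine sup_le le_sup_right (sup_le ?_ le_sup_left)
    exact le_normalizer.trans le_sup_right
  intro x hx
  have h1 : (⟨x, hx⟩ : C) ∈ pPrimeCore 2 C ⊔ normalizer ((T : Subgroup C) : Set C) := by
    rw [hfr']; exact mem_top _
  have h2 : C.subtype ⟨x, hx⟩ ∈ (pPrimeCore 2 C ⊔ normalizer ((T : Subgroup C) : Set C)).map C.subtype :=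
    mem_map_of_mem _ h1
  rw [Subgroup.map_sup] at h2
  refine (sup_le_sup (le_refl _) ?_ : _ ≤ centralizerPPrimeCore 2 a ⊔ normalizer ((S : Subgroup G) : Set G)) h2
  rintro _ ⟨n, hn, rfl⟩
  have hn' := Subgroup.mem_normalizer_iff.1 hn
  rw [Subgroup.mem_normalizer_iff]
  intro s
  constructor
  · intro hs
    exact (hn' ⟨s, hSC hs⟩).1 hs
  · intro hs
    have h3 : (n : G) * s * (n : G)⁻¹ ∈ C := hSC hs
    have h4 : s ∈ C := by
      have := C.mul_mem (C.mul_mem (C.inv_mem n.2) h3) n.2
      have e : (n : G)⁻¹ * ((n : G) * s * (n : G)⁻¹) * n = s := by group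
      rwa [e] at this
    exact (hn' ⟨s, h4⟩).2 hs

/-- a proper subgroup with `N_G(S)` and all `C_G(a)` is strongly embedded -/
theorem strEmb (S : Sylow 2 G) (hS : ∀ a ∈ (S : Subgroup G), ∀ b ∈ (S : Subgroup G), a * b = b * a)
    (hS1 : (S : Subgroup G) ≠ ⊥) {M : Subgroup G} (hM : M ≠ ⊤)
    (hN : normalizer ((S : Subgroup G) : Set G) ≤ M)
    (hC : ∀ a ∈ (S : Subgroup G), orderOf a = 2 → centralizer ({a} : Set G) ≤ M) :
    Cfsg.IsStronglyPEmbedded 2 M := by
  haveI : Fact (Nat.Prime 2) := ⟨Nat.prime_two⟩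
  have hSM : (S : Subgroup G) ≤ M := le_normalizer.trans hN
  have h2M : 2 ∣ Nat.card M := by
    have h2 : 2 ∣ Nat.card (S : Subgroup G) := by
      obtain ⟨n, hn⟩ := IsPGroup.iff_card.1 S.2
      rcases n with _ | n
      · exfalso
        apply hS1
        rw [← Subgroup.card_eq_one, hn, pow_zero]
      · rw [hn]; exact dvd_pow_self 2 (Nat.succ_ne_zero n)
    exact h2.trans (card_dvd_of_le hSM)
  -- normalizers of subgroups of `S`
  have key : ∀ Q : Subgroup G, Q ≤ (S : Subgroup G) → Q ≠ ⊥ → normalizer (Q : Set G) ≤ M := by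
    intro Q hQ hQ1 x hx
    have hCQ : centralizer (Q : Set G) ≤ M := by
      have h2Q : 2 ∣ Nat.card Q := by
        obtain ⟨n, hn⟩ := IsPGroup.iff_card.1 (S.2.to_le hQ)
        rcases n with _ | n
        · exfalso
          apply hQ1
          rw [← Subgroup.card_eq_one, hn, pow_zero]
        · rw [hn]; exact dvd_pow_self 2 (Nat.succ_ne_zero n)
      obtain ⟨a, ha⟩ := exists_prime_orderOf_dvd_card' (G := Q) 2 h2Q
      rw [← Subgroup.orderOf_coe] at ha
      refine le_trans ?_ (hC a (hQ a.2) ha)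
      apply centralizer_le
      rw [Set.singleton_subset_iff]
      exact a.2
    have hSCQ : (S : Subgroup G) ≤ centralizer (Q : Set G) := by
      intro s hs
      rw [mem_centralizer_iff]
      intro q hq
      exact (hS s hs q (hQ hq)).symm
    -- Frattini
    let T : Sylow 2 (centralizer (Q : Set G)) := S.subtype hSCQ
    have hSx : ((S : Subgroup G).map (MulAut.conj x).toMonoidHom) ≤ centralizer (Q : Set G) := by
      rintro _ ⟨s, hs, rfl⟩
      rw [mem_centralizer_iff]
      intro q hq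
      have h1 : x⁻¹ * q * x ∈ Q := by
        have := (Subgroup.mem_normalizer_iff.1 ((normalizer (Q : Set G)).inv_mem hx) q).1 hq
        rwa [inv_inv] at this
      have h2 := hS s hs _ (hQ h1)
      show q * (x * s * x⁻¹) = x * s * x⁻¹ * q
      calc q * (x * s * x⁻¹) = x * ((x⁻¹ * q * x) * s) * x⁻¹ := by group
        _ = x * (s * (x⁻¹ * q * x)) * x⁻¹ := by rw [h2]
        _ = x * s * x⁻¹ * q := by group
    let Sx : Sylow 2 G := x • S
    have hSx' : (Sx : Subgroup G) ≤ centralizer (Q : Set G) := hSx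
    let T' : Sylow 2 (centralizer (Q : Set G)) := Sx.subtype hSx'
    obtain ⟨c, hc⟩ := MulAction.exists_smul_eq (centralizer (Q : Set G)) T T'
    have h3 : (c : G) • S = x • S := by
      apply Sylow.ext
      apply Subgroup.ext
      intro y
      constructor
      · rintro ⟨s, hs, rfl⟩
        have h5 : (⟨(c : G) * s * (c : G)⁻¹, mul_mem (mul_mem c.2 (hSCQ hs)) (inv_mem c.2)⟩ :
            centralizer (Q : Set G)) ∈ ((c • T : Sylow 2 _) : Subgroup _) := by
          refine ⟨⟨s, hSCQ hs⟩, hs, ?_⟩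
          rfl
        rw [hc] at h5
        exact h5
      · intro hy
        have hyC : y ∈ centralizer (Q : Set G) := hSx' hy
        have h5 : (⟨y, hyC⟩ : centralizer (Q : Set G)) ∈ ((T' : Sylow 2 _) : Subgroup _) := hy
        rw [← hc] at h5
        obtain ⟨s, hs, hsy⟩ := h5
        exact ⟨s, hs, congrArg Subtype.val hsy⟩
    have h4 : (c : G)⁻¹ * x ∈ normalizer ((S : Subgroup G) : Set G) := by
      apply Sylow.smul_eq_iff_mem_normalizer.1
      rw [mul_smul, ← h3, inv_smul_smul]
    have h5 := M.mul_mem (hCQ c.2) (hN h4)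
    rwa [mul_inv_cancel_left] at h5
  refine ⟨h2M.trans (card_subgroup_dvd_card M), hM, S, ?_⟩
  unfold kGeneratedCore
  apply iSup_le
  rintro ⟨Q, hQ, hQ2⟩
  apply key Q hQ
  rintro rfl
  apply hQ2
  intro B hB hB2
  have : Nat.card B = 1 := by
    have : Subsingleton (⊥ : Subgroup G) := inferInstance
    exact Nat.card_eq_one_iff_unique.2 ⟨inferInstance, inferInstance⟩
  rw [this]
  exact Nat.one_le_two_pow

/-- conjugation of the cores -/
theorem omg_conj (S : Sylow 2 G) (hS : ∀ a ∈ (S : Subgroup G), ∀ b ∈ (S : Subgroup G), a * b = b * a) {g b : G}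
    (hg : g ∈ normalizer ((S : Subgroup G) : Set G)) (hb : b ∈ H59.EarlyTwo.omg (S : Subgroup G) hS) :
    g * b * g⁻¹ ∈ H59.EarlyTwo.omg (S : Subgroup G) hS := by
  refine ⟨(mem_normalizer_iff.1 hg b).1 hb.1, ?_⟩
  have : (g * b * g⁻¹) ^ 2 = g * b ^ 2 * g⁻¹ := by rw [pow_two, pow_two]; group
  rw [this, hb.2, mul_one, mul_inv_cancel]

/-- rank at least three: `G` has a strongly embedded subgroup -/
theorem main (hO : oddCore G = ⊥) (S : Sylow 2 G)
    (hS : ∀ a ∈ (S : Subgroup G), ∀ b ∈ (S : Subgroup G), a * b = b * a)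
    (h8 : 8 ≤ Nat.card (H59.EarlyTwo.omg (S : Subgroup G) hS))
    (hC : ∀ t : G, orderOf t = 2 → Group.IsSolvable ↥(centralizer ({t} : Set G))) :
    (S : Subgroup G).Normal ∨ ∃ M : Subgroup G, Cfsg.IsStronglyPEmbedded 2 M := by
  haveI : Fact (Nat.Prime 2) := ⟨Nat.prime_two⟩
  set Ω := H59.EarlyTwo.omg (S : Subgroup G) hS with hΩ
  have hord : ∀ a ∈ Ω, a ≠ 1 → orderOf a = 2 := fun a h h1 => H59.EarlyTwo.orderOf_of_mem_omg h h1
  have hcomm : ∀ a ∈ Ω, ∀ b ∈ Ω, a * b = b * a := fun a ha b hb => hS a ha.1 b hb.1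
  have hS1 : (S : Subgroup G) ≠ ⊥ := by
    intro h
    have : Ω ≤ ⊥ := by rw [← h]; exact fun x hx => hx.1
    have h1 : Nat.card Ω = 1 := by rw [le_bot_iff.1 this, Subgroup.card_bot]
    omega
  obtain ⟨hW, hWC⟩ := Cfsg.Agent.S0217.result (p := 2) Ω hcomm (fun a ha => ha.2)
    (by omega) (centralizerPPrimeCore 2)
    (fun a _ _ => map_subtype_le _) (fun a _ _ => H59.EarlyTwo.not_two_dvd_core a)
    (fun a ha _ b hb x hx => by
      have := H59.EarlyTwo.conj_mem_core hx b
      rwa [show b * a * b⁻¹ = a by rw [hcomm b hb a ha, mul_inv_cancel_right]] at this)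
    (fun a _ _ => by
      apply Cfsg.Agent.S0205.result
      rw [← Nat.not_even_iff_odd, even_iff_two_dvd]
      exact H59.EarlyTwo.not_two_dvd_core a)
    (fun a ha ha1 b hb hb1 => H27.LayerFree.core_bal (hord a ha ha1) (pLayer_eq_bot (hC b (hord b hb hb1)) 2)
      (hcomm a ha b hb))
  set W : Subgroup G := ⨆ a : {a : G // a ∈ Ω ∧ a ≠ 1}, centralizerPPrimeCore 2 (a : G) with hWd
  have hNW : normalizer ((S : Subgroup G) : Set G) ≤ normalizer (W : Set G) := by
    intro s hs
    apply H75.Basic.mem_normalizer_of_conj_mem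
    have h1 : W ≤ W.comap (MulAut.conj s).toMonoidHom := by
      rw [hWd]
      apply iSup_le
      rintro ⟨b, hb, hb1⟩ x hx
      rw [Subgroup.mem_comap]
      have hb' : s * b * s⁻¹ ∈ Ω := omg_conj S hS hs hb
      have hb1' : s * b * s⁻¹ ≠ 1 := by
        intro h
        apply hb1
        have : b = s⁻¹ * (s * b * s⁻¹) * s := by group
        rw [this, h]; group
      exact le_iSup (fun a : {a : G // a ∈ Ω ∧ a ≠ 1} => centralizerPPrimeCore 2 (a : G))
        ⟨s * b * s⁻¹, hb', hb1'⟩ (H59.EarlyTwo.conj_mem_core hx s)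
    intro z hz
    exact h1 hz
  have hθW : ∀ a ∈ (S : Subgroup G), orderOf a = 2 → centralizerPPrimeCore 2 a ≤ W := by
    intro a ha ha2
    have ha' : a ∈ Ω := ⟨ha, by rw [← ha2]; exact pow_orderOf_eq_one a⟩
    have ha1 : a ≠ 1 := by
      rintro rfl
      rw [orderOf_one] at ha2
      omega
    exact le_iSup (fun a : {a : G // a ∈ Ω ∧ a ≠ 1} => centralizerPPrimeCore 2 (a : G)) ⟨a, ha', ha1⟩
  by_cases hW1 : W = ⊥
  · by_cases hn : normalizer ((S : Subgroup G) : Set G) = ⊤
    · left
      exact Subgroup.normalizer_eq_top_iff.1 hn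
    · right
      refine ⟨_, strEmb S hS hS1 hn le_rfl ?_⟩
      intro a ha ha2
      refine (cent_le S hS ha (hC a ha2)).trans (sup_le ?_ le_rfl)
      have := hθW a ha ha2
      rw [hW1, le_bot_iff] at this
      rw [this]
      exact bot_le
  · right
    refine ⟨normalizer (W : Set G), strEmb S hS hS1 ?_ hNW ?_⟩
    · intro h
      apply hW1
      have hWn : W.Normal := Subgroup.normalizer_eq_top_iff.1 h
      rw [eq_bot_iff, ← hO]
      apply le_sSup
      refine ⟨hWn, ?_⟩
      rw [Nat.coprime_comm, Nat.Prime.coprime_iff_not_dvd Nat.prime_two]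
      exact hW
    · intro a ha ha2
      refine (cent_le S hS ha (hC a ha2)).trans (sup_le ?_ hNW)
      exact (hθW a ha ha2).trans le_normalizer

end H38.AbSol
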