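import Cfsg.Agent.Lib.H38.WeakInd
import Cfsg.Agent.Lib.H38.PPrime
import Cfsg.Agent.Lib.H38.Control
import Cfsg.Agent.Lib.H1.Coprime

set_option autoImplicit false

/-! The least centric radical subgroup when a centric normal subgroup controls strong fusion. -/

namespace H38.CRad

open H38.Basic H38.Goldschmidt H38.WeakInd H38.PPrime H38.Control H38.Alperin Cfsg

variable {G : Type*} [Group G]

theorem mul_pow_mem {B : Subgroup G} {b y : G} (hb : b ∈ B) (hy : y ∈ Subgroup.normalizer (B : Set G)) (n : ℕ) :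
    ∃ b' ∈ B, (b * y) ^ n = b' * y ^ n := by
  induction n with
  | zero => exact ⟨1, B.one_mem, by simp⟩
  | succ n ih =>
    obtain ⟨b', hb', h⟩ := ih
    have h1 : y ^ n * b * (y ^ n)⁻¹ ∈ B := (Subgroup.mem_normalizer_iff.1 (Subgroup.pow_mem _ hy n) b).1 hb
    refine ⟨b' * (y ^ n * b * (y ^ n)⁻¹), B.mul_mem hb' h1, ?_⟩
    rw [pow_succ, h, pow_succ]; group

variable [Finite G] {p : ℕ} [hp : Fact p.Prime]

/-- the centric radical condition -/
def CR (p : ℕ) (P Q : Subgroup G) : Prop :=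
  Q ≤ P ∧ IsSyl p (Q ⊓ Subgroup.centralizer (Q : Set G)) (Subgroup.centralizer (Q : Set G)) ∧
    ∀ X : Subgroup G, X ≤ Subgroup.normalizer (Q : Set G) → Subgroup.normalizer (Q : Set G) ≤ Subgroup.normalizer (X : Set G) →
      Q ⊔ Subgroup.centralizer (Q : Set G) ≤ X → (∃ k : ℕ, (Q ⊔ Subgroup.centralizer (Q : Set G)).relIndex X = p ^ k) →
      X = Q ⊔ Subgroup.centralizer (Q : Set G)

/-- a Sylow subgroup which is centric is Sylow in `R C(R)` -/
theorem le_of_centric {R T : Subgroup G} (hRp : IsPGroup p ↥R)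
    (h : IsSyl p (R ⊓ Subgroup.centralizer (R : Set G)) (Subgroup.centralizer (R : Set G))) (hT : IsPGroup p ↥T)
    (hTR : T ≤ R ⊔ Subgroup.centralizer (R : Set G)) (hRT : T ≤ Subgroup.normalizer (R : Set G)) : T ≤ R := by
  set C := Subgroup.centralizer (R : Set G) with hC
  -- `p`-subgroups of `C` lie in `R`
  have h1 : ∀ U : Subgroup G, IsPGroup p ↥U → U ≤ C → U ≤ R := by
    intro U hU hUC
    obtain ⟨g, hg, hgU⟩ := h.exists_conj_le hU hUC
    intro u hu
    have h2 : g * u * g⁻¹ ∈ R ⊓ C := hgU ⟨u, hu, rfl⟩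
    have h3 : g⁻¹ * (g * u * g⁻¹) * g = g * u * g⁻¹ := by
      rw [mul_assoc, Subgroup.mem_centralizer_iff.1 hg _ h2.1]; group
    have h4 : u = g * u * g⁻¹ := by rw [← h3]; group
    rw [h4]; exact h2.1
  have hRT' : IsPGroup p ↥(R ⊔ T) := hRp.to_sup_of_normal_left' hT hRT
  have hRn : R ≤ Subgroup.normalizer (C : Set G) := Subgroup.le_normalizer.trans (le_normalizer_centralizer R)
  intro t ht
  obtain ⟨c, hc, r, hr, rfl⟩ := (mem_sup_iff_of_le_normalizer hRn).1 (hTR ht)
  have h5 : c ∈ (R ⊔ T) ⊓ C := by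
    refine ⟨?_, hc⟩
    have : c = (c * r) * r⁻¹ := by group
    rw [this]
    exact Subgroup.mul_mem _ (Subgroup.mem_sup_right ht) (Subgroup.mem_sup_left (R.inv_mem hr))
  exact R.mul_mem (h1 _ hRT'.to_inf_left inf_le_right h5) hr

theorem least {P Q : Subgroup G} (hP : IsPGroup p ↥P) (hQP : Q ≤ P) (hPQ : P ≤ Subgroup.normalizer (Q : Set G))
    (hctl : ∀ A : Subgroup G, A ≤ P → ∀ g : G, A.map (MulAut.conj g).toMonoidHom ≤ P →
      ∃ h ∈ Subgroup.normalizer (Q : Set G), ∃ c ∈ Subgroup.centralizer (A : Set G), g = h * c)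
    {R : Subgroup G} (hR : CR p P R) : Q ≤ R := by
  obtain ⟨hRP, hRs, hRr⟩ := hR
  have hRp := hP.to_le hRP
  set C := Subgroup.centralizer (R : Set G) with hC
  set B := R ⊔ C with hB
  set Y := Q ⊓ Subgroup.normalizer (R : Set G) with hY
  have hYp : IsPGroup p ↥Y := (hP.to_le hQP).to_inf_left
  have hNB : Subgroup.normalizer (R : Set G) ≤ Subgroup.normalizer (B : Set G) :=
    le_normalizer_sup le_rfl (le_normalizer_centralizer R)
  have hCN : C ≤ Subgroup.normalizer (R : Set G) := Subgroup.centralizer_le_normalizer _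
  have hBN : B ≤ Subgroup.normalizer (R : Set G) := sup_le Subgroup.le_normalizer hCN
  have hYN : Y ≤ Subgroup.normalizer (R : Set G) := inf_le_right
  set X := B ⊔ Y with hX
  have hXN : X ≤ Subgroup.normalizer (R : Set G) := sup_le hBN hYN
  have hNX : Subgroup.normalizer (R : Set G) ≤ Subgroup.normalizer (X : Set G) := by
    intro n hn
    have h1 := hctl R hRP n (by rw [mem_normalizer_iff'.1 hn]; exact hRP)
    obtain ⟨h, hh, c, hc, rfl⟩ := h1
    have hhR : h ∈ Subgroup.normalizer (R : Set G) := by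
      have := Subgroup.mul_mem _ hn (Subgroup.inv_mem _ (hCN hc))
      rwa [mul_inv_cancel_right] at this
    refine Subgroup.mul_mem _ ?_ ?_
    · -- `h`
      rw [mem_normalizer_iff', hX, conj_sup, mem_normalizer_iff'.1 (hNB hhR), hY, conj_inf, mem_normalizer_iff'.1 hh,
        mem_normalizer_iff'.1 (Subgroup.le_normalizer (H := Subgroup.normalizer (R : Set G)) hhR)]
    · exact Subgroup.le_normalizer (Subgroup.mem_sup_left (Subgroup.mem_sup_right hc))
  have hXB := hRr X hXN hNX le_sup_left (relIndex_eq_pow (hXN.trans hNB) (by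
    intro x hx
    obtain ⟨b, hb, y, hy, rfl⟩ := (mem_sup_iff_of_le_normalizer (H := Y) (K := B) (hYN.trans hNB)).1 (by
      rw [sup_comm]; exact hx)
    obtain ⟨k, hk⟩ := hYp ⟨y, hy⟩
    have hk : y ^ p ^ k = 1 := congrArg Subtype.val hk
    obtain ⟨b', hb', h⟩ := mul_pow_mem hb (hNB (hYN hy)) (p ^ k)
    exact ⟨k, by rw [h, hk, mul_one]; exact hb'⟩))
  have hYR : Y ≤ R := by
    apply le_of_centric hRp hRs hYp _ hYN
    have : Y ≤ X := le_sup_right
    rwa [hXB] at this
  -- normalizers grow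
  by_contra hQR
  have hRQp : IsPGroup p ↥(R ⊔ Q) := hP.to_le (sup_le hRP hQP)
  have hlt : R < R ⊔ Q := lt_of_le_of_ne le_sup_left (fun h => hQR (by rw [h]; exact le_sup_right))
  obtain ⟨-, h2⟩ := lt_inf_normalizer hRQp hlt
  apply h2
  rintro z ⟨hz, hzN⟩
  obtain ⟨q, hq, r, hr, rfl⟩ := (mem_sup_iff_of_le_normalizer (hRP.trans hPQ)).1 hz
  have h3 : q ∈ Subgroup.normalizer (R : Set G) := by
    have := Subgroup.mul_mem _ hzN (Subgroup.inv_mem _ (Subgroup.le_normalizer hr))
    rwa [mul_inv_cancel_right] at this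
  exact R.mul_mem (hYR ⟨hq, h3⟩) hr

end H38.CRad
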