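import Cfsg.Agent.Lib.H38.CRad

set_option autoImplicit false

/-! The least centric radical subgroup when a centric normal subgroup controls strong fusion. -/

namespace H38.CRad2

open H38.Basic H38.Goldschmidt H38.WeakInd H38.PPrime H38.Control H38.Alperin H38.CRad Cfsg

variable {G : Type*} [Group G] [Finite G] {p : ℕ} [hp : Fact p.Prime]

theorem main (P : Sylow p G) {K : Subgroup G} (hKP : K ≤ (P : Subgroup G))
    (hPK : (P : Subgroup G) ≤ Subgroup.normalizer (K : Set G))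
    (hcen : (P : Subgroup G) ⊓ Subgroup.centralizer (K : Set G) ≤ K)
    (hctl : StrongIn (Subgroup.normalizer (K : Set G)) (P : Subgroup G) ⊤) :
    ∃ Q : Subgroup G, CR p (P : Subgroup G) Q ∧ (∀ R, CR p (P : Subgroup G) R → Q ≤ R) ∧
      (P : Subgroup G) ≤ Subgroup.normalizer (Q : Set G) ∧
      ∀ A : Subgroup G, A ≤ (P : Subgroup G) → ∀ g : G, A.map (MulAut.conj g).toMonoidHom ≤ (P : Subgroup G) →
        ∃ h ∈ Subgroup.normalizer (Q : Set G), ∃ c ∈ Subgroup.centralizer (A : Set G), g = h * c := by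
  have hPp : IsPGroup p ↥(P : Subgroup G) := P.2
  have hKp : IsPGroup p ↥K := hPp.to_le hKP
  set N := Subgroup.normalizer (K : Set G) with hN
  set C := Subgroup.centralizer (K : Set G) with hC
  have hCN : C ≤ N := Subgroup.centralizer_le_normalizer _
  have hNC : N ≤ Subgroup.normalizer (C : Set G) := le_normalizer_centralizer K
  have hPN : IsSyl p (P : Subgroup G) N := (isSyl_sylow P).of_le hPK le_top
  have hPC : IsSyl p ((P : Subgroup G) ⊓ C) C := hPN.inf_normal hCN hNC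
  have hCc : C ≤ Subgroup.centralizer ((((P : Subgroup G) ⊓ C : Subgroup G)) : Set G) := by
    have h1 : C ≤ Subgroup.centralizer (K : Set G) := le_rfl
    exact h1.trans (Subgroup.centralizer_le hcen)
  obtain ⟨D, hD1, hD2, hD3⟩ := exists_complement_of_central hPC hCc
  have hDC : D ≤ C := fun x hx => ((hD1 x).1 hx).1
  have hDN' : D ≤ N := hDC.trans hCN
  have hDn : N ≤ Subgroup.normalizer (D : Set G) := by
    intro n hn
    rw [mem_normalizer_iff']
    apply Subgroup.eq_of_le_of_card_ge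
    · rintro _ ⟨d, hd, rfl⟩
      show n * d * n⁻¹ ∈ D
      replace hd := (hD1 d).1 hd
      rw [hD1]
      exact ⟨(Subgroup.mem_normalizer_iff.1 (hNC hn) d).1 hd.1, by rw [orderOf_conj]; exact hd.2⟩
    · rw [card_conj]
  -- `D = O_{p'}(N)`
  set D' := pPrimeCore p ↥N with hD'
  have hDeq : ∀ x : ↥N, x ∈ D' ↔ (x : G) ∈ D := by
    have h1 : D.subgroupOf N ≤ D' := by
      apply H1.Cores.le_pPrimeCore (Subgroup.normal_subgroupOf_of_le_normalizer hDn)
      rw [Nat.card_congr (Subgroup.subgroupOfEquivOfLe hDN').toEquiv]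
      exact hD2
    have hcop : (Nat.card ↥D').Coprime p := H1.Cores.coprime_card_pPrimeCore p
    intro x
    refine ⟨fun hx => ?_, fun hx => h1 hx⟩
    have hord : (orderOf x).Coprime p := by
      have h2 : orderOf x ∣ Nat.card ↥D' := by
        have := orderOf_dvd_natCard (⟨x, hx⟩ : ↥D')
        rwa [Subgroup.orderOf_mk] at this
      exact Nat.Coprime.coprime_dvd_left h2 hcop
    rw [hD1]
    refine ⟨?_, by rw [Subgroup.orderOf_coe]; exact hord⟩
    rw [hC, Subgroup.mem_centralizer_iff]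
    intro k hk
    have hkN : k ∈ N := Subgroup.le_normalizer hk
    have hD'n : D'.Normal := inferInstance
    -- the commutator lies in `K ∩ D'`
    have h2 : (x : G) * k * (x : G)⁻¹ * k⁻¹ ∈ K := K.mul_mem ((Subgroup.mem_normalizer_iff.1 x.2 k).1 hk) (K.inv_mem hk)
    have h3 : x * (⟨k, hkN⟩ * x⁻¹ * (⟨k, hkN⟩ : ↥N)⁻¹) ∈ D' := D'.mul_mem hx (hD'n.conj_mem _ (D'.inv_mem hx) _)
    have h4 : (x : G) * k * (x : G)⁻¹ * k⁻¹ = 1 := by
      apply eq_one_of_coprime_of_isPGroup hKp h2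
      have h5 : orderOf (x * (⟨k, hkN⟩ * x⁻¹ * (⟨k, hkN⟩ : ↥N)⁻¹)) ∣ Nat.card ↥D' := by
        have := orderOf_dvd_natCard (⟨_, h3⟩ : ↥D')
        rwa [Subgroup.orderOf_mk] at this
      have h6 : ((x * (⟨k, hkN⟩ * x⁻¹ * (⟨k, hkN⟩ : ↥N)⁻¹) : ↥N) : G) = (x : G) * k * (x : G)⁻¹ * k⁻¹ := by
        show (x : G) * (k * (x : G)⁻¹ * k⁻¹) = _
        group
      rw [← h6, Subgroup.orderOf_coe]
      exact Nat.Coprime.coprime_dvd_left h5 hcop
    calc k * (x : G) = ((x : G) * k * (x : G)⁻¹ * k⁻¹)⁻¹ * ((x : G) * k) := by group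
      _ = (x : G) * k := by rw [h4]; group
  -- `M = O_{p',p}(N)`
  set M := (pPrimePCore p ↥N).map N.subtype with hM
  have hMN : M ≤ N := Subgroup.map_subtype_le _
  have hMm : ∀ x : ↥N, (x : G) ∈ M ↔ x ∈ pPrimePCore p ↥N := by
    intro x
    constructor
    · rintro ⟨y, hy, hyx⟩
      have : y = x := Subtype.ext hyx
      rw [← this]; exact hy
    · intro hx; exact ⟨x, hx, rfl⟩
  have hNM : N ≤ Subgroup.normalizer (M : Set G) := by
    have hMn : (pPrimePCore p ↥N).Normal := inferInstance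
    intro n hn
    rw [mem_normalizer_iff']
    apply Subgroup.eq_of_le_of_card_ge
    · rintro _ ⟨_, ⟨x, hx, rfl⟩, rfl⟩
      exact ⟨⟨n, hn⟩ * x * ⟨n, hn⟩⁻¹, hMn.conj_mem x hx _, rfl⟩
    · rw [card_conj]
  have hDM : D ≤ M := by
    intro d hd
    have h1 : (⟨d, hDN' hd⟩ : ↥N) ∈ D' := (hDeq _).2 hd
    exact (hMm ⟨d, hDN' hd⟩).2 (pPrimeCore_le_pPrimePCore h1)
  have hMpow : ∀ x ∈ M, ∃ k, x ^ p ^ k ∈ D := by
    rintro _ ⟨x, hx, rfl⟩
    obtain ⟨k, hk⟩ := exists_pow_mem_of_mem_pPrimePCore hx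
    exact ⟨k, (hDeq _).1 hk⟩
  have hMbig : ∀ Y : Subgroup G, Y ≤ N → D ≤ Y → N ≤ Subgroup.normalizer (Y : Set G) → (∀ y ∈ Y, ∃ k, y ^ p ^ k ∈ D) → Y ≤ M := by
    intro Y hY _ hYn hYp y hy
    have h1 : (Y.subgroupOf N).Normal := Subgroup.normal_subgroupOf_of_le_normalizer hYn
    have h2 : Y.subgroupOf N ≤ pPrimePCore p ↥N := le_pPrimePCore h1 (by
      intro x hx
      obtain ⟨k, hk⟩ := hYp x hx
      exact ⟨k, (hDeq _).2 hk⟩)
    exact (hMm ⟨y, hY hy⟩).2 (h2 hy)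
  -- the subgroup `Q`
  set Q := (P : Subgroup G) ⊓ M with hQ
  have hQP : Q ≤ (P : Subgroup G) := inf_le_left
  have hQp : IsPGroup p ↥Q := hPp.to_le hQP
  have hQs : IsSyl p Q M := hPN.inf_normal hMN hNM
  obtain ⟨k0, hk0⟩ := relIndex_eq_pow (p := p) (hMN.trans hDn) hMpow
  have hMeq : M = D ⊔ Q := eq_sup_of_relIndex_eq_pow hDM hQs hk0
  have hPQ : (P : Subgroup G) ≤ Subgroup.normalizer (Q : Set G) :=
    le_normalizer_inf Subgroup.le_normalizer (hPK.trans hNM)
  have hKQ : K ≤ Q := by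
    refine le_inf hKP ?_
    have h1 : K ⊔ D ≤ M := by
      apply hMbig (K ⊔ D) (sup_le Subgroup.le_normalizer hDN') le_sup_right (le_normalizer_sup le_rfl hDn)
      intro y hy
      obtain ⟨d, hd, k, hk, rfl⟩ := (mem_sup_iff_of_le_normalizer (H := K) (K := D) (Subgroup.le_normalizer.trans hDn)).1 hy
      obtain ⟨n, hn⟩ := hKp ⟨k, hk⟩
      have hn : k ^ p ^ n = 1 := congrArg Subtype.val hn
      obtain ⟨d', hd', h⟩ := mul_pow_mem hd (hDn (Subgroup.le_normalizer hk)) (p ^ n)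
      exact ⟨n, by rw [h, hn, mul_one]; exact hd'⟩
    exact le_sup_left.trans h1
  have hCQ : Subgroup.centralizer (Q : Set G) ≤ C := Subgroup.centralizer_le hKQ
  have hfrat : ∀ x ∈ N, ∃ d ∈ D, ∃ n ∈ N ⊓ Subgroup.normalizer (Q : Set G), x = d * n := by
    intro x hx
    obtain ⟨m, hm, n, hn, rfl⟩ := frattini hQs hNM hx hMN
    rw [hMeq, sup_comm] at hm
    obtain ⟨d, hd, q, hq, rfl⟩ := (mem_sup_iff_of_le_normalizer (H := Q) (K := D) ((hQP.trans hPK).trans hDn)).1 hm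
    exact ⟨d, hd, q * n, Subgroup.mul_mem _ ⟨hPK (hQP hq), Subgroup.le_normalizer hq⟩ hn, by group⟩
  have hNQN : Subgroup.normalizer (Q : Set G) ≤ N := by
    intro g hg
    obtain ⟨x, hx, hxa⟩ := hctl (Q : Set G) g trivial (fun a ha => hQP ha) (by
      rintro _ ⟨a, ha, rfl⟩
      exact hQP ((Subgroup.mem_normalizer_iff.1 hg a).1 ha))
    have h1 : x⁻¹ * g ∈ Subgroup.centralizer (Q : Set G) := by
      rw [Subgroup.mem_centralizer_iff]
      intro a ha
      have h2 := hxa a ha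
      calc a * (x⁻¹ * g) = x⁻¹ * (x * a * x⁻¹) * g := by group
        _ = x⁻¹ * (g * a * g⁻¹) * g := by rw [h2]
        _ = x⁻¹ * g * a := by group
    have h2 := N.mul_mem hx (hCN (hCQ h1))
    rwa [mul_inv_cancel_left] at h2
  have hDQ : ∀ d ∈ D, ∀ a ∈ Subgroup.normalizer (Q : Set G), a ∈ D → ∀ q ∈ Q, a * q = q * a := by
    intro _ _ a ha haD q hq
    have h1 : a * q * a⁻¹ * q⁻¹ ∈ Q := Q.mul_mem ((Subgroup.mem_normalizer_iff.1 ha q).1 hq) (Q.inv_mem hq)
    have h2 : a * (q * a⁻¹ * q⁻¹) ∈ D := D.mul_mem haD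
      ((Subgroup.mem_normalizer_iff.1 (hDn (hPK (hQP hq))) _).1 (D.inv_mem haD))
    have h3 : a * q * a⁻¹ * q⁻¹ = 1 := by
      apply eq_one_of_coprime_of_isPGroup hQp h1
      have e : a * (q * a⁻¹ * q⁻¹) = a * q * a⁻¹ * q⁻¹ := by group
      rw [e] at h2
      exact ((hD1 _).1 h2).2
    calc a * q = (a * q * a⁻¹ * q⁻¹) * (q * a) := by group
      _ = q * a := by rw [h3, one_mul]
  -- control of strong fusion by `N(Q)`
  have hmain : ∀ A : Subgroup G, A ≤ (P : Subgroup G) → ∀ g : G, A.map (MulAut.conj g).toMonoidHom ≤ (P : Subgroup G) →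
        ∃ h ∈ Subgroup.normalizer (Q : Set G), ∃ c ∈ Subgroup.centralizer (A : Set G), g = h * c := by
    intro A hA g hg
    obtain ⟨x, hx, hxa⟩ := hctl (A : Set G) g trivial (fun a ha => hA ha) (by
      rintro _ ⟨a, ha, rfl⟩
      exact hg ⟨a, ha, rfl⟩)
    have hc1 : x⁻¹ * g ∈ Subgroup.centralizer (A : Set G) := by
      rw [Subgroup.mem_centralizer_iff]
      intro a ha
      have h2 := hxa a ha
      calc a * (x⁻¹ * g) = x⁻¹ * (x * a * x⁻¹) * g := by group
        _ = x⁻¹ * (g * a * g⁻¹) * g := by rw [h2]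
        _ = x⁻¹ * g * a := by group
    obtain ⟨d, hd, n, hn, hxdn⟩ := hfrat x⁻¹ (N.inv_mem hx)
    -- `x = n⁻¹ d⁻¹`
    have hxe : x = n⁻¹ * d⁻¹ := by rw [← mul_inv_rev, ← hxdn, inv_inv]
    have hn' : n⁻¹ ∈ Subgroup.normalizer (Q : Set G) := Subgroup.inv_mem _ hn.2
    -- `d⁻¹ a d ∈ N(Q)` for `a ∈ A`
    have h1 : ∀ a ∈ A, d⁻¹ * a * d ∈ Subgroup.normalizer (Q : Set G) := by
      intro a ha
      have h2 : x * a * x⁻¹ ∈ (P : Subgroup G) := by
        rw [hxa a ha]; exact hg ⟨a, ha, rfl⟩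
      have h3 := Subgroup.mul_mem _ (Subgroup.mul_mem _ hn.2 (hPQ h2)) hn'
      have e : n * (x * a * x⁻¹) * n⁻¹ = d⁻¹ * a * d := by rw [hxe]; group
      rwa [e] at h3
    set D0 := D ⊓ Subgroup.normalizer (Q : Set G) with hD0
    have hAD0 : A ≤ Subgroup.normalizer (D0 : Set G) :=
      le_normalizer_inf ((hA.trans hPK).trans hDn) ((hA.trans hPQ).trans Subgroup.le_normalizer)
    obtain ⟨c, hc, hcD⟩ := H1.Coprime.exists_fixed_in_coset A D0 hAD0 (by
        obtain ⟨k, hk⟩ := IsPGroup.iff_card.1 (hPp.to_le hA)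
        rw [hk]
        exact (Nat.Coprime.coprime_dvd_left (Subgroup.card_dvd_of_le inf_le_left) hD2).symm.pow_left k)
      (Or.inl (by
        have : Group.IsNilpotent ↥A := (hPp.to_le hA).isNilpotent
        infer_instance)) d (by
        intro a ha
        refine ⟨?_, ?_⟩
        · have h2 : a * d * a⁻¹ ∈ D := (Subgroup.mem_normalizer_iff.1 (hDn (hPK (hA ha))) d).1 hd
          have h3 := D.mul_mem (D.inv_mem hd) h2
          have e : d⁻¹ * (a * d * a⁻¹) = d⁻¹ * a * d * a⁻¹ := by group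
          rwa [e] at h3
        · exact Subgroup.mul_mem _ (h1 a ha) (Subgroup.inv_mem _ (hPQ (hA ha))))
    -- `d⁻¹ c ∈ D0`, `c ∈ C(A)`: `x = n⁻¹ d⁻¹ = n⁻¹ (d⁻¹ c) c⁻¹`
    refine ⟨n⁻¹ * (d⁻¹ * c), Subgroup.mul_mem _ hn' hcD.2, c⁻¹ * (x⁻¹ * g), Subgroup.mul_mem _ (Subgroup.inv_mem _ hc) hc1, ?_⟩
    rw [hxe]; group
  have hPNQ : IsSyl p (P : Subgroup G) (Subgroup.normalizer (Q : Set G)) := (isSyl_sylow P).of_le hPQ le_top
  have hCNQ : Subgroup.centralizer (Q : Set G) ≤ Subgroup.normalizer (Q : Set G) := Subgroup.centralizer_le_normalizer _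
  have hPCQ : (P : Subgroup G) ⊓ Subgroup.centralizer (Q : Set G) = Q ⊓ Subgroup.centralizer (Q : Set G) := by
    apply le_antisymm
    · exact le_inf (((inf_le_inf_left _ hCQ).trans hcen).trans hKQ) inf_le_right
    · exact inf_le_inf_right _ hQP
  refine ⟨Q, ⟨hQP, ?_, ?_⟩, fun R hR => least hPp hQP hPQ hmain hR, hPQ, hmain⟩
  · rw [← hPCQ]
    exact hPNQ.inf_normal hCNQ (le_normalizer_centralizer Q)
  · intro X hX hXn hBX hidx
    obtain ⟨k, hk⟩ := hidx
    set B := Q ⊔ Subgroup.centralizer (Q : Set G) with hB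
    have hBn : X ≤ Subgroup.normalizer (B : Set G) :=
      hX.trans (le_normalizer_sup le_rfl (le_normalizer_centralizer Q))
    have hXN : X ≤ N := hX.trans hNQN
    -- `B ≤ M`
    have hBM : B ≤ M := by
      refine sup_le inf_le_right ?_
      intro c hc
      obtain ⟨t, ht, d, hd, rfl⟩ := hD3 c (hCQ hc)
      exact M.mul_mem ((hKQ.trans inf_le_right) (hcen ht)) (hDM hd)
    have hXpow : ∀ x ∈ X, ∃ j, x ^ p ^ j ∈ D := by
      intro x hx
      have hBXn : (B.subgroupOf X).Normal := Subgroup.normal_subgroupOf_of_le_normalizer hBn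
      have h1 := (B.subgroupOf X).pow_index_mem (⟨x, hx⟩ : ↥X)
      have h2 : (B.subgroupOf X).index = p ^ k := hk
      rw [h2] at h1
      have h3 : x ^ p ^ k ∈ B := h1
      obtain ⟨j, hj⟩ := hMpow _ (hBM h3)
      exact ⟨k + j, by rw [pow_add, pow_mul]; exact hj⟩
    have hXM : D ⊔ X ≤ M := by
      apply hMbig _ (sup_le hDN' hXN) le_sup_left
      · intro x hx
        obtain ⟨d, hd, n, hn, rfl⟩ := hfrat x hx
        refine Subgroup.mul_mem _ (Subgroup.le_normalizer (Subgroup.mem_sup_left hd)) ?_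
        exact (le_normalizer_sup (inf_le_left.trans hDn) (inf_le_right.trans hXn)) hn
      · intro y hy
        rw [sup_comm] at hy
        obtain ⟨d, hd, x, hx, rfl⟩ := (mem_sup_iff_of_le_normalizer (H := X) (K := D) (hXN.trans hDn)).1 hy
        obtain ⟨j, hj⟩ := hXpow x hx
        obtain ⟨d', hd', h⟩ := mul_pow_mem hd (hDn (hXN hx)) (p ^ j)
        exact ⟨j, by rw [h]; exact D.mul_mem hd' hj⟩
    apply le_antisymm _ hBX
    intro x hx
    have h1 : x ∈ M := hXM (Subgroup.mem_sup_right hx)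
    rw [hMeq, sup_comm] at h1
    obtain ⟨d, hd, q, hq, rfl⟩ := (mem_sup_iff_of_le_normalizer (H := Q) (K := D) ((hQP.trans hPK).trans hDn)).1 h1
    have h2 : d ∈ Subgroup.normalizer (Q : Set G) := by
      have := Subgroup.mul_mem _ (hX hx) (Subgroup.inv_mem _ (Subgroup.le_normalizer hq))
      rwa [mul_inv_cancel_right] at this
    refine Subgroup.mul_mem _ (Subgroup.mem_sup_right ?_) (Subgroup.mem_sup_left hq)
    rw [Subgroup.mem_centralizer_iff]
    intro a ha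
    exact (hDQ d hd d h2 hd a ha).symm

end H38.CRad2
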