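import Mathlib.GroupTheory.Sylow
import Mathlib.GroupTheory.GroupAction.Basic
import Mathlib.GroupTheory.Index
import Mathlib.Algebra.Group.Subgroup.Finite
import Mathlib.Tactic
import Cfsg.Agent.Lib.H38.Basic

set_option autoImplicit false

/-! Automorphisms that are trivial on a Sylow subgroup and modulo an abelian normal `p`-subgroup. -/

namespace H38.Cocycle

theorem exists_pow_eq {G : Type*} [Group G] [Finite G] {p : ℕ} [Fact p.Prime] {Z : Subgroup G}
    (hZp : IsPGroup p ↥Z) {n : ℕ} (hn : ¬ p ∣ n) : ∃ m : ℕ, ∀ z : ↥Z, (z ^ n) ^ m = z := by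
  obtain ⟨k, hk⟩ := IsPGroup.iff_card.1 hZp
  have hpp : p.Prime := Fact.out
  have hcop : Nat.Coprime n (Nat.card ↥Z) := by
    rw [hk]; exact Nat.Coprime.pow_right k ((Nat.Prime.coprime_iff_not_dvd hpp).2 hn).symm
  refine ⟨(n : ZMod (Nat.card ↥Z))⁻¹.val, fun z => ?_⟩
  rw [← pow_mul]
  have hne : NeZero (Nat.card ↥Z) := ⟨Nat.card_pos.ne'⟩
  have h1 : n * (n : ZMod (Nat.card ↥Z))⁻¹.val ≡ 1 [MOD Nat.card ↥Z] := by
    rw [← ZMod.natCast_eq_natCast_iff, Nat.cast_mul, ZMod.natCast_zmod_val, Nat.cast_one,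
      ZMod.coe_mul_inv_eq_one _ hcop]
  have h2 : z ^ (n * (n : ZMod (Nat.card ↥Z))⁻¹.val) = z ^ 1 := by
    rw [pow_eq_pow_iff_modEq]
    exact h1.of_dvd (orderOf_dvd_natCard z)
  rw [h2, pow_one]

/-- `α` is trivial on a Sylow `p`-subgroup and modulo the abelian normal `p`-subgroup `Z`: it is conjugation by an
element of `Z` -/
theorem exists_conj {G : Type*} [Group G] [Finite G] {p : ℕ} [Fact p.Prime] (T : Sylow p G) (α : MulAut G)
    (Z : Subgroup G) [hZn : Z.Normal] (hZ : ∀ a ∈ Z, ∀ b ∈ Z, a * b = b * a) (hZp : IsPGroup p ↥Z)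
    (hT : ∀ t ∈ (T : Subgroup G), α t = t) (hc : ∀ g, α g * g⁻¹ ∈ Z) : ∃ z ∈ Z, ∀ x, α x = z * x * z⁻¹ := by
  classical
  let _ : CommGroup ↥Z := { (inferInstance : Group ↥Z) with mul_comm := fun a b => Subtype.ext (hZ a a.2 b b.2) }
  have := Fintype.ofFinite (G ⧸ (T : Subgroup G))
  let c : G → ↥Z := fun g => ⟨α g * g⁻¹, hc g⟩
  have hcval : ∀ g, (c g : G) = α g * g⁻¹ := fun g => rfl
  have hcT : ∀ g, ∀ t ∈ (T : Subgroup G), c (g * t) = c g := by
    intro g t ht
    apply Subtype.ext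
    rw [hcval, hcval, map_mul, hT t ht]; group
  let cb : G ⧸ (T : Subgroup G) → ↥Z := Quotient.lift c (by
    intro a b hab
    have h1 : a⁻¹ * b ∈ (T : Subgroup G) := QuotientGroup.leftRel_apply.1 hab
    have h2 := hcT a _ h1
    rw [mul_inv_cancel_left] at h2
    exact h2.symm)
  have hcb : ∀ g : G, cb (g : G ⧸ (T : Subgroup G)) = c g := fun g => rfl
  have hcoc : ∀ (g : G) (x : G ⧸ (T : Subgroup G)), cb (g • x) = c g * MulAut.conjNormal g (cb x) := by
    intro g x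
    obtain ⟨h, rfl⟩ := QuotientGroup.mk_surjective x
    rw [MulAction.Quotient.smul_coe, smul_eq_mul, hcb, hcb]
    apply Subtype.ext
    rw [Subgroup.coe_mul, MulAut.conjNormal_apply, hcval, hcval, hcval, map_mul]
    group
  set z : ↥Z := ∏ x, cb x with hz
  have key : ∀ g : G, z = c g ^ (T : Subgroup G).index * MulAut.conjNormal g z := by
    intro g
    have h1 : ∏ x, cb (g • x) = z := by
      rw [hz]; exact Equiv.prod_comp (MulAction.toPerm g) cb
    conv_lhs => rw [← h1]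
    simp_rw [hcoc]
    rw [Finset.prod_mul_distrib, Finset.prod_const, Finset.card_univ, ← Nat.card_eq_fintype_card, hz, map_prod]
    rfl
  obtain ⟨m, hm⟩ := exists_pow_eq hZp T.not_dvd_index
  refine ⟨(z : G) ^ m, Z.pow_mem z.2 m, fun g => ?_⟩
  have h1 : c g ^ (T : Subgroup G).index = z * (MulAut.conjNormal g z)⁻¹ := by
    rw [eq_mul_inv_iff_mul_eq]; exact (key g).symm
  have h2 : c g = z ^ m * (MulAut.conjNormal g (z ^ m))⁻¹ := by
    rw [← hm (c g), h1, mul_pow, inv_pow, map_pow]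
  have h3 := congrArg Subtype.val h2
  rw [hcval] at h3
  have h4 : α g = (α g * g⁻¹) * g := by group
  rw [h4, h3, Subgroup.coe_mul, Subgroup.coe_inv, MulAut.conjNormal_apply, Subgroup.coe_pow]
  group

end H38.Cocycle
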