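import Mathlib.GroupTheory.Sylow
import Mathlib.GroupTheory.GroupAction.Basic
import Mathlib.GroupTheory.Perm.Cycle.Type
import Mathlib.GroupTheory.Perm.Sign
import Mathlib.GroupTheory.SpecificGroups.Dihedral
import Mathlib.GroupTheory.Index
import Mathlib.Tactic
import Cfsg.Agent.Lib.H38.Basic

set_option autoImplicit false

/-! Parity (generalized Thompson transfer) arguments. -/

namespace H38.CycTransfer

open Equiv.Perm

/-- a permutation of order dividing `2 ^ (k+1)` all of whose cycles have length `2 ^ (k+1)`, the number of cycles being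
odd, is an odd permutation -/
theorem sign_eq {α : Type*} [Fintype α] [DecidableEq α] (σ : Equiv.Perm α) (k m : ℕ) (h1 : σ ^ (2 ^ (k + 1)) = 1)
    (h2 : ∀ a, (σ ^ (2 ^ k)) a ≠ a) (hm : Odd m) (hcard : Fintype.card α = 2 ^ (k + 1) * m) :
    sign σ = -1 := by
  have hall : ∀ n ∈ σ.cycleType, n = 2 ^ (k + 1) := by
    intro n hn
    obtain ⟨c, τ, hσ, hdisj, hc, hcn⟩ := mem_cycleType_iff.1 hn
    have hdvd : n ∣ 2 ^ (k + 1) := (dvd_of_mem_cycleType hn).trans (orderOf_dvd_of_pow_eq_one h1)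
    obtain ⟨j, hj, rfl⟩ := (Nat.dvd_prime_pow Nat.prime_two).1 hdvd
    rcases Nat.lt_or_ge j (k + 1) with hlt | hge
    · exfalso
      have hcard' : 0 < c.support.card := by rw [hcn]; exact pow_pos two_pos _
      obtain ⟨a, ha⟩ := Finset.card_pos.1 hcard'
      apply h2 a
      have hτ : τ a = a := (hdisj a).resolve_left (mem_support.1 ha)
      have h3 : σ ^ (2 ^ k) = c ^ (2 ^ k) * τ ^ (2 ^ k) := by rw [hσ, hdisj.commute.mul_pow]
      have h4 : c ^ (2 ^ k) = 1 := by
        rw [← orderOf_dvd_iff_pow_eq_one, hc.orderOf, hcn]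
        exact pow_dvd_pow 2 (by omega)
      have h5 : (τ ^ (2 ^ k)) a = a := pow_apply_eq_self_of_apply_eq_self hτ _
      rw [h3, h4, one_mul, h5]
    · congr 1; omega
  have hrep : σ.cycleType = Multiset.replicate (Multiset.card σ.cycleType) (2 ^ (k + 1)) :=
    Multiset.eq_replicate_card.2 hall
  have hfix : Fintype.card (Function.fixedPoints σ) = 0 := by
    rw [Fintype.card_eq_zero_iff]
    exact ⟨fun a => h2 a.1 (pow_apply_eq_self_of_apply_eq_self a.2 _)⟩
  rw [sign_of_cycleType_eq_replicate (pow_pos two_pos _) hrep, if_neg, hfix, Nat.sub_zero, hcard,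
    Nat.mul_div_cancel_left _ (pow_pos two_pos _)]
  · exact hm.neg_one_pow
  · rw [Nat.not_odd_iff_even]
    exact ⟨2 ^ k, by rw [pow_succ]; ring⟩

variable {G : Type*} [Group G] [Finite G]

/-- the sign of the permutation representation on the cosets of `T` -/
noncomputable def sgn (T : Subgroup G) : G →* ℤˣ :=
  letI := Fintype.ofFinite (G ⧸ T)
  letI := Classical.decEq (G ⧸ T)
  (Equiv.Perm.sign (α := G ⧸ T)).comp (MulAction.toPermHom G (G ⧸ T))

theorem sgn_eq (T : Subgroup G) (c : G) (k m : ℕ) (hc : c ^ (2 ^ (k + 1)) = 1)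
    (hfix : ∀ g : G, g * c ^ (2 ^ k) * g⁻¹ ∉ T) (hm : Odd m) (hT : T.index = 2 ^ (k + 1) * m) : sgn T c = -1 := by
  let _ := Fintype.ofFinite (G ⧸ T)
  let _ := Classical.decEq (G ⧸ T)
  show Equiv.Perm.sign (MulAction.toPermHom G (G ⧸ T) c) = -1
  refine sign_eq _ k m ?_ ?_ hm ?_
  · rw [← map_pow, hc, map_one]
  · intro a
    obtain ⟨g, rfl⟩ := QuotientGroup.mk_surjective a
    rw [← map_pow]
    show c ^ (2 ^ k) • (g : G ⧸ T) ≠ _
    rw [MulAction.Quotient.smul_coe, ne_comm, Ne, QuotientGroup.eq, smul_eq_mul, ← mul_assoc]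
    have := hfix g⁻¹
    rwa [inv_inv] at this
  · rw [← Nat.card_eq_fintype_card]; exact hT

omit [Finite G] in
theorem odd_order_mem_ker (f : G →* ℤˣ) {x : G} (hx : Nat.Coprime (orderOf x) 2) : x ∈ f.ker := by
  rw [MonoidHom.mem_ker]
  rcases Int.units_eq_one_or (f x) with h | h
  · exact h
  · exfalso
    have h1 : orderOf (f x) ∣ orderOf x := orderOf_map_dvd f x
    rw [h] at h1
    have h2 : orderOf (-1 : ℤˣ) = 2 := by
      rw [orderOf_eq_prime_iff]
      exact ⟨by decide, by decide⟩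
    rw [h2] at h1
    exact absurd (Nat.Coprime.eq_one_of_dvd hx.symm h1) (by norm_num)

omit [Finite G] in
theorem index_ker (f : G →* ℤˣ) {x : G} (hx : f x = -1) : f.ker.index = 2 := by
  have hs : Function.Surjective f := by
    intro u
    rcases Int.units_eq_one_or u with h | h
    · exact ⟨1, by rw [map_one, h]⟩
    · exact ⟨x, by rw [hx, h]⟩
  rw [Subgroup.index_ker, MonoidHom.range_eq_top.2 hs]
  simp [Nat.card_eq_fintype_card]

omit [Finite G] in
theorem mem_of_coprime {N H : Subgroup G} (h : ∀ x ∈ H, Nat.Coprime (orderOf x) 2 → x ∈ N) {K : Subgroup G}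
    (hK : K ≤ H) (hgen : Subgroup.closure {x : G | x ∈ K ∧ Nat.Coprime (orderOf x) 2} = K) : K ≤ N := by
  rw [← hgen, Subgroup.closure_le]
  rintro x ⟨hx, hc⟩
  exact h x (hK hx) hc

/-- the descent: `c` has `2`-power order, no conjugate of the involution in `⟨c⟩` lies in `T` -/
theorem descent (T K0 : Subgroup G) (hT : T ≤ K0)
    (hK0 : K0 ≤ Subgroup.closure {x : G | Nat.Coprime (orderOf x) 2}) :
    ∀ (k : ℕ) (H : Subgroup G) (c : G) (m : ℕ), (∀ x : G, Nat.Coprime (orderOf x) 2 → x ∈ H) → c ∈ H → c ^ (2 ^ k) = 1 →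
      (∀ j, k = j + 1 → ∀ g : G, g * c ^ (2 ^ j) * g⁻¹ ∉ T) → Odd m → T.relIndex H = 2 ^ k * m →
      ∃ K : Subgroup G, (∀ x : G, Nat.Coprime (orderOf x) 2 → x ∈ K) ∧ Odd (T.relIndex K) := by
  intro k
  induction k with
  | zero =>
    intro H c m hH _ _ _ hm hr
    exact ⟨H, hH, by rw [hr, pow_zero, one_mul]; exact hm⟩
  | succ k ih =>
    intro H c m hH hcH hc hfix hm hr
    have hTH : T ≤ H := hT.trans (hK0.trans (by rw [Subgroup.closure_le]; exact hH))
    let f : ↥H →* ℤˣ := sgn (T.subgroupOf H)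
    have hf : f ⟨c, hcH⟩ = -1 := by
      refine sgn_eq (T.subgroupOf H) ⟨c, hcH⟩ k m (Subtype.ext hc) ?_ hm hr
      intro g hg
      rw [Subgroup.mem_subgroupOf] at hg
      exact hfix k rfl g hg
    set N : Subgroup G := f.ker.map H.subtype with hN
    have hNH : N ≤ H := Subgroup.map_subtype_le _
    have hNodd : ∀ x : G, Nat.Coprime (orderOf x) 2 → x ∈ N := by
      intro x hx
      exact ⟨⟨x, hH x hx⟩, odd_order_mem_ker f (by rwa [Subgroup.orderOf_mk]), rfl⟩
    have hTN : T ≤ N := hT.trans (hK0.trans (by rw [Subgroup.closure_le]; exact hNodd))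
    have hNidx : N.relIndex H = 2 := by
      rw [Subgroup.relIndex, hN, Subgroup.subgroupOf, Subgroup.comap_map_eq_self_of_injective H.subtype_injective]
      exact index_ker f hf
    refine ih N (c ^ 2) m hNodd ?_ (by rw [← pow_mul, ← pow_succ', hc]) ?_ hm ?_
    · refine ⟨⟨c, hcH⟩ ^ 2, ?_, rfl⟩
      show _ ∈ f.ker
      rw [MonoidHom.mem_ker, map_pow, hf]; decide
    · rintro j rfl g
      rw [← pow_mul, ← pow_succ']
      exact hfix (j + 1) rfl g
    · have h1 := Subgroup.relIndex_mul_relIndex T N H hTN hNH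
      rw [hNidx, hr, pow_succ] at h1
      have h2 : (T.relIndex N) * 2 = (2 ^ k * m) * 2 := by rw [h1]; ring
      exact Nat.eq_of_mul_eq_mul_right two_pos h2

end H38.CycTransfer
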