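import Mathlib

/-!
# Arithmetic for S4745
-/

set_option autoImplicit false

namespace H38.DZ

theorem pp_dvd_or {N a b p k : ℕ} (hp : p.Prime) (hN : N = p ^ k) (h : N ∣ a * b)
    (hab : ¬ (p ∣ a ∧ p ∣ b)) : N ∣ a ∨ N ∣ b := by
  by_cases ha : p ∣ a
  · left
    have hb : ¬ p ∣ b := fun hb => hab ⟨ha, hb⟩
    have hc : Nat.Coprime N b := by rw [hN]; exact Nat.Coprime.pow_left k ((hp.coprime_iff_not_dvd).2 hb)
    exact hc.dvd_of_dvd_mul_right h
  · right
    have hc : Nat.Coprime N a := by rw [hN]; exact Nat.Coprime.pow_left k ((hp.coprime_iff_not_dvd).2 ha)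
    exact hc.dvd_of_dvd_mul_left h

theorem not_dvd_two {p : ℕ} (hp : p.Prime) (hp2 : p ≠ 2) : ¬ p ∣ 2 := fun h =>
  hp2 ((Nat.prime_dvd_prime_iff_eq hp Nat.prime_two).1 h)

theorem not_dvd_pow_two {p : ℕ} (hp : p.Prime) (hp2 : p ≠ 2) (n : ℕ) : ¬ p ∣ 2 ^ n := fun h =>
  not_dvd_two hp hp2 (hp.dvd_of_dvd_pow h)

theorem strip {N a b p k : ℕ} (hp : p.Prime) (hN : N = p ^ k) (h : N ∣ a * b) (ha : ¬ p ∣ a) : N ∣ b := by
  have hc : Nat.Coprime N a := by rw [hN]; exact Nat.Coprime.pow_left k ((hp.coprime_iff_not_dvd).2 ha)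
  exact hc.dvd_of_dvd_mul_left h

theorem psl {N p k q n : ℕ} (hp : p.Prime) (hp2 : p ≠ 2) (hN : N = p ^ k) (hq : q = 2 ^ n)
    (hq4 : 4 ≤ q) (h : N ∣ q * (q ^ 2 - 1)) (hle : q + 1 ≤ N) : N = q + 1 := by
  have h1 : N ∣ q ^ 2 - 1 := strip hp hN h (by rw [hq]; exact not_dvd_pow_two hp hp2 n)
  obtain ⟨s, rfl⟩ : ∃ s, q = s + 1 := ⟨q - 1, by omega⟩
  have h2 : (s + 1) ^ 2 - 1 = s * (s + 2) := by
    have : (s + 1) ^ 2 = s * (s + 2) + 1 := by ring
    omega
  rw [h2] at h1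
  rcases pp_dvd_or hp hN h1 (by
    rintro ⟨ha, hb⟩
    exact not_dvd_two hp hp2 ((Nat.dvd_add_right ha).1 hb)) with h3 | h3
  · have := Nat.le_of_dvd (by omega) h3
    omega
  · have := Nat.le_of_dvd (by omega) h3
    omega

theorem sz {N p k q m : ℕ} (hp : p.Prime) (hp2 : p ≠ 2) (hN : N = p ^ k) (hq : q = 2 ^ (2 * m + 1))
    (hm : 1 ≤ m) (h : N ∣ q ^ 2 * (q ^ 2 + 1) * (q - 1)) (hle : q ^ 2 + 1 ≤ N) : False := by
  have hpq : ¬ p ∣ q := by rw [hq]; exact not_dvd_pow_two hp hp2 _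
  have h0 : N ∣ (q ^ 2 + 1) * (q - 1) := by
    apply strip hp hN (a := q ^ 2) _ (fun h => hpq (hp.dvd_of_dvd_pow h))
    rw [← mul_assoc]; exact h
  set r := 2 ^ (m + 1) with hr
  have hr2 : r * r = 2 * q := by
    rw [hr, hq, ← pow_add, ← pow_succ']
    congr 1; omega
  have hr4 : 4 ≤ r := by
    calc 4 = 2 ^ 2 := by norm_num
      _ ≤ 2 ^ (m + 1) := Nat.pow_le_pow_right (by norm_num) (by omega)
  have hq8 : 8 ≤ q := by
    rw [hq]
    calc 8 = 2 ^ 3 := by norm_num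
      _ ≤ 2 ^ (2 * m + 1) := Nat.pow_le_pow_right (by norm_num) (by omega)
  have hrq : r ≤ q := by nlinarith
  rcases pp_dvd_or hp hN h0 (by
    rintro ⟨ha, hb⟩
    obtain ⟨s, rfl⟩ : ∃ s, q = s + 1 := ⟨q - 1, by omega⟩
    rw [Nat.add_sub_cancel] at hb
    have h1 : (s + 1) ^ 2 + 1 = s * (s + 2) + 2 := by ring
    rw [h1] at ha
    exact not_dvd_two hp hp2 ((Nat.dvd_add_right (hb.mul_right _)).1 ha)) with h3 | h3
  · obtain ⟨d, hd⟩ : ∃ d, q + 1 = d + r := ⟨q + 1 - r, by omega⟩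
    have h4 : q ^ 2 + 1 = d * (d + 2 * r) := by
      have h5 : (q + 1) * (q + 1) = (d + r) * (d + r) := by rw [hd]
      nlinarith
    rw [h4] at h3
    rcases pp_dvd_or hp hN h3 (by
      rintro ⟨ha, hb⟩
      have h6 := (Nat.dvd_add_right ha).1 hb
      rcases hp.dvd_mul.1 h6 with h7 | h7
      · exact not_dvd_two hp hp2 h7
      · exact not_dvd_pow_two hp hp2 _ h7) with h5 | h5
    · have := Nat.le_of_dvd (by omega) h5
      nlinarith
    · have := Nat.le_of_dvd (by omega) h5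
      nlinarith
  · have := Nat.le_of_dvd (by omega) h3
    nlinarith [Nat.sub_le q 1]

theorem psu {N p k q n c : ℕ} (hp : p.Prime) (hp2 : p ≠ 2) (hN : N = p ^ k) (hq : q = 2 ^ n)
    (hq4 : 4 ≤ q)
    (h : Nat.gcd 3 (q + 1) * ((q + 1) * c) = q ^ 3 * ((q + 1) * (q ^ 2 - 1) * (q ^ 3 + 1)))
    (hc : N ∣ c) (hle : q ^ 3 + 1 ≤ N) : False := by
  have hpq : ¬ p ∣ q := by rw [hq]; exact not_dvd_pow_two hp hp2 _
  have hpq3 : ¬ p ∣ q ^ 3 := fun h => hpq (hp.dvd_of_dvd_pow h)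
  obtain ⟨s, rfl⟩ : ∃ s, q = s + 1 := ⟨q - 1, by omega⟩
  -- w = q^2 - q + 1
  set w := s * s + s + 1 with hw
  have e1 : (s + 1) ^ 2 - 1 = s * (s + 2) := by
    have : (s + 1) ^ 2 = s * (s + 2) + 1 := by ring
    omega
  have e2 : (s + 1) ^ 3 + 1 = (s + 2) * w := by rw [hw]; ring
  have h' : Nat.gcd 3 (s + 2) * c = (s + 1) ^ 3 * (s * ((s + 2) * (s + 2) * w)) := by
    have h1 : (s + 2) * (Nat.gcd 3 (s + 2) * c) =
        (s + 2) * ((s + 1) ^ 3 * (s * ((s + 2) * (s + 2) * w))) := by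
      have h2 : Nat.gcd 3 (s + 2) * ((s + 2) * c) =
          (s + 1) ^ 3 * ((s + 2) * (s * (s + 2)) * ((s + 2) * w)) := by
        rw [← e1, ← e2]; exact h
      linarith
    exact Nat.eq_of_mul_eq_mul_left (by omega) h1
  have hsize : (s + 2) * (s + 2) < (s + 1) ^ 3 + 1 := by
    have : 3 ≤ s := by omega
    nlinarith [Nat.mul_le_mul this this]
  have hwsize : w < (s + 1) ^ 3 + 1 := by
    rw [hw]; nlinarith
  by_cases h1 : p ∣ s + 2
  · have hs : ¬ p ∣ s := fun h2 => not_dvd_two hp hp2 ((Nat.dvd_add_right h2).1 h1)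
    have key : N ∣ (s + 2) * (s + 2) := by
      by_cases h3 : p = 3
      · subst h3
        have hg : Nat.gcd 3 (s + 2) = 3 := Nat.gcd_eq_left h1
        rw [hg] at h'
        obtain ⟨a, ha⟩ := h1
        have ha1 : 1 ≤ a := by omega
        obtain ⟨b, rfl⟩ : ∃ b, a = b + 1 := ⟨a - 1, by omega⟩
        have hw3 : w = 3 * (3 * ((b + 1) * b) + 1) := by
          have hs' : s = 3 * b + 1 := by omega
          rw [hw, hs']; ring
        rw [hw3] at h'
        have h4 : c = (s + 1) ^ 3 * (s * ((s + 2) * (s + 2) * (3 * ((b + 1) * b) + 1))) := by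
          apply Nat.eq_of_mul_eq_mul_left (show 0 < 3 by norm_num)
          rw [h']; ring
        rw [h4] at hc
        have h5 := strip hp hN (strip hp hN hc hpq3) hs
        rw [mul_comm] at h5
        apply strip hp hN h5
        intro h6
        have h7 := (Nat.dvd_add_right (Dvd.intro _ rfl : 3 ∣ 3 * ((b + 1) * b))).1 h6
        exact absurd h7 (by norm_num)
      · have h4 : N ∣ (s + 1) ^ 3 * (s * ((s + 2) * (s + 2) * w)) := by
          rw [← h']; exact hc.mul_left _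
        have h5 := strip hp hN (strip hp hN h4 hpq3) hs
        rw [mul_comm] at h5
        apply strip hp hN h5
        intro h6
        apply h3
        have h7 : w + 3 * (s + 2) = (s + 2) * (s + 2) + 3 := by rw [hw]; ring
        have h8 : p ∣ (s + 2) * (s + 2) + 3 := by
          rw [← h7]; exact dvd_add h6 (h1.mul_left _)
        have h9 := (Nat.dvd_add_right (h1.mul_right (s + 2))).1 h8
        exact (Nat.prime_dvd_prime_iff_eq hp Nat.prime_three).1 h9
    have := Nat.le_of_dvd (by positivity) key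
    omega
  · have h4 : N ∣ (s + 1) ^ 3 * (s * ((s + 2) * (s + 2) * w)) := by
      rw [← h']; exact hc.mul_left _
    have h5 := strip hp hN h4 hpq3
    have h6 : N ∣ (s + 2) * ((s + 2) * (s * w)) := by
      have : s * ((s + 2) * (s + 2) * w) = (s + 2) * ((s + 2) * (s * w)) := by ring
      rw [← this]; exact h5
    have h7 := strip hp hN (strip hp hN h6 h1) h1
    rcases pp_dvd_or hp hN h7 (by
      rintro ⟨ha, hb⟩
      have h8 : w = s * (s + 1) + 1 := by rw [hw]; ring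
      rw [h8] at hb
      have h9 := (Nat.dvd_add_right (ha.mul_right _)).1 hb
      exact hp.one_lt.ne' (Nat.dvd_one.1 h9)) with h8 | h8
    · have := Nat.le_of_dvd (by omega) h8
      have : s < (s + 1) ^ 3 + 1 := by nlinarith [Nat.zero_le s]
      omega
    · have := Nat.le_of_dvd (by omega) h8
      omega

end H38.DZ
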