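import Mathlib

/-!
# Transitive actions of prime power degree with an inverted abelian Sylow subgroup (S4745)
-/

set_option autoImplicit false
set_option linter.unusedSectionVars false
set_option linter.unusedVariables false

namespace H38.DZ

universe u v

variable {G : Type u} {Ω : Type v} [Group G] [Finite G] [MulAction G Ω] [Finite Ω]
  {p : ℕ} [hp : Fact p.Prime]

theorem sylow_trans (htr : MulAction.IsPretransitive G Ω) {r : ℕ} (hΩ : Nat.card Ω = p ^ r)
    (P : Sylow p G) (a b : Ω) : ∃ x ∈ (P : Subgroup G), x • a = b := by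
  classical
  have h1 : (MulAction.stabilizer G a).index = p ^ r := by
    rw [MulAction.index_stabilizer_of_transitive, hΩ]
  have h2 := Subgroup.card_mul_index (MulAction.stabilizer G a)
  have h3 := Subgroup.card_mul_index (P : Subgroup G)
  have h4 : ¬ p ∣ (P : Subgroup G).index := P.not_dvd_index
  have h5 := Subgroup.card_mul_index (MulAction.stabilizer ↥(P : Subgroup G) a)
  have h6 : Nat.card (MulAction.stabilizer ↥(P : Subgroup G) a) ∣ Nat.card (MulAction.stabilizer G a) := by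
    let f : (MulAction.stabilizer ↥(P : Subgroup G) a) →* (MulAction.stabilizer G a) :=
      { toFun := fun x => ⟨((x : ↥(P : Subgroup G)) : G), x.2⟩
        map_one' := rfl
        map_mul' := fun _ _ => rfl }
    apply Subgroup.card_dvd_of_injective f
    intro x y h
    apply Subtype.ext
    apply Subtype.ext
    exact congrArg (fun z : MulAction.stabilizer G a => (z : G)) h
  rw [MulAction.index_stabilizer] at h5
  obtain ⟨h, hh⟩ := h6
  set s := Nat.card (MulAction.stabilizer ↥(P : Subgroup G) a) with hs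
  set o := (MulAction.orbit ↥(P : Subgroup G) a).ncard with ho
  have hs0 : 0 < s := Nat.card_pos
  have h7 : o * (P : Subgroup G).index = h * p ^ r := by
    apply Nat.eq_of_mul_eq_mul_left hs0
    calc s * (o * (P : Subgroup G).index) = (s * o) * (P : Subgroup G).index := by ring
      _ = Nat.card G := by rw [h5, h3]
      _ = (s * h) * p ^ r := by rw [← hh, ← h1, h2]
      _ = _ := by ring
  have h8 : p ^ r ∣ o := by
    have hc : Nat.Coprime (p ^ r) (P : Subgroup G).index :=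
      Nat.Coprime.pow_left r ((hp.out.coprime_iff_not_dvd).2 h4)
    apply hc.dvd_of_dvd_mul_right
    rw [h7]; exact dvd_mul_left _ _
  have ho0 : 0 < o := by
    rw [ho, Set.ncard_pos (Set.toFinite _)]
    exact ⟨a, MulAction.mem_orbit_self a⟩
  have h9 : Nat.card Ω ≤ o := by rw [hΩ]; exact Nat.le_of_dvd ho0 h8
  have h10 : MulAction.orbit ↥(P : Subgroup G) a = Set.univ := by
    apply Set.eq_of_subset_of_ncard_le (Set.subset_univ _)
    rw [Set.ncard_univ]; exact h9
  have h11 : b ∈ MulAction.orbit ↥(P : Subgroup G) a := by rw [h10]; exact Set.mem_univ b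
  obtain ⟨x, hx⟩ := h11
  exact ⟨x, x.2, hx⟩

theorem reg [FaithfulSMul G Ω] (P : Sylow p G)
    (htr : ∀ a b : Ω, ∃ x ∈ (P : Subgroup G), x • a = b)
    (hab : ∀ x ∈ (P : Subgroup G), ∀ y ∈ (P : Subgroup G), x * y = y * x)
    {x : G} (hx : x ∈ (P : Subgroup G)) {a : Ω} (h : x • a = a) : x = 1 := by
  apply FaithfulSMul.eq_of_smul_eq_smul (α := Ω)
  intro b
  obtain ⟨y, hy, rfl⟩ := htr a b
  rw [one_smul, ← mul_smul, hab x hx y hy, mul_smul, h]

theorem card_eq [FaithfulSMul G Ω] [Nonempty Ω] (P : Sylow p G)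
    (htr : ∀ a b : Ω, ∃ x ∈ (P : Subgroup G), x • a = b)
    (hab : ∀ x ∈ (P : Subgroup G), ∀ y ∈ (P : Subgroup G), x * y = y * x) :
    Nat.card (P : Subgroup G) = Nat.card Ω := by
  obtain ⟨a⟩ := ‹Nonempty Ω›
  apply Nat.card_eq_of_bijective (fun x : ↥(P : Subgroup G) => (x : G) • a)
  constructor
  · intro x y h
    have h0 : (x : G) • a = (y : G) • a := h
    have h1 : ((y : G)⁻¹ * x) • a = a := by
      rw [mul_smul, h0, ← mul_smul, inv_mul_cancel, one_smul]
    have h2 := reg P htr hab (mul_mem (inv_mem y.2) x.2) h1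
    exact Subtype.ext (inv_mul_eq_one.1 h2).symm
  · intro b
    obtain ⟨x, hx, h⟩ := htr a b
    exact ⟨⟨x, hx⟩, h⟩

theorem odd_ord (hp2 : p ≠ 2) (P : Sylow p G) {x : G} (hx : x ∈ (P : Subgroup G)) :
    Odd (orderOf x) := by
  obtain ⟨k, hk⟩ := P.2 ⟨x, hx⟩
  have hk' : x ^ p ^ k = 1 := by simpa using congrArg Subtype.val hk
  exact Odd.of_dvd_nat ((hp.out.odd_of_ne_two hp2).pow) (orderOf_dvd_of_pow_eq_one hk')

theorem exists_sqrt (hp2 : p ≠ 2) (P : Sylow p G) {x : G} (hx : x ∈ (P : Subgroup G)) :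
    ∃ y ∈ (P : Subgroup G), y * y = x := by
  obtain ⟨k, hk⟩ := odd_ord hp2 P hx
  refine ⟨x ^ (k + 1), pow_mem hx _, ?_⟩
  rw [← pow_add]
  have : k + 1 + (k + 1) = orderOf x + 1 := by omega
  rw [this, pow_add, pow_orderOf_eq_one, one_mul, pow_one]

theorem sq_one (hp2 : p ≠ 2) (P : Sylow p G) {x : G} (hx : x ∈ (P : Subgroup G)) (h : x * x = 1) :
    x = 1 := by
  have h1 : orderOf x ∣ 2 := orderOf_dvd_of_pow_eq_one (by rw [pow_two, h])
  rcases (Nat.dvd_prime Nat.prime_two).1 h1 with h2 | h2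
  · exact orderOf_eq_one_iff.1 h2
  · have := odd_ord hp2 P hx
    rw [h2] at this
    exact absurd this (by decide)

theorem fix_inv [FaithfulSMul G Ω] [Nonempty Ω] (hp2 : p ≠ 2) (P : Sylow p G)
    (htr : ∀ a b : Ω, ∃ x ∈ (P : Subgroup G), x • a = b)
    (hab : ∀ x ∈ (P : Subgroup G), ∀ y ∈ (P : Subgroup G), x * y = y * x)
    {s : G} (hs : ∀ x ∈ (P : Subgroup G), s * x * s⁻¹ = x⁻¹) :
    ∃ a : Ω, s • a = a ∧ ∀ b : Ω, s • b = b → b = a := by
  obtain ⟨a0⟩ := ‹Nonempty Ω›
  have hmove : ∀ y ∈ (P : Subgroup G), ∀ c : Ω, s • (y • c) = y⁻¹ • (s • c) := by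
    intro y hy c
    rw [← mul_smul, ← mul_smul, ← hs y hy]
    congr 1
    group
  obtain ⟨x, hx, hxa⟩ := htr a0 (s • a0)
  obtain ⟨y, hy, hyx⟩ := exists_sqrt hp2 P hx
  have h1 : s • (y • a0) = y • a0 := by
    rw [hmove y hy, ← hxa, ← mul_smul, ← hyx]
    congr 1
    group
  refine ⟨y • a0, h1, fun b hb => ?_⟩
  obtain ⟨z, hz, rfl⟩ := htr (y • a0) b
  rw [hmove z hz, h1] at hb
  have h2 : (z * z) • (y • a0) = y • a0 := by
    rw [mul_smul, ← hb, ← mul_smul, mul_inv_cancel, one_smul]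
  have h3 := reg P htr hab (mul_mem hz hz) h2
  rw [sq_one hp2 P hz h3, one_smul]

theorem fix_conj {s t : G} (h : IsConj t s)
    (hs : ∃ a : Ω, s • a = a ∧ ∀ b : Ω, s • b = b → b = a) :
    ∃ a : Ω, t • a = a ∧ ∀ b : Ω, t • b = b → b = a := by
  obtain ⟨c, rfl⟩ := isConj_iff.1 h
  obtain ⟨a, ha, hu⟩ := hs
  refine ⟨c⁻¹ • a, ?_, fun b hb => ?_⟩
  · nth_rw 2 [← ha]
    rw [← mul_smul, ← mul_smul]
    congr 1
    group
  · have h1 : (c * t * c⁻¹) • (c • b) = c • b := by
      nth_rw 2 [← hb]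
      rw [← mul_smul, ← mul_smul]
      congr 1
      group
    rw [← hu _ h1, inv_smul_smul]

/-- a Sylow 2-subgroup has at most `|Ω| - 1` elements. -/
theorem card_sylow_two (hodd : Odd (Nat.card Ω)) (h1 : 1 < Nat.card Ω)
    (hfix : ∀ t : G, orderOf t = 2 → ∃ a : Ω, t • a = a ∧ ∀ b : Ω, t • b = b → b = a)
    (S : Sylow 2 G) : Nat.card (S : Subgroup G) + 1 ≤ Nat.card Ω := by
  classical
  haveI : Fact (Nat.Prime 2) := ⟨Nat.prime_two⟩
  have hne : (MulAction.fixedPoints ↥(S : Subgroup G) Ω).Nonempty :=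
    S.2.nonempty_fixed_point_of_prime_not_dvd_card Ω (by
      intro h; rw [← Nat.not_even_iff_odd, even_iff_two_dvd] at hodd; exact hodd h)
  obtain ⟨a, ha⟩ := hne
  rw [MulAction.mem_fixedPoints] at ha
  haveI : Nontrivial Ω := Finite.one_lt_card_iff_nontrivial.1 h1
  obtain ⟨b, hb⟩ := exists_ne a
  have hfree : ∀ g ∈ (S : Subgroup G), g • b = b → g = 1 := by
    intro g hg hgb
    by_contra hg1
    obtain ⟨k, hk⟩ := S.2 ⟨g, hg⟩
    have hk' : g ^ 2 ^ k = 1 := by simpa using congrArg Subtype.val hk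
    have h2 : 2 ∣ orderOf g := by
      obtain ⟨j, -, hj⟩ := (Nat.dvd_prime_pow Nat.prime_two).1 (orderOf_dvd_of_pow_eq_one hk')
      rw [hj]
      apply dvd_pow_self
      rintro rfl
      rw [pow_zero] at hj
      exact hg1 (orderOf_eq_one_iff.1 hj)
    have h3 : orderOf (g ^ (orderOf g / 2)) = 2 :=
      orderOf_pow_orderOf_div (isOfFinOrder_of_finite g).orderOf_pos.ne' h2
    have hpow : ∀ (c : Ω), g • c = c → ∀ n : ℕ, g ^ n • c = c := by
      intro c hc n
      induction n with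
      | zero => rw [pow_zero, one_smul]
      | succ n ih => rw [pow_succ, mul_smul, hc, ih]
    obtain ⟨c, -, hc⟩ := hfix _ h3
    have h4 := hc a (hpow a (ha ⟨g, hg⟩) _)
    have h5 := hc b (hpow b hgb _)
    exact hb (h5.trans h4.symm)
  let f : ↥(S : Subgroup G) → {c : Ω // c ≠ a} := fun s => ⟨(s : G) • b, by
    intro h
    have h2 : (s : G) • a = a := ha s
    apply hb
    have h3 : (s : G)⁻¹ • ((s : G) • b) = (s : G)⁻¹ • ((s : G) • a) := by rw [h, h2]
    rwa [inv_smul_smul, inv_smul_smul] at h3⟩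
  have hf : Function.Injective f := by
    intro s s' h
    have h2 : (s : G) • b = (s' : G) • b := congrArg Subtype.val h
    have h3 : ((s' : G)⁻¹ * s) • b = b := by rw [mul_smul, h2, inv_smul_smul]
    have h4 := hfree _ (mul_mem (inv_mem s'.2) s.2) h3
    exact Subtype.ext (inv_mul_eq_one.1 h4).symm
  have h6 := Nat.card_le_card_of_injective f hf
  have h7 : Nat.card {c : Ω // c ≠ a} + 1 = Nat.card Ω := by
    have := Fintype.ofFinite Ω
    rw [Nat.card_eq_fintype_card, Nat.card_eq_fintype_card, Fintype.card_subtype_compl,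
      Fintype.card_subtype_eq]
    have : 0 < Fintype.card Ω := Fintype.card_pos
    omega
  omega

end H38.DZ
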