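import Cfsg.Agent.Lib.H38.NormFix
import Cfsg.Agent.Lib.H38.NilComm
import Cfsg.Agent.Lib.H13.Replace
import Cfsg.Agent.Lib.H13.Thompson

set_option autoImplicit false

/-! The Thompson subgroup (abelian subgroups of largest order) as a conjugacy functor; quadratic elements from the
replacement theorem. -/

namespace H38.JFun

open H38.Basic H38.Functor H38.WeakInd Cfsg
open scoped commutatorElement

variable {G : Type*} [Group G] {p : ℕ}

/-- the abelian subgroups of `P` of largest order -/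
def Amax (P : Subgroup G) : Set (Subgroup G) :=
  {A | (A ≤ P ∧ A ≤ Subgroup.centralizer (A : Set G)) ∧
    ∀ B : Subgroup G, B ≤ P → B ≤ Subgroup.centralizer (B : Set G) → Nat.card ↥B ≤ Nat.card ↥A}

/-- the Thompson subgroup -/
def JA (P : Subgroup G) : Subgroup G := sSup (Amax P)

theorem JA_le (P : Subgroup G) : JA P ≤ P := sSup_le fun _ h => h.1.1

theorem conj_mem_Amax {P A : Subgroup G} (h : A ∈ Amax P) (g : G) :
    A.map (MulAut.conj g).toMonoidHom ∈ Amax (P.map (MulAut.conj g).toMonoidHom) := by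
  refine ⟨⟨conj_mono h.1.1 g, ?_⟩, ?_⟩
  · rw [← conj_centralizer']; exact conj_mono h.1.2 g
  · intro B hB hab
    rw [card_conj]
    have h1 := h.2 (B.map (MulAut.conj g⁻¹).toMonoidHom) (by
      rw [conj_le_iff, inv_inv]; exact hB) (by rw [← conj_centralizer']; exact conj_mono hab _)
    rwa [card_conj] at h1

theorem conj_JA (P : Subgroup G) (g : G) :
    JA (P.map (MulAut.conj g).toMonoidHom) = (JA P).map (MulAut.conj g).toMonoidHom := by
  apply le_antisymm
  · refine sSup_le fun A hA => ?_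
    have h1 := conj_mem_Amax hA g⁻¹
    rw [conj_conj, inv_mul_cancel, conj_one] at h1
    have h2 := conj_mono (le_sSup h1 : _ ≤ JA P) g
    rwa [conj_conj, mul_inv_cancel, conj_one] at h2
  · rw [conj_le_iff]
    refine sSup_le fun A hA => ?_
    rw [le_conj_iff, inv_inv]
    exact le_sSup (conj_mem_Amax hA g)

section

variable [Finite G]

theorem exists_Amax (P : Subgroup G) : ∃ A, A ∈ Amax P := by
  obtain ⟨A, hA, hmax⟩ := (Set.toFinite {A : Subgroup G | A ≤ P ∧ A ≤ Subgroup.centralizer (A : Set G)}).exists_maximalFor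
    (fun A : Subgroup G => Nat.card ↥A) _ ⟨⊥, bot_le, bot_le⟩
  refine ⟨A, hA, fun B hB hab => ?_⟩
  by_contra hlt
  exact hlt (hmax ⟨hB, hab⟩ (not_le.1 hlt).le)

/-- an element of `P` commuting with a member of `Amax P` lies in it. -/
theorem mem_of_comm {P A : Subgroup G} (hA : A ∈ Amax P) {x : G} (hx : x ∈ P)
    (hc : x ∈ Subgroup.centralizer (A : Set G)) : x ∈ A := by
  have h1 : A ⊔ Subgroup.zpowers x ≤ P := sup_le hA.1.1 (Subgroup.zpowers_le.2 hx)
  have hcx : Subgroup.zpowers x ≤ Subgroup.centralizer ((Subgroup.zpowers x : Subgroup G) : Set G) := by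
    rw [Subgroup.zpowers_le, Subgroup.mem_centralizer_iff]
    rintro _ ⟨k, rfl⟩
    exact ((Commute.refl x).zpow_left k)
  have h2 : A ⊔ Subgroup.zpowers x ≤ Subgroup.centralizer ((A ⊔ Subgroup.zpowers x : Subgroup G) : Set G) := by
    rw [H13.Replace.centralizer_sup]
    refine sup_le (le_inf hA.1.2 ?_) (le_inf ?_ hcx)
    · exact Subgroup.le_centralizer_iff.1 (Subgroup.zpowers_le.2 hc)
    · exact Subgroup.zpowers_le.2 hc
  have h3 := hA.2 _ h1 h2
  have h4 : A = A ⊔ Subgroup.zpowers x := Subgroup.eq_of_le_of_card_ge le_sup_left h3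
  rw [h4]
  exact Subgroup.mem_sup_right (Subgroup.mem_zpowers x)

theorem center_le_JA (P : Subgroup G) : P ⊓ Subgroup.centralizer (P : Set G) ≤ JA P := by
  obtain ⟨A, hA⟩ := exists_Amax P
  intro x hx
  exact (le_sSup hA : A ≤ JA P) (mem_of_comm hA hx.1 (Subgroup.centralizer_le hA.1.1 hx.2))

omit [Finite G] in
theorem Amax_mono {P Q A : Subgroup G} (hA : A ∈ Amax P) (hAQ : A ≤ Q) (hQP : Q ≤ P) : A ∈ Amax Q :=
  ⟨⟨hAQ, hA.1.2⟩, fun B hB hab => hA.2 B (hB.trans hQP) hab⟩

theorem JA_eq_of_le {P Q : Subgroup G} (h : JA P ≤ Q) (hQP : Q ≤ P) : JA P = JA Q := by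
  obtain ⟨A, hA⟩ := exists_Amax P
  have hAQ : A ∈ Amax Q := Amax_mono hA ((le_sSup hA : A ≤ JA P).trans h) hQP
  apply le_antisymm
  · exact sSup_le fun B hB => le_sSup (Amax_mono hB ((le_sSup hB : B ≤ JA P).trans h) hQP)
  · refine sSup_le fun B hB => le_sSup ⟨⟨hB.1.1.trans hQP, hB.1.2⟩, fun D hD hab => ?_⟩
    exact (hA.2 D hD hab).trans (hB.2 A hAQ.1.1 hA.1.2)

theorem isConjugacyFunctor_JA [Fact p.Prime] : IsConjugacyFunctor p (JA : Subgroup G → Subgroup G) := by
  intro P hP
  refine ⟨JA_le P, ?_, fun g => conj_JA P g⟩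
  intro hne h0
  have h1 := center_le_JA P
  rw [h0, le_bot_iff] at h1
  have hnt : Nontrivial ↥P := (Subgroup.nontrivial_iff_ne_bot P).2 hne
  have h2 := hP.bot_lt_center
  rw [bot_lt_iff_ne_bot] at h2
  apply h2
  rw [eq_bot_iff]
  intro x hx
  have : (x : G) ∈ P ⊓ Subgroup.centralizer (P : Set G) := by
    refine Subgroup.mem_inf.2 ⟨x.2, ?_⟩
    rw [Subgroup.mem_centralizer_iff]
    intro y hy
    exact congrArg Subtype.val (Subgroup.mem_center_iff.1 hx ⟨y, hy⟩)
  rw [h1, Subgroup.mem_bot] at this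
  exact Subtype.ext this

/-- Members of `Amax T` maximize `|B| |C_V(B)|`. -/
theorem val_le {T V A : Subgroup G} (hA : A ∈ Amax T) (hVT : V ≤ T) (hVab : V ≤ Subgroup.centralizer (V : Set G)) :
    ∀ B ≤ A, H13.Replace.val V B ≤ H13.Replace.val V A := by
  intro B hB
  have hBab : B ≤ Subgroup.centralizer (B : Set G) := hB.trans (hA.1.2.trans (Subgroup.centralizer_le hB))
  have e1 : V ⊓ Subgroup.centralizer (A : Set G) = A ⊓ V := by
    apply le_antisymm
    · intro x hx
      exact ⟨mem_of_comm hA (hVT hx.1) hx.2, hx.1⟩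
    · exact le_inf inf_le_right (inf_le_left.trans hA.1.2)
  set D := V ⊓ Subgroup.centralizer (B : Set G) with hD
  have hDab : D ≤ Subgroup.centralizer (D : Set G) := inf_le_left.trans (hVab.trans (Subgroup.centralizer_le inf_le_left))
  have hBD : B ≤ Subgroup.centralizer (D : Set G) := Subgroup.le_centralizer_iff.1 inf_le_right
  have h1 : B ⊔ D ≤ Subgroup.centralizer ((B ⊔ D : Subgroup G) : Set G) := by
    rw [H13.Replace.centralizer_sup]
    exact sup_le (le_inf hBab hBD) (le_inf inf_le_right hDab)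
  have h2 := hA.2 (B ⊔ D) (sup_le (hB.trans hA.1.1) (inf_le_left.trans hVT)) h1
  have hn : B ≤ Subgroup.normalizer (D : Set G) := by
    intro x hx
    have hx' := hBD hx
    rw [mem_normalizer_iff']
    refine Subgroup.eq_of_le_of_card_ge ?_ (by rw [card_conj])
    rintro _ ⟨a, ha, rfl⟩
    have : (MulAut.conj x).toMonoidHom a = a := by
      simp only [MulEquiv.toMonoidHom_eq_coe, MonoidHom.coe_coe, MulAut.conj_apply]
      rw [← Subgroup.mem_centralizer_iff.1 hx' a ha]; group
    rw [this]; exact ha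
  have h3 := H13.Thompson.card_sup_mul_card_inf hn
  have h4 : Nat.card ↥(B ⊓ D) ≤ Nat.card ↥(A ⊓ V) :=
    Subgroup.card_le_of_le (le_inf (inf_le_left.trans hB) (inf_le_right.trans inf_le_left))
  unfold H13.Replace.val
  rw [e1, ← hD, ← h3]
  exact Nat.mul_le_mul h2 h4

/-- If `J(T)` is not normal in `H` some element of `T` outside `O_p(H)` acts quadratically on `Z(O_p(H))`. -/
theorem exists_quadratic [Fact p.Prime] {H T : Subgroup G} (hT : IsSyl p T H)
    (hJ : ¬ H ≤ Subgroup.normalizer ((JA T : Subgroup G) : Set G)) :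
    ∃ g : G, g ∈ T ∧ g ∉ pCoreOf p H ∧ ⁅⁅pCoreOf p H ⊓ Subgroup.centralizer ((pCoreOf p H : Subgroup G) : Set G),
        Subgroup.zpowers g⁆, Subgroup.zpowers g⁆ = ⊥ := by
  set Q := pCoreOf p H with hQ
  have hQT : Q ≤ T := pCoreOf_le_syl hT
  have hQn : H ≤ Subgroup.normalizer (Q : Set G) := le_normalizer_pCoreOf H
  have hQp : IsPGroup p ↥Q := isPGroup_pCoreOf H
  set V := Q ⊓ Subgroup.centralizer (Q : Set G) with hV
  have hVn : H ≤ Subgroup.normalizer (V : Set G) := le_normalizer_inf hQn (H38.Goldschmidt.le_normalizer_centralizer Q |> hQn.trans)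
  have hVp : IsPGroup p ↥V := hQp.to_inf_left
  have hVab : V ≤ Subgroup.centralizer (V : Set G) := inf_le_right.trans (Subgroup.centralizer_le inf_le_left)
  have hVT : V ≤ T := inf_le_left.trans hQT
  -- a member not in `Q`
  obtain ⟨A, hA, hAQ⟩ : ∃ A ∈ Amax T, ¬ A ≤ Q := by
    by_contra hcon
    push Not at hcon
    have h1 : JA T ≤ Q := sSup_le hcon
    rw [JA_eq_of_le h1 hQT] at hJ
    exact hJ (hQn.trans (normalizer_le (isConjugacyFunctor_JA (p := p)) hQp))
  by_cases hcase : A ≤ Subgroup.centralizer (V : Set G)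
  · obtain ⟨g, hgA, hgQ⟩ := Set.not_subset.1 hAQ
    refine ⟨g, hA.1.1 hgA, hgQ, ?_⟩
    have h1 : ⁅V, Subgroup.zpowers g⁆ = ⊥ := by
      rw [Subgroup.commutator_eq_bot_iff_le_centralizer]
      refine Subgroup.le_centralizer_iff.1 ?_
      exact Subgroup.zpowers_le.2 (hcase hgA)
    rw [h1, Subgroup.commutator_bot_left]
  · set A₀ := A ⊓ Subgroup.centralizer ((⁅V, A⁆ : Subgroup G) : Set G) with hA₀
    have hAV : A ≤ Subgroup.normalizer (V : Set G) := (hA.1.1.trans hT.1).trans hVn
    have hgood := H13.Replace.good_of_max hVab hAV (by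
      rw [(Subgroup.commutator_eq_bot_iff_le_centralizer).2 hA.1.2]; exact bot_le) (val_le hA hVT hVab) (le_refl V)
    have hA₀Q : ¬ A₀ ≤ Q := by
      intro hle
      apply hcase
      have h1 : V ⊓ Subgroup.centralizer (A₀ : Set G) = V :=
        inf_eq_left.2 (inf_le_right.trans (Subgroup.centralizer_le hle))
      have h2 : V = ⁅V, A⁆ ⊔ (V ⊓ Subgroup.centralizer (A : Set G)) := by
        rw [← hgood.1, ← hA₀, h1]
      have hVAle : ⁅V, A⁆ ≤ V := H13.Act.comm_le hAV le_rfl
      have hCn : V ⊓ Subgroup.centralizer (A : Set G) ≤ Subgroup.normalizer ((⁅V, A⁆ : Subgroup G) : Set G) := by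
        intro x hx
        have hx' := Subgroup.centralizer_le hVAle (hVab hx.1)
        rw [mem_normalizer_iff']
        refine Subgroup.eq_of_le_of_card_ge ?_ (by rw [card_conj])
        rintro _ ⟨a, ha, rfl⟩
        have : (MulAut.conj x).toMonoidHom a = a := by
          simp only [MulEquiv.toMonoidHom_eq_coe, MonoidHom.coe_coe, MulAut.conj_apply]
          rw [← Subgroup.mem_centralizer_iff.1 hx' a ha]; group
        rw [this]; exact ha
      have h3 : ⁅V, A⁆ ≤ ⁅⁅V, A⁆, A⁆ := by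
        refine Subgroup.commutator_le.2 ?_
        intro v hv a ha
        rw [h2, sup_comm] at hv
        obtain ⟨k, hk, c, hc, rfl⟩ := (H38.Goldschmidt.mem_sup_iff_of_le_normalizer hCn).1 hv
        have h4 : ⁅k * c, a⁆ = ⁅k, a⁆ := by
          have h5 : c * a = a * c := (Subgroup.mem_centralizer_iff.1 hc.2 a ha).symm
          have h6 : c * a * c⁻¹ = a := by rw [h5]; group
          calc ⁅k * c, a⁆ = k * (c * a * c⁻¹) * k⁻¹ * a⁻¹ := by rw [commutatorElement_def]; group
            _ = ⁅k, a⁆ := by rw [h6, commutatorElement_def]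
        rw [h4]
        exact Subgroup.commutator_mem_commutator hk ha
      have h4 : ⁅V, A⁆ = ⊥ := H38.NilComm.eq_bot_of_le_commutator hT.2.1 (hVAle.trans hVT)
        (h3.trans (Subgroup.commutator_mono le_rfl hA.1.1))
      rw [Subgroup.commutator_eq_bot_iff_le_centralizer] at h4
      exact Subgroup.le_centralizer_iff.1 h4
    obtain ⟨g, hgA, hgQ⟩ := Set.not_subset.1 hA₀Q
    refine ⟨g, hA.1.1 hgA.1, hgQ, ?_⟩
    rw [Subgroup.commutator_eq_bot_iff_le_centralizer]
    refine Subgroup.le_centralizer_iff.1 ?_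
    refine Subgroup.zpowers_le.2 ?_
    exact Subgroup.centralizer_le (Subgroup.commutator_mono le_rfl (Subgroup.zpowers_le.2 hgA.1)) hgA.2

end

end H38.JFun
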