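import Cfsg.Agent.Lib.H38.Goldschmidt
import Cfsg.Agent.Lib.H1.Cores

set_option autoImplicit false

/-! Local control of fusion lifts from a normal subgroup. -/

namespace H38.NormalFusion

open H38.Basic H38.Alperin H38.Functor H38.Control H38.FamilyControl H38.Goldschmidt

variable {G : Type*} [Group G] {p : ℕ} [Finite G] [Fact p.Prime]

omit [Finite G] [Fact p.Prime] in
theorem strongIn_sup {H Q U₁ U₂ : Subgroup G} (h1 : StrongIn (H ⊓ Subgroup.normalizer (U₁ : Set G)) Q H)
    (h2 : StrongIn (H ⊓ Subgroup.normalizer (U₂ : Set G)) Q H) (hU : U₁ ≤ Q) :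
    StrongIn (H ⊓ Subgroup.normalizer ((U₁ ⊔ U₂ : Subgroup G) : Set G)) Q H := by
  intro A h hh hA hhA
  obtain ⟨x, hx, hxa⟩ := h1 A h hh hA hhA
  obtain ⟨y, hy, hya⟩ := h2 (A ∪ U₁) x hx.1 (Set.union_subset hA hU) (by
    rw [show cj x (A ∪ (U₁ : Set G)) = cj x A ∪ cj x (U₁ : Set G) from Set.image_union _ _ _]
    refine Set.union_subset ?_ ?_
    · rw [cj_congr hxa]; exact hhA
    · rw [cj_coe, mem_normalizer_iff'.1 hx.2]; exact hU)
  refine ⟨y, ⟨hy.1, ?_⟩, fun a ha => (hya a (Or.inl ha)).trans (hxa a ha)⟩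
  have h3 : U₁.map (MulAut.conj y).toMonoidHom = U₁ := by
    have e : cj y (U₁ : Set G) = cj x (U₁ : Set G) := cj_congr fun a ha => hya a (Or.inr ha)
    rw [cj_coe, cj_coe, mem_normalizer_iff'.1 hx.2] at e
    exact SetLike.coe_injective e
  show y ∈ Subgroup.normalizer ((U₁ ⊔ U₂ : Subgroup G) : Set G)
  rw [mem_normalizer_iff', conj_sup, h3, mem_normalizer_iff'.1 hy.2]

/-- `K ≤ X ≤ N(K)` and every element of `X` has a `p`-power in `K`: the index is a power of `p`. -/
theorem relIndex_pow_of_forall_pow_mem {K X : Subgroup G} (hn : X ≤ Subgroup.normalizer (K : Set G))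
    (h : ∀ x ∈ X, ∃ k, x ^ p ^ k ∈ K) : ∃ k, K.relIndex X = p ^ k := by
  haveI : (K.subgroupOf X).Normal := Subgroup.normal_subgroupOf_of_le_normalizer hn
  have hp : IsPGroup p (↥X ⧸ K.subgroupOf X) := by
    rw [isPGroup_iff_pow_pow_eq_one]
    intro q
    induction q using QuotientGroup.induction_on with
    | H x =>
      obtain ⟨k, hk⟩ := h x x.2
      refine ⟨k, ?_⟩
      rw [← QuotientGroup.mk_pow, QuotientGroup.eq_one_iff, Subgroup.mem_subgroupOf]
      simpa using hk
  obtain ⟨k, hk⟩ := IsPGroup.iff_card.1 hp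
  exact ⟨k, hk⟩

omit [Finite G] [Fact p.Prime] in
theorem mul_pow_mem {T : Subgroup G} {t g : G} (ht : t ∈ T) (hg : g ∈ Subgroup.normalizer (T : Set G)) (n : ℕ) :
    ∃ t' ∈ T, (t * g) ^ n = t' * g ^ n := by
  induction n with
  | zero => exact ⟨1, T.one_mem, by simp⟩
  | succ n ih =>
    obtain ⟨t', ht', h⟩ := ih
    refine ⟨t' * (g ^ n * t * (g ^ n)⁻¹), T.mul_mem ht' ((Subgroup.mem_normalizer_iff.1 (pow_mem hg n) t).1 ht), ?_⟩
    rw [pow_succ, h, pow_succ]; group

/-- If `N ⊴ G`, `Q = P ∩ N`, `W ≤ Q` is normalized by `N_G(Q)` and `N_N(W)` controls strong fusion in `Q` with respect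
to `N`, then `N_G(W)` controls strong fusion in `P` with respect to `G`. -/
theorem strongIn_of_normal (P : Sylow p G) (N W : Subgroup G) [hN : N.Normal]
    (hW : W ≤ (P : Subgroup G) ⊓ N)
    (hWn : Subgroup.normalizer (((P : Subgroup G) ⊓ N : Subgroup G) : Set G) ≤ Subgroup.normalizer (W : Set G))
    (hctrl : StrongIn (N ⊓ Subgroup.normalizer (W : Set G)) ((P : Subgroup G) ⊓ N) N) :
    StrongIn (Subgroup.normalizer (W : Set G)) (P : Subgroup G) ⊤ := by
  set Q := (P : Subgroup G) ⊓ N with hQ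
  have hNn : ∀ x : G, N.map (MulAut.conj x).toMonoidHom = N := fun x => conj_normal N x
  have hQs : IsSyl p Q N := (isSyl_sylow P).inf_normal le_top (by rw [Subgroup.normalizer_eq_top])
  have hPQ : (P : Subgroup G) ≤ Subgroup.normalizer (Q : Set G) := by
    intro x hx
    rw [mem_normalizer_iff', hQ, conj_inf, hNn, conj_eq_of_mem hx]
  -- Lemma A : `N_G(W)` controls the fusion of subsets of `Q` with respect to `G`
  have lemA : StrongIn (Subgroup.normalizer (W : Set G)) Q ⊤ := by
    intro A x _ hA hxA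
    have h1 : IsSyl p (Q.map (MulAut.conj x).toMonoidHom) N := by
      have := hQs.conj x; rwa [hNn] at this
    obtain ⟨y, hy, hyQ⟩ := h1.exists_conj_eq hQs
    rw [conj_conj] at hyQ
    have hm : y * x ∈ Subgroup.normalizer (Q : Set G) := mem_normalizer_iff'.2 hyQ
    -- `x = y⁻¹ (y x)`
    have hB : cj (y * x) A ⊆ (Q : Set G) := by
      refine (cj_mono hA _).trans ?_
      rw [cj_coe, hyQ]
    obtain ⟨n, hn, hna⟩ := hctrl (cj (y * x) A) y⁻¹ (N.inv_mem hy) hB (by
      rw [cj_cj, ← mul_assoc, inv_mul_cancel, one_mul]; exact hxA)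
    refine ⟨n * (y * x), mul_mem hn.2 (hWn hm), fun a ha => ?_⟩
    have := hna _ (mem_cj ha)
    calc n * (y * x) * a * (n * (y * x))⁻¹ = n * (y * x * a * (y * x)⁻¹) * n⁻¹ := by group
      _ = y⁻¹ * (y * x * a * (y * x)⁻¹) * y⁻¹⁻¹ := this
      _ = x * a * x⁻¹ := by group
  have main := alperin_goldschmidt P (R := ActRel (Subgroup.normalizer (W : Set G))) (actRel_isFusionRel _) ?_ ?_
  · intro A x _ hA hxA
    exact (actRel_isFusionRel _).mono Subgroup.subset_closure (main _ ((Subgroup.closure_le _).2 hA) x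
      (closure_conj_le fun a ha => hxA (mem_cj ha)))
  · intro A c _ hc
    refine ⟨1, Subgroup.one_mem _, fun a ha => ?_⟩
    have := (Subgroup.mem_centralizer_iff.1 hc) a ha
    rw [← this]; group
  · intro T hT hsyl hcen hrad
    -- `T₀ = T ∩ Q = T ∩ N`
    set T₀ := T ⊓ N with hT₀
    have hT₀Q : T₀ ≤ Q := inf_le_inf_right _ hT
    have hT₀n : ∀ x ∈ Subgroup.normalizer (T : Set G), T₀.map (MulAut.conj x).toMonoidHom = T₀ := by
      intro x hx
      rw [hT₀, conj_inf, hNn, mem_normalizer_iff'.1 hx]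
    have hact : ∀ x ∈ Subgroup.normalizer (T : Set G), ActRel (Subgroup.normalizer (W : Set G)) (T₀ : Set G) x := by
      intro x hx
      refine lemA _ x trivial hT₀Q ?_
      rw [cj_coe, hT₀n x hx]; exact hT₀Q
    -- it suffices that `W ≤ T`
    suffices hWT : W ≤ T by
      intro x hx
      have hWT₀ : W ≤ T₀ := le_inf hWT (hW.trans inf_le_right)
      refine ⟨x, ?_, fun _ _ => rfl⟩
      obtain ⟨h, hh, hha⟩ := hact x hx
      rw [mem_normalizer_iff']
      have e : cj h (W : Set G) = cj x (W : Set G) := cj_congr fun a ha => hha a (hWT₀ ha)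
      rw [cj_coe, cj_coe, mem_normalizer_iff'.1 hh] at e
      exact (SetLike.coe_injective e).symm
    -- the normal subgroup `Γ`
    let Γ : Subgroup G :=
      { carrier := {g | g ∈ Subgroup.normalizer (T : Set G) ∧ (∀ t ∈ T, g * t * g⁻¹ * t⁻¹ ∈ N) ∧
          ∃ w ∈ W ⊓ Subgroup.normalizer (T₀ : Set G), ∀ t ∈ T₀, g * t * g⁻¹ = w * t * w⁻¹}
        mul_mem' := by
          rintro a b ⟨ha, ha1, wa, hwa, ha2⟩ ⟨hb, hb1, wb, hwb, hb2⟩
          refine ⟨mul_mem ha hb, ?_, wa * wb, mul_mem hwa hwb, ?_⟩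
          · intro t ht
            have h1 := ha1 (b * t * b⁻¹) ((Subgroup.mem_normalizer_iff.1 hb t).1 ht)
            have h2 := hb1 t ht
            have := N.mul_mem h1 h2
            convert this using 1
            group
          · intro t ht
            have h1 : b * t * b⁻¹ ∈ T₀ := by
              rw [← hT₀n b hb]; exact conj_mem_conj.2 ht
            calc a * b * t * (a * b)⁻¹ = a * (b * t * b⁻¹) * a⁻¹ := by group
              _ = wa * (b * t * b⁻¹) * wa⁻¹ := ha2 _ h1
              _ = wa * (wb * t * wb⁻¹) * wa⁻¹ := by rw [hb2 t ht]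
              _ = _ := by group
        one_mem' := ⟨Subgroup.one_mem _, fun t _ => by simp [N.one_mem], 1, Subgroup.one_mem _, fun t _ => rfl⟩
        inv_mem' := by
          rintro a ⟨ha, ha1, wa, hwa, ha2⟩
          refine ⟨inv_mem ha, ?_, wa⁻¹, inv_mem hwa, ?_⟩
          · intro t ht
            have ht' : a⁻¹ * t * a ∈ T := by
              have := (Subgroup.mem_normalizer_iff.1 (inv_mem ha) t).1 ht
              simpa using this
            have h1 := ha1 _ ht'
            have h2 := N.inv_mem h1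
            convert h2 using 1
            group
          · intro t ht
            have ht' : a⁻¹ * t * a ∈ T₀ := by
              have := hT₀n a⁻¹ (inv_mem ha)
              rw [← this, mem_conj]
              have e : a⁻¹⁻¹ * (a⁻¹ * t * a) * a⁻¹ = t := by group
              rwa [e]
            have h1 := ha2 _ ht'
            have h2 : t = wa * (a⁻¹ * t * a) * wa⁻¹ := by rw [← h1]; group
            calc a⁻¹ * t * a⁻¹⁻¹ = wa⁻¹ * (wa * (a⁻¹ * t * a) * wa⁻¹) * wa := by group
              _ = wa⁻¹ * t * wa := by rw [← h2]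
              _ = _ := by group }
    have hΓN : Γ ≤ Subgroup.normalizer (T : Set G) := fun g hg => hg.1
    have hCΓ : Subgroup.centralizer (T : Set G) ≤ Γ := by
      intro c hc
      have h1 : ∀ t ∈ T, c * t * c⁻¹ = t := by
        intro t ht
        rw [← (Subgroup.mem_centralizer_iff.1 hc) t ht]; group
      refine ⟨Subgroup.centralizer_le_normalizer _ hc, fun t ht => ?_, 1, Subgroup.one_mem _, fun t ht => ?_⟩
      · rw [h1 t ht]; simp [N.one_mem]
      · rw [h1 t ht.1]; simp
    have hΓn : ∀ x ∈ Subgroup.normalizer (T : Set G), Γ.map (MulAut.conj x).toMonoidHom = Γ := by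
      have hle : ∀ x ∈ Subgroup.normalizer (T : Set G), Γ.map (MulAut.conj x).toMonoidHom ≤ Γ := by
        rintro x hx _ ⟨g, ⟨hg, hg1, w, hw, hg2⟩, rfl⟩
        obtain ⟨h, hh, hha⟩ := hact x hx
        have hhT₀ : h ∈ Subgroup.normalizer (T₀ : Set G) := by
          rw [mem_normalizer_iff']
          have e : cj h (T₀ : Set G) = cj x (T₀ : Set G) := cj_congr hha
          rw [cj_coe, cj_coe, hT₀n x hx] at e
          exact SetLike.coe_injective e
        refine ⟨?_, ?_, h * w * h⁻¹, ⟨?_, ?_⟩, ?_⟩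
        · exact mul_mem (mul_mem hx hg) (inv_mem hx)
        · intro t ht
          have ht' : x⁻¹ * t * x ∈ T := by
            have := (Subgroup.mem_normalizer_iff.1 (inv_mem hx) t).1 ht
            simpa using this
          have h1 := hN.conj_mem _ (hg1 _ ht') x
          simp only [MulEquiv.toMonoidHom_eq_coe, MonoidHom.coe_coe, MulAut.conj_apply]
          convert h1 using 1
          group
        · have := (mem_normalizer_iff'.1 hh).le (conj_mem_conj.2 hw.1)
          exact this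
        · show h * w * h⁻¹ ∈ Subgroup.normalizer (T₀ : Set G)
          exact mul_mem (mul_mem hhT₀ hw.2) (inv_mem hhT₀)
        · intro t ht
          have ht' : x⁻¹ * t * x ∈ T₀ := by
            rw [← hT₀n x⁻¹ (inv_mem hx), mem_conj]
            have e : x⁻¹⁻¹ * (x⁻¹ * t * x) * x⁻¹ = t := by group
            rwa [e]
          have hgt : g * (x⁻¹ * t * x) * g⁻¹ ∈ T₀ := by
            rw [← hT₀n g hg]; exact conj_mem_conj.2 ht'
          have e1 := hha _ ht'
          have e2 : h⁻¹ * t * h = x⁻¹ * t * x := by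
            have : h * (x⁻¹ * t * x) * h⁻¹ = t := by rw [e1]; group
            calc h⁻¹ * t * h = h⁻¹ * (h * (x⁻¹ * t * x) * h⁻¹) * h := by rw [this]
              _ = _ := by group
          have e3 := hg2 _ ht'
          have e4 := hha _ hgt
          simp only [MulEquiv.toMonoidHom_eq_coe, MonoidHom.coe_coe, MulAut.conj_apply]
          calc x * g * x⁻¹ * t * (x * g * x⁻¹)⁻¹ = x * (g * (x⁻¹ * t * x) * g⁻¹) * x⁻¹ := by group
            _ = h * (g * (x⁻¹ * t * x) * g⁻¹) * h⁻¹ := e4.symm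
            _ = h * (w * (x⁻¹ * t * x) * w⁻¹) * h⁻¹ := by rw [e3]
            _ = h * (w * (h⁻¹ * t * h) * w⁻¹) * h⁻¹ := by rw [e2]
            _ = _ := by group
      intro x hx
      apply le_antisymm (hle x hx)
      have := hle x⁻¹ (inv_mem hx)
      rwa [conj_le_iff, inv_inv] at this
    -- `Γ / C(T)` is a `p`-group
    have hΓp : ∀ g ∈ Γ, ∃ k, g ^ p ^ k ∈ Subgroup.centralizer (T : Set G) := by
      rintro g ⟨hg, hg1, w, hw, hg2⟩
      have hwP : w ∈ (P : Subgroup G) := (hW hw.1).1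
      obtain ⟨k, hk⟩ : ∃ k, w ^ p ^ k = 1 := by
        obtain ⟨k, hk⟩ := P.2 ⟨w, hwP⟩
        exact ⟨k, by simpa using congrArg Subtype.val hk⟩
      have hpow : ∀ n : ℕ, ∀ t ∈ T₀, g ^ n * t * (g ^ n)⁻¹ = w ^ n * t * (w ^ n)⁻¹ := by
        intro n
        induction n with
        | zero => intro t _; simp
        | succ n ih =>
          intro t ht
          have h1 : g * t * g⁻¹ ∈ T₀ := by
            rw [← hT₀n g hg]; exact conj_mem_conj.2 ht
          calc g ^ (n + 1) * t * (g ^ (n + 1))⁻¹ = g ^ n * (g * t * g⁻¹) * (g ^ n)⁻¹ := by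
                rw [pow_succ]; group
            _ = w ^ n * (g * t * g⁻¹) * (w ^ n)⁻¹ := ih _ h1
            _ = w ^ n * (w * t * w⁻¹) * (w ^ n)⁻¹ := by rw [hg2 t ht]
            _ = _ := by rw [pow_succ]; group
      have hΓg : g ∈ Γ := ⟨hg, hg1, w, hw, hg2⟩
      have hg' : g ^ p ^ k ∈ Γ := Γ.pow_mem hΓg _
      set f := g ^ p ^ k with hf
      have hfT₀ : ∀ t ∈ T₀, f * t * f⁻¹ = t := by
        intro t ht
        have := hpow (p ^ k) t ht
        rw [hk] at this
        simpa using this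
      obtain ⟨m, hm⟩ : ∃ m, ∀ s ∈ T, s ^ p ^ m = 1 := by
        obtain ⟨m, hm⟩ := IsPGroup.iff_card.1 (P.2.to_le hT)
        refine ⟨m, fun s hs => ?_⟩
        have : (⟨s, hs⟩ : ↥T) ^ Nat.card ↥T = 1 := pow_card_eq_one'
        rw [hm] at this
        simpa using congrArg Subtype.val this
      refine ⟨k + m, ?_⟩
      rw [Subgroup.mem_centralizer_iff]
      intro t ht
      have hs : f * t * f⁻¹ * t⁻¹ ∈ T₀ :=
        ⟨T.mul_mem ((Subgroup.mem_normalizer_iff.1 hg'.1 t).1 ht) (T.inv_mem ht), hg'.2.1 t ht⟩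
      set s := f * t * f⁻¹ * t⁻¹ with hsdef
      have hfn : ∀ n : ℕ, f ^ n * t * (f ^ n)⁻¹ = s ^ n * t := by
        intro n
        induction n with
        | zero => simp
        | succ n ih =>
          have h1 : f * s ^ n * f⁻¹ = s ^ n := hfT₀ _ (T₀.pow_mem hs n)
          calc f ^ (n + 1) * t * (f ^ (n + 1))⁻¹ = f * (f ^ n * t * (f ^ n)⁻¹) * f⁻¹ := by
                rw [pow_succ']; group
            _ = f * (s ^ n * t) * f⁻¹ := by rw [ih]
            _ = (f * s ^ n * f⁻¹) * (f * t * f⁻¹ * t⁻¹) * t := by group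
            _ = s ^ n * s * t := by rw [h1]
            _ = _ := by rw [pow_succ]
      have h2 := hfn (p ^ m)
      rw [hm s hs.1, one_mul] at h2
      have e : g ^ p ^ (k + m) = f ^ p ^ m := by rw [hf, ← pow_mul, pow_add]
      rw [e]
      calc t * f ^ p ^ m = (f ^ p ^ m * t * (f ^ p ^ m)⁻¹) * f ^ p ^ m := by rw [h2]
        _ = f ^ p ^ m * t := by group
    -- `T Γ = T C(T)` by radicality
    have hCN : Subgroup.centralizer (T : Set G) ≤ Subgroup.normalizer (T : Set G) :=
      Subgroup.centralizer_le_normalizer _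
    have hXN : T ⊔ Γ ≤ Subgroup.normalizer (T : Set G) := sup_le Subgroup.le_normalizer hΓN
    have hTC : T ⊔ Γ = T ⊔ Subgroup.centralizer (T : Set G) := by
      refine hrad _ hXN ?_ (sup_le_sup_left hCΓ _) ?_
      · intro n hn
        rw [conj_sup, mem_normalizer_iff'.1 hn, hΓn n hn]
      · refine relIndex_pow_of_forall_pow_mem ?_ ?_
        · intro x hx
          rw [mem_normalizer_iff', conj_sup, mem_normalizer_iff'.1 (hXN hx),
            mem_normalizer_iff'.1 (le_normalizer_centralizer T (hXN hx))]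
        · intro x hx
          rw [sup_comm, mem_sup_iff_of_le_normalizer hΓN] at hx
          obtain ⟨t, ht, g, hg, rfl⟩ := hx
          obtain ⟨k, hk⟩ := hΓp g hg
          obtain ⟨t', ht', e⟩ := mul_pow_mem ht hg.1 (p ^ k)
          refine ⟨k, ?_⟩
          rw [e]
          exact mul_mem (Subgroup.mem_sup_left ht') (Subgroup.mem_sup_right hk)
    -- `N_W(T) ≤ T`
    have hTW : T ≤ Subgroup.normalizer (W : Set G) := hT.trans (hPQ.trans hWn)
    have hNW : W ⊓ Subgroup.normalizer (T : Set G) ≤ T := by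
      rintro w ⟨hwW, hwT⟩
      have hwN : w ∈ N := (hW hwW).2
      have hwΓ : w ∈ Γ := by
        refine ⟨hwT, fun t _ => ?_, w, ⟨hwW, ?_⟩, fun t _ => rfl⟩
        · have := N.mul_mem hwN (hN.conj_mem _ (N.inv_mem hwN) t)
          convert this using 1
          group
        · exact mem_normalizer_iff'.2 (hT₀n w hwT)
      have h1 : w ∈ T ⊔ Subgroup.centralizer (T : Set G) := hTC ▸ Subgroup.mem_sup_right hwΓ
      rw [sup_comm, mem_sup_iff_of_le_normalizer hCN] at h1
      obtain ⟨t, ht, c, hc, hwe⟩ := h1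
      have hcP : c ∈ (P : Subgroup G) := by
        have : c = t⁻¹ * w := by rw [hwe]; group
        rw [this]
        exact mul_mem (inv_mem (hT ht)) (hW hwW).1
      rw [hwe]
      exact T.mul_mem ht (hcen ⟨hcP, hc⟩)
    -- hence `W ≤ T`
    by_contra hWT
    have hTW' : IsPGroup p ↥(T ⊔ W) := P.2.to_le (sup_le hT (hW.trans inf_le_left))
    have hlt : T < T ⊔ W := lt_of_le_of_ne le_sup_left (fun h => hWT (by rw [h]; exact le_sup_right))
    have h1 := lt_inf_normalizer hTW' hlt
    apply h1.not_ge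
    rintro x ⟨hx, hxT⟩
    replace hx : x ∈ T ⊔ W := hx
    replace hxT : x ∈ Subgroup.normalizer (T : Set G) := hxT
    rw [mem_sup_iff_of_le_normalizer hTW] at hx
    obtain ⟨w, hw, t, ht, rfl⟩ := hx
    have hwT : w ∈ Subgroup.normalizer (T : Set G) := by
      have e : w = w * t * t⁻¹ := by group
      rw [e]; exact mul_mem hxT (inv_mem (Subgroup.le_normalizer ht))
    exact T.mul_mem (hNW ⟨hw, hwT⟩) ht

/-- The closure of `V` under `N_G(P ∩ N)`: local control of fusion lifts from a normal subgroup. -/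
theorem strongIn_of_normal_closure (P : Sylow p G) (N V : Subgroup G) [hN : N.Normal]
    (hV : V ≤ (P : Subgroup G) ⊓ N)
    (hctrl : StrongIn (N ⊓ Subgroup.normalizer (V : Set G)) ((P : Subgroup G) ⊓ N) N)
    (W : Subgroup G) (hWdef : W = Subgroup.closure (⋃ x ∈ Subgroup.normalizer (((P : Subgroup G) ⊓ N : Subgroup G) : Set G),
      ((V.map (MulAut.conj x).toMonoidHom : Subgroup G) : Set G))) :
    StrongIn (Subgroup.normalizer (W : Set G)) (P : Subgroup G) ⊤ := by
  set Q := (P : Subgroup G) ⊓ N with hQ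
  have hNn : ∀ x : G, N.map (MulAut.conj x).toMonoidHom = N := fun x => conj_normal N x
  have hVx : ∀ x ∈ Subgroup.normalizer (Q : Set G), V.map (MulAut.conj x).toMonoidHom ≤ W := by
    intro x hx
    rw [hWdef]
    exact fun y hy => Subgroup.subset_closure (Set.mem_biUnion hx hy)
  have hVQ : ∀ x ∈ Subgroup.normalizer (Q : Set G), V.map (MulAut.conj x).toMonoidHom ≤ Q := by
    intro x hx
    rw [← mem_normalizer_iff'.1 hx]; exact conj_mono hV x
  -- the set of good subgroups
  let 𝒮 : Set (Subgroup G) := {U | U ≤ Q ∧ U ≤ W ∧ StrongIn (N ⊓ Subgroup.normalizer (U : Set G)) Q N}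
  have hmem : ∀ x ∈ Subgroup.normalizer (Q : Set G), V.map (MulAut.conj x).toMonoidHom ∈ 𝒮 := by
    intro x hx
    refine ⟨hVQ x hx, hVx x hx, ?_⟩
    have := hctrl.conj x
    rwa [conj_inf, hNn, conj_normalizer, mem_normalizer_iff'.1 hx] at this
  have hsup : sSup 𝒮 ∈ 𝒮 := by
    apply H1.Cores.sSup_mem_of_sup_closed
    · refine ⟨bot_le, bot_le, ?_⟩
      intro A h hh _ _
      refine ⟨h, ⟨hh, ?_⟩, fun _ _ => rfl⟩
      show h ∈ Subgroup.normalizer ((⊥ : Subgroup G) : Set G)
      rw [Subgroup.normalizer_eq_top]; trivial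
    · rintro A ⟨hA1, hA2, hA3⟩ B ⟨hB1, hB2, hB3⟩
      exact ⟨sup_le hA1 hB1, sup_le hA2 hB2, strongIn_sup hA3 hB3 hA1⟩
  have hWeq : sSup 𝒮 = W := by
    apply le_antisymm hsup.2.1
    conv_lhs => rw [hWdef]
    rw [Subgroup.closure_le]
    intro y hy
    simp only [Set.mem_iUnion] at hy
    obtain ⟨x, hx, hy⟩ := hy
    exact (le_sSup (hmem x hx) : V.map (MulAut.conj x).toMonoidHom ≤ sSup 𝒮) hy
  rw [hWeq] at hsup
  refine strongIn_of_normal P N W hsup.1 ?_ hsup.2.2
  intro x hx
  have hle : ∀ y ∈ Subgroup.normalizer (Q : Set G), W.map (MulAut.conj y).toMonoidHom ≤ W := by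
    intro y hy
    rw [conj_le_iff]
    conv_lhs => rw [hWdef]
    rw [Subgroup.closure_le]
    intro z hz
    simp only [Set.mem_iUnion] at hz
    obtain ⟨x, hx, hz⟩ := hz
    show z ∈ W.map (MulAut.conj y⁻¹).toMonoidHom
    rw [mem_conj]
    apply hVx (y * x) (mul_mem hy hx)
    rw [← conj_conj, mem_conj]
    have e : y⁻¹ * (y⁻¹⁻¹ * z * y⁻¹) * y = z := by group
    rw [e]; exact hz
  rw [mem_normalizer_iff']
  apply le_antisymm (hle x hx)
  have := hle x⁻¹ (inv_mem hx)
  rwa [conj_le_iff, inv_inv] at this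

end H38.NormalFusion
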