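import Cfsg.Agent.Lib.H38.Pron8
import Cfsg.Agent.Lib.H57.PolarSU

/-!
# Unitary and symplectic groups in the defining characteristic: coordinate form of isotropic flags
-/

set_option autoImplicit false

namespace H38.Pron

open scoped Pointwise
open Module H95.UBasic H57.Polar H57.Polar2 H57.Polar3 H57.Polar4

variable {F V : Type*} [Field F] [AddCommGroup V] [Module F V] {σ : F →+* F}
variable {h : V →ₗ[F] V →ₛₗ[σ] F} {m : ℕ} {fr : Frame h m}

theorem hsl (c : F) (x y : V) : h (c • x) y = c * h x y := by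
  rw [map_smul, LinearMap.smul_apply, smul_eq_mul]

theorem hsr (c : F) (x y : V) : h x (c • y) = σ c * h x y := by
  rw [map_smulₛₗ, smul_eq_mul]

/-- expansion in the frame -/
theorem expand (H : Sk h) (hV : ∀ x ∈ VV fr m, x = 0) (x : V) :
    x = ∑ j ∈ Finset.range m, (h x (fr.f j) • fr.e j - h x (fr.e j) • fr.f j) :=
  sub_eq_zero.1 (hV _ (decomp (fr := fr) H le_rfl x))

theorem sieg_fix {v w z : V} {a : F} (hg : Good h v w a) (h1 : h z v = 0) (h2 : h z w = 0) : sieg h v w a z = z := by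
  rw [sieg_apply hg, h1, h2]; module

variable [Finite V]

/-- first case: a component along some `f` -/
theorem step_f (H : Sk h) (hV : ∀ x ∈ VV fr m, x = 0) {x : V} (hx : h x x = 0) {i : ℕ} (hi : i < m)
    (hxi : h x (fr.e i) ≠ 0) (hlt : ∀ j < i, h x (fr.e j) = 0) :
    ∃ w a, Good h (fr.e i) w a ∧ PS fr (sieg h (fr.e i) w a) ∧
      sieg h (fr.e i) w a x = (- h x (fr.e i)) • fr.f i ∧
      ∀ j < m, j ≠ i → h x (fr.e j) = 0 → h x (fr.f j) = 0 →
        sieg h (fr.e i) w a (fr.e j) = fr.e j ∧ sieg h (fr.e i) w a (fr.f j) = fr.f j := by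
  obtain ⟨c, hc⟩ : ∃ c, c = h (fr.e i) x := ⟨_, rfl⟩
  have hc0 : c ≠ 0 := by
    intro h0
    rw [h0] at hc
    exact hxi (H.symm_zero hc.symm)
  have hxc : h x (fr.e i) = - σ c := by rw [hc, H.skew]
  have hsc : σ c ≠ 0 := by
    intro h0; exact hxi (by rw [hxc, h0, neg_zero])
  -- normalise
  have hx1 : h ((σ c)⁻¹ • x) ((σ c)⁻¹ • x) = 0 := by
    rw [hsl, hsr, hx]; simp
  have hex : h (fr.e i) ((σ c)⁻¹ • x) = 1 := by
    rw [hsr, ← hc, map_inv₀, H.inv, inv_mul_cancel₀ hc0]
  have hef : h (fr.e i) (fr.f i) = 1 := by rw [fr.ef i hi i hi, if_pos rfl]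
  obtain ⟨g1, g2⟩ := sieg_move H (fr.ee i hi i hi) hx1 (fr.ff i hi i hi) hex hef
  refine ⟨_, _, g1, ?_, ?_, ?_⟩
  · refine PS_sieg (k := i + 1) H (by omega) g1 (e_mem_EE fr (Nat.lt_succ_self i)) ?_
    intro j hj
    rw [map_sub, LinearMap.sub_apply, hsl]
    rcases lt_or_eq_of_le (Nat.lt_succ_iff.1 hj) with h3 | h3
    · rw [hlt j h3, fe H hi (by omega), if_neg (by omega)]; simp
    · subst h3
      rw [fe H hi hi, if_pos rfl, hxc]
      field_simp
      ring
  · generalize sieg h (fr.e i) ((σ c)⁻¹ • x - fr.f i) (-(h ((σ c)⁻¹ • x)) (fr.f i)) = g at g2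
    have : x = (σ c) • ((σ c)⁻¹ • x) := by rw [smul_smul, mul_inv_cancel₀ hsc, one_smul]
    rw [map_smul] at g2
    rw [hxc, neg_neg, ← g2, smul_smul, mul_inv_cancel₀ hsc, one_smul]
  · intro j hj hji h3 h4
    have h3' := H.symm_zero h3
    have h4' := H.symm_zero h4
    constructor
    · apply sieg_fix g1 (fr.ee j hj i hi)
      rw [map_sub, hsr, h3', fr.ef j hj i hi, if_neg hji]; simp
    · apply sieg_fix g1
      · rw [fe H hj hi, if_neg hji]
      · rw [map_sub, hsr, h4', fr.ff j hj i hi]; simp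

/-- second case: only components along the `e` -/
theorem step_e (H : Sk h) (hV : ∀ x ∈ VV fr m, x = 0) {x : V} (hx : ∀ j < m, h x (fr.e j) = 0) {i : ℕ} (hi : i < m)
    (hxi : h x (fr.f i) ≠ 0) (hlt : ∀ j < m, i < j → h x (fr.f j) = 0) :
    ∃ v w a, Good h v w a ∧ PS fr (sieg h v w a) ∧
      sieg h v w a x = (h x (fr.f i)) • fr.e i ∧
      ∀ j < m, j ≠ i → h x (fr.e j) = 0 → h x (fr.f j) = 0 →
        sieg h v w a (fr.e j) = fr.e j ∧ sieg h v w a (fr.f j) = fr.f j := by
  -- v = e_i - α⁻¹ x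
  obtain ⟨α, hα⟩ : ∃ α, α = h x (fr.f i) := ⟨_, rfl⟩
  rw [← hα] at hxi ⊢
  obtain ⟨y, hy⟩ : ∃ y, y = ∑ j ∈ Finset.range i, (h x (fr.f j)) • fr.e j := ⟨_, rfl⟩
  have hyE : y ∈ EE fr i := by
    rw [hy]
    exact Submodule.sum_mem _ fun j hj => Submodule.smul_mem _ _ (e_mem_EE fr (Finset.mem_range.1 hj))
  have hxy : x = y + α • fr.e i := by
    have h1 := expand H hV x
    have h2 : ∑ j ∈ Finset.range m, (h x (fr.f j) • fr.e j - h x (fr.e j) • fr.f j) =
        ∑ j ∈ Finset.range (i + 1), (h x (fr.f j) • fr.e j) := by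
      rw [← Finset.sum_subset (Finset.range_subset_range.2 (show i + 1 ≤ m by omega))]
      · apply Finset.sum_congr rfl
        intro j hj
        have := Finset.mem_range.1 hj
        rw [hx j (by omega), zero_smul, sub_zero]
      · intro j hj hj'
        have h3 := Finset.mem_range.1 hj
        have h4 : i < j := by
          by_contra h5
          exact hj' (Finset.mem_range.2 (by omega))
        rw [hx j h3, hlt j h3 h4, zero_smul, zero_smul, sub_zero]
    rw [h2, Finset.sum_range_succ, ← hy, ← hα] at h1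
    exact h1
  have hyf : ∀ j < m, i ≤ j → h y (fr.f j) = 0 := fun j hj hij => h_EE_f hij hj hyE
  have hye : ∀ j < m, h y (fr.e j) = 0 := fun j hj => h_EE_e hi.le hj hyE
  have hyy : h y y = 0 := h_EE_right (fr := fr) (k := i) (fun j hj => hye j (by omega)) hyE
  have hg : Good h (-(α⁻¹) • y) (fr.f i) 0 := by
    refine ⟨?_, ?_, ?_, ?_⟩
    · rw [hsl, hsr, hyy]; simp
    · rw [hsl, hyf i hi le_rfl]; simp
    · rw [hsr, H.symm_zero (hyf i hi le_rfl)]; simp
    · rw [fr.ff i hi i hi]; simp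
  refine ⟨_, _, _, hg, ?_, ?_, ?_⟩
  · refine PS_sieg (k := i) H hi.le hg (Submodule.smul_mem _ _ hyE) ?_
    intro j hj
    rw [fe H hi (by omega), if_neg (by omega)]
  · rw [sieg_apply hg, ← hα]
    have h1 : h x y = 0 := by
      rw [hxy, map_add, LinearMap.add_apply, hyy, hsl, H.symm_zero (hye i hi)]
      simp
    have h2 : h x (-(α⁻¹) • y) = 0 := by rw [hsr, h1]; simp
    rw [h2, zero_smul, add_zero, mul_zero, zero_smul, add_zero, smul_smul]
    have h3 : α * -α⁻¹ = -1 := by field_simp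
    rw [h3]
    nth_rewrite 1 [hxy]
    module
  · intro j hj hji h3 h4
    constructor
    · apply sieg_fix hg
      · rw [hsr, H.symm_zero (hye j hj)]; simp
      · rw [fr.ef j hj i hi, if_neg hji]
    · apply sieg_fix hg
      · have : h y (fr.f j) = 0 := by
          have h5 : h y (fr.f j) = h x (fr.f j) := by
            rw [hxy, map_add, LinearMap.add_apply, hsl, fr.ef i hi j hj, if_neg (Ne.symm hji)]
            simp
          rw [h5, h4]
        rw [hsr, H.symm_zero this]; simp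
      · exact fr.ff j hj i hi

/-- a nonzero isotropic vector is moved to a multiple of a vector of the frame -/
theorem step (H : Sk h) (hV : ∀ x ∈ VV fr m, x = 0) {x : V} (hx0 : x ≠ 0) (hx : h x x = 0) :
    ∃ v w a, Good h v w a ∧ PS fr (sieg h v w a) ∧
      (∃ i < m, ∃ c : F, c ≠ 0 ∧ ((h x (fr.f i) ≠ 0 ∧ sieg h v w a x = c • fr.e i) ∨
        (h x (fr.e i) ≠ 0 ∧ sieg h v w a x = c • fr.f i)) ∧
      ∀ j < m, h x (fr.e j) = 0 → h x (fr.f j) = 0 →
        sieg h v w a (fr.e j) = fr.e j ∧ sieg h v w a (fr.f j) = fr.f j) := by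
  classical
  by_cases hc : ∃ i, i < m ∧ h x (fr.e i) ≠ 0
  · have hs := Nat.find_spec hc
    obtain ⟨w, a, g1, g2, g3, g4⟩ := step_f H hV hx hs.1 hs.2 (fun j hj => by
      by_contra h1
      exact Nat.find_min hc hj ⟨lt_trans hj hs.1, h1⟩)
    refine ⟨_, w, a, g1, g2, _, hs.1, _, neg_ne_zero.2 hs.2, Or.inr ⟨hs.2, g3⟩, ?_⟩
    intro j hj h1 h2
    apply g4 j hj _ h1 h2
    rintro rfl
    exact hs.2 h1
  · push Not at hc
    have h1 : ∃ i, i < m ∧ h x (fr.f (m - 1 - i)) ≠ 0 := by
      by_contra hcon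
      push Not at hcon
      apply hx0
      rw [expand H hV x]
      apply Finset.sum_eq_zero
      intro j hj
      have hj' := Finset.mem_range.1 hj
      have := hcon (m - 1 - j) (by omega)
      rw [show m - 1 - (m - 1 - j) = j by omega] at this
      rw [this, hc j hj', zero_smul, zero_smul, sub_zero]
    have hs := Nat.find_spec h1
    have hmin := fun {k} (hk : k < Nat.find h1) => Nat.find_min h1 hk
    generalize Nat.find h1 = i0 at *
    obtain ⟨v, w, a, g1, g2, g3, g4⟩ := step_e H hV hc (i := m - 1 - i0) (by omega) hs.2 (fun j hj hij => by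
      by_contra h2
      refine hmin (k := m - 1 - j) (by omega) ⟨by omega, ?_⟩
      rw [show m - 1 - (m - 1 - j) = j by omega]
      exact h2)
    refine ⟨v, w, a, g1, g2, m - 1 - i0, by omega, _, hs.2, Or.inl ⟨hs.2, g3⟩, ?_⟩
    intro j hj h2 h3
    apply g4 j hj _ h2 h3
    rintro rfl
    exact hs.2 h3

variable (fr) in
/-- the vectors of the frame -/
def bv (c : ℕ × Bool) : V := if c.2 then fr.e c.1 else fr.f c.1

variable (fr) in
/-- the coordinate subspaces -/
def WW (π : ℕ → ℕ × Bool) (k : ℕ) : Submodule F V := Submodule.span F {y | ∃ j < k, y = bv fr (π j)}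

omit [Finite V] in
theorem bv_mem_WW {π : ℕ → ℕ × Bool} {j k : ℕ} (hj : j < k) : bv fr (π j) ∈ WW fr π k :=
  Submodule.subset_span ⟨j, hj, rfl⟩

omit [Finite V] in
theorem WW_mono {π : ℕ → ℕ × Bool} {j k : ℕ} (hj : j ≤ k) : WW fr π j ≤ WW fr π k :=
  Submodule.span_mono fun _ ⟨i, hi, hx⟩ => ⟨i, lt_of_lt_of_le hi hj, hx⟩

omit [Finite V] in
theorem WW_le {π : ℕ → ℕ × Bool} {k : ℕ} {W : Submodule F V} (hW : ∀ j < k, bv fr (π j) ∈ W) : WW fr π k ≤ W := by
  unfold WW
  rw [Submodule.span_le]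
  rintro x ⟨j, hj, rfl⟩
  exact hW j hj

omit [Finite V] in
theorem h_WW {π : ℕ → ℕ × Bool} {k : ℕ} {z : V} (hz : ∀ j < k, h (bv fr (π j)) z = 0) {w : V}
    (hw : w ∈ WW fr π k) : h w z = 0 := by
  unfold WW at hw
  induction hw using Submodule.span_induction with
  | mem v hv => obtain ⟨j, hj, rfl⟩ := hv; exact hz j hj
  | zero => simp
  | add a b _ _ ha hb => rw [map_add, LinearMap.add_apply, ha, hb, add_zero]
  | smul c a _ ha => rw [hsl, ha, mul_zero]

omit [Finite V] in
theorem fix_WW {π : ℕ → ℕ × Bool} {k : ℕ} {g : V ≃ₗ[F] V} (hg : ∀ j < k, g (bv fr (π j)) = bv fr (π j)) {w : V}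
    (hw : w ∈ WW fr π k) : g w = w := by
  unfold WW at hw
  induction hw using Submodule.span_induction with
  | mem v hv => obtain ⟨j, hj, rfl⟩ := hv; exact hg j hj
  | zero => simp
  | add a b _ _ ha hb => rw [map_add, ha, hb]
  | smul c a _ ha => rw [map_smul, ha]

omit [Finite V] in
theorem WW_congr {π π' : ℕ → ℕ × Bool} {k : ℕ} (h1 : ∀ j < k, π j = π' j) : WW fr π k = WW fr π' k := by
  apply le_antisymm
  · apply WW_le; intro j hj; rw [h1 j hj]; exact bv_mem_WW hj
  · apply WW_le; intro j hj; rw [← h1 j hj]; exact bv_mem_WW hj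

omit [Finite V] in
theorem bv_bv (H : Sk h) {c d : ℕ × Bool} (hc : c.1 < m) (hd : d.1 < m) (hcd : c.1 = d.1 → c = d) :
    h (bv fr c) (bv fr d) = 0 := by
  obtain ⟨i, s⟩ := c
  obtain ⟨j, t⟩ := d
  simp only at hc hd hcd
  by_cases hij : i = j
  · have := hcd hij
    obtain ⟨rfl, rfl⟩ := Prod.mk.injEq .. ▸ this
    cases s
    · exact fr.ff i hc i hc
    · exact fr.ee i hc i hc
  · cases s <;> cases t
    · exact fr.ff i hc j hd
    · show h (fr.f i) (fr.e j) = 0
      rw [fe H hc hd, if_neg hij]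
    · show h (fr.e i) (fr.f j) = 0
      rw [fr.ef i hc j hd, if_neg hij]
    · exact fr.ee i hc j hd

/-- a totally isotropic sequence can be made triangular with respect to the frame -/
theorem reduce {G : Subgroup (V ≃ₗ[F] V)} (H : Sk h) (hG : Adm fr G) (hV : ∀ x ∈ VV fr m, x = 0) (x z : ℕ → V)
    (hxx : ∀ i < m, ∀ j < m, h (x i) (x j) = 0) (hz : ∀ i < m, h (x i) (z i) ≠ 0)
    (hxz : ∀ i < m, ∀ j < i, h (x j) (z i) = 0) : ∀ k ≤ m,
    ∃ u ∈ G, PS fr u ∧ ∃ π : ℕ → ℕ × Bool, (∀ i < k, (π i).1 < m) ∧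
      (∀ i < k, ∀ j < k, (π i).1 = (π j).1 → i = j) ∧
      ∀ i < k, ∃ c : F, c ≠ 0 ∧ u (x i) - c • bv fr (π i) ∈ WW fr π i := by
  classical
  intro k
  induction k with
  | zero =>
    intro _
    exact ⟨1, one_mem _, PS.one, fun _ => (0, true), fun i hi => absurd hi (by omega),
      fun i hi => absurd hi (by omega), fun i hi => absurd hi (by omega)⟩
  | succ k ih =>
    intro hk
    obtain ⟨u, huG, huP, π, hπ1, hπ2, hπ3⟩ := ih (by omega)
    have hiso := hG.le huG
    have hkm : k < m := by omega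
    -- transfer of orthogonality
    have orth : ∀ z', (∀ j < k, h (u (x j)) z' = 0) → ∀ j < k, h (bv fr (π j)) z' = 0 := by
      intro z' hz' j
      induction j using Nat.strong_induction_on with
      | _ j ihj =>
      intro hj
      obtain ⟨c, hc, hc'⟩ := hπ3 j hj
      have h1 := h_WW (fun l hl => ihj l hl (by omega)) hc'
      rw [map_sub, LinearMap.sub_apply, hz' j hj, hsl, zero_sub, neg_eq_zero, mul_eq_zero] at h1
      exact h1.resolve_left hc
    obtain ⟨y, hy⟩ : ∃ y, y = u (x k) := ⟨_, rfl⟩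
    have hby : ∀ j < k, h (bv fr (π j)) y = 0 := by
      apply orth
      intro j hj
      rw [hy, hiso]
      exact hxx j (by omega) k hkm
    have hbz : ∀ j < k, h (bv fr (π j)) (u (z k)) = 0 := by
      apply orth
      intro j hj
      rw [hiso]
      exact hxz k hkm j hj
    have hyb : ∀ j < k, h y (bv fr (π j)) = 0 := fun j hj => H.symm_zero (hby j hj)
    obtain ⟨w, hw⟩ : ∃ w, w = ∑ j ∈ Finset.range k, (h y (fr.f (π j).1) • fr.e (π j).1 -
      h y (fr.e (π j).1) • fr.f (π j).1) := ⟨_, rfl⟩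
    have hwW : w ∈ WW fr π k := by
      rw [hw]
      apply Submodule.sum_mem
      intro j hj
      have hj' := Finset.mem_range.1 hj
      have h1 := hyb j hj'
      have h2 := bv_mem_WW (fr := fr) (π := π) hj'
      generalize π j = c at *
      obtain ⟨i, s⟩ := c
      cases s
      · have h1' : h y (fr.f i) = 0 := h1
        have h2' : fr.f i ∈ WW fr π k := h2
        show h y (fr.f i) • fr.e i - h y (fr.e i) • fr.f i ∈ _
        rw [h1', zero_smul, zero_sub]
        exact Submodule.neg_mem _ (Submodule.smul_mem _ _ h2')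
      · have h1' : h y (fr.e i) = 0 := h1
        have h2' : fr.e i ∈ WW fr π k := h2
        show h y (fr.f i) • fr.e i - h y (fr.e i) • fr.f i ∈ _
        rw [h1', zero_smul, sub_zero]
        exact Submodule.smul_mem _ _ h2'
    obtain ⟨y', hy'⟩ : ∃ y', y' = y - w := ⟨_, rfl⟩
    have hyA : ∀ l < k, h y' (fr.e (π l).1) = 0 ∧ h y' (fr.f (π l).1) = 0 := by
      intro l hl
      have hlm := hπ1 l hl
      constructor
      · rw [hy', hw, map_sub, map_sum, LinearMap.sub_apply, LinearMap.sum_apply, Finset.sum_eq_single l]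
        · rw [map_sub, LinearMap.sub_apply, hsl, hsl, fr.ee _ hlm _ hlm, fe H hlm hlm, if_pos rfl]
          ring
        · intro j hj hjl
          have hj' := Finset.mem_range.1 hj
          rw [map_sub, LinearMap.sub_apply, hsl, hsl, fr.ee _ (hπ1 j hj') _ hlm, fe H (hπ1 j hj') hlm,
            if_neg (fun h0 => hjl (hπ2 j hj' l hl h0))]
          ring
        · intro hni; exact absurd (Finset.mem_range.2 hl) hni
      · rw [hy', hw, map_sub, map_sum, LinearMap.sub_apply, LinearMap.sum_apply, Finset.sum_eq_single l]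
        · rw [map_sub, LinearMap.sub_apply, hsl, hsl, fr.ff _ hlm _ hlm, fr.ef _ hlm _ hlm, if_pos rfl]
          ring
        · intro j hj hjl
          have hj' := Finset.mem_range.1 hj
          rw [map_sub, LinearMap.sub_apply, hsl, hsl, fr.ff _ (hπ1 j hj') _ hlm, fr.ef _ (hπ1 j hj') _ hlm,
            if_neg (fun h0 => hjl (hπ2 j hj' l hl h0))]
          ring
        · intro hni; exact absurd (Finset.mem_range.2 hl) hni
    have hy0 : y' ≠ 0 := by
      intro h0
      have h1 : y = w := sub_eq_zero.1 (hy'.symm.trans h0)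
      have h2 : h y (u (z k)) = 0 := by rw [h1]; exact h_WW hbz hwW
      rw [hy, hiso] at h2
      exact hz k hkm h2
    have hyy : h y' y' = 0 := by
      have h1 : h w y = 0 := h_WW hby hwW
      have h2 : h w w = 0 := by
        apply h_WW _ hwW
        intro j hj
        apply H.symm_zero
        apply h_WW _ hwW
        intro l hl
        apply bv_bv H (hπ1 l hl) (hπ1 j hj)
        intro h3
        rw [hπ2 l hl j hj h3]
      have h3 : h y y = 0 := by rw [hy, hiso]; exact hxx k hkm k hkm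
      rw [hy']
      simp only [map_sub, LinearMap.sub_apply, h1, h2, h3, H.symm_zero h1, sub_self]
    obtain ⟨v', w', a', g1, g2, i, hi, c, hc, hcase, hfix⟩ := step H hV hy0 hyy
    -- the new coordinate
    obtain ⟨d, hd1, hd2, hd3⟩ : ∃ d : ℕ × Bool, d.1 = i ∧ sieg h v' w' a' y' = c • bv fr d ∧
        ∀ l < k, (π l).1 ≠ i := by
      rcases hcase with ⟨h1, h2⟩ | ⟨h1, h2⟩
      · refine ⟨(i, true), rfl, h2, ?_⟩
        rintro l hl rfl
        exact h1 (hyA l hl).2
      · refine ⟨(i, false), rfl, h2, ?_⟩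
        rintro l hl rfl
        exact h1 (hyA l hl).1
    obtain ⟨π', hπ'1, hπ'2⟩ : ∃ π' : ℕ → ℕ × Bool, (∀ j < k, π j = π' j) ∧ π' k = d :=
      ⟨fun j => if j < k then π j else d, fun j hj => by simp [hj], by simp⟩
    have hfixW : ∀ j < k, sieg h v' w' a' (bv fr (π j)) = bv fr (π j) := by
      intro j hj
      have h1 := hfix (π j).1 (hπ1 j hj) (hyA j hj).1 (hyA j hj).2
      generalize π j = c at *
      obtain ⟨i', s⟩ := c
      cases s
      · exact h1.2
      · exact h1.1
    refine ⟨sieg h v' w' a' * u, mul_mem (hG.sieg_mem _ _ _ g1) huG, g2.mul huP, π', ?_, ?_, ?_⟩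
    · intro j hj
      rcases Nat.lt_succ_iff_lt_or_eq.1 hj with h1 | h1
      · rw [← hπ'1 j h1]; exact hπ1 j h1
      · rw [h1, hπ'2, hd1]; exact hi
    · intro j hj l hl hjl
      rcases Nat.lt_succ_iff_lt_or_eq.1 hj with h1 | h1 <;> rcases Nat.lt_succ_iff_lt_or_eq.1 hl with h2 | h2
      · rw [← hπ'1 j h1, ← hπ'1 l h2] at hjl; exact hπ2 j h1 l h2 hjl
      · rw [← hπ'1 j h1, h2, hπ'2, hd1] at hjl; exact absurd hjl (hd3 j h1)
      · rw [← hπ'1 l h2, h1, hπ'2, hd1] at hjl; exact absurd hjl.symm (hd3 l h2)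
      · omega
    · intro j hj
      rcases Nat.lt_succ_iff_lt_or_eq.1 hj with h1 | h1
      · obtain ⟨c', hc', hc''⟩ := hπ3 j h1
        refine ⟨c', hc', ?_⟩
        rw [← hπ'1 j h1, ← WW_congr (fun l hl => hπ'1 l (by omega))]
        have h2 : (sieg h v' w' a' * u) (x j) - c' • bv fr (π j) = u (x j) - c' • bv fr (π j) := by
          have h3 : sieg h v' w' a' (u (x j) - c' • bv fr (π j)) = u (x j) - c' • bv fr (π j) :=
            fix_WW (fun l hl => hfixW l (by omega)) hc''
          rw [map_sub, map_smul, hfixW j h1] at h3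
          exact h3
        rw [h2]; exact hc''
      · refine ⟨c, hc, ?_⟩
        rw [h1, hπ'2, ← WW_congr hπ'1]
        have h2 : (sieg h v' w' a' * u) (x k) - c • bv fr d = w := by
          have h3 : u (x k) = y' + w := by rw [hy', hy]; abel
          show sieg h v' w' a' (u (x k)) - c • bv fr d = w
          rw [h3, map_add, hd2, fix_WW hfixW hwW]; abel
        rw [h2]; exact hwW

end H38.Pron
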