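import Cfsg.Agent.Lib.H38.Pron10

/-!
# The condition `Q` for unitary groups of even dimension in the defining characteristic
-/

set_option autoImplicit false

namespace H38.Pron

open scoped Pointwise
open Module H95.UBasic H57.Polar H57.Polar2 H57.Polar3 H57.Polar4

variable {F V : Type*} [Field F] [AddCommGroup V] [Module F V] {σ : F →+* F}
variable {h : V →ₗ[F] V →ₛₗ[σ] F} {m : ℕ} {fr : Frame h m} [Finite V] {G : Subgroup (V ≃ₗ[F] V)}

variable (fr) in
/-- diagonal with respect to the frame -/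
def Dg (g : V ≃ₗ[F] V) : Prop := ∀ i < m, (∃ a : F, g (fr.e i) = a • fr.e i) ∧ ∃ a : F, g (fr.f i) = a • fr.f i

omit [Finite V] in
theorem Dg.bv {g : V ≃ₗ[F] V} (hg : Dg fr g) {c : ℕ × Bool} (hc : c.1 < m) : ∃ a : F, g (bv fr c) = a • bv fr c := by
  obtain ⟨i, s⟩ := c
  cases s
  · exact (hg i hc).2
  · exact (hg i hc).1

omit [Finite V] in
theorem Dg.WW {g : V ≃ₗ[F] V} (hg : Dg fr g) {π : ℕ → ℕ × Bool} {k : ℕ} (hπ : ∀ j < k, (π j).1 < m) {w : V}
    (hw : w ∈ WW fr π k) : g w ∈ WW fr π k := by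
  unfold H38.Pron.WW at hw
  induction hw using Submodule.span_induction with
  | mem v hv =>
    obtain ⟨j, hj, rfl⟩ := hv
    obtain ⟨a, ha⟩ := hg.bv (hπ j hj)
    rw [ha]; exact Submodule.smul_mem _ _ (bv_mem_WW hj)
  | zero => rw [map_zero]; exact Submodule.zero_mem _
  | add a b _ _ ha hb => rw [map_add]; exact Submodule.add_mem _ ha hb
  | smul c a _ ha => rw [map_smul]; exact Submodule.smul_mem _ _ ha

omit [Finite V] in
theorem Dg.EE {g : V ≃ₗ[F] V} (hg : Dg fr g) {k : ℕ} (hk : k ≤ m) {w : V}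
    (hw : w ∈ EE fr k) : g w ∈ EE fr k := by
  unfold H57.Polar2.EE at hw
  induction hw using Submodule.span_induction with
  | mem v hv =>
    obtain ⟨j, hj, rfl⟩ := hv
    obtain ⟨a, ha⟩ := (hg j (by omega)).1
    rw [ha]; exact Submodule.smul_mem _ _ (e_mem_EE fr hj)
  | zero => rw [map_zero]; exact Submodule.zero_mem _
  | add a b _ _ ha hb => rw [map_add]; exact Submodule.add_mem _ ha hb
  | smul c a _ ha => rw [map_smul]; exact Submodule.smul_mem _ _ ha

theorem Dg.comm (hG : Adm fr G) {a b : G} (ha : Dg fr a.1) (hb : Dg fr b.1) : a * b = b * a := by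
  have h1 : (a * b * (b * a)⁻¹).1 = 1 := by
    apply hG.fix _ (a * b * (b * a)⁻¹).2
    intro j hj
    obtain ⟨⟨α, hα⟩, ⟨β, hβ⟩⟩ := ha j hj
    obtain ⟨⟨γ, hγ⟩, ⟨δ, hδ⟩⟩ := hb j hj
    have key : ∀ x : V, a.1 (b.1 x) = b.1 (a.1 x) → (a * b * (b * a)⁻¹).1 (b.1 (a.1 x)) = b.1 (a.1 x) := by
      intro x hx
      have h2 : (b * a).1⁻¹ (b.1 (a.1 x)) = x := (b * a).1.symm_apply_apply x
      show a.1 (b.1 ((b * a).1⁻¹ (b.1 (a.1 x)))) = _
      rw [h2, hx]
    have fixsc : ∀ (x : V) (c : F), x ≠ 0 → c • x ≠ 0 → (a * b * (b * a)⁻¹).1 (c • x) = c • x →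
        (a * b * (b * a)⁻¹).1 x = x := by
      intro x c hx hcx hh
      have hc : c ≠ 0 := by rintro rfl; exact hcx (zero_smul _ _)
      rw [map_smul] at hh
      exact smul_right_injective V hc hh
    constructor
    · have h3 := key (fr.e j) (by rw [hγ, map_smul, hα, map_smul, hγ, smul_smul, smul_smul, mul_comm])
      rw [hα, map_smul, hγ, smul_smul] at h3
      apply fixsc _ _ (ne_zero_e (fr := fr) hj) _ h3
      intro h0
      have : b.1 (a.1 (fr.e j)) = 0 := by rw [hα, map_smul, hγ, smul_smul, h0]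
      rw [LinearEquiv.map_eq_zero_iff, LinearEquiv.map_eq_zero_iff] at this
      exact ne_zero_e (fr := fr) hj this
    · have h3 := key (fr.f j) (by rw [hδ, map_smul, hβ, map_smul, hδ, smul_smul, smul_smul, mul_comm])
      rw [hβ, map_smul, hδ, smul_smul] at h3
      apply fixsc _ _ (ne_zero_f (fr := fr) hj) _ h3
      intro h0
      have : b.1 (a.1 (fr.f j)) = 0 := by rw [hβ, map_smul, hδ, smul_smul, h0]
      rw [LinearEquiv.map_eq_zero_iff, LinearEquiv.map_eq_zero_iff] at this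
      exact ne_zero_f (fr := fr) hj this
  have h2 : a * b * (b * a)⁻¹ = 1 := Subtype.ext h1
  exact mul_inv_eq_one.1 h2

/-- Bruhat decomposition -/
theorem bru (H : Sk h) (hG : Adm fr G) (hV : ∀ x ∈ VV fr m, x = 0) (g : G) :
    ∃ u ∈ S0 fr G, ∀ t : G, Dg fr t.1 → (u * g)⁻¹ * t * (u * g) ∈ Subgroup.normalizer (S0 fr G : Set G) := by
  have hiso := hG.le g.2
  obtain ⟨u, huG, huP, π, hπ1, hπ2, hπ3⟩ := reduce (fr := fr) H hG hV (fun i => g.1 (fr.e i)) (fun i => g.1 (fr.f i))
    (fun i hi j hj => by rw [hiso]; exact fr.ee i hi j hj)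
    (fun i hi => by rw [hiso, fr.ef i hi i hi, if_pos rfl]; exact one_ne_zero)
    (fun i hi j hj => by rw [hiso, fr.ef j (by omega) i hi, if_neg (by omega)]) m le_rfl
  refine ⟨⟨u, huG⟩, huP, ?_⟩
  intro t ht
  obtain ⟨y, hy⟩ : ∃ y : G, y = ⟨u, huG⟩ * g := ⟨_, rfl⟩
  have hya : ∀ x, y.1 x = u (g.1 x) := fun x => by rw [hy]; rfl
  rw [← hy]
  -- y (EE k) = W k
  have e1 : ∀ k ≤ m, ∀ v ∈ EE fr k, y.1 v ∈ WW fr π k := by
    intro k hk v hv
    unfold EE at hv
    induction hv using Submodule.span_induction with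
    | mem v hv =>
      obtain ⟨j, hj, rfl⟩ := hv
      obtain ⟨c, hc, hc'⟩ := hπ3 j (by omega)
      rw [hya]
      have h1 := Submodule.add_mem _ (WW_mono (fr := fr) hj.le hc') (Submodule.smul_mem _ c (bv_mem_WW (fr := fr) hj))
      rwa [sub_add_cancel] at h1
    | zero => rw [map_zero]; exact Submodule.zero_mem _
    | add a b _ _ ha hb => rw [map_add]; exact Submodule.add_mem _ ha hb
    | smul c a _ ha => rw [map_smul]; exact Submodule.smul_mem _ _ ha
  have e2 : ∀ j < m, y.1.symm (bv fr (π j)) ∈ EE fr (j + 1) := by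
    intro j
    induction j using Nat.strong_induction_on with
    | _ j ihj =>
    intro hj
    obtain ⟨c, hc, hc'⟩ := hπ3 j hj
    have h1 : ∀ w ∈ WW fr π j, y.1.symm w ∈ EE fr j := by
      intro w hw
      unfold H38.Pron.WW at hw
      induction hw using Submodule.span_induction with
      | mem v hv =>
        obtain ⟨l, hl, rfl⟩ := hv
        exact EE_mono fr (by omega) (ihj l hl (by omega))
      | zero => rw [map_zero]; exact Submodule.zero_mem _
      | add a b _ _ ha hb => rw [map_add]; exact Submodule.add_mem _ ha hb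
      | smul c a _ ha => rw [map_smul]; exact Submodule.smul_mem _ _ ha
    have h2 := h1 _ hc'
    have h3 : y.1.symm (u (g.1 (fr.e j))) = fr.e j := by rw [← hya]; exact y.1.symm_apply_apply _
    rw [map_sub, map_smul, h3] at h2
    have h4 : y.1.symm (bv fr (π j)) = c⁻¹ • (fr.e j - (fr.e j - c • y.1.symm (bv fr (π j)))) := by
      rw [sub_sub_cancel, smul_smul, inv_mul_cancel₀ hc, one_smul]
    rw [h4]
    exact Submodule.smul_mem _ _ (Submodule.sub_mem _ (e_mem_EE fr (Nat.lt_succ_self j))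
      (EE_mono fr (Nat.le_succ j) h2))
  have e3 : ∀ k ≤ m, ∀ w ∈ WW fr π k, y.1.symm w ∈ EE fr k := by
    intro k hk w hw
    unfold H38.Pron.WW at hw
    induction hw using Submodule.span_induction with
    | mem v hv =>
      obtain ⟨l, hl, rfl⟩ := hv
      exact EE_mono fr (by omega) (e2 l (by omega))
    | zero => rw [map_zero]; exact Submodule.zero_mem _
    | add a b _ _ ha hb => rw [map_add]; exact Submodule.add_mem _ ha hb
    | smul c a _ ha => rw [map_smul]; exact Submodule.smul_mem _ _ ha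
  apply mem_normalizer_S0 hG
  intro k hk x hx
  show y.1.symm (t.1 (y.1 x)) ∈ EE fr k
  exact e3 k hk _ (ht.WW (fun j hj => hπ1 j (by omega)) (e1 k hk x hx))

/-- `B = S T` -/
theorem bor (H : Sk h) (hG : Adm fr G) (hV : ∀ x ∈ VV fr m, x = 0) {g : G}
    (hg : g ∈ Subgroup.normalizer (S0 fr G : Set G)) : ∃ s ∈ S0 fr G, Dg fr (s * g).1 := by
  have hiso := hG.le g.2
  obtain ⟨u, huG, huP, π, hπ1, hπ2, hπ3⟩ := reduce (fr := fr) H hG hV (fun i => g.1 (fr.f i)) (fun i => g.1 (fr.e i))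
    (fun i hi j hj => by rw [hiso]; exact fr.ff i hi j hj)
    (fun i hi => by rw [hiso, fe H hi hi, if_pos rfl]; simp)
    (fun i hi j hj => by rw [hiso, fe H (by omega) hi, if_neg (by omega)]) m le_rfl
  refine ⟨⟨u, huG⟩, huP, ?_⟩
  obtain ⟨y, hy⟩ : ∃ y : G, y = ⟨u, huG⟩ * g := ⟨_, rfl⟩
  have hya : ∀ x, y.1 x = u (g.1 x) := fun x => by rw [hy]; rfl
  rw [← hy]
  have hyN : y ∈ Subgroup.normalizer (S0 fr G : Set G) := by
    rw [hy]
    exact mul_mem (Subgroup.le_normalizer (show (⟨u, huG⟩ : G) ∈ S0 fr G from huP)) hg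
  have hyiso := hG.le y.2
  have hst := normalizer_stab H hG hyN
  have hst' := normalizer_stab H hG (inv_mem hyN)
  have hyy : ∀ x, y.1 ((y⁻¹ : G).1 x) = x := fun x => y.1.apply_symm_apply x
  -- e j = y (EE (j+1))
  have hfe0 : ∀ i < m, ∀ j < i, h (y.1 (fr.f i)) (fr.e j) = 0 := by
    intro i hi j hj
    have h1 := hst' (j + 1) (by omega) _ (e_mem_EE fr (Nat.lt_succ_self j))
    have h2 : h (y.1 (fr.f i)) (y.1 ((y⁻¹ : G).1 (fr.e j))) = 0 := by
      rw [hyiso]
      apply h_EE_right (fr := fr) (k := j + 1) _ h1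
      intro l hl
      rw [fe H hi (by omega), if_neg (by omega)]
    rwa [hyy] at h2
  have hfe1 : ∀ i < m, ∃ v ∈ EE fr (i + 1), h (y.1 (fr.f i)) v ≠ 0 := by
    intro i hi
    refine ⟨y.1 (fr.e i), hst (i + 1) (by omega) _ (e_mem_EE fr (Nat.lt_succ_self i)), ?_⟩
    rw [hyiso, fe H hi hi, if_pos rfl]; simp
  -- f i goes to a multiple of f i
  have hf : ∀ i < m, π i = (i, false) ∧ ∃ c : F, c ≠ 0 ∧ y.1 (fr.f i) = c • fr.f i := by
    intro i
    induction i using Nat.strong_induction_on with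
    | _ i ihi =>
    intro hi
    obtain ⟨c, hc, hc'⟩ := hπ3 i hi
    rw [← hya] at hc'
    obtain ⟨w, hw⟩ : ∃ w, w = y.1 (fr.f i) - c • bv fr (π i) := ⟨_, rfl⟩
    rw [← hw] at hc'
    have hπi : ∀ j < i, (π i).1 ≠ j := by
      intro j hj h1
      have h2 := (ihi j hj (by omega)).1
      have h3 := hπ2 i hi j (by omega) (by rw [h1, h2])
      omega
    have hbe : ∀ j < i, h (bv fr (π i)) (fr.e j) = 0 := by
      intro j hj
      have h1 := hπi j hj
      have h2 := hπ1 i hi
      generalize π i = d at *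
      obtain ⟨l, s⟩ := d
      cases s
      · show h (fr.f l) (fr.e j) = 0
        rw [fe H h2 (by omega), if_neg h1]
      · exact fr.ee l h2 j (by omega)
    -- w is a combination of the f j with zero coefficients
    have hwe : ∀ j < i, h w (fr.e j) = 0 := by
      intro j hj
      rw [hw, map_sub, LinearMap.sub_apply, hsl, hfe0 i hi j hj, hbe j hj, mul_zero, sub_zero]
    have hw0 : w = 0 := by
      -- `w` is orthogonal to all
      have h1 : ∀ z, (∀ j < i, h z (fr.f j) = 0) → h w z = 0 := by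
        intro z hz
        apply h_WW _ hc'
        intro j hj
        rw [(ihi j hj (by omega)).1]
        exact H.symm_zero (hz j hj)
      rw [expand (fr := fr) H hV w]
      apply Finset.sum_eq_zero
      intro j hj
      have hjm := Finset.mem_range.1 hj
      have h2 : h w (fr.f j) = 0 := h1 _ fun l hl => fr.ff j hjm l (by omega)
      have h3 : h w (fr.e j) = 0 := by
        by_cases hji : j < i
        · exact hwe j hji
        · exact h1 _ fun l hl => by rw [fr.ef j hjm l (by omega), if_neg (by omega)]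
      rw [h2, h3, zero_smul, zero_smul, sub_zero]
    have hyf : y.1 (fr.f i) = c • bv fr (π i) := sub_eq_zero.1 (by rw [← hw, hw0])
    -- identify the coordinate
    obtain ⟨v, hv, hv'⟩ := hfe1 i hi
    have h5 : h (bv fr (π i)) (fr.e i) ≠ 0 := by
      intro h0
      apply hv'
      rw [hyf, hsl]
      have : h (bv fr (π i)) v = 0 := by
        apply h_EE_right (fr := fr) (k := i + 1) _ hv
        intro j hj
        rcases Nat.lt_succ_iff_lt_or_eq.1 hj with h6 | h6
        · exact hbe j h6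
        · rw [h6]; exact h0
      rw [this, mul_zero]
    have h6 : π i = (i, false) := by
      have h2 := hπ1 i hi
      generalize π i = d at *
      obtain ⟨l, s⟩ := d
      cases s
      · by_cases hl : l = i
        · rw [hl]
        · exfalso; apply h5
          show h (fr.f l) (fr.e i) = 0
          rw [fe H h2 hi, if_neg hl]
      · exact absurd (fr.ee l h2 i hi) h5
    refine ⟨h6, c, hc, ?_⟩
    rw [hyf, h6]; rfl
  intro i hi
  refine ⟨?_, ?_⟩
  · have h1 := hst (i + 1) (by omega) _ (e_mem_EE fr (Nat.lt_succ_self i))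
    refine ⟨h (y.1 (fr.e i)) (fr.f i), ?_⟩
    have h2 := expand (fr := fr) H hV (y.1 (fr.e i))
    rw [Finset.sum_eq_single i] at h2
    · rw [h_EE_e (k := i + 1) (by omega) hi h1, zero_smul, sub_zero] at h2
      exact h2
    · intro j hj hji
      have hjm := Finset.mem_range.1 hj
      have h3 : h (y.1 (fr.e i)) (fr.f j) = 0 := by
        obtain ⟨c, hc, hcc⟩ := (hf j hjm).2
        have h4 : h (y.1 (fr.e i)) (y.1 (fr.f j)) = 0 := by
          rw [hyiso, fr.ef i hi j hjm, if_neg (Ne.symm hji)]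
        rw [hcc, hsr, mul_eq_zero] at h4
        refine h4.resolve_left ?_
        intro h5
        exact hc (by rw [← H.inv c, h5, map_zero])
      rw [h3, h_EE_e (k := i + 1) (by omega) hjm h1, zero_smul, zero_smul, sub_zero]
    · intro hni; exact absurd (Finset.mem_range.2 hi) hni
  · obtain ⟨c, hc, hcc⟩ := (hf i hi).2
    exact ⟨c, hcc⟩

/-- the condition `Q` -/
theorem Q_polar (p : ℕ) [Fact p.Prime] [CharP F p] (H : Sk h) (hm : 0 < m) (hG : Adm fr G)
    (hV : ∀ x ∈ VV fr m, x = 0) : Q p G := by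
  obtain ⟨S, hS⟩ := exists_sylow (fr := fr) p H hm hG
  have hDN : ∀ t : G, Dg fr t.1 → t ∈ Subgroup.normalizer (S0 fr G : Set G) := by
    intro t ht
    apply mem_normalizer_S0 hG
    intro k hk x hx
    exact ht.EE hk hx
  have hconj : ∀ a ∈ Subgroup.normalizer (S0 fr G : Set G), ∀ s ∈ S0 fr G, a * s * a⁻¹ ∈ S0 fr G := by
    intro a ha s hs
    rw [Subgroup.mem_normalizer_iff] at ha
    exact (ha s).1 hs
  refine ⟨S, ?_, ?_⟩
  · rw [hS]
    intro a ha b hb
    obtain ⟨s, hs, hsa⟩ := bor H hG hV ha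
    obtain ⟨s', hs', hsb⟩ := bor H hG hV hb
    have h1 := Dg.comm hG hsa hsb
    have hN1 := hDN _ hsa
    have hN2 := hDN _ hsb
    have ea : a = s⁻¹ * (s * a) := by group
    have eb : b = s'⁻¹ * (s' * b) := by group
    generalize s * a = t at *
    generalize s' * b = t' at *
    rw [ea, eb]
    have h2 : s⁻¹ * t * (s'⁻¹ * t') * (s⁻¹ * t)⁻¹ * (s'⁻¹ * t')⁻¹ =
        s⁻¹ * (t * s'⁻¹ * t⁻¹) * ((t * t') * (t' * t)⁻¹) * (t' * s * t'⁻¹) * s' := by group
    rw [h2, h1, mul_inv_cancel, mul_one]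
    exact mul_mem (mul_mem (mul_mem (inv_mem hs) (hconj _ hN1 _ (inv_mem hs'))) (hconj _ hN2 _ hs)) hs'
  · rw [hS]
    intro b hb g
    obtain ⟨s, hs, hsb⟩ := bor H hG hV hb
    obtain ⟨u, hu, hut⟩ := bru H hG hV g
    have h1 := hut _ hsb
    have hN1 := hDN _ hsb
    refine ⟨s⁻¹ * ((s * b) * u⁻¹ * (s * b)⁻¹) * u, ?_, _, h1, by group⟩
    exact mul_mem (mul_mem (inv_mem hs) (hconj _ hN1 _ (inv_mem hu))) hu

end H38.Pron
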