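import Cfsg.Agent.Lib.H38.Pron11

/-!
# `PSU_{2m}(q)`: every subgroup of index prime to the characteristic is pronormal
-/

set_option autoImplicit false

namespace H38.Pron

open scoped Pointwise
open Module H95.UBasic H57.Polar H57.Polar2 H57.Polar3 H57.Polar4 H57.PolarSU

theorem VV_bot {F V : Type*} [Field F] [AddCommGroup V] [Module F V] {σ : F →+* F}
    {h : V →ₗ[F] V →ₛₗ[σ] F} {m : ℕ} (fr : Frame h m) [FiniteDimensional F V] (H : Sk h)
    (hfin : finrank F V = 2 * m) : ∀ x ∈ VV fr m, x = 0 := by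
  obtain ⟨φ, hφ⟩ : ∃ φ : V →ₗ[F] (Fin m → F) × (Fin m → F),
      ∀ x, φ x = (fun j : Fin m => h x (fr.f j), fun j : Fin m => h x (fr.e j)) :=
    ⟨LinearMap.prod (LinearMap.pi fun j : Fin m => h.flip (fr.f j)) (LinearMap.pi fun j : Fin m => h.flip (fr.e j)),
      fun x => rfl⟩
  have hsur : Function.Surjective φ := by
    rintro ⟨a, b⟩
    refine ⟨∑ j : Fin m, (a j • fr.e j - b j • fr.f j), ?_⟩
    rw [hφ]
    refine Prod.ext ?_ ?_
    · funext i
      show h (∑ j : Fin m, (a j • fr.e j - b j • fr.f j)) (fr.f i) = a i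
      rw [map_sum, LinearMap.sum_apply, Finset.sum_eq_single i]
      · rw [map_sub, LinearMap.sub_apply, hsl, hsl, fr.ef _ i.2 _ i.2, if_pos rfl, fr.ff _ i.2 _ i.2]
        ring
      · intro j _ hj
        rw [map_sub, LinearMap.sub_apply, hsl, hsl, fr.ef _ j.2 _ i.2, if_neg (fun h0 => hj (Fin.ext h0)),
          fr.ff _ j.2 _ i.2]
        ring
      · simp
    · funext i
      show h (∑ j : Fin m, (a j • fr.e j - b j • fr.f j)) (fr.e i) = b i
      rw [map_sum, LinearMap.sum_apply, Finset.sum_eq_single i]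
      · rw [map_sub, LinearMap.sub_apply, hsl, hsl, fr.ee _ i.2 _ i.2, fe H i.2 i.2, if_pos rfl]
        ring
      · intro j _ hj
        rw [map_sub, LinearMap.sub_apply, hsl, hsl, fr.ee _ j.2 _ i.2, fe H j.2 i.2,
          if_neg (fun h0 => hj (Fin.ext h0))]
        ring
      · simp
  have h1 := LinearMap.finrank_range_add_finrank_ker φ
  rw [LinearMap.range_eq_top.2 hsur, finrank_top, finrank_prod, finrank_fin_fun, hfin] at h1
  have h2 : LinearMap.ker φ = ⊥ := Submodule.finrank_eq_zero.1 (by omega)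
  intro x hx
  have h3 : x ∈ LinearMap.ker φ := by
    rw [LinearMap.mem_ker, hφ]
    refine Prod.ext ?_ ?_
    · funext j; exact (hx j j.2).2
    · funext j; exact (hx j j.2).1
  rw [h2] at h3
  exact h3

theorem psu_pron {K : Type*} [Field K] [Fintype K] (p q : ℕ) [Fact p.Prime] [CharP K p]
    (hK : Fintype.card K = q ^ 2) {n m : ℕ} (hm : 0 < m) (hn : n = 2 * m) (X : Subgroup (Cfsg.PSU n K q))
    (hX : ¬ p ∣ X.index) : Cfsg.IsPronormal X := by
  obtain ⟨D⟩ := H6.SUGenC.exists_data (F := K) n hK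
  have H := D.skew
  have hS := toSk H
  obtain ⟨fr⟩ := exists_frame H (m := m) (by rw [Module.finrank_fin_fun]; omega)
    (by rw [Module.finrank_fin_fun]; omega)
  have hadm : Adm fr (SU D.h) := adm H hm p
  have hV := VV_bot fr hS (by rw [Module.finrank_fin_fun]; exact hn)
  have hQ : Q p (SU D.h) := Q_polar p hS hm hadm hV
  let e : Cfsg.SU n K q ≃* SU D.h :=
    (MonoidHom.ofInjective (H6.SUGenC.emb_injective n K q)).trans
      (MulEquiv.subgroupCongr (H6.SUGenC.range_emb D))
  let π : SU D.h →* Cfsg.PSU n K q :=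
    (QuotientGroup.mk' (Subgroup.center (Cfsg.SU n K q))).comp e.symm.toMonoidHom
  have hπ : Function.Surjective π :=
    (QuotientGroup.mk'_surjective _).comp e.symm.surjective
  exact (hQ.of_surjective π hπ).pron X hX

end H38.Pron
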