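import Mathlib
import Cfsg.Agent.Lib.H38.Pron2

/-!
# The criterion for groups with a large monomial subgroup
-/

set_option autoImplicit false

namespace H38.Pron

open scoped Pointwise
open Subgroup Matrix

section mon

variable {G : Type*} [Group G] {K : Type*} [Field K] {J : Type*} [Fintype J] [DecidableEq J]
  (ρ : G →* Matrix J J K)

omit [Fintype J] [DecidableEq J] in
theorem p_inv (π : Equiv.Perm J) (j : J) : π (π⁻¹ j) = j := by
  rw [← Equiv.Perm.mul_apply, mul_inv_cancel]; rfl

omit [Fintype J] [DecidableEq J] in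
theorem inv_p (π : Equiv.Perm J) (j : J) : π⁻¹ (π j) = j := by
  rw [← Equiv.Perm.mul_apply, inv_mul_cancel]; rfl

/-- standard basis vector -/
def e (j : J) : J → K := Pi.single j 1

omit [Fintype J] in
theorem e_same (j : J) : (e j : J → K) j = 1 := by simp [e]

omit [Fintype J] in
theorem e_ne {i j : J} (h : i ≠ j) : (e j : J → K) i = 0 := by simp [e, h]

omit [Fintype J] in
theorem e_ne_zero (j : J) : (e j : J → K) ≠ 0 := by
  intro h
  have := congrFun h j
  rw [e_same] at this
  exact one_ne_zero this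

theorem mul_ext {A B : Matrix J J K} (h : ∀ j, A *ᵥ e j = B *ᵥ e j) : A = B := by
  ext i j
  have := congrFun (h j) i
  simpa [e] using this

omit [Fintype J] in
theorem smul_e_inj {i j : J} {a b : K} (ha : a ≠ 0) (h : a • (e i : J → K) = b • e j) : i = j ∧ a = b := by
  have hij : i = j := by
    by_contra hne
    have := congrFun h i
    simp only [Pi.smul_apply, smul_eq_mul, e_same, e_ne hne, mul_one, mul_zero] at this
    exact ha this
  subst hij
  refine ⟨rfl, ?_⟩
  have := congrFun h i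
  simpa [e_same] using this

/-- `g` acts diagonally, with entries `a` -/
def IsDiag (g : G) (a : J → K) : Prop := ∀ j, ρ g *ᵥ e j = a j • e j

/-- `g` acts monomially -/
def IsMon (g : G) (π : Equiv.Perm J) (c : J → K) : Prop := ∀ j, ρ g *ᵥ e j = c j • e (π j)

variable {ρ}

theorem act_mul (g h : G) (v : J → K) : ρ (g * h) *ᵥ v = ρ g *ᵥ (ρ h *ᵥ v) := by
  rw [map_mul, Matrix.mulVec_mulVec]

theorem act_inv (g : G) (v : J → K) : ρ g⁻¹ *ᵥ (ρ g *ᵥ v) = v := by
  rw [← act_mul, inv_mul_cancel, map_one, Matrix.one_mulVec]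

theorem act_ne_zero (g : G) {v : J → K} (hv : v ≠ 0) : ρ g *ᵥ v ≠ 0 := by
  intro h
  apply hv
  have := act_inv (ρ := ρ) g v
  rw [h, Matrix.mulVec_zero] at this
  exact this.symm

theorem IsDiag.isMon {g : G} {a : J → K} (h : IsDiag ρ g a) : IsMon ρ g 1 a := h

theorem IsMon.ne_zero {g : G} {π : Equiv.Perm J} {c : J → K} (h : IsMon ρ g π c) (j : J) : c j ≠ 0 := by
  intro h0
  have := act_ne_zero (ρ := ρ) g (e_ne_zero (K := K) j)
  rw [h j, h0, zero_smul] at this
  exact this rfl

theorem IsMon.unique {g : G} {π π' : Equiv.Perm J} {c c' : J → K} (h : IsMon ρ g π c) (h' : IsMon ρ g π' c') :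
    π = π' ∧ c = c' := by
  have : ∀ j, π j = π' j ∧ c j = c' j := by
    intro j
    apply smul_e_inj (h.ne_zero j)
    rw [← h j, ← h' j]
  exact ⟨Equiv.ext fun j => (this j).1, funext fun j => (this j).2⟩

theorem IsMon.mul {g h : G} {π σ : Equiv.Perm J} {c d : J → K} (hg : IsMon ρ g π c) (hh : IsMon ρ h σ d) :
    IsMon ρ (g * h) (π * σ) (fun j => d j * c (σ j)) := by
  intro j
  rw [act_mul, hh j, Matrix.mulVec_smul, hg (σ j), smul_smul]
  rfl

theorem IsMon.one : IsMon ρ (1 : G) 1 (fun _ => (1 : K)) := by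
  intro j
  rw [map_one, Matrix.one_mulVec, one_smul]; rfl

theorem IsMon.inv {g : G} {π : Equiv.Perm J} {c : J → K} (hg : IsMon ρ g π c) :
    IsMon ρ g⁻¹ π⁻¹ (fun j => (c (π⁻¹ j))⁻¹) := by
  intro j
  have h1 := hg (π⁻¹ j)
  rw [p_inv] at h1
  have h2 := act_inv (ρ := ρ) g (e (π⁻¹ j))
  rw [h1, Matrix.mulVec_smul] at h2
  have h3 := hg.ne_zero (π⁻¹ j)
  rw [← h2, smul_smul, inv_mul_cancel₀ h3, one_smul]

theorem IsDiag.mul {g h : G} {a b : J → K} (hg : IsDiag ρ g a) (hh : IsDiag ρ h b) :
    IsDiag ρ (g * h) (fun j => a j * b j) := by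
  intro j
  rw [act_mul, hh j, Matrix.mulVec_smul, hg j, smul_smul, mul_comm]

theorem IsDiag.inv {g : G} {a : J → K} (hg : IsDiag ρ g a) : IsDiag ρ g⁻¹ (fun j => (a j)⁻¹) := by
  have := hg.isMon.inv
  intro j
  have := this j
  simpa using this

theorem IsDiag.conj {g h : G} {π : Equiv.Perm J} {c a : J → K} (hg : IsMon ρ g π c) (hh : IsDiag ρ h a) :
    IsDiag ρ (g * h * g⁻¹) (fun j => a (π⁻¹ j)) := by
  intro j
  have h1 := (hg.mul hh.isMon).mul hg.inv j
  rw [h1]
  simp only [mul_one, Equiv.Perm.mul_apply, p_inv, Equiv.Perm.coe_one, id_eq]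
  congr 1
  have := hg.ne_zero (π⁻¹ j)
  field_simp

variable (hinj : Function.Injective ρ)

include hinj in
theorem IsDiag.comm {g h : G} {a b : J → K} (hg : IsDiag ρ g a) (hh : IsDiag ρ h b) : g * h = h * g := by
  apply hinj
  apply mul_ext
  intro j
  rw [hg.mul hh j, hh.mul hg j]
  show (a j * b j) • (e j : J → K) = (b j * a j) • (e j : J → K)
  rw [mul_comm]

variable [Finite G]

include hinj in
/-- The monomial criterion. -/
theorem monP {I : Type} [Fintype I] [DecidableEq I] (β : J → I) (hβ : Function.Surjective β)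
    (hsep : ∀ j, ∃ (g : G) (a : J → K), (∃ k, g ^ 2 ^ k = 1) ∧ IsDiag ρ g a ∧ ∀ k, k ≠ j → a k ≠ a j)
    (hquad : ∀ (g : G) (π : Equiv.Perm J) (c : J → K), IsMon ρ g π c → π ≠ 1 →
      ∃ (h : G) (a : J → K), (∃ k, h ^ 2 ^ k = 1) ∧ IsDiag ρ h a ∧ ∃ i, a (π (π i)) * a i ≠ a (π i) ^ 2)
    (hblk : ∀ (g : G) (π : Equiv.Perm J) (c : J → K), IsMon ρ g π c → ∀ i j, β i = β j → β (π i) = β (π j))
    (hsurj : ∀ σ : Equiv.Perm I, ∃ (g : G) (π : Equiv.Perm J) (c : J → K), IsMon ρ g π c ∧ ∀ j, β (π j) = σ (β j))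
    (hker : ∀ π : Equiv.Perm J, (∀ j, β (π j) = β j) → π * π = 1)
    (htr : ∀ i j : J, ∃ (g : G) (π : Equiv.Perm J) (c : J → K), IsMon ρ g π c ∧ π i = j)
    {w : ℕ} (hJ : Nat.card J = 2 ^ w) : P G := by
  classical
  -- the subgroups
  let M : Subgroup G :=
    { carrier := {g | ∃ π c, IsMon ρ g π c}
      mul_mem' := by
        rintro g h ⟨π, c, hg⟩ ⟨σ, d, hh⟩
        exact ⟨_, _, hg.mul hh⟩
      one_mem' := ⟨_, _, IsMon.one⟩
      inv_mem' := by
        rintro g ⟨π, c, hg⟩
        exact ⟨_, _, hg.inv⟩ }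
  let D : Subgroup G :=
    { carrier := {g | ∃ a, IsDiag ρ g a}
      mul_mem' := by
        rintro g h ⟨a, hg⟩ ⟨b, hh⟩
        exact ⟨_, hg.mul hh⟩
      one_mem' := ⟨_, (IsMon.one : IsMon ρ (1 : G) 1 _)⟩
      inv_mem' := by
        rintro g ⟨a, hg⟩
        exact ⟨_, hg.inv⟩ }
  let A : Subgroup G :=
    { carrier := {g | (∃ a, IsDiag ρ g a) ∧ ∃ k, g ^ 2 ^ k = 1}
      mul_mem' := by
        rintro g h ⟨⟨a, hg⟩, k, hk⟩ ⟨⟨b, hh⟩, l, hl⟩
        refine ⟨⟨_, hg.mul hh⟩, k + l, ?_⟩
        have hc : Commute g h := IsDiag.comm hinj hg hh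
        rw [hc.mul_pow, pow_add, pow_mul, hk, one_pow, one_mul, mul_comm (2 ^ k), pow_mul, hl, one_pow]
      one_mem' := ⟨⟨_, (IsMon.one : IsMon ρ (1 : G) 1 _)⟩, 0, by simp⟩
      inv_mem' := by
        rintro g ⟨⟨a, hg⟩, k, hk⟩
        exact ⟨⟨_, hg.inv⟩, k, by rw [inv_pow, hk, inv_one]⟩ }
  have hDc : ∀ x ∈ D, ∀ y ∈ D, x * y = y * x := by
    rintro x ⟨a, ha⟩ y ⟨b, hb⟩
    exact IsDiag.comm hinj ha hb
  -- eigenvector argument
  have hline : ∀ (x : G) (j : J) (g : G) (a : J → K), IsDiag ρ g a → (∀ k, k ≠ j → a k ≠ a j) →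
      ∀ v : J → K, ρ g *ᵥ v = a j • v → ∃ c : K, v = c • e j := by
    intro x j g a hg hsepj v hv
    refine ⟨v j, ?_⟩
    have hcoord : ∀ k, a k * v k = a j * v k := by
      intro k
      have hve : v = ∑ i, v i • (e i : J → K) := by
        funext l
        rw [Finset.sum_apply]
        rw [Finset.sum_eq_single l]
        · simp [e_same]
        · intro b _ hb; simp [e_ne hb.symm]
        · intro h; exact absurd (Finset.mem_univ _) h
      have h1 : ρ g *ᵥ v = ∑ i, v i • (a i • (e i : J → K)) := by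
        conv_lhs => rw [hve]
        rw [Matrix.mulVec_sum]
        exact Finset.sum_congr rfl fun i _ => by rw [Matrix.mulVec_smul, hg i]
      rw [h1] at hv
      have h2 := congrFun hv k
      rw [Finset.sum_apply, Finset.sum_eq_single k] at h2
      · simp only [Pi.smul_apply, smul_eq_mul, e_same, mul_one] at h2
        rw [← h2]; ring
      · intro b _ hb; simp [e_ne hb.symm]
      · intro h; exact absurd (Finset.mem_univ _) h
    funext k
    by_cases hk : k = j
    · subst hk; simp [e_same]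
    · have h1 := hcoord k
      have h2 : v k = 0 := by
        by_contra hne
        exact hsepj k hk (mul_right_cancel₀ hne h1)
      simp [h2, e_ne hk]
  have hDC : D = centralizer (A : Set G) := by
    apply le_antisymm
    · intro x hx
      rw [Subgroup.mem_centralizer_iff]
      rintro a ⟨ha, -⟩
      exact hDc a ha x hx
    · intro x hx
      rw [Subgroup.mem_centralizer_iff] at hx
      have : ∀ j, ∃ c : K, ρ x *ᵥ e j = c • e j := by
        intro j
        obtain ⟨g, a, hg2, hg, hsepj⟩ := hsep j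
        apply hline x j g a hg hsepj
        have h1 := hx g ⟨⟨a, hg⟩, hg2⟩
        rw [← act_mul, h1, act_mul, hg j, Matrix.mulVec_smul]
      choose c hc using this
      exact ⟨c, hc⟩
  have hMN : M = normalizer (A : Set G) := by
    apply le_antisymm
    · have hA : ∀ x ∈ M, ∀ a ∈ A, x * a * x⁻¹ ∈ A := by
        rintro x ⟨π, c, hx⟩ a ⟨⟨b, hb⟩, k, hk⟩
        exact ⟨⟨_, IsDiag.conj hx hb⟩, k, by rw [conj_pow, hk]; group⟩
      intro x hx
      rw [Subgroup.mem_normalizer_iff]
      intro a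
      refine ⟨hA x hx a, ?_⟩
      intro ha
      have h1 := hA x⁻¹ (inv_mem hx) _ ha
      have : x⁻¹ * (x * a * x⁻¹) * x⁻¹⁻¹ = a := by group
      rwa [this] at h1
    · intro x hx
      rw [Subgroup.mem_normalizer_iff] at hx
      have : ∀ j, ∃ (k : J) (c : K), ρ x *ᵥ e j = c • e k := by
        intro j
        obtain ⟨g, a, hg2, hg, hsepj⟩ := hsep j
        have h1 : x * g * x⁻¹ ∈ A := (hx g).mp ⟨⟨a, hg⟩, hg2⟩
        obtain ⟨⟨a', ha'⟩, -⟩ := h1
        -- v = x e_j is an eigenvector of x g x⁻¹ with eigenvalue a j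
        set v := ρ x *ᵥ (e j : J → K) with hv
        have hv0 : v ≠ 0 := act_ne_zero x (e_ne_zero j)
        obtain ⟨k, hk⟩ : ∃ k, v k ≠ 0 := by
          by_contra hcon
          push Not at hcon
          exact hv0 (funext hcon)
        have hgv : ρ (x * g * x⁻¹) *ᵥ v = a j • v := by
          rw [hv, act_mul, act_inv, act_mul, hg j, Matrix.mulVec_smul]
        -- coordinate k: a' k = a j
        have hak : a' k = a j := by
          have hve : v = ∑ i, v i • (e i : J → K) := by
            funext l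
            rw [Finset.sum_apply]
            rw [Finset.sum_eq_single l]
            · simp [e_same]
            · intro b _ hb; simp [e_ne hb.symm]
            · intro h; exact absurd (Finset.mem_univ _) h
          have h1 : ρ (x * g * x⁻¹) *ᵥ v = ∑ i, v i • (a' i • (e i : J → K)) := by
            conv_lhs => rw [hve]
            rw [Matrix.mulVec_sum]
            exact Finset.sum_congr rfl fun i _ => by rw [Matrix.mulVec_smul, ha' i]
          rw [h1] at hgv
          have h2 := congrFun hgv k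
          rw [Finset.sum_apply, Finset.sum_eq_single k] at h2
          · simp only [Pi.smul_apply, smul_eq_mul, e_same, mul_one] at h2
            rw [mul_comm] at h2
            exact mul_right_cancel₀ hk h2
          · intro b _ hb; simp [e_ne hb.symm]
          · intro h; exact absurd (Finset.mem_univ _) h
        -- x⁻¹ e_k is an eigenvector of g
        have h3 : ρ g *ᵥ (ρ x⁻¹ *ᵥ (e k : J → K)) = a j • (ρ x⁻¹ *ᵥ (e k : J → K)) := by
          have h4 : g = x⁻¹ * (x * g * x⁻¹) * x := by group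
          have h5 : ρ g *ᵥ (ρ x⁻¹ *ᵥ (e k : J → K)) = ρ x⁻¹ *ᵥ (ρ (x * g * x⁻¹) *ᵥ (e k : J → K)) := by
            rw [← act_mul, ← act_mul]
            congr 2
            group
          rw [h5, ha' k, Matrix.mulVec_smul, hak]
        obtain ⟨c, hc⟩ := hline x j g a hg hsepj _ h3
        have hc0 : c ≠ 0 := by
          intro h0
          have := act_ne_zero (ρ := ρ) x⁻¹ (e_ne_zero (K := K) k)
          rw [hc, h0, zero_smul] at this
          exact this rfl
        refine ⟨k, c⁻¹, ?_⟩
        have h6 : (e k : J → K) = c • (ρ x *ᵥ e j) := by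
          have := act_inv (ρ := ρ) x⁻¹ (e k)
          rw [hc, inv_inv, Matrix.mulVec_smul] at this
          exact this.symm
        rw [h6, smul_smul, inv_mul_cancel₀ hc0, one_smul]
      choose f c hfc using this
      have hc0 : ∀ j, c j ≠ 0 := by
        intro j h0
        have := act_ne_zero (ρ := ρ) x (e_ne_zero (K := K) j)
        rw [hfc, h0, zero_smul] at this
        exact this rfl
      have hfinj : Function.Injective f := by
        intro i j hij
        have h1 : (ρ x *ᵥ (e i : J → K)) = (c i * (c j)⁻¹) • (ρ x *ᵥ (e j : J → K)) := by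
          rw [hfc i, hfc j, smul_smul, mul_assoc, inv_mul_cancel₀ (hc0 j), mul_one, hij]
        have h2 := congrArg (fun v => ρ x⁻¹ *ᵥ v) h1
        rw [Matrix.mulVec_smul, act_inv, act_inv] at h2
        have h3 : (1 : K) • (e i : J → K) = (c i * (c j)⁻¹) • e j := by rw [one_smul]; exact h2
        exact (smul_e_inj one_ne_zero h3).1
      refine ⟨Equiv.ofBijective f (Finite.injective_iff_bijective.mp hfinj), c, ?_⟩
      intro j
      rw [hfc j]; rfl
  -- the permutation homomorphism
  have hperm : ∀ g : M, ∃ π : Equiv.Perm J, ∃ c : J → K, IsMon ρ (g : G) π c := fun g => g.2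
  choose perm hperm' using hperm
  choose coef hcoef using hperm'
  let pH : M →* Equiv.Perm J :=
    { toFun := perm
      map_one' := ((hcoef 1).unique (IsMon.one)).1
      map_mul' := fun g h => ((hcoef (g * h)).unique ((hcoef g).mul (hcoef h))).1 }
  have hpH : ∀ g : M, IsMon ρ (g : G) (pH g) (coef g) := hcoef
  -- the block homomorphism
  obtain ⟨s, hs⟩ := hβ.hasRightInverse
  have hsβ : ∀ (g : M) (j : J), β (pH g j) = β (pH g (s (β j))) := by
    intro g j
    exact hblk _ _ _ (hpH g) _ _ (hs (β j)).symm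
  let act : MulAction M I :=
    { smul := fun g i => β (pH g (s i))
      one_smul := by
        intro i
        show β (pH 1 (s i)) = i
        rw [map_one]; exact hs i
      mul_smul := by
        intro g h i
        show β (pH (g * h) (s i)) = β (pH g (s (β (pH h (s i)))))
        rw [map_mul, Equiv.Perm.mul_apply, hsβ] }
  let θ : M →* Equiv.Perm I := @MulAction.toPermHom M I _ act
  have hθ : ∀ (g : M) (i : I), θ g i = β (pH g (s i)) := fun _ _ => rfl
  have hθ' : ∀ (g : M) (j : J), θ g (β j) = β (pH g j) := fun g j => by rw [hθ, ← hsβ]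
  refine absP A M D hMN hDC (fun a ha => ha.2) (fun a ha b hb => hDc a ha.1 b hb.1) ?_ ?_ hDc θ ?_ ?_ ?_
  · intro x hx h2
    exact ⟨hx, h2⟩
  · rintro x ⟨π, c, hx⟩ hxD
    have hπ : π ≠ 1 := by
      rintro rfl
      exact hxD ⟨c, hx⟩
    obtain ⟨h, a, hh2, ha, i, hi⟩ := hquad x π c hx hπ
    refine ⟨h, ⟨⟨a, ha⟩, hh2⟩, ?_⟩
    intro hcomm
    have hb : IsDiag ρ (h * x * h⁻¹ * x⁻¹) (fun j => a j * (a (π⁻¹ j))⁻¹) := by
      have h1 : h * x * h⁻¹ * x⁻¹ = h * (x * h⁻¹ * x⁻¹) := by group
      rw [h1]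
      exact ha.mul (IsDiag.conj hx ha.inv)
    have h1 := hb.isMon.mul hx (π i)
    rw [hcomm.eq] at h1
    have h2 := hx.mul hb.isMon (π i)
    have h3 : (c (π i) * (a (π (π i)) * (a (π⁻¹ (π (π i))))⁻¹)) • (e (π (π i)) : J → K) =
        ((a (π i) * (a (π⁻¹ (π i)))⁻¹) * c (π i)) • (e (π (π i)) : J → K) := h1.symm.trans h2
    rw [inv_p, inv_p] at h3
    have h4 := congrFun h3 (π (π i))
    simp only [Pi.smul_apply, e_same, smul_eq_mul, mul_one] at h4
    have hc := hx.ne_zero (π i)
    have ha0 : ∀ j, a j ≠ 0 := fun j => ha.isMon.ne_zero j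
    apply hi
    have h5 : a (π (π i)) * (a (π i))⁻¹ = a (π i) * (a i)⁻¹ := by
      apply mul_left_cancel₀ hc
      rw [h4]; ring
    have := ha0 i
    have := ha0 (π i)
    field_simp at h5
    rw [h5]
  · intro σ
    obtain ⟨g, π, c, hg, hgs⟩ := hsurj σ
    refine ⟨⟨g, π, c, hg⟩, ?_⟩
    ext i
    obtain ⟨j, rfl⟩ := hβ i
    rw [hθ', ← hgs j]
    have : pH ⟨g, π, c, hg⟩ = π := ((hpH ⟨g, π, c, hg⟩).unique hg).1
    rw [this]
  · intro x hodd hx
    have h1 : ∀ j, β (pH x j) = β j := by
      intro j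
      rw [← hθ', hx]; rfl
    have h2 := hker _ h1
    have h3 : (pH x) ^ orderOf x = 1 := by rw [← map_pow, pow_orderOf_eq_one, map_one]
    obtain ⟨m, hm⟩ := hodd
    have h4 : pH x = 1 := by
      rw [hm, pow_add, pow_mul, pow_one, pow_two, h2, one_pow, one_mul] at h3
      exact h3
    have h5 := hpH x
    rw [h4] at h5
    exact ⟨_, h5⟩
  · rintro x ⟨a, ha⟩ T hT
    let act2 : MulAction M J :=
      { smul := fun g j => pH g j
        one_smul := by intro j; show pH 1 j = j; rw [map_one]; rfl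
        mul_smul := by intro g h j; show pH (g * h) j = pH g (pH h j); rw [map_mul]; rfl }
    have htr' : ∀ i j : J, ∃ n : M, n • i = j := by
      intro i j
      obtain ⟨g, π, c, hg, hij⟩ := htr i j
      refine ⟨⟨g, π, c, hg⟩, ?_⟩
      show pH ⟨g, π, c, hg⟩ i = j
      have : pH ⟨g, π, c, hg⟩ = π := ((hpH ⟨g, π, c, hg⟩).unique hg).1
      rw [this, hij]
    have heq : ∀ i j, a i = a j := by
      intro i j
      obtain ⟨t, htT, htij⟩ := sylow_transitive hJ htr' T i j
      have htij' : pH t i = j := htij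
      have h1 := hT t htT
      have h2 := (ha.isMon.mul (hpH t)) i
      have h3 := ((hpH t).mul ha.isMon) i
      have h4 : x * (t : G) = t * x := h1
      rw [h4] at h2
      have h5 : (coef t i * a (pH t i)) • (e (pH t i) : J → K) = (a i * coef t i) • (e (pH t i) : J → K) :=
        h2.symm.trans h3
      have h6 := congrFun h5 (pH t i)
      simp only [Pi.smul_apply, e_same, smul_eq_mul, mul_one] at h6
      have hc := (hpH t).ne_zero i
      rw [← htij']
      apply mul_left_cancel₀ hc
      rw [h6]; ring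
    rw [Subgroup.mem_center_iff]
    intro g
    apply hinj
    apply mul_ext
    intro j
    have hsc : ∀ v : J → K, ρ x *ᵥ v = a j • v := by
      intro v
      have hve : v = ∑ i, v i • (e i : J → K) := by
        funext l
        rw [Finset.sum_apply]
        rw [Finset.sum_eq_single l]
        · simp [e_same]
        · intro b _ hb; simp [e_ne hb.symm]
        · intro h; exact absurd (Finset.mem_univ _) h
      conv_lhs => rw [hve]
      conv_rhs => rw [hve]
      rw [Matrix.mulVec_sum, Finset.smul_sum]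
      refine Finset.sum_congr rfl fun i _ => ?_
      rw [Matrix.mulVec_smul, ha i, heq i j, smul_comm]
    rw [act_mul, act_mul, hsc, hsc, Matrix.mulVec_smul]

end mon

end H38.Pron
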