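import Mathlib
import Cfsg.Agent.Lib.H38.Pron3
import Cfsg.Prelude.Def_Classical

/-!
# The criterion for the monomial case: `SL_d(q)`, `q ≡ 1 (mod 4)`, and `SU_d(q)`, `q ≡ 3 (mod 4)`
-/

set_option autoImplicit false

namespace H38.Pron

open scoped Pointwise
open Subgroup Matrix

section mono

variable {G : Type*} [Group G] [Finite G] {K : Type*} [Field K] {J : Type} [Fintype J] [DecidableEq J]
  {ρ : G →* Matrix J J K}

omit [Finite G] in
theorem pow_eq_one_of_diag (hinj : Function.Injective ρ) {g : G} {a : J → K} {n : ℕ} (hg : IsDiag ρ g a)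
    (h : ∀ j, a j ^ n = 1) : g ^ n = 1 := by
  have hpow : ∀ m : ℕ, IsDiag ρ (g ^ m) (fun j => a j ^ m) := by
    intro m
    induction m with
    | zero =>
      intro j
      show _ = (a j ^ 0) • (e j : J → K)
      rw [pow_zero, map_one, Matrix.one_mulVec, pow_zero, one_smul]
    | succ m ih =>
      have := ih.mul hg
      rw [pow_succ]
      intro j
      rw [this j]
      show (a j ^ m * a j) • (e j : J → K) = (a j ^ (m + 1)) • (e j : J → K)
      rw [pow_succ]
  apply hinj
  apply mul_ext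
  intro j
  rw [hpow n j]
  show (a j ^ n) • (e j : J → K) = _
  rw [h j, map_one, Matrix.one_mulVec, one_smul]

theorem exists_not_mem_three (h4 : 4 ≤ Fintype.card J) (a b c : J) : ∃ l : J, l ≠ a ∧ l ≠ b ∧ l ≠ c := by
  classical
  by_contra hcon
  push Not at hcon
  have : (Finset.univ : Finset J) ⊆ {a, b, c} := by
    intro l _
    simp only [Finset.mem_insert, Finset.mem_singleton]
    by_cases h1 : l = a
    · exact Or.inl h1
    · by_cases h2 : l = b
      · exact Or.inr (Or.inl h2)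
      · exact Or.inr (Or.inr (hcon l h1 h2))
  have h5 := Finset.card_le_card this
  rw [Finset.card_univ] at h5
  have h6 : ({a, b, c} : Finset J).card ≤ 3 := Finset.card_le_three
  omega

/-- entries `z` at `i`, `z⁻¹` at `l`, `1` elsewhere -/
def two (i l : J) (z : K) : J → K := fun j => if j = i then z else if j = l then z⁻¹ else 1

theorem two_prod {i l : J} (hil : l ≠ i) {z : K} (hz : z ≠ 0) : ∏ j, two i l z j = 1 := by
  classical
  rw [← Finset.prod_subset (Finset.subset_univ ({i, l} : Finset J))]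
  · rw [Finset.prod_pair hil.symm]
    simp [two, hil, hz]
  · intro j _ hj
    simp only [Finset.mem_insert, Finset.mem_singleton, not_or] at hj
    simp [two, hj.1, hj.2]

theorem monoP (hinj : Function.Injective ρ) {w : ℕ} (hw : 2 ≤ w) (hJ : Fintype.card J = 2 ^ w)
    (h2 : (2 : K) ≠ 0) (z : K) (hz : z ^ 2 = -1)
    (hdiag : ∀ a : J → K, (∀ j, a j ^ 4 = 1) → ∏ j, a j = 1 → ∃ g, IsDiag ρ g a)
    (hperm : ∀ σ : Equiv.Perm J, ∃ (g : G) (c : J → K), IsMon ρ g σ c) : P G := by
  classical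
  have h4 : 4 ≤ Fintype.card J := by
    rw [hJ]
    calc 4 = 2 ^ 2 := by norm_num
      _ ≤ 2 ^ w := Nat.pow_le_pow_right (by norm_num) hw
  have hz0 : z ≠ 0 := by
    rintro rfl
    norm_num at hz
  have hm1 : (-1 : K) ≠ 1 := by
    intro h
    apply h2
    linear_combination -h
  have hz1 : z ≠ 1 := by
    rintro rfl
    rw [one_pow] at hz
    exact hm1 hz.symm
  have hz4 : z ^ 4 = 1 := by
    have : z ^ 4 = (z ^ 2) ^ 2 := by ring
    rw [this, hz]; ring
  have hzi : z⁻¹ = -z := by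
    field_simp
    linear_combination hz
  have hzne : z⁻¹ ≠ z := by
    rw [hzi]
    intro h
    have : 2 * z = 0 := by linear_combination -h
    rcases mul_eq_zero.mp this with h3 | h3
    · exact h2 h3
    · exact hz0 h3
  have hz14 : z⁻¹ ^ 4 = 1 := by rw [inv_pow, hz4, inv_one]
  have hex : ∀ i l : J, l ≠ i → ∃ g, (∃ k, g ^ 2 ^ k = 1) ∧ IsDiag ρ g (two i l z) := by
    intro i l hil
    have h5 : ∀ j, two i l z j ^ 4 = 1 := by
      intro j
      unfold two
      split_ifs
      · exact hz4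
      · exact hz14
      · exact one_pow _
    obtain ⟨g, hg⟩ := hdiag (two i l z) h5 (two_prod hil hz0)
    exact ⟨g, ⟨2, pow_eq_one_of_diag hinj hg h5⟩, hg⟩
  refine monP hinj (β := id) Function.surjective_id ?_ ?_ ?_ ?_ ?_ ?_ (w := w) (by rw [Nat.card_eq_fintype_card, hJ])
  · intro j
    obtain ⟨l, hl, -, -⟩ := exists_not_mem_three h4 j j j
    obtain ⟨g, hg2, hg⟩ := hex j l hl
    refine ⟨g, _, hg2, hg, ?_⟩
    intro k hk
    have h5 : two j l z j = z := by simp [two]
    rw [h5]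
    unfold two
    rw [if_neg hk]
    split_ifs
    · exact hzne
    · exact hz1.symm
  · intro g π c hg hπ
    obtain ⟨i, hi⟩ : ∃ i, π i ≠ i := by
      by_contra hcon
      push Not at hcon
      exact hπ (Equiv.ext hcon)
    obtain ⟨l, hl1, hl2, hl3⟩ := exists_not_mem_three h4 i (π i) (π (π i))
    obtain ⟨h, hh2, hh⟩ := hex (π i) l hl2
    refine ⟨h, _, hh2, hh, i, ?_⟩
    have e1 : two (π i) l z (π (π i)) = 1 := by
      have : π (π i) ≠ π i := fun h => hi (π.injective h)
      simp [two, this, hl3.symm]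
    have e2 : two (π i) l z i = 1 := by
      simp [two, hi.symm, hl1.symm]
    have e3 : two (π i) l z (π i) = z := by simp [two]
    rw [e1, e2, e3, hz, mul_one]
    exact hm1.symm
  · intro g π c _ i j hij
    have : i = j := hij
    rw [this]
  · intro σ
    obtain ⟨g, c, hg⟩ := hperm σ
    exact ⟨g, σ, c, hg, fun j => rfl⟩
  · intro π hπ
    have : π = 1 := Equiv.ext hπ
    rw [this, one_mul]
  · intro i j
    obtain ⟨g, c, hg⟩ := hperm (Equiv.swap i j)
    exact ⟨g, _, c, hg, Equiv.swap_apply_left _ _⟩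

end mono

section mats

variable {F : Type*} [Field F] {J : Type} [Fintype J] [DecidableEq J]

/-- monomial matrix: `e_j ↦ c_j e_{σ j}` -/
def mm (σ : Equiv.Perm J) (c : J → F) : Matrix J J F := fun i j => if i = σ j then c j else 0

theorem mm_mulVec (σ : Equiv.Perm J) (c : J → F) (v : J → F) (j : J) : (mm σ c *ᵥ v) (σ j) = c j * v j := by
  rw [Matrix.mulVec, dotProduct, Finset.sum_eq_single j]
  · simp [mm]
  · intro b _ hb
    have : ¬ σ j = σ b := fun h => hb (σ.injective h).symm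
    simp [mm, this]
  · intro h; exact absurd (Finset.mem_univ _) h

theorem mm_e (σ : Equiv.Perm J) (c : J → F) (j : J) : mm σ c *ᵥ e j = c j • e (σ j) := by
  funext i
  obtain ⟨k, rfl⟩ := σ.surjective i
  rw [mm_mulVec]
  by_cases hk : k = j
  · subst hk; simp [e_same]
  · have : σ k ≠ σ j := fun h => hk (σ.injective h)
    simp [e_ne hk, e_ne this]

theorem mm_eq (σ : Equiv.Perm J) (c : J → F) :
    mm σ c = (Equiv.Perm.permMatrix F σ⁻¹ : Matrix J J F) * Matrix.diagonal c := by
  ext i j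
  rw [Matrix.mul_diagonal]
  unfold mm
  rw [Equiv.Perm.permMatrix, PEquiv.toMatrix_apply]
  have : (j ∈ (Equiv.toPEquiv σ⁻¹) i) ↔ i = σ j := by
    rw [Equiv.toPEquiv_apply, Option.mem_some_iff]
    constructor
    · intro h; rw [← h, p_inv]
    · intro h; rw [h, inv_p]
  simp only [this]
  split_ifs <;> simp

theorem det_mm (σ : Equiv.Perm J) (c : J → F) : (mm σ c).det = (Equiv.Perm.sign σ : ℤ) * ∏ j, c j := by
  rw [mm_eq, Matrix.det_mul, Matrix.det_permutation, Matrix.det_diagonal, Equiv.Perm.sign_inv]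

/-- coefficients making the determinant `1` -/
theorem exists_coef [Nonempty J] (σ : Equiv.Perm J) : ∃ c : J → F, (∀ j, c j = 1 ∨ c j = -1) ∧ (mm σ c).det = 1 := by
  classical
  obtain ⟨j0⟩ := (inferInstance : Nonempty J)
  refine ⟨fun j => if j = j0 then ((Equiv.Perm.sign σ : ℤ) : F) else 1, ?_, ?_⟩
  · intro j
    by_cases hj : j = j0
    · simp only [hj, if_true]
      rcases Int.units_eq_one_or (Equiv.Perm.sign σ) with h | h
      · left; rw [h]; simp
      · right; rw [h]; simp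
    · left; simp [hj]
  · rw [det_mm, Finset.prod_ite_eq']
    simp only [Finset.mem_univ, if_true]
    rcases Int.units_eq_one_or (Equiv.Perm.sign σ) with h | h <;> rw [h] <;> simp

end mats

section SL

variable {F : Type*} [Field F] [Fintype F]

/-- the inclusion of `SL` in matrices -/
def slM (n : ℕ) (F : Type*) [Field F] : SpecialLinearGroup (Fin n) F →* Matrix (Fin n) (Fin n) F where
  toFun g := g
  map_one' := rfl
  map_mul' _ _ := rfl

omit [Fintype F] in
theorem slM_inj (n : ℕ) : Function.Injective (slM n F) := fun _ _ h => Subtype.ext h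

theorem P_SL_one {w : ℕ} (hw : 2 ≤ w) (hF : Fintype.card F % 4 = 1) :
    P (SpecialLinearGroup (Fin (2 ^ w)) F) := by
  classical
  have hodd : Fintype.card F % 2 = 1 := by omega
  have hchar : ringChar F ≠ 2 := by
    intro h
    have := FiniteField.even_card_of_char_two h
    omega
  have h2 : (2 : F) ≠ 0 := Ring.two_ne_zero hchar
  obtain ⟨z, hz⟩ : ∃ z : F, z ^ 2 = -1 := by
    have : IsSquare (-1 : F) := (FiniteField.isSquare_neg_one_iff).mpr (by omega)
    obtain ⟨z, hz⟩ := this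
    exact ⟨z, by rw [pow_two, ← hz]⟩
  have : Nonempty (Fin (2 ^ w)) := ⟨⟨0, by positivity⟩⟩
  refine monoP (ρ := slM (2 ^ w) F) (slM_inj _) hw (Fintype.card_fin _) h2 z hz ?_ ?_
  · intro a _ hprod
    refine ⟨⟨mm 1 a, ?_⟩, ?_⟩
    · rw [det_mm]; simp [hprod]
    · intro j
      exact mm_e 1 a j
  · intro σ
    obtain ⟨c, -, hc⟩ := exists_coef (F := F) σ
    exact ⟨⟨mm σ c, hc⟩, c, fun j => mm_e σ c j⟩

omit [Fintype F] in
/-- monomial matrices with entries of norm one are unitary -/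
theorem mm_unitary {n q : ℕ} (σ : Equiv.Perm (Fin n)) (c : Fin n → F) (hc : ∀ j, c j ^ (q + 1) = 1)
    (u v : Fin n → F) : Cfsg.hermForm n F q (mm σ c *ᵥ u) (mm σ c *ᵥ v) = Cfsg.hermForm n F q u v := by
  unfold Cfsg.hermForm
  rw [← Equiv.sum_comp σ]
  refine Finset.sum_congr rfl fun j _ => ?_
  rw [mm_mulVec, mm_mulVec, mul_pow]
  have := hc j
  rw [pow_succ] at this
  linear_combination (u j * v j ^ q) * this

/-- the inclusion of `SU` in matrices -/
def suM (n : ℕ) (F : Type*) [Field F] (q : ℕ) : Cfsg.SU n F q →* Matrix (Fin n) (Fin n) F :=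
  (slM n F).comp (Cfsg.SU n F q).subtype

omit [Fintype F] in
theorem suM_inj (n q : ℕ) : Function.Injective (suM n F q) := fun _ _ h => Subtype.ext (Subtype.ext h)

omit [Fintype F] in
theorem mk_SU {n q : ℕ} (M : Matrix (Fin n) (Fin n) F) (hdet : M.det = 1)
    (h : ∀ u v, Cfsg.hermForm n F q (M *ᵥ u) (M *ᵥ v) = Cfsg.hermForm n F q u v) :
    (⟨M, hdet⟩ : SpecialLinearGroup (Fin n) F) ∈ Cfsg.SU n F q := h

theorem P_SU_three {w q : ℕ} (hw : 2 ≤ w) (hF : Fintype.card F = q ^ 2) (hq : q % 4 = 3) :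
    P (Cfsg.SU (2 ^ w) F q) := by
  classical
  have hodd : Fintype.card F % 4 = 1 := by
    rw [hF, pow_two, Nat.mul_mod, hq]
  have hchar : ringChar F ≠ 2 := by
    intro h
    have := FiniteField.even_card_of_char_two h
    omega
  have h2 : (2 : F) ≠ 0 := Ring.two_ne_zero hchar
  obtain ⟨z, hz⟩ : ∃ z : F, z ^ 2 = -1 := by
    have : IsSquare (-1 : F) := (FiniteField.isSquare_neg_one_iff).mpr (by omega)
    obtain ⟨z, hz⟩ := this
    exact ⟨z, by rw [pow_two, ← hz]⟩
  have : Nonempty (Fin (2 ^ w)) := ⟨⟨0, by positivity⟩⟩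
  refine monoP (ρ := suM (2 ^ w) F q) (suM_inj _ _) hw (Fintype.card_fin _) h2 z hz ?_ ?_
  · intro a ha hprod
    have hdet : (mm 1 a : Matrix (Fin (2 ^ w)) (Fin (2 ^ w)) F).det = 1 := by rw [det_mm]; simp [hprod]
    refine ⟨⟨⟨mm 1 a, hdet⟩, mk_SU _ hdet (mm_unitary 1 a ?_)⟩, ?_⟩
    · intro j
      obtain ⟨t, ht⟩ : 4 ∣ q + 1 := by omega
      rw [ht, pow_mul, ha j, one_pow]
    · intro j
      exact mm_e 1 a j
  · intro σ
    obtain ⟨c, hc1, hc⟩ := exists_coef (F := F) σ
    refine ⟨⟨⟨mm σ c, hc⟩, mk_SU _ hc (mm_unitary σ c ?_)⟩, c, fun j => mm_e σ c j⟩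
    intro j
    obtain ⟨t, ht⟩ : 2 ∣ q + 1 := by omega
    rcases hc1 j with h | h
    · rw [h, one_pow]
    · rw [h, ht, pow_mul]; norm_num

end SL

end H38.Pron
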