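import Mathlib
import Cfsg.Agent.Lib.H38.Pron4

/-!
# The criterion for the pair case: blocks of size 2
-/

set_option autoImplicit false

namespace H38.Pron

open scoped Pointwise
open Subgroup Matrix

section pair

variable {G : Type*} [Group G] [Finite G] {K : Type*} [Field K] {I : Type} [Fintype I] [DecidableEq I]
  {ρ : G →* Matrix (Fin 2 × I) (Fin 2 × I) K}

/-- the diagonal entries `(a_i, τ a_i)` -/
def dd (τ : K → K) (a : I → K) : Fin 2 × I → K := fun j => if j.1 = 0 then a j.2 else τ (a j.2)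

theorem fin2_cases (b : Fin 2) : b = 0 ∨ b = 1 := by
  fin_cases b
  · left; rfl
  · right; rfl

theorem fin2_eq : ∀ {a b c : Fin 2}, a ≠ b → b ≠ c → a = c := by decide

theorem pairP (hinj : Function.Injective ρ) {w : ℕ} (hw : 2 ≤ w) (hI : Fintype.card I = 2 ^ (w - 1))
    (τ : K → K) (Adm : K → Prop) (hτ1 : τ 1 = 1) (hτm : τ (-1) = -1) (h2 : (2 : K) ≠ 0)
    (hτi : ∀ x, τ x⁻¹ = (τ x)⁻¹)
    (hAdm1 : Adm 1) (hAdmm : Adm (-1)) (hAdm2 : ∀ x, Adm x → ∃ k, x ^ 2 ^ k = 1 ∧ τ x ^ 2 ^ k = 1)
    (c : K) (hc : Adm c) (hci : Adm c⁻¹) (hc2 : c ^ 2 ≠ τ c ^ 2) (hcτ : c * τ c ≠ 1) (hcc : c ^ 2 ≠ 1)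
    (hτcc : τ c ^ 2 ≠ 1)
    (d : K) (hd : Adm d) (hdτ : d * τ d = 1) (hdd : d ^ 2 ≠ 1)
    (P1 : ∀ a : I → K, (∀ i, Adm (a i)) → ∏ i, (a i * τ (a i)) = 1 → ∃ g, IsDiag ρ g (dd τ a))
    (P2 : ∀ g b, IsDiag ρ g b → ∀ i, b (1, i) = τ (b (0, i)))
    (P3 : ∀ π : Equiv.Perm I, ∃ (g : G) (σ : Equiv.Perm (Fin 2 × I)) (cf : Fin 2 × I → K),
      IsMon ρ g σ cf ∧ ∀ j, σ j = (j.1, π j.2))
    (P4 : ∃ (g : G) (σ : Equiv.Perm (Fin 2 × I)) (cf : Fin 2 × I → K) (i : I),
      IsMon ρ g σ cf ∧ σ (0, i) = (1, i)) : P G := by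
  classical
  have hm1 : (-1 : K) ≠ 1 := by
    intro h
    apply h2
    linear_combination -h
  have h2I : 2 ≤ Fintype.card I := by
    rw [hI]
    calc 2 = 2 ^ 1 := by norm_num
      _ ≤ 2 ^ (w - 1) := Nat.pow_le_pow_right (by norm_num) (by omega)
  have hexI : ∀ i : I, ∃ l : I, l ≠ i := by
    intro i
    have : Nontrivial I := Fintype.one_lt_card_iff_nontrivial.mp (by omega)
    exact exists_ne i
  have hc0 : c ≠ 0 := by
    rintro rfl
    obtain ⟨k, hk, -⟩ := hAdm2 0 hc
    rw [zero_pow (by positivity)] at hk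
    exact zero_ne_one hk
  have hτc0 : τ c ≠ 0 := by
    intro h
    obtain ⟨k, -, hk⟩ := hAdm2 c hc
    rw [h, zero_pow (by positivity)] at hk
    exact zero_ne_one hk
  -- two-elements
  have htwo : ∀ a : I → K, (∀ i, Adm (a i)) → ∀ g, IsDiag ρ g (dd τ a) → ∃ k, g ^ 2 ^ k = 1 := by
    intro a ha g hg
    choose k hk1 hk2 using fun i => hAdm2 (a i) (ha i)
    refine ⟨∑ i, k i, ?_⟩
    apply pow_eq_one_of_diag hinj hg
    rintro ⟨b, i⟩
    have hsum : ∑ i, k i = k i + ∑ j ∈ Finset.univ.erase i, k j :=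
      (Finset.add_sum_erase _ _ (Finset.mem_univ i)).symm
    rw [hsum, pow_add, pow_mul]
    have : dd τ a (b, i) ^ 2 ^ k i = 1 := by
      unfold dd
      split_ifs
      · exact hk1 i
      · exact hk2 i
    rw [this, one_pow]
  -- element types
  have hneg : ∀ i : I, ∃ g, IsDiag ρ g (dd τ (fun l => if l = i then -1 else 1)) := by
    intro i
    apply P1
    · intro l; split_ifs <;> assumption
    · apply Finset.prod_eq_one
      intro l _
      split_ifs
      · rw [hτm]; ring
      · rw [hτ1]; ring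
  have hcc' : ∀ i l : I, l ≠ i → ∃ g, (∃ k, g ^ 2 ^ k = 1) ∧ IsDiag ρ g (dd τ (two i l c)) := by
    intro i l hil
    have hA : ∀ j, Adm (two i l c j) := by
      intro j; unfold two; split_ifs <;> assumption
    obtain ⟨g, hg⟩ := P1 (two i l c) hA (by
      have h1 : ∀ j, two i l c j * τ (two i l c j) = two i l (c * τ c) j := by
        intro j
        unfold two
        split_ifs
        · rfl
        · rw [hτi, mul_inv]
        · rw [hτ1, mul_one]
      rw [Finset.prod_congr rfl fun j _ => h1 j]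
      exact two_prod hil (mul_ne_zero hc0 hτc0))
    exact ⟨g, htwo _ hA g hg, hg⟩
  have hdd' : ∀ i : I, ∃ g, (∃ k, g ^ 2 ^ k = 1) ∧ IsDiag ρ g (dd τ (fun l => if l = i then d else 1)) := by
    intro i
    have hA : ∀ l, Adm (if l = i then d else 1) := by
      intro l; split_ifs <;> assumption
    obtain ⟨g, hg⟩ := P1 _ hA (by
      apply Finset.prod_eq_one
      intro l _
      split_ifs
      · exact hdτ
      · rw [hτ1]; ring)
    exact ⟨g, htwo _ hA g hg, hg⟩
  -- blocks are permuted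
  have hblk : ∀ (g : G) (π : Equiv.Perm (Fin 2 × I)) (cf : Fin 2 × I → K), IsMon ρ g π cf →
      ∀ i, (π (0, i)).2 = (π (1, i)).2 := by
    intro g π cf hg i
    obtain ⟨z, hz⟩ := hneg i
    have h1 := IsDiag.conj hg hz
    have h2 := P2 _ _ h1
    set B : Fin 2 × I → K := fun j => dd τ (fun l => if l = i then -1 else 1) (π⁻¹ j) with hB
    have hBval : ∀ j, B j = if (π⁻¹ j).2 = i then -1 else 1 := by
      intro j
      rw [hB]
      simp only [dd]
      split_ifs <;> simp_all
    -- k = block of π (0,i)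
    set k := (π (0, i)).2 with hk
    have h3 : B (π (0, i)) = -1 := by rw [hBval, inv_p]; simp
    have h4 : B (0, k) = -1 ∧ B (1, k) = -1 := by
      have h5 : B (1, k) = τ (B (0, k)) := h2 k
      have h6 : B (0, k) = -1 ∨ B (0, k) = 1 := by
        rw [hBval]; split_ifs
        · left; rfl
        · right; rfl
      rcases fin2_cases (π (0, i)).1 with h7 | h7
      · have h8 : π (0, i) = (0, k) := Prod.ext h7 rfl
        rw [h8] at h3
        refine ⟨h3, ?_⟩
        rw [h5, h3, hτm]
      · have h8 : π (0, i) = (1, k) := Prod.ext h7 rfl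
        rw [h8] at h3
        refine ⟨?_, h3⟩
        rcases h6 with h6 | h6
        · exact h6
        · exfalso
          rw [h5, h6, hτ1] at h3
          exact hm1 h3.symm
    -- both coordinates of block k come from block i
    have h5 : ∀ b : Fin 2, (π⁻¹ (b, k)).2 = i := by
      intro b
      have h6 : B (b, k) = -1 := by
        rcases fin2_cases b with rfl | rfl
        · exact h4.1
        · exact h4.2
      rw [hBval] at h6
      by_contra hne
      rw [if_neg hne] at h6
      exact hm1 h6.symm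
    -- π (1,i) is one of (0,k), (1,k)
    have h6 : ∃ b : Fin 2, π⁻¹ (b, k) = (1, i) := by
      by_contra hcon
      push Not at hcon
      have h7 : ∀ b : Fin 2, π⁻¹ (b, k) = (0, i) := by
        intro b
        rcases fin2_cases (π⁻¹ (b, k)).1 with h8 | h8
        · exact Prod.ext h8 (h5 b)
        · exact absurd (Prod.ext h8 (h5 b)) (hcon b)
      have h8 := (h7 0).trans (h7 1).symm
      have h9 := π⁻¹.injective h8
      simp at h9
    obtain ⟨b, hb⟩ := h6
    have : π (1, i) = (b, k) := by rw [← hb, p_inv]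
    rw [this]
  refine monP hinj (β := Prod.snd) (fun i => ⟨(0, i), rfl⟩) ?_ ?_ ?_ ?_ ?_ ?_ (w := w) ?_
  · rintro ⟨b, i⟩
    obtain ⟨l, hl⟩ := hexI i
    obtain ⟨g, hg2, hg⟩ := hcc' i l hl
    refine ⟨g, _, hg2, hg, ?_⟩
    rintro ⟨b', k⟩ hne
    have hcne1 : c ≠ 1 := by
      rintro rfl; apply hcc; ring
    have hτcne1 : τ c ≠ 1 := by
      intro h; apply hτcc; rw [h]; ring
    have hci : c⁻¹ ≠ c := by
      intro h; apply hcc
      rw [pow_two]; nth_rewrite 1 [← h]; exact inv_mul_cancel₀ hc0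
    have hτci : (τ c)⁻¹ ≠ τ c := by
      intro h; apply hτcc
      rw [pow_two]; nth_rewrite 1 [← h]; exact inv_mul_cancel₀ hτc0
    have h1 : c ≠ τ c := by
      intro h; apply hc2; rw [← h]
    have h2' : c⁻¹ ≠ τ c := by
      intro h; apply hcτ; rw [← h, mul_inv_cancel₀ hc0]
    have h3' : (τ c)⁻¹ ≠ c := by
      intro h; apply hcτ; nth_rewrite 1 [← h]; exact inv_mul_cancel₀ hτc0
    by_cases hk : k = i
    · subst hk
      have hbb : b' ≠ b := fun h => hne (by rw [h])
      rcases fin2_cases b with rfl | rfl <;> rcases fin2_cases b' with rfl | rfl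
      · exact absurd rfl hbb
      · simp only [dd, two, if_true]; simpa using h1.symm
      · simp only [dd, two, if_true]; simpa using h1
      · exact absurd rfl hbb
    · by_cases hkl : k = l
      · subst hkl
        rcases fin2_cases b with rfl | rfl <;> rcases fin2_cases b' with rfl | rfl
        · simp [dd, two, hk]; exact hci
        · simp [dd, two, hk, hτi]; exact h3'
        · simp [dd, two, hk]; exact h2'
        · simp [dd, two, hk, hτi]; exact hτci
      · rcases fin2_cases b with rfl | rfl <;> rcases fin2_cases b' with rfl | rfl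
        · simp [dd, two, hk, hkl]; exact hcne1.symm
        · simp [dd, two, hk, hkl, hτ1]; exact hcne1.symm
        · simp [dd, two, hk, hkl]; exact hτcne1.symm
        · simp [dd, two, hk, hkl, hτ1]; exact hτcne1.symm
  · intro g π cf hg hπ
    by_cases hpres : ∀ j, (π j).2 = j.2
    · -- preserves blocks
      obtain ⟨x, hx⟩ : ∃ x, π x ≠ x := by
        by_contra hcon
        push Not at hcon
        exact hπ (Equiv.ext hcon)
      obtain ⟨l, hl⟩ := hexI x.2
      obtain ⟨h, hh2, hh⟩ := hcc' x.2 l hl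
      refine ⟨h, _, hh2, hh, x, ?_⟩
      have hπ1 : (π x).1 ≠ x.1 := fun h => hx (Prod.ext h (hpres x))
      have hππ : π (π x) = x := by
        have h3 : π (π x) ≠ π x := fun h => hx (π.injective h)
        have h4 : (π (π x)).2 = x.2 := by rw [hpres, hpres]
        have h5 : (π (π x)).1 ≠ (π x).1 := by
          intro h; apply h3; exact Prod.ext h (hpres _)
        exact Prod.ext (fin2_eq h5 hπ1) h4
      rw [hππ]
      have hval0 : ∀ y : Fin 2 × I, y.2 = x.2 → dd τ (two x.2 l c) y = if y.1 = 0 then c else τ c := by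
        intro y hy
        simp [dd, two, hy]
      rw [hval0 x rfl, hval0 (π x) (hpres x)]
      rcases fin2_cases (π x).1 with e2 | e2 <;> rcases fin2_cases x.1 with e3 | e3
      · exact absurd (e2.trans e3.symm) hπ1
      · rw [e2, e3]; simp; rw [← pow_two]; exact hc2.symm
      · rw [e2, e3]; simp; rw [← pow_two]; exact hc2
      · exact absurd (e2.trans e3.symm) hπ1
    · push Not at hpres
      obtain ⟨x, hx⟩ := hpres
      -- the block of π x
      obtain ⟨h, hh2, hh⟩ := hdd' (π x).2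
      refine ⟨h, _, hh2, hh, x, ?_⟩
      have hB : ∀ y z : Fin 2 × I, y.2 = z.2 → (π y).2 = (π z).2 := by
        rintro ⟨b, i⟩ ⟨b', i'⟩ hyz
        have : i = i' := hyz
        subst this
        rcases fin2_cases b with rfl | rfl <;> rcases fin2_cases b' with rfl | rfl
        · rfl
        · exact hblk g π cf hg i
        · exact (hblk g π cf hg i).symm
        · rfl
      have hB' : ∀ y z : Fin 2 × I, (π y).2 = (π z).2 → y.2 = z.2 := by
        intro y z hyz
        -- use the inverse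
        have hinvblk := hblk g⁻¹ π⁻¹ _ hg.inv
        have hBinv : ∀ y z : Fin 2 × I, y.2 = z.2 → (π⁻¹ y).2 = (π⁻¹ z).2 := by
          rintro ⟨b, i⟩ ⟨b', i'⟩ hyz
          have : i = i' := hyz
          subst this
          rcases fin2_cases b with rfl | rfl <;> rcases fin2_cases b' with rfl | rfl
          · rfl
          · exact hinvblk i
          · exact (hinvblk i).symm
          · rfl
        have := hBinv _ _ hyz
        rwa [inv_p, inv_p] at this
      have e1 : (π (π x)).2 ≠ (π x).2 := by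
        intro h
        exact hx (hB' _ _ h)
      have v1 : dd τ (fun l => if l = (π x).2 then d else 1) (π (π x)) = 1 := by
        simp [dd, e1, hτ1]
      have v2 : dd τ (fun l => if l = (π x).2 then d else 1) x = 1 := by
        simp [dd, Ne.symm hx, hτ1]
      rw [v1, v2, one_mul]
      have hd0 : d ≠ 0 := by
        rintro rfl; rw [zero_mul] at hdτ; exact zero_ne_one hdτ
      have hτd : τ d = d⁻¹ := by
        exact eq_inv_of_mul_eq_one_right hdτ
      unfold dd
      simp only [if_true]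
      split_ifs
      · exact hdd.symm
      · rw [hτd, inv_pow]
        intro h
        apply hdd
        rw [← inv_inv (d ^ 2), ← h, inv_one]
  · rintro g π cf hg ⟨b, i⟩ ⟨b', i'⟩ hij
    have : i = i' := hij
    subst this
    rcases fin2_cases b with rfl | rfl <;> rcases fin2_cases b' with rfl | rfl
    · rfl
    · exact hblk g π cf hg i
    · exact (hblk g π cf hg i).symm
    · rfl
  · intro π
    obtain ⟨g, σ, cf, hg, hσ⟩ := P3 π
    exact ⟨g, σ, cf, hg, fun j => by rw [hσ]⟩
  · intro π hπ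
    ext1 x
    rw [Equiv.Perm.mul_apply, Equiv.Perm.one_apply]
    by_cases hx : π x = x
    · rw [hx, hx]
    · have h3 : π (π x) ≠ π x := fun h => hx (π.injective h)
      have h4 : (π (π x)).2 = x.2 := by rw [hπ, hπ]
      have h5 : (π (π x)).1 ≠ (π x).1 := by
        intro h; apply h3; exact Prod.ext h (hπ _)
      have hπ1 : (π x).1 ≠ x.1 := fun h => hx (Prod.ext h (hπ x))
      exact Prod.ext (fin2_eq h5 hπ1) h4
  · -- transitivity
    obtain ⟨g4, σ4, cf4, i0, hg4, hσ4⟩ := P4
    have hmove : ∀ (b : Fin 2) (i j : I), ∃ (g : G) (π : Equiv.Perm (Fin 2 × I)) (cf : Fin 2 × I → K),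
        IsMon ρ g π cf ∧ π (b, i) = (b, j) := by
      intro b i j
      obtain ⟨g, σ, cf, hg, hσ⟩ := P3 (Equiv.swap i j)
      exact ⟨g, σ, cf, hg, by rw [hσ]; simp⟩
    have h01 : ∀ i j : I, ∃ (g : G) (π : Equiv.Perm (Fin 2 × I)) (cf : Fin 2 × I → K),
        IsMon ρ g π cf ∧ π (0, i) = (1, j) := by
      intro i j
      obtain ⟨g1, σ1, cf1, hg1, hσ1⟩ := hmove 0 i i0
      obtain ⟨g2, σ2, cf2, hg2, hσ2⟩ := hmove 1 i0 j
      refine ⟨g2 * g4 * g1, σ2 * σ4 * σ1, _, (hg2.mul hg4).mul hg1, ?_⟩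
      rw [Equiv.Perm.mul_apply, Equiv.Perm.mul_apply, hσ1, hσ4, hσ2]
    rintro ⟨b, i⟩ ⟨b', j⟩
    rcases fin2_cases b with rfl | rfl <;> rcases fin2_cases b' with rfl | rfl
    · exact hmove 0 i j
    · exact h01 i j
    · obtain ⟨g, π, cf, hg, hπ⟩ := h01 j i
      exact ⟨g⁻¹, π⁻¹, _, hg.inv, by rw [← hπ, inv_p]⟩
    · exact hmove 1 i j
  · rw [Nat.card_eq_fintype_card, Fintype.card_prod, Fintype.card_fin, hI, ← pow_succ']
    congr 1
    omega

end pair

end H38.Pron
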