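import Mathlib
import Cfsg.Agent.Lib.H38.Pron5

/-!
# `P` for `SL_d(q)`, `q ≡ 3 (mod 4)`, `d = 2^w ≥ 4`
-/

set_option autoImplicit false

namespace H38.Pron

open scoped Pointwise
open Subgroup Matrix

section arith

/-- the 2-part `N` of `u v`, where `u = 2 s`, `s` odd and `4 ∣ v` -/
theorem two_part {u v s : ℕ} (hu : u = 2 * s) (_hs : Odd s) (hv : 4 ∣ v) (hv0 : 0 < v) :
    ∃ k, 2 ≤ k ∧ 8 ∣ 2 ^ (k + 1) ∧ 2 ^ (k + 1) ∣ u * v ∧ ¬ 2 ^ (k + 1) ∣ v ∧ 2 ^ (k + 1) ∣ 2 * v := by
  obtain ⟨k, m, hm, hkm⟩ := Nat.exists_eq_two_pow_mul_odd (n := v) hv0.ne'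
  have hk : 2 ≤ k := by
    by_contra hlt
    push Not at hlt
    obtain ⟨t, ht⟩ := hv
    obtain ⟨r, hr⟩ := hm
    interval_cases k
    · omega
    · omega
  refine ⟨k, hk, ?_, ?_, ?_, ?_⟩
  · exact ⟨2 ^ (k - 2), by rw [show k + 1 = 3 + (k - 2) by omega, pow_add]; norm_num⟩
  · rw [hu, hkm, pow_succ]
    exact ⟨s * m, by ring⟩
  · intro hd
    rw [hkm, pow_succ] at hd
    have := Nat.dvd_of_mul_dvd_mul_left (by positivity) hd
    obtain ⟨r, hr⟩ := hm
    omega
  · rw [hkm, pow_succ]
    exact ⟨m, by ring⟩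

end arith

section frob

variable {F : Type*} [Field F] [Fintype F] {K : Type*} [Field K] [Algebra F K]

theorem exists_of_pow_card {z : K} (hz : z ^ Fintype.card F = z) : ∃ x : F, algebraMap F K x = z := by
  classical
  by_contra hcon
  push Not at hcon
  have hq : 1 < Fintype.card F := Fintype.one_lt_card
  have hne : (Polynomial.X ^ Fintype.card F - Polynomial.X : Polynomial K) ≠ 0 :=
    FiniteField.X_pow_card_sub_X_ne_zero K hq
  have h1 : insert z ((Finset.univ : Finset F).image (algebraMap F K)) ⊆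
      (Polynomial.X ^ Fintype.card F - Polynomial.X : Polynomial K).roots.toFinset := by
    intro y hy
    rw [Multiset.mem_toFinset, Polynomial.mem_roots hne, Polynomial.IsRoot.def]
    simp only [Polynomial.eval_sub, Polynomial.eval_pow, Polynomial.eval_X]
    rw [Finset.mem_insert] at hy
    rcases hy with rfl | hy
    · rw [hz, sub_self]
    · rw [Finset.mem_image] at hy
      obtain ⟨x, -, rfl⟩ := hy
      rw [← map_pow, FiniteField.pow_card, sub_self]
  have h2 := Finset.card_le_card h1
  have h3 : z ∉ (Finset.univ : Finset F).image (algebraMap F K) := by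
    rw [Finset.mem_image]
    rintro ⟨x, -, hx⟩
    exact hcon x hx
  rw [Finset.card_insert_of_notMem h3, Finset.card_image_of_injective _ (algebraMap F K).injective,
    Finset.card_univ] at h2
  have h4 := (Multiset.toFinset_card_le (Polynomial.X ^ Fintype.card F - Polynomial.X : Polynomial K).roots)
  have h5 := Polynomial.card_roots' (Polynomial.X ^ Fintype.card F - Polynomial.X : Polynomial K)
  rw [FiniteField.X_pow_card_sub_X_natDegree_eq K hq] at h5
  omega

end frob

section bd

variable {K : Type*} [Field K] {I : Type} [Fintype I] [DecidableEq I]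

theorem bd_mulVec (R : I → Matrix (Fin 2) (Fin 2) K) (v : Fin 2 × I → K) (j : Fin 2 × I) :
    (blockDiagonal R *ᵥ v) j = R j.2 j.1 0 * v (0, j.2) + R j.2 j.1 1 * v (1, j.2) := by
  obtain ⟨b, i⟩ := j
  rw [Matrix.mulVec, dotProduct, Fintype.sum_prod_type, Fin.sum_univ_two]
  congr 1
  · rw [Finset.sum_eq_single i]
    · simp [blockDiagonal_apply]
    · intro k _ hk; simp [blockDiagonal_apply, Ne.symm hk]
    · intro h; exact absurd (Finset.mem_univ _) h
  · rw [Finset.sum_eq_single i]
    · simp [blockDiagonal_apply]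
    · intro k _ hk; simp [blockDiagonal_apply, Ne.symm hk]
    · intro h; exact absurd (Finset.mem_univ _) h

end bd

section SLthree

variable (F : Type*) [Field F] [Fintype F] (K : Type*) [Field K] [Algebra F K] (I : Type) [Fintype I] [DecidableEq I]

/-- the eigenvectors as columns -/
def BB (ι : K) : Matrix (Fin 2 × I) (Fin 2 × I) K := blockDiagonal (fun _ => !![1, 1; -ι, ι])

def BBi (ι : K) : Matrix (Fin 2 × I) (Fin 2 × I) K := blockDiagonal (fun _ => !![1 / 2, ι / 2; 1 / 2, -ι / 2])

variable {K}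

theorem BBi_mul {ι : K} (h2 : (2 : K) ≠ 0) (hι : ι ^ 2 = -1) : BBi K I ι * BB K I ι = 1 := by
  rw [BB, BBi, ← blockDiagonal_mul, ← blockDiagonal_one]
  congr 1
  funext i
  ext a b
  fin_cases a <;> fin_cases b <;> simp [Matrix.mul_apply, Fin.sum_univ_two] <;> field_simp <;>
    first | linear_combination hι | linear_combination -hι

theorem BB_mul {ι : K} (h2 : (2 : K) ≠ 0) (hι : ι ^ 2 = -1) : BB K I ι * BBi K I ι = 1 := by
  exact mul_eq_one_comm.mp (BBi_mul I h2 hι)

/-- the representation in the eigenbasis -/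
def rep {ι : K} (h2 : (2 : K) ≠ 0) (hι : ι ^ 2 = -1) :
    SpecialLinearGroup (Fin 2 × I) F →* Matrix (Fin 2 × I) (Fin 2 × I) K where
  toFun g := BBi K I ι * (g : Matrix (Fin 2 × I) (Fin 2 × I) F).map (algebraMap F K) * BB K I ι
  map_one' := by
    show BBi K I ι * (1 : Matrix (Fin 2 × I) (Fin 2 × I) F).map (algebraMap F K) * BB K I ι = 1
    rw [Matrix.map_one _ (map_zero _) (map_one _), Matrix.mul_one, BBi_mul I h2 hι]
  map_mul' g h := by
    show BBi K I ι * ((g : Matrix (Fin 2 × I) (Fin 2 × I) F) * (h : Matrix (Fin 2 × I) (Fin 2 × I) F)).map (algebraMap F K) * BB K I ι = _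
    rw [Matrix.map_mul]
    calc BBi K I ι * ((g : Matrix _ _ F).map (algebraMap F K) * (h : Matrix _ _ F).map (algebraMap F K)) * BB K I ι
        = BBi K I ι * (g : Matrix _ _ F).map (algebraMap F K) * 1 * (h : Matrix _ _ F).map (algebraMap F K) * BB K I ι := by
          simp only [Matrix.mul_assoc, Matrix.one_mul]
      _ = _ := by
          rw [← BB_mul I h2 hι]
          simp only [Matrix.mul_assoc]

variable {F}

omit [Fintype F] in
theorem rep_inj {ι : K} (h2 : (2 : K) ≠ 0) (hι : ι ^ 2 = -1) : Function.Injective (rep F I h2 hι) := by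
  intro g h hgh
  have h1 : BBi K I ι * (g : Matrix (Fin 2 × I) (Fin 2 × I) F).map (algebraMap F K) * BB K I ι =
    BBi K I ι * (h : Matrix (Fin 2 × I) (Fin 2 × I) F).map (algebraMap F K) * BB K I ι := hgh
  have h3 := congrArg (fun M => BB K I ι * M * BBi K I ι) h1
  have h4 : ∀ M : Matrix (Fin 2 × I) (Fin 2 × I) K, BB K I ι * (BBi K I ι * M * BB K I ι) * BBi K I ι = M := by
    intro M
    calc BB K I ι * (BBi K I ι * M * BB K I ι) * BBi K I ι = (BB K I ι * BBi K I ι) * M * (BB K I ι * BBi K I ι) := by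
          simp only [Matrix.mul_assoc]
      _ = M := by rw [BB_mul I h2 hι, Matrix.one_mul, Matrix.mul_one]
  simp only [h4] at h3
  apply Subtype.ext
  ext i j
  have := congrFun (congrFun h3 i) j
  simp only [Matrix.map_apply] at this
  exact (algebraMap F K).injective this

/-- the eigenvectors -/
def uu (ι : K) (j : Fin 2 × I) : Fin 2 × I → K := BB K I ι *ᵥ e j

theorem uu_apply (ι : K) (b : Fin 2) (i : I) (j : Fin 2 × I) :
    uu I ι (b, i) j = if j.2 = i then (if j.1 = 0 then 1 else if b = 0 then -ι else ι) else 0 := by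
  unfold uu BB
  rw [bd_mulVec]
  obtain ⟨b', i'⟩ := j
  by_cases hi : i' = i
  · subst hi
    fin_cases b <;> fin_cases b' <;> simp [e, Pi.single_apply]
  · have : ∀ x : Fin 2, ¬ ((x, i') : Fin 2 × I) = (b, i) := by
      intro x h; exact hi (Prod.ext_iff.mp h).2
    simp [e, Pi.single_apply, hi, this]

omit [Fintype F] in
theorem rep_act {ι : K} (h2 : (2 : K) ≠ 0) (hι : ι ^ 2 = -1) (g : SpecialLinearGroup (Fin 2 × I) F)
    (j k : Fin 2 × I) (c : K) :
    rep F I h2 hι g *ᵥ e j = c • e k ↔
      (g : Matrix (Fin 2 × I) (Fin 2 × I) F).map (algebraMap F K) *ᵥ uu I ι j = c • uu I ι k := by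
  have h1 : rep F I h2 hι g *ᵥ e j = BBi K I ι *ᵥ ((g : Matrix (Fin 2 × I) (Fin 2 × I) F).map (algebraMap F K) *ᵥ uu I ι j) := by
    show (BBi K I ι * (g : Matrix (Fin 2 × I) (Fin 2 × I) F).map (algebraMap F K) * BB K I ι) *ᵥ e j = _
    rw [← Matrix.mulVec_mulVec, ← Matrix.mulVec_mulVec]; rfl
  rw [h1]
  constructor
  · intro h
    have h3 := congrArg (fun v => BB K I ι *ᵥ v) h
    simp only [Matrix.mulVec_mulVec, ← Matrix.mul_assoc, BB_mul I h2 hι, Matrix.one_mul, Matrix.mulVec_smul] at h3
    exact h3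
  · intro h
    rw [h, Matrix.mulVec_smul, uu, Matrix.mulVec_mulVec, BBi_mul I h2 hι, Matrix.one_mulVec]

end SLthree

section main

variable {F : Type*} [Field F] [Fintype F] {I : Type} [Fintype I] [DecidableEq I]

theorem P_SL_three_aux (K : Type*) [Field K] [Algebra F K] [IsAlgClosed K] {w : ℕ} (hw : 2 ≤ w)
    (hI : Fintype.card I = 2 ^ (w - 1)) (hF : Fintype.card F % 4 = 3) :
    P (SpecialLinearGroup (Fin 2 × I) F) := by
  classical
  obtain ⟨q, hq⟩ : ∃ q, q = Fintype.card F := ⟨_, rfl⟩
  rw [← hq] at hF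
  have hodd : q % 2 = 1 := by omega
  have hchar : ringChar F ≠ 2 := by
    intro h
    have := FiniteField.even_card_of_char_two h
    rw [← hq] at this
    omega
  have h2F : (2 : F) ≠ 0 := Ring.two_ne_zero hchar
  have h2 : (2 : K) ≠ 0 := by
    intro h
    apply h2F
    apply (algebraMap F K).injective
    rw [map_zero, map_ofNat]; exact h
  have hm1 : (-1 : K) ≠ 1 := by
    intro h
    apply h2
    linear_combination -h
  -- numbers
  obtain ⟨k, hk2, h8, hdvd, hnd, hdvd2⟩ := two_part (u := q - 1) (v := q + 1) (s := (q - 1) / 2) (by omega)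
    (by rw [Nat.odd_iff]; omega) (by omega) (by omega)
  set N := 2 ^ (k + 1) with hN
  have hNpos : 0 < N := by positivity
  -- characteristic
  have hNK : NeZero (N : K) := by
    constructor
    rw [hN]; push_cast
    exact pow_ne_zero _ h2
  obtain ⟨c, hc⟩ := HasEnoughRootsOfUnity.exists_primitiveRoot K N
  have hcN : c ^ N = 1 := hc.pow_eq_one
  have hc0 : c ≠ 0 := by
    rintro rfl
    rw [zero_pow hNpos.ne'] at hcN
    exact zero_ne_one hcN
  -- Frobenius
  let φ : K →+* K := by
    have : Fact (ringChar F).Prime := ⟨CharP.char_is_prime F _⟩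
    have : CharP K (ringChar F) := charP_of_injective_algebraMap (algebraMap F K).injective _
    exact iterateFrobenius K (ringChar F) ((FiniteField.card F (ringChar F)).choose)
  have hφ : ∀ x : K, φ x = x ^ q := by
    intro x
    have : Fact (ringChar F).Prime := ⟨CharP.char_is_prime F _⟩
    have : CharP K (ringChar F) := charP_of_injective_algebraMap (algebraMap F K).injective _
    have h1 := (FiniteField.card F (ringChar F)).choose_spec.2
    show iterateFrobenius K (ringChar F) _ x = _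
    rw [iterateFrobenius_def, hq]
    exact congrArg (fun n => x ^ n) h1.symm
  have hφF : ∀ x : F, φ (algebraMap F K x) = algebraMap F K x := by
    intro x
    rw [hφ, ← map_pow, hq, FiniteField.pow_card]
  have hfix : ∀ z : K, φ z = z → ∃ x : F, algebraMap F K x = z := by
    intro z hz
    rw [hφ, hq] at hz
    exact exists_of_pow_card hz
  have hφneg : φ (-1) = -1 := by rw [map_neg, map_one]
  -- ι = c ^ (N/4)
  obtain ⟨t, ht⟩ : 4 ∣ N := dvd_trans (by norm_num) h8
  obtain ⟨ι, hιdef⟩ : ∃ ι, ι = c ^ t := ⟨_, rfl⟩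
  have hι4 : IsPrimitiveRoot ι 4 := by rw [hιdef]; exact hc.pow hNpos (by rw [ht]; ring)
  have hι : ι ^ 2 = -1 := by
    have h3 : (ι ^ 2) * (ι ^ 2) = 1 := by rw [← pow_add]; exact hι4.pow_eq_one
    have h4 : ι ^ 2 ≠ 1 := by
      intro h
      have := hι4.dvd_of_pow_eq_one _ h
      omega
    rcases mul_self_eq_one_iff.mp h3 with h | h
    · exact absurd h h4
    · exact h
  have hι0 : ι ≠ 0 := by
    intro h; rw [h] at hι; norm_num at hι
  have hιq1 : ι ^ (q + 1) = 1 := by
    obtain ⟨r, hr⟩ : 4 ∣ q + 1 := by omega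
    rw [hr, pow_mul, hι4.pow_eq_one, one_pow]
  have hφι : φ ι = -ι := by
    rw [hφ]
    have h3 : ι ^ q * ι = 1 := by rw [← pow_succ]; exact hιq1
    have h4 : ι ^ q * (ι * ι) = ι := by rw [← mul_assoc, h3, one_mul]
    rw [← pow_two, hι] at h4
    linear_combination -h4
  -- c ^ (q+1) = -1
  have hcq1 : c ^ (q + 1) = -1 := by
    have h3 : (c ^ (q + 1)) * (c ^ (q + 1)) = 1 := by
      rw [← pow_two, ← pow_mul, mul_comm]
      exact (hc.pow_eq_one_iff_dvd _).mpr hdvd2
    have h4 : c ^ (q + 1) ≠ 1 := by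
      intro h
      exact hnd (hc.dvd_of_pow_eq_one _ h)
    rcases mul_self_eq_one_iff.mp h3 with h | h
    · exact absurd h h4
    · exact h
  have hφφ : ∀ x : K, x ^ N = 1 → φ (φ x) = x := by
    intro x hx
    rw [hφ, hφ, ← pow_mul]
    have h3 : x ^ ((q - 1) * (q + 1)) = 1 := by
      obtain ⟨r, hr⟩ := hdvd
      rw [hr, pow_mul, hx, one_pow]
    have h4 : q * q = (q - 1) * (q + 1) + 1 := by
      obtain ⟨r, hr⟩ : ∃ r, q = r + 1 := ⟨q - 1, by omega⟩
      rw [hr]; simp; ring
    rw [h4, pow_succ, h3, one_mul]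
  -- real and imaginary parts
  have hparts : ∀ a : K, a ^ N = 1 → ∃ x y : F, algebraMap F K x + ι * algebraMap F K y = a ∧
      algebraMap F K x - ι * algebraMap F K y = φ a := by
    intro a ha
    obtain ⟨x, hx⟩ := hfix ((a + φ a) / 2) (by
      rw [map_div₀, map_add, hφφ a ha, map_ofNat, add_comm])
    obtain ⟨y, hy⟩ := hfix ((a - φ a) / (2 * ι)) (by
      rw [map_div₀, map_sub, hφφ a ha, map_mul, map_ofNat, hφι]
      field_simp
      ring)
    refine ⟨x, y, ?_, ?_⟩
    · rw [hx, hy]; field_simp; ring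
    · rw [hx, hy]; field_simp; ring
  let ρ := rep F I h2 hι
  have hmap : ∀ (g : SpecialLinearGroup (Fin 2 × I) F) (v : Fin 2 × I → K) (j : Fin 2 × I),
      φ (((g : Matrix (Fin 2 × I) (Fin 2 × I) F).map (algebraMap F K) *ᵥ v) j) =
        ((g : Matrix (Fin 2 × I) (Fin 2 × I) F).map (algebraMap F K) *ᵥ (fun i => φ (v i))) j := by
    intro g v j
    rw [Matrix.mulVec, Matrix.mulVec, dotProduct, dotProduct, map_sum]
    refine Finset.sum_congr rfl fun i _ => ?_
    rw [map_mul, Matrix.map_apply, hφF]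
  have hφu : ∀ (i : I) (j : Fin 2 × I), φ (uu I ι (0, i) j) = uu I ι (1, i) j := by
    intro i j
    rw [uu_apply, uu_apply]
    by_cases hj : j.2 = i
    · by_cases hj1 : j.1 = 0
      · simp only [if_pos hj, if_pos hj1, map_one]
      · have h10 : ¬ (1 : Fin 2) = 0 := by decide
        simp only [if_pos hj, if_neg hj1, if_true, if_neg h10, map_neg, hφι, neg_neg]
    · simp only [if_neg hj, map_zero]
  refine pairP (ρ := ρ) (rep_inj I h2 hι) hw hI (τ := fun x => φ x) (Adm := fun x => x ^ N = 1)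
    (map_one φ) hφneg h2 (fun x => map_inv₀ φ x) (one_pow _) ?_ ?_ c hcN ?_ ?_ ?_ ?_ ?_ ι ?_ ?_ ?_ ?_ ?_ ?_ ?_
  · rw [ht, pow_mul]; norm_num
  · intro x hx
    exact ⟨k + 1, hx, by show (φ x) ^ N = 1; rw [← map_pow, hx, map_one]⟩
  · rw [inv_pow, hcN, inv_one]
  · -- c² ≠ (φ c)²
    show c ^ 2 ≠ (φ c) ^ 2
    rw [hφ]
    intro h
    have h3 : c ^ (2 * (q - 1)) = 1 := by
      have h4 : c ^ 2 * c ^ (2 * (q - 1)) = c ^ 2 * 1 := by
        rw [← pow_add, mul_one, show 2 + 2 * (q - 1) = q * 2 by omega, pow_mul]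
        exact h.symm
      exact mul_left_cancel₀ (pow_ne_zero _ hc0) h4
    have h4 := hc.dvd_of_pow_eq_one _ h3
    have h5 := dvd_trans h8 h4
    omega
  · show c * φ c ≠ 1
    rw [hφ, mul_comm, ← pow_succ, hcq1]
    exact hm1
  · intro h
    have h4 := Nat.le_of_dvd (by norm_num) (hc.dvd_of_pow_eq_one _ h)
    have := Nat.le_of_dvd hNpos h8
    omega
  · show (φ c) ^ 2 ≠ 1
    rw [← map_pow]
    intro h
    have h3 : c ^ 2 = 1 := φ.injective (by rw [h, map_one])
    have h4 := Nat.le_of_dvd (by norm_num) (hc.dvd_of_pow_eq_one _ h3)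
    have := Nat.le_of_dvd hNpos h8
    omega
  · show ι ^ N = 1
    rw [hιdef, ← pow_mul, mul_comm, pow_mul, hcN, one_pow]
  · show ι * φ ι = 1
    rw [hφι]; linear_combination -hι
  · rw [hι]; exact hm1
  · -- P1
    intro a ha hprod
    choose x y hx hy using fun i => hparts (a i) (ha i)
    let M : Matrix (Fin 2 × I) (Fin 2 × I) F := blockDiagonal (fun i => !![x i, -y i; y i, x i])
    have hdet : M.det = 1 := by
      apply (algebraMap F K).injective
      rw [map_one, det_blockDiagonal, map_prod, ← hprod]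
      refine Finset.prod_congr rfl fun i _ => ?_
      rw [Matrix.det_fin_two_of, map_sub, map_mul, map_mul, map_neg]
      show _ = a i * φ (a i)
      rw [← hy i, ← hx i]
      linear_combination ((algebraMap F K (y i)) ^ 2) * hι
    refine ⟨⟨M, hdet⟩, ?_⟩
    rintro ⟨b, i⟩
    refine (rep_act I h2 hι _ _ _ _).mpr ?_
    show M.map (algebraMap F K) *ᵥ uu I ι (b, i) = dd (fun x => φ x) a (b, i) • uu I ι (b, i)
    funext j
    have hM : M.map (algebraMap F K) = blockDiagonal (fun i => (!![x i, -y i; y i, x i]).map (algebraMap F K)) := by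
      rw [blockDiagonal_map _ _ (map_zero _)]
    rw [hM, bd_mulVec, Pi.smul_apply, uu_apply, uu_apply, uu_apply]
    obtain ⟨b', i'⟩ := j
    by_cases hi : i' = i
    · subst hi
      fin_cases b <;> fin_cases b' <;> simp [dd]
      · rw [← hx i']; ring
      · rw [← hx i']; linear_combination ((algebraMap F K (y i'))) * hι
      · rw [← hy i']; ring
      · rw [← hy i']; linear_combination ((algebraMap F K (y i'))) * hι
    · simp [hi]
  · -- P2
    intro g b hb i
    have h0 := (rep_act I h2 hι g (0, i) (0, i) _).mp (hb (0, i))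
    have h1 := (rep_act I h2 hι g (1, i) (1, i) _).mp (hb (1, i))
    have h3 : (g : Matrix (Fin 2 × I) (Fin 2 × I) F).map (algebraMap F K) *ᵥ uu I ι (1, i) =
        φ (b (0, i)) • uu I ι (1, i) := by
      funext j
      have h4 := congrArg φ (congrFun h0 j)
      rw [hmap] at h4
      rw [Pi.smul_apply, smul_eq_mul, map_mul, hφu] at h4
      rw [Pi.smul_apply, smul_eq_mul, ← h4]
      congr 2
      funext l
      exact (hφu i l).symm
    have h5 := congrFun (h1.symm.trans h3) (0, i)
    rw [Pi.smul_apply, Pi.smul_apply, uu_apply] at h5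
    simpa using h5
  · -- P3
    intro π
    let σ : Equiv.Perm (Fin 2 × I) := Equiv.prodCongrRight (fun _ => π)
    have hσ : ∀ j, σ j = (j.1, π j.2) := fun j => rfl
    have hdet : (mm σ (fun _ => (1 : F))).det = 1 := by
      rw [det_mm, Equiv.Perm.sign_prodCongrRight]
      simp only [Finset.prod_const_one, mul_one, Fin.prod_univ_two]
      rcases Int.units_eq_one_or (Equiv.Perm.sign π) with h | h <;> rw [h] <;> simp
    refine ⟨⟨mm σ (fun _ => 1), hdet⟩, σ, fun _ => 1, ?_, hσ⟩
    rintro ⟨b, i⟩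
    refine (rep_act I h2 hι _ _ _ _).mpr ?_
    have hM : (mm σ (fun _ => (1 : F))).map (algebraMap F K) = mm σ (fun _ => (1 : K)) := by
      ext i j
      simp only [Matrix.map_apply, mm]
      split_ifs <;> simp
    show (mm σ (fun _ => (1 : F))).map (algebraMap F K) *ᵥ uu I ι (b, i) = (1 : K) • uu I ι (σ (b, i))
    rw [hM]
    funext j
    obtain ⟨l, rfl⟩ := σ.surjective j
    rw [mm_mulVec, Pi.smul_apply, hσ (b, i), hσ l, uu_apply, uu_apply]
    simp
  · -- P4
    have hne : Nonempty I := by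
      rw [← Fintype.card_pos_iff, hI]; positivity
    obtain ⟨i0⟩ := hne
    obtain ⟨x, y, hx, hy⟩ := hparts c hcN
    -- R * S = !![x, y; y, -x]
    let M : Matrix (Fin 2 × I) (Fin 2 × I) F := blockDiagonal (fun i => if i = i0 then !![x, y; y, -x] else 1)
    have hxy : (algebraMap F K x) ^ 2 + (algebraMap F K y) ^ 2 = -1 := by
      have h3 : c * φ c = -1 := by rw [hφ, mul_comm, ← pow_succ, hcq1]
      rw [← hy, ← hx] at h3
      linear_combination h3 + (algebraMap F K y) ^ 2 * hι
    have hdet : M.det = 1 := by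
      rw [det_blockDiagonal]
      apply Finset.prod_eq_one
      intro i _
      split_ifs
      · apply (algebraMap F K).injective
        rw [Matrix.det_fin_two_of, map_sub, map_mul, map_mul, map_neg, map_one]
        linear_combination -hxy
      · exact Matrix.det_one
    let σ : Equiv.Perm (Fin 2 × I) := Equiv.swap (0, i0) (1, i0)
    refine ⟨⟨M, hdet⟩, σ, fun j => if j.2 = i0 then (if j.1 = 0 then φ c else c) else 1, i0, ?_,
      Equiv.swap_apply_left _ _⟩
    rintro ⟨b, i⟩
    refine (rep_act I h2 hι _ _ _ _).mpr ?_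
    show M.map (algebraMap F K) *ᵥ uu I ι (b, i) = _
    have hM : M.map (algebraMap F K) = blockDiagonal (fun i => (if i = i0 then !![x, y; y, -x] else 1 : Matrix (Fin 2) (Fin 2) F).map (algebraMap F K)) := by
      rw [blockDiagonal_map _ _ (map_zero _)]
    rw [hM]
    funext j
    rw [bd_mulVec, Pi.smul_apply]
    by_cases hi0 : i = i0
    · subst hi0
      have hσ : σ (b, i) = (1 - b, i) := by
        fin_cases b
        · exact Equiv.swap_apply_left _ _
        · exact Equiv.swap_apply_right _ _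
      rw [hσ]
      obtain ⟨b', i'⟩ := j
      rw [uu_apply, uu_apply, uu_apply]
      by_cases hi : i' = i
      · subst hi
        fin_cases b <;> fin_cases b' <;> simp
        · rw [← hy]; ring
        · rw [← hy]; linear_combination (algebraMap F K y) * hι
        · rw [← hx]; ring
        · rw [← hx]; linear_combination (algebraMap F K y) * hι
      · simp [hi]
    · have hσ : σ (b, i) = (b, i) := by
        apply Equiv.swap_apply_of_ne_of_ne
        · intro h; exact hi0 (Prod.ext_iff.mp h).2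
        · intro h; exact hi0 (Prod.ext_iff.mp h).2
      rw [hσ]
      obtain ⟨b', i'⟩ := j
      rw [uu_apply, uu_apply, uu_apply]
      by_cases hi : i' = i
      · subst hi
        simp only [hi0, if_false, if_true, Matrix.map_one _ (map_zero _) (map_one _)]
        fin_cases b <;> fin_cases b' <;> simp [Matrix.one_apply]
      · simp [hi]

/-- reindexing `SL` -/
def slReindex {J J' : Type*} [Fintype J] [DecidableEq J] [Fintype J'] [DecidableEq J'] (F : Type*) [Field F] (ε : J ≃ J') :
    SpecialLinearGroup J F ≃* SpecialLinearGroup J' F where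
  toFun g := ⟨Matrix.reindex ε ε (g : Matrix J J F), by rw [Matrix.det_reindex_self]; exact g.2⟩
  invFun g := ⟨Matrix.reindex ε.symm ε.symm (g : Matrix J' J' F), by rw [Matrix.det_reindex_self]; exact g.2⟩
  left_inv g := by apply Subtype.ext; ext i j; simp
  right_inv g := by apply Subtype.ext; ext i j; simp
  map_mul' g h := by
    apply Subtype.ext
    show Matrix.reindex ε ε ((g : Matrix J J F) * (h : Matrix J J F)) = Matrix.reindex ε ε (g : Matrix J J F) * Matrix.reindex ε ε (h : Matrix J J F)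
    simp [Matrix.submatrix_mul_equiv]

theorem P_SL_three {w : ℕ} (hw : 2 ≤ w) (hF : Fintype.card F % 4 = 3) :
    P (SpecialLinearGroup (Fin (2 ^ w)) F) := by
  have h1 : P (SpecialLinearGroup (Fin 2 × Fin (2 ^ (w - 1))) F) :=
    P_SL_three_aux (AlgebraicClosure F) hw (Fintype.card_fin _) hF
  have h2 : 2 * 2 ^ (w - 1) = 2 ^ w := by rw [← pow_succ']; congr 1; omega
  exact h1.of_equiv (slReindex F (finProdFinEquiv.trans (finCongr h2)))

end main

end H38.Pron
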