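import Mathlib
import Cfsg.Agent.Lib.H38.Pron6

/-!
# `P` for `SU_d(q)`, `q ≡ 1 (mod 4)`, `d = 2^w ≥ 4`
-/

set_option autoImplicit false

namespace H38.Pron

open scoped Pointwise
open Subgroup Matrix

section

variable {F : Type*} [Field F] {I : Type} [Fintype I] [DecidableEq I] {n q : ℕ}

/-- the partner -/
def fl (j : Fin 2 × I) : Fin 2 × I := (1 - j.1, j.2)

omit [Fintype I] [DecidableEq I] in
theorem fl_fl (j : Fin 2 × I) : fl (fl j) = j := by
  obtain ⟨b, i⟩ := j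
  show ((1 - (1 - b), i) : Fin 2 × I) = (b, i)
  rw [sub_sub_cancel]

/-- the hyperbolic form -/
def hj (q : ℕ) (u v : Fin 2 × I → F) : F := ∑ j, u j * (v (fl j)) ^ q

theorem mm_hj (σ : Equiv.Perm (Fin 2 × I)) (c : Fin 2 × I → F) (hσ : ∀ j, σ (fl j) = fl (σ j))
    (hc : ∀ j, c j * c (fl j) ^ q = 1) (u v : Fin 2 × I → F) :
    hj q (mm σ c *ᵥ u) (mm σ c *ᵥ v) = hj q u v := by
  unfold hj
  rw [← Equiv.sum_comp σ]
  refine Finset.sum_congr rfl fun j _ => ?_
  rw [← hσ, mm_mulVec, mm_mulVec, mul_pow]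
  linear_combination (u j * v (fl j) ^ q) * hc j

/-- the change of basis -/
def CC (lam : F) : Matrix (Fin 2 × I) (Fin 2 × I) F := blockDiagonal (fun _ => !![1, 1 / 2; lam, -lam / 2])

def CCi (lam : F) : Matrix (Fin 2 × I) (Fin 2 × I) F := blockDiagonal (fun _ => !![1 / 2, 1 / (2 * lam); 1, -1 / lam])

theorem CC_mul {lam : F} (h2 : (2 : F) ≠ 0) (hl : lam ≠ 0) : CC (I := I) lam * CCi lam = 1 := by
  rw [CC, CCi, ← blockDiagonal_mul, ← blockDiagonal_one]
  congr 1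
  funext i
  ext a b
  fin_cases a <;> fin_cases b <;> simp [Matrix.mul_apply, Fin.sum_univ_two] <;> field_simp <;> ring

theorem CCi_mul {lam : F} (h2 : (2 : F) ≠ 0) (hl : lam ≠ 0) : CCi (I := I) lam * CC lam = 1 :=
  mul_eq_one_comm.mp (CC_mul h2 hl)

/-- the vector in `F^n` -/
def trv (ε : Fin 2 × I ≃ Fin n) (lam : F) (u : Fin 2 × I → F) : Fin n → F := fun x => (CC lam *ᵥ u) (ε.symm x)

theorem herm_trv (ε : Fin 2 × I ≃ Fin n) (lam : F) (φ : F →+* F) (hφ : ∀ x, φ x = x ^ q) (h2 : (2 : F) ≠ 0)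
    (hlam : lam * φ lam = -1) (u v : Fin 2 × I → F) :
    Cfsg.hermForm n F q (trv ε lam u) (trv ε lam v) = hj q u v := by
  unfold Cfsg.hermForm hj
  rw [← Equiv.sum_comp ε]
  have h1 : ∀ j, trv ε lam u (ε j) = (CC lam *ᵥ u) j := by
    intro j; unfold trv; rw [Equiv.symm_apply_apply]
  have h1' : ∀ j, trv ε lam v (ε j) = (CC lam *ᵥ v) j := by
    intro j; unfold trv; rw [Equiv.symm_apply_apply]
  simp only [h1, h1', ← hφ]
  rw [Fintype.sum_prod_type, Fintype.sum_prod_type, Fin.sum_univ_two, Fin.sum_univ_two, ← Finset.sum_add_distrib,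
    ← Finset.sum_add_distrib]
  refine Finset.sum_congr rfl fun i _ => ?_
  unfold CC
  rw [bd_mulVec, bd_mulVec, bd_mulVec, bd_mulVec]
  have f0 : fl ((0 : Fin 2), i) = (1, i) := rfl
  have f1 : fl ((1 : Fin 2), i) = (0, i) := rfl
  rw [f0, f1]
  simp only [Matrix.of_apply, Matrix.cons_val', Matrix.cons_val_zero, Matrix.cons_val_fin_one, Matrix.cons_val_one,
    map_add, map_mul, map_div₀, map_neg, map_one, map_ofNat]
  generalize φ (v (0, i)) = y0
  generalize φ (v (1, i)) = y1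
  generalize φ lam = m at *
  field_simp
  linear_combination ((2 * u (0, i) - u (1, i)) * (2 * y0 - y1)) * hlam

/-- the representation in the hyperbolic basis -/
def rhoS {lam : F} (ε : Fin 2 × I ≃ Fin n) (h2 : (2 : F) ≠ 0) (hl : lam ≠ 0) :
    Cfsg.SU n F q →* Matrix (Fin 2 × I) (Fin 2 × I) F where
  toFun g := CCi lam * ((g : SpecialLinearGroup (Fin n) F) : Matrix (Fin n) (Fin n) F).submatrix ε ε * CC lam
  map_one' := by
    show CCi lam * (1 : Matrix (Fin n) (Fin n) F).submatrix ε ε * CC lam = 1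
    rw [Matrix.submatrix_one_equiv, Matrix.mul_one, CCi_mul h2 hl]
  map_mul' g h := by
    show CCi lam * (((g : SpecialLinearGroup (Fin n) F) : Matrix (Fin n) (Fin n) F) *
      ((h : SpecialLinearGroup (Fin n) F) : Matrix (Fin n) (Fin n) F)).submatrix ε ε * CC lam = _
    rw [← Matrix.submatrix_mul_equiv _ _ ε ε ε]
    generalize ((g : SpecialLinearGroup (Fin n) F) : Matrix (Fin n) (Fin n) F).submatrix ε ε = A
    generalize ((h : SpecialLinearGroup (Fin n) F) : Matrix (Fin n) (Fin n) F).submatrix ε ε = B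
    calc CCi lam * (A * B) * CC lam = CCi lam * A * 1 * B * CC lam := by
          simp only [Matrix.mul_assoc, Matrix.one_mul]
      _ = _ := by
          rw [← CC_mul h2 hl]
          simp only [Matrix.mul_assoc]

theorem rhoS_apply {lam : F} (ε : Fin 2 × I ≃ Fin n) (h2 : (2 : F) ≠ 0) (hl : lam ≠ 0) (g : Cfsg.SU n F q) :
    rhoS ε h2 hl g = CCi lam * (g.1.1).submatrix ε ε * CC lam := rfl

theorem trv_rho {lam : F} (ε : Fin 2 × I ≃ Fin n) (h2 : (2 : F) ≠ 0) (hl : lam ≠ 0) (g : Cfsg.SU n F q)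
    (u : Fin 2 × I → F) : trv ε lam (rhoS ε h2 hl g *ᵥ u) = g.1.1 *ᵥ trv ε lam u := by
  rw [rhoS_apply]
  generalize g.1.1 = A
  have h1 : CC lam *ᵥ ((CCi lam * A.submatrix ε ε * CC lam) *ᵥ u) = (A.submatrix ε ε) *ᵥ (CC lam *ᵥ u) := by
    rw [Matrix.mulVec_mulVec, Matrix.mulVec_mulVec]
    congr 1
    rw [← Matrix.mul_assoc, ← Matrix.mul_assoc, CC_mul h2 hl, Matrix.one_mul]
  funext x
  unfold trv
  rw [h1, Matrix.mulVec, Matrix.mulVec, dotProduct, dotProduct, ← Equiv.sum_comp ε]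
  refine Finset.sum_congr rfl fun j _ => ?_
  rw [Matrix.submatrix_apply, Equiv.apply_symm_apply, Equiv.symm_apply_apply]

theorem rhoS_inj {lam : F} (ε : Fin 2 × I ≃ Fin n) (h2 : (2 : F) ≠ 0) (hl : lam ≠ 0) :
    Function.Injective (rhoS (q := q) ε h2 hl) := by
  intro g h hgh
  have h1 : CCi lam * ((g : SpecialLinearGroup (Fin n) F) : Matrix (Fin n) (Fin n) F).submatrix ε ε * CC lam =
    CCi lam * ((h : SpecialLinearGroup (Fin n) F) : Matrix (Fin n) (Fin n) F).submatrix ε ε * CC lam := hgh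
  have h3 := congrArg (fun M => CC lam * M * CCi lam) h1
  have h4 : ∀ M : Matrix (Fin 2 × I) (Fin 2 × I) F, CC lam * (CCi lam * M * CC lam) * CCi lam = M := by
    intro M
    calc CC lam * (CCi lam * M * CC lam) * CCi lam = (CC lam * CCi lam) * M * (CC lam * CCi lam) := by
          simp only [Matrix.mul_assoc]
      _ = M := by rw [CC_mul h2 hl, Matrix.one_mul, Matrix.mul_one]
  simp only [h4] at h3
  apply Subtype.ext
  apply Subtype.ext
  ext i j
  have := congrFun (congrFun h3 (ε.symm i)) (ε.symm j)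
  simpa using this

theorem exists_rho {lam : F} (ε : Fin 2 × I ≃ Fin n) (h2 : (2 : F) ≠ 0) (hl : lam ≠ 0) (φ : F →+* F)
    (hφ : ∀ x, φ x = x ^ q) (hlam : lam * φ lam = -1) (M : Matrix (Fin 2 × I) (Fin 2 × I) F) (hdet : M.det = 1)
    (hM : ∀ u v, hj q (M *ᵥ u) (M *ᵥ v) = hj q u v) : ∃ g : Cfsg.SU n F q, rhoS ε h2 hl g = M := by
  have hd : ((CC lam * M * CCi lam).submatrix ε.symm ε.symm).det = 1 := by
    rw [Matrix.det_submatrix_equiv_self, Matrix.det_mul, Matrix.det_mul, hdet, mul_one, ← Matrix.det_mul,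
      CC_mul h2 hl, Matrix.det_one]
  have key : ∀ u : Fin 2 × I → F, (CC lam * M * CCi lam).submatrix ε.symm ε.symm *ᵥ trv ε lam u = trv ε lam (M *ᵥ u) := by
    intro u
    funext x
    rw [Matrix.mulVec, dotProduct, ← Equiv.sum_comp ε]
    have h1 : ∀ j, trv ε lam u (ε j) = (CC lam *ᵥ u) j := by
      intro j; unfold trv; rw [Equiv.symm_apply_apply]
    simp only [h1, Matrix.submatrix_apply, Equiv.symm_apply_apply]
    have h3 : (CC lam * M * CCi lam) *ᵥ (CC lam *ᵥ u) = CC lam *ᵥ (M *ᵥ u) := by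
      rw [Matrix.mulVec_mulVec, Matrix.mulVec_mulVec]
      congr 1
      rw [Matrix.mul_assoc, CCi_mul h2 hl, Matrix.mul_one]
    exact congrFun h3 (ε.symm x)
  have hsur : ∀ x : Fin n → F, ∃ u, trv ε lam u = x := by
    intro x
    refine ⟨CCi lam *ᵥ (fun j => x (ε j)), ?_⟩
    unfold trv
    rw [Matrix.mulVec_mulVec, CC_mul h2 hl, Matrix.one_mulVec]
    funext y
    rw [Equiv.apply_symm_apply]
  refine ⟨⟨⟨_, hd⟩, mk_SU _ hd ?_⟩, ?_⟩
  · intro u v
    obtain ⟨u, rfl⟩ := hsur u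
    obtain ⟨v, rfl⟩ := hsur v
    rw [key, key, herm_trv ε lam φ hφ h2 hlam, herm_trv ε lam φ hφ h2 hlam, hM]
  · show CCi lam * (((CC lam * M * CCi lam).submatrix ε.symm ε.symm).submatrix ε ε) * CC lam = M
    have h1 : ((CC lam * M * CCi lam).submatrix ε.symm ε.symm).submatrix ε ε = CC lam * M * CCi lam := by
      ext i j
      simp
    rw [h1]
    calc CCi lam * (CC lam * M * CCi lam) * CC lam = (CCi lam * CC lam) * M * (CCi lam * CC lam) := by
          simp only [Matrix.mul_assoc]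
      _ = M := by rw [CCi_mul h2 hl, Matrix.one_mul, Matrix.mul_one]

theorem rho_hj {lam : F} (ε : Fin 2 × I ≃ Fin n) (h2 : (2 : F) ≠ 0) (hl : lam ≠ 0) (φ : F →+* F)
    (hφ : ∀ x, φ x = x ^ q) (hlam : lam * φ lam = -1) (g : Cfsg.SU n F q) (u v : Fin 2 × I → F) :
    hj q (rhoS ε h2 hl g *ᵥ u) (rhoS ε h2 hl g *ᵥ v) = hj q u v := by
  rw [← herm_trv ε lam φ hφ h2 hlam, ← herm_trv ε lam φ hφ h2 hlam, trv_rho, trv_rho]
  exact g.2 _ _

end

end H38.Pron
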