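import Mathlib
import Cfsg.Agent.Lib.H38.Pron13

/-!
# `P` for `SU_d(q)`, `q ≡ 1 (mod 4)`, `d = 2^w ≥ 4`: the main theorem
-/

set_option autoImplicit false

namespace H38.Pron

open scoped Pointwise
open Subgroup Matrix

/-- the Frobenius automorphism of order 2 -/
theorem exists_frob {F : Type*} [Field F] [Fintype F] {q : ℕ} (hF : Fintype.card F = q ^ 2) :
    ∃ φ : F →+* F, ∀ x, φ x = x ^ q := by
  obtain ⟨p, hpc⟩ := CharP.exists F
  obtain ⟨k, hp, hk⟩ := FiniteField.card F p
  have : Fact p.Prime := ⟨hp⟩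
  have h1 : q ∣ p ^ (k : ℕ) := by rw [← hk, hF]; exact ⟨q, by ring⟩
  obtain ⟨l, -, hl⟩ := (Nat.dvd_prime_pow hp).1 h1
  exact ⟨iterateFrobenius F p l, fun x => by rw [iterateFrobenius_def, hl]⟩

theorem P_SU_one_aux {F : Type*} [Field F] [Fintype F] {I : Type} [Fintype I] [DecidableEq I] {w q n : ℕ} (hw : 2 ≤ w)
    (hI : Fintype.card I = 2 ^ (w - 1)) (ε : Fin 2 × I ≃ Fin n) (hF : Fintype.card F = q ^ 2) (hq : q % 4 = 1) :
    P (Cfsg.SU n F q) := by
  classical
  have hq1 : 1 < q := by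
    have h1 : 1 < Fintype.card F := Fintype.one_lt_card
    rw [hF] at h1
    by_contra h
    have : q ≤ 1 := by omega
    interval_cases q <;> simp at h1
  have hchar : ringChar F ≠ 2 := by
    intro h
    have := FiniteField.even_card_of_char_two h
    rw [hF, pow_two, Nat.mul_mod] at this
    have h4 : q % 2 = 1 := by omega
    rw [h4] at this
    omega
  have h2 : (2 : F) ≠ 0 := Ring.two_ne_zero hchar
  have hm1 : (-1 : F) ≠ 1 := by
    intro h
    apply h2
    linear_combination -h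
  obtain ⟨φ, hφ⟩ := exists_frob hF
  have hφφ : ∀ x, φ (φ x) = x := by
    intro x
    rw [hφ, hφ, ← pow_mul, ← pow_two, ← hF, FiniteField.pow_card]
  -- numbers
  obtain ⟨k, hk2, h8, hdvd, hnd, hdvd2⟩ := two_part (u := q + 1) (v := q - 1) (s := (q + 1) / 2) (by omega)
    (by rw [Nat.odd_iff]; omega) (by omega) (by omega)
  obtain ⟨N, hN⟩ : ∃ N, N = 2 ^ (k + 1) := ⟨_, rfl⟩
  rw [← hN] at h8 hdvd hnd hdvd2
  have hNpos : 0 < N := by rw [hN]; positivity
  -- a primitive root
  obtain ⟨c, hc⟩ : ∃ c : F, IsPrimitiveRoot c N := by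
    obtain ⟨g, hg⟩ := IsCyclic.exists_generator (α := Fˣ)
    have h1 : orderOf g = Fintype.card F - 1 := by
      rw [orderOf_eq_card_of_forall_mem_zpowers hg, Nat.card_eq_fintype_card, Fintype.card_units]
    have h3 : Fintype.card F - 1 = (q + 1) * (q - 1) := by
      rw [hF]
      obtain ⟨r, hr⟩ : ∃ r, q = r + 1 := ⟨q - 1, by omega⟩
      rw [hr]
      simp only [Nat.add_sub_cancel]
      have : (r + 1) ^ 2 = (r + 1 + 1) * r + 1 := by ring
      rw [this]; simp
    obtain ⟨t, ht⟩ := hdvd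
    have ht0 : t ≠ 0 := by
      rintro rfl
      rw [mul_zero] at ht
      have : 0 < (q + 1) * (q - 1) := Nat.mul_pos (by omega) (by omega)
      omega
    refine ⟨((g ^ t : Fˣ) : F), ?_⟩
    have h4 : orderOf (g ^ t) = N := by
      rw [orderOf_pow_of_dvd ht0 (by rw [h1, h3, ht]; exact ⟨N, by ring⟩), h1, h3, ht]
      exact Nat.mul_div_cancel _ (Nat.pos_of_ne_zero ht0)
    have h5 := IsPrimitiveRoot.orderOf (g ^ t)
    rw [h4] at h5
    exact (IsPrimitiveRoot.coe_units_iff).2 h5
  have hcN : c ^ N = 1 := hc.pow_eq_one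
  have hc0 : c ≠ 0 := by
    rintro rfl
    rw [zero_pow hNpos.ne'] at hcN
    exact zero_ne_one hcN
  -- φ c = - c
  have hcq : c ^ (q - 1) = -1 := by
    have h3 : (c ^ (q - 1)) * (c ^ (q - 1)) = 1 := by
      rw [← pow_two, ← pow_mul, mul_comm]
      exact (hc.pow_eq_one_iff_dvd _).mpr hdvd2
    have h4 : c ^ (q - 1) ≠ 1 := by
      intro h
      exact hnd (hc.dvd_of_pow_eq_one _ h)
    rcases mul_self_eq_one_iff.mp h3 with h | h
    · exact absurd h h4
    · exact h
  have hφc : φ c = -c := by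
    rw [hφ]
    have : c ^ q = c ^ (q - 1) * c := by rw [← pow_succ]; congr 1; omega
    rw [this, hcq]; ring
  -- ι
  obtain ⟨t, ht⟩ : 4 ∣ N := dvd_trans (by norm_num) h8
  obtain ⟨ι, hιdef⟩ : ∃ ι, ι = c ^ t := ⟨_, rfl⟩
  have hι4 : IsPrimitiveRoot ι 4 := by rw [hιdef]; exact hc.pow hNpos (by rw [ht]; ring)
  have hι : ι ^ 2 = -1 := by
    have h3 : (ι ^ 2) * (ι ^ 2) = 1 := by rw [← pow_add]; exact hι4.pow_eq_one
    have h4 : ι ^ 2 ≠ 1 := by
      intro h
      have := hι4.dvd_of_pow_eq_one _ h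
      omega
    rcases mul_self_eq_one_iff.mp h3 with h | h
    · exact absurd h h4
    · exact h
  have hι0 : ι ≠ 0 := by
    intro h; rw [h] at hι; norm_num at hι
  have hφι : φ ι = ι := by
    rw [hφ]
    obtain ⟨r, hr⟩ : 4 ∣ q - 1 := by omega
    have : ι ^ q = ι ^ (q - 1) * ι := by rw [← pow_succ]; congr 1; omega
    rw [this, hr, pow_mul, hι4.pow_eq_one, one_pow, one_mul]
  have hlam : ι * φ ι = -1 := by rw [hφι, ← pow_two, hι]
  have hφneg : φ (-1) = -1 := by rw [map_neg, map_one]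
  have flip0 : ∀ i : I, fl ((0 : Fin 2), i) = (1, i) := fun i => rfl
  have flip1 : ∀ i : I, fl ((1 : Fin 2), i) = (0, i) := fun i => rfl
  refine pairP (ρ := rhoS (q := q) ε h2 hι0) (rhoS_inj ε h2 hι0) hw hI (τ := fun x => (φ x)⁻¹)
    (Adm := fun x => x ^ N = 1)
    (by simp) (by simp only [hφneg]; norm_num) h2 (fun x => by simp only [map_inv₀]) (one_pow _) ?_ ?_ c hcN
    ?_ ?_ ?_ ?_ ?_ ι ?_ ?_ ?_ ?_ ?_ ?_ ?_
  · rw [ht, pow_mul]; norm_num
  · intro x hx
    refine ⟨k + 1, by rw [← hN]; exact hx, ?_⟩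
    rw [← hN, inv_pow, ← map_pow, hx, map_one, inv_one]
  · rw [inv_pow, hcN, inv_one]
  · -- c² ≠ τ(c)²
    show c ^ 2 ≠ ((φ c)⁻¹) ^ 2
    rw [hφc]
    intro h
    have h3 : c ^ 4 = 1 := by
      have h5 : c ^ 4 = c ^ 2 * c ^ 2 := by ring
      nth_rewrite 1 [h5]
      nth_rewrite 1 [h]
      field_simp
    have h4 := Nat.le_of_dvd (by norm_num) (hc.dvd_of_pow_eq_one _ h3)
    have := Nat.le_of_dvd hNpos h8
    omega
  · show c * (φ c)⁻¹ ≠ 1
    rw [hφc]
    intro h
    rw [inv_neg, mul_neg, mul_inv_cancel₀ hc0] at h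
    exact hm1 h
  · intro h
    have h4 := Nat.le_of_dvd (by norm_num) (hc.dvd_of_pow_eq_one _ h)
    have := Nat.le_of_dvd hNpos h8
    omega
  · show ((φ c)⁻¹) ^ 2 ≠ 1
    rw [hφc]
    intro h
    have h3 : c ^ 2 = 1 := by
      have h5 : ((-c)⁻¹) ^ 2 = (c ^ 2)⁻¹ := by rw [inv_pow]; congr 1; ring
      rw [h5, inv_eq_one] at h
      exact h
    have h4 := Nat.le_of_dvd (by norm_num) (hc.dvd_of_pow_eq_one _ h3)
    have := Nat.le_of_dvd hNpos h8
    omega
  · show ι ^ N = 1
    rw [hιdef, ← pow_mul, mul_comm, pow_mul, hcN, one_pow]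
  · show ι * (φ ι)⁻¹ = 1
    rw [hφι, mul_inv_cancel₀ hι0]
  · rw [hι]; exact hm1
  · -- P1
    intro a ha hprod
    have ha0 : ∀ i, a i ≠ 0 := by
      intro i h
      have := ha i
      rw [h, zero_pow hNpos.ne'] at this
      exact zero_ne_one this
    have hφa0 : ∀ i, φ (a i) ≠ 0 := by
      intro i h
      exact ha0 i (φ.injective (by rw [h, map_zero]))
    have hdet : (mm 1 (dd (fun x => (φ x)⁻¹) a) : Matrix (Fin 2 × I) (Fin 2 × I) F).det = 1 := by
      rw [det_mm, Equiv.Perm.sign_one, Fintype.prod_prod_type, Fin.prod_univ_two, ← Finset.prod_mul_distrib, ← hprod]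
      simp only [Units.val_one, Int.cast_one, one_mul]
      refine Finset.prod_congr rfl fun i _ => ?_
      simp [dd]
    obtain ⟨g, hg⟩ := exists_rho (n := n) (q := q) ε h2 hι0 φ hφ hlam _ hdet (by
      apply mm_hj
      · intro j; rfl
      · rintro ⟨b, i⟩
        rcases fin2_cases b with rfl | rfl
        · rw [flip0]
          simp only [dd, if_true, if_neg (show ¬ (1 : Fin 2) = 0 by decide)]
          rw [← hφ, map_inv₀, hφφ, mul_inv_cancel₀ (ha0 i)]
        · rw [flip1]
          simp only [dd, if_true, if_neg (show ¬ (1 : Fin 2) = 0 by decide)]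
          rw [← hφ, inv_mul_cancel₀ (hφa0 i)])
    refine ⟨g, ?_⟩
    intro j
    rw [hg, mm_e]; rfl
  · -- P2
    intro g b hb i
    show b (1, i) = (φ (b (0, i)))⁻¹
    have h3 := rho_hj ε h2 hι0 φ hφ hlam g (e (1, i)) (e (0, i))
    rw [hb (1, i), hb (0, i)] at h3
    have h4 : ∀ x y : F, hj q (x • e ((1 : Fin 2), i)) (y • (e ((0 : Fin 2), i) : Fin 2 × I → F)) = x * φ y := by
      intro x y
      unfold hj
      rw [Finset.sum_eq_single (1, i)]
      · rw [flip1, ← hφ]; simp [e]
      · intro j _ hj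
        have : (x • (e ((1 : Fin 2), i) : Fin 2 × I → F)) j = 0 := by
          simp [e, hj]
        rw [this, zero_mul]
      · intro h; exact absurd (Finset.mem_univ _) h
    have h5 : hj q (e ((1 : Fin 2), i)) (e ((0 : Fin 2), i) : Fin 2 × I → F) = 1 := by
      have := h4 1 1
      rw [one_smul, one_smul, map_one, mul_one] at this
      exact this
    rw [h4, h5] at h3
    exact eq_inv_of_mul_eq_one_left h3
  · -- P3
    intro π
    let σ : Equiv.Perm (Fin 2 × I) := Equiv.prodCongrRight (fun _ => π)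
    have hσ : ∀ j, σ j = (j.1, π j.2) := fun j => rfl
    have hdet : (mm σ (fun _ => (1 : F))).det = 1 := by
      rw [det_mm, Equiv.Perm.sign_prodCongrRight]
      simp only [Finset.prod_const_one, mul_one, Fin.prod_univ_two]
      rcases Int.units_eq_one_or (Equiv.Perm.sign π) with h | h <;> rw [h] <;> simp
    obtain ⟨g, hg⟩ := exists_rho (n := n) (q := q) ε h2 hι0 φ hφ hlam _ hdet (by
      apply mm_hj
      · intro j; rfl
      · intro j; rw [one_pow, mul_one])
    refine ⟨g, σ, fun _ => 1, ?_, hσ⟩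
    intro j
    rw [hg, mm_e]
  · -- P4
    have hne : Nonempty I := by
      rw [← Fintype.card_pos_iff, hI]; positivity
    obtain ⟨i0⟩ := hne
    have h10 : ¬ (1 : Fin 2) = 0 := by decide
    let σ : Equiv.Perm (Fin 2 × I) := Equiv.swap (0, i0) (1, i0)
    obtain ⟨cf, hcf⟩ : ∃ cf : Fin 2 × I → F, ∀ j, cf j = if j.2 = i0 then (if j.1 = 0 then c else (φ c)⁻¹) else 1 :=
      ⟨_, fun j => rfl⟩
    have hφc0 : φ c ≠ 0 := by rw [hφc]; exact neg_ne_zero.2 hc0
    have hdet : (mm σ cf).det = 1 := by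
      rw [det_mm, Equiv.Perm.sign_swap (by intro h; exact h10 (Prod.ext_iff.mp h).1.symm)]
      rw [Fintype.prod_prod_type, Fin.prod_univ_two, ← Finset.prod_mul_distrib]
      have : ∀ i, cf (0, i) * cf (1, i) = if i = i0 then -1 else 1 := by
        intro i
        rw [hcf, hcf]
        by_cases hi : i = i0
        · simp only [hi, if_true, if_neg h10]
          rw [hφc]; field_simp
        · simp only [hi, if_false, mul_one]
      simp only [this, Finset.prod_ite_eq', Finset.mem_univ, if_true]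
      simp
    obtain ⟨g, hg⟩ := exists_rho (n := n) (q := q) ε h2 hι0 φ hφ hlam _ hdet (by
      apply mm_hj
      · rintro ⟨b, i⟩
        by_cases hi : i = i0
        · subst hi
          rcases fin2_cases b with rfl | rfl
          · rw [flip0]
            show Equiv.swap (0, i) (1, i) (1, i) = fl (Equiv.swap (0, i) (1, i) (0, i))
            rw [Equiv.swap_apply_left, Equiv.swap_apply_right]; rfl
          · rw [flip1]
            show Equiv.swap (0, i) (1, i) (0, i) = fl (Equiv.swap (0, i) (1, i) (1, i))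
            rw [Equiv.swap_apply_left, Equiv.swap_apply_right]; rfl
        · have key : ∀ b : Fin 2, σ (b, i) = (b, i) := by
            intro b
            apply Equiv.swap_apply_of_ne_of_ne
            · intro h; exact hi (Prod.ext_iff.mp h).2
            · intro h; exact hi (Prod.ext_iff.mp h).2
          show σ (1 - b, i) = fl (σ (b, i))
          rw [key, key]; rfl
      · rintro ⟨b, i⟩
        rw [← hφ]
        by_cases hi : i = i0
        · rcases fin2_cases b with rfl | rfl
          · rw [flip0, hcf, hcf]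
            simp only [hi, if_true, if_neg h10]
            rw [map_inv₀, hφφ, mul_inv_cancel₀ hc0]
          · rw [flip1, hcf, hcf]
            simp only [hi, if_true, if_neg h10]
            rw [inv_mul_cancel₀ hφc0]
        · rcases fin2_cases b with rfl | rfl
          · rw [flip0, hcf, hcf]
            simp only [hi, if_false, map_one, mul_one]
          · rw [flip1, hcf, hcf]
            simp only [hi, if_false, map_one, mul_one])
    refine ⟨g, σ, cf, i0, ?_, Equiv.swap_apply_left _ _⟩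
    intro j
    rw [hg, mm_e]

theorem P_SU_one {F : Type*} [Field F] [Fintype F] {w q : ℕ} (hw : 2 ≤ w) (hF : Fintype.card F = q ^ 2)
    (hq : q % 4 = 1) : P (Cfsg.SU (2 ^ w) F q) := by
  have h2 : 2 * 2 ^ (w - 1) = 2 ^ w := by rw [← pow_succ']; congr 1; omega
  exact P_SU_one_aux (I := Fin (2 ^ (w - 1))) hw (Fintype.card_fin _) (finProdFinEquiv.trans (finCongr h2)) hF hq

end H38.Pron
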