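import Cfsg.Agent.Lib.H38.Pron

/-!
# Pronormality of the overgroups of a Sylow `p`-subgroup `S` with `B = N(S)`, `B/S` abelian and
`BgB = SgB` for all `g`.
-/

set_option autoImplicit false

namespace H38.Pron

open scoped Pointwise
open Subgroup

universe u

section
variable {G : Type u} [Group G] [Finite G] {p : ℕ} [Fact p.Prime]

theorem mem_normalizer_iff_conj {S : Subgroup G} {g : G} :
    g ∈ normalizer (S : Set G) ↔ MulAut.conj g • S = S := by
  constructor
  · intro h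
    rw [Subgroup.mem_normalizer_iff] at h
    ext x
    rw [mem_cs, h]
    have : g * (g⁻¹ * x * g) * g⁻¹ = x := by group
    rw [this]
  · intro h
    rw [Subgroup.mem_normalizer_iff]
    intro x
    have h1 : g * x * g⁻¹ ∈ MulAut.conj g • S ↔ x ∈ S := by
      rw [mem_cs]
      have : g⁻¹ * (g * x * g⁻¹) * g = x := by group
      rw [this]
    rw [← h1, h]

/-- Frattini -/
theorem exists_mul_mem_normalizer (S : Sylow p G) {M : Subgroup G} (hSM : (S : Subgroup G) ≤ M) {g : G}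
    (hg : MulAut.conj g • (S : Subgroup G) ≤ M) : ∃ m ∈ M, m * g ∈ normalizer ((S : Subgroup G) : Set G) := by
  have hSgK : ((g • S : Sylow p G) : Subgroup G) ≤ M := by
    rw [Sylow.coe_subgroup_smul]; exact hg
  obtain ⟨k, hk⟩ := MulAction.exists_smul_eq M ((g • S).subtype hSgK) (S.subtype hSM)
  have key : ∀ x : M, (x : G) ∈ (S : Subgroup G) ↔ (k : G)⁻¹ * x * k ∈ MulAut.conj g • (S : Subgroup G) := by
    intro x
    have h0 : x ∈ ((k • (g • S).subtype hSgK : Sylow p M) : Subgroup M) ↔ x ∈ ((S.subtype hSM : Sylow p M) : Subgroup M) := by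
      rw [hk]
    rw [Sylow.coe_subgroup_smul, mem_cs, Sylow.coe_subtype, Sylow.coe_subtype, Subgroup.mem_subgroupOf,
      Subgroup.mem_subgroupOf, Sylow.coe_subgroup_smul] at h0
    exact h0.symm
  refine ⟨k, k.2, ?_⟩
  rw [mem_normalizer_iff_conj, map_mul, mul_smul]
  ext x
  rw [mem_cs]
  constructor
  · intro hx
    have h4 : (k : G)⁻¹ * x * k ∈ M := hg hx
    have h5 : x ∈ M := by
      have : x = (k : G) * ((k : G)⁻¹ * x * k) * (k : G)⁻¹ := by group
      rw [this]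
      exact mul_mem (mul_mem k.2 h4) (inv_mem k.2)
    exact (key ⟨x, h5⟩).mpr hx
  · intro hx
    exact (key ⟨x, hSM hx⟩).mp hx

/-- `B = N(S)`, `B/S` is abelian and `BgB = SgB` for all `g` -/
def Q (p : ℕ) (G : Type u) [Group G] : Prop :=
  ∃ S : Sylow p G, (∀ a ∈ normalizer ((S : Subgroup G) : Set G), ∀ b ∈ normalizer ((S : Subgroup G) : Set G),
      a * b * a⁻¹ * b⁻¹ ∈ (S : Subgroup G)) ∧
    ∀ b ∈ normalizer ((S : Subgroup G) : Set G), ∀ g : G, ∃ s ∈ (S : Subgroup G),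
      ∃ b' ∈ normalizer ((S : Subgroup G) : Set G), b * g = s * g * b'

theorem norm_of (S : Sylow p G)
    (h1 : ∀ a ∈ normalizer ((S : Subgroup G) : Set G), ∀ b ∈ normalizer ((S : Subgroup G) : Set G),
      a * b * a⁻¹ * b⁻¹ ∈ (S : Subgroup G))
    (h2 : ∀ b ∈ normalizer ((S : Subgroup G) : Set G), ∀ g : G, ∃ s ∈ (S : Subgroup G),
      ∃ b' ∈ normalizer ((S : Subgroup G) : Set G), b * g = s * g * b')
    {H : Subgroup G} (hH : (S : Subgroup G) ≤ H) {b : G} (hb : b ∈ normalizer ((S : Subgroup G) : Set G)) :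
    MulAut.conj b • H = H := by
  -- the normal closure of `S` in `H`
  obtain ⟨H0, hH0⟩ : ∃ H0 : Subgroup G, H0 = closure {x | ∃ h ∈ H, ∃ s ∈ (S : Subgroup G), x = h * s * h⁻¹} :=
    ⟨_, rfl⟩
  have hSH0 : (S : Subgroup G) ≤ H0 := by
    intro s hs
    rw [hH0]
    exact subset_closure ⟨1, one_mem _, s, hs, by group⟩
  have hgen : ∀ h ∈ H, ∀ s ∈ (S : Subgroup G), h * s * h⁻¹ ∈ H0 := by
    intro h hh s hs
    rw [hH0]
    exact subset_closure ⟨h, hh, s, hs, rfl⟩
  have hH0H : H0 ≤ H := by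
    rw [hH0, closure_le]
    rintro x ⟨h, hh, s, hs, rfl⟩
    exact mul_mem (mul_mem hh (hH hs)) (inv_mem hh)
  have hmap : ∀ (y : G), (∀ h ∈ H, ∀ s ∈ (S : Subgroup G), y * (h * s * h⁻¹) * y⁻¹ ∈ H0) →
      ∀ x ∈ H0, y * x * y⁻¹ ∈ H0 := by
    intro y hy x hx
    have : H0 ≤ H0.comap (MulAut.conj y).toMonoidHom := by
      conv_lhs => rw [hH0]
      rw [closure_le]
      rintro x ⟨h, hh, s, hs, rfl⟩
      exact hy h hh s hs
    exact this hx
  have hHn : ∀ y ∈ H, ∀ x ∈ H0, y * x * y⁻¹ ∈ H0 := by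
    intro y hy
    apply hmap
    intro h hh s hs
    have : y * (h * s * h⁻¹) * y⁻¹ = (y * h) * s * (y * h)⁻¹ := by group
    rw [this]
    exact hgen _ (mul_mem hy hh) s hs
  have hbn : ∀ y ∈ normalizer ((S : Subgroup G) : Set G), ∀ x ∈ H0, y * x * y⁻¹ ∈ H0 := by
    intro y hy
    apply hmap
    intro h hh s hs
    obtain ⟨t, ht, b', hb', he⟩ := h2 y hy h
    have e1 : y * (h * s * h⁻¹) * y⁻¹ = t * (h * (b' * s * b'⁻¹) * h⁻¹) * t⁻¹ := by
      have : y * (h * s * h⁻¹) * y⁻¹ = (y * h) * s * (y * h)⁻¹ := by group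
      rw [this, he]; group
    rw [e1]
    rw [Subgroup.mem_normalizer_iff] at hb'
    exact mul_mem (mul_mem (hSH0 ht) (hgen h hh _ ((hb' s).1 hs))) (inv_mem (hSH0 ht))
  -- `b` maps `H` into `H`
  have key : ∀ y ∈ normalizer ((S : Subgroup G) : Set G), ∀ h ∈ H, y * h * y⁻¹ ∈ H := by
    intro y hy h hh
    -- Frattini in H0
    have h3 : MulAut.conj h⁻¹ • (S : Subgroup G) ≤ H0 := by
      intro x hx
      rw [mem_cs, inv_inv] at hx
      have := hgen h⁻¹ (inv_mem hh) _ hx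
      have he : h⁻¹ * (h * x * h⁻¹) * h⁻¹⁻¹ = x := by group
      rwa [he] at this
    obtain ⟨m, hm, hmn⟩ := exists_mul_mem_normalizer S hSH0 h3
    have hc : h * m⁻¹ ∈ normalizer ((S : Subgroup G) : Set G) := by
      have := inv_mem hmn
      rwa [mul_inv_rev, inv_inv] at this
    have hcH : h * m⁻¹ ∈ H := mul_mem hh (inv_mem (hH0H hm))
    have e1 : y * h * y⁻¹ = (y * (h * m⁻¹) * y⁻¹ * (h * m⁻¹)⁻¹) * (h * m⁻¹) * (y * m * y⁻¹) := by group
    rw [e1]
    exact mul_mem (mul_mem (hH (h1 _ hy _ hc)) hcH) (hH0H (hbn y hy m hm))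
  ext x
  rw [mem_cs]
  constructor
  · intro hx
    have := key b hb _ hx
    have he : b * (b⁻¹ * x * b) * b⁻¹ = x := by group
    rwa [he] at this
  · intro hx
    have := key b⁻¹ (inv_mem hb) _ hx
    rwa [inv_inv] at this

theorem Q.pron (h : Q p G) (H : Subgroup G) (hH : ¬ p ∣ H.index) : Cfsg.IsPronormal H := by
  obtain ⟨S, h1, h2⟩ := h
  refine pron_of_sylow S ?_ H hH
  intro K hK g hg
  refine ⟨1, one_mem _, ?_⟩
  rw [norm_of S h1 h2 hK hg, map_one, one_smul]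

theorem Q.of_surjective (h : Q p G) {G' : Type*} [Group G'] [Finite G'] (f : G →* G') (hf : Function.Surjective f) :
    Q p G' := by
  obtain ⟨S, h1, h2⟩ := h
  have hnorm : ∀ b' ∈ normalizer ((S.mapSurjective hf : Subgroup G') : Set G'),
      ∃ b ∈ normalizer ((S : Subgroup G) : Set G), f b = b' := by
    intro b' hb'
    obtain ⟨g, rfl⟩ := hf b'
    have h3 : MulAut.conj g • (S : Subgroup G) ≤ ((S : Subgroup G).map f).comap f := by
      intro x hx
      rw [mem_cs] at hx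
      rw [Subgroup.mem_comap]
      rw [Subgroup.mem_normalizer_iff] at hb'
      have := (hb' (f (g⁻¹ * x * g))).1 (by rw [Sylow.coe_mapSurjective]; exact ⟨_, hx, rfl⟩)
      rw [← map_mul, ← map_inv, ← map_mul, Sylow.coe_mapSurjective] at this
      have he : g * (g⁻¹ * x * g) * g⁻¹ = x := by group
      rwa [he] at this
    obtain ⟨m, hm, hmn⟩ := exists_mul_mem_normalizer S (le_comap_map f _) h3
    obtain ⟨s, hs, hse⟩ := hm
    refine ⟨s⁻¹ * (m * g), mul_mem (inv_mem (le_normalizer hs)) hmn, ?_⟩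
    rw [map_mul, map_mul, map_inv, hse]; group
  have hnorm' : ∀ b ∈ normalizer ((S : Subgroup G) : Set G), f b ∈
      normalizer ((S.mapSurjective hf : Subgroup G') : Set G') := by
    intro b hb
    rw [Sylow.coe_mapSurjective]
    have h3 : ∀ b ∈ normalizer ((S : Subgroup G) : Set G), ∀ x ∈ (S : Subgroup G).map f,
        f b * x * (f b)⁻¹ ∈ (S : Subgroup G).map f := by
      rintro b hb x ⟨s, hs, rfl⟩
      rw [Subgroup.mem_normalizer_iff] at hb
      exact ⟨b * s * b⁻¹, (hb s).1 hs, by rw [map_mul, map_mul, map_inv]⟩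
    rw [Subgroup.mem_normalizer_iff]
    intro x
    constructor
    · exact h3 b hb x
    · intro hx
      have := h3 b⁻¹ (inv_mem hb) _ hx
      rw [map_inv, inv_inv] at this
      have he : (f b)⁻¹ * (f b * x * (f b)⁻¹) * f b = x := by group
      rwa [he] at this
  refine ⟨S.mapSurjective hf, ?_, ?_⟩
  · intro a' ha' b' hb'
    obtain ⟨a, ha, rfl⟩ := hnorm a' ha'
    obtain ⟨b, hb, rfl⟩ := hnorm b' hb'
    rw [Sylow.coe_mapSurjective]
    exact ⟨_, h1 a ha b hb, by simp only [map_mul, map_inv]⟩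
  · intro b' hb' g'
    obtain ⟨b, hb, rfl⟩ := hnorm b' hb'
    obtain ⟨g, rfl⟩ := hf g'
    obtain ⟨s, hs, c, hc, he⟩ := h2 b hb g
    refine ⟨f s, ?_, f c, hnorm' c hc, ?_⟩
    · rw [Sylow.coe_mapSurjective]; exact ⟨s, hs, rfl⟩
    · rw [← map_mul, he, map_mul, map_mul]

end

end H38.Pron
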