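import Cfsg.Agent.Lib.H38.Pron8
import Cfsg.Agent.Lib.H57.FusSL
import Cfsg.Agent.Lib.H45.Bruhat

/-!
# `SL_n(F)`: every subgroup of index prime to the characteristic is pronormal
-/

set_option autoImplicit false

namespace H38.Pron

open scoped Pointwise
open Subgroup H57.FusSL
open Matrix

variable {n : ℕ} {K : Type*} [Field K]

/-- diagonal entries of a product of upper triangular matrices -/
theorem ut_mul {A B : Matrix (Fin n) (Fin n) K} (hA : ∀ i j, j < i → A i j = 0) (hB : ∀ i j, j < i → B i j = 0) :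
    (∀ i j, j < i → (A * B) i j = 0) ∧ ∀ i, (A * B) i i = A i i * B i i := by
  constructor
  · intro i j hij
    rw [Matrix.mul_apply]
    apply Finset.sum_eq_zero
    intro k _
    rcases lt_or_ge k i with h | h
    · rw [hA i k h, zero_mul]
    · rw [hB k j (lt_of_lt_of_le hij h), mul_zero]
  · intro i
    rw [Matrix.mul_apply, Finset.sum_eq_single i]
    · intro k _ hk
      rcases lt_or_gt_of_ne hk with h | h
      · rw [hA i k h, zero_mul]
      · rw [hB k i h, mul_zero]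
    · simp

theorem ps_iff {g : SpecialLinearGroup (Fin n) K} :
    PS g ↔ (∀ i j, j < i → g.1 i j = 0) ∧ ∀ i, g.1 i i = 1 := by
  have key : PS g ↔ ∀ j i : Fin n, j ≤ i → g.1 i j - (if i = j then 1 else 0) = 0 := by
    refine forall_congr' fun j => forall_congr' fun i => ?_
    have : (g.1 *ᵥ (e j : Fin n → K) - (e j : Fin n → K)) i = g.1 i j - (if i = j then 1 else 0) := by
      rw [Pi.sub_apply, e_apply]
      simp [e]
    constructor
    · intro h hji
      rw [← this]; exact h hji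
    · intro h hji
      show (g.1 *ᵥ (e j : Fin n → K) - (e j : Fin n → K)) i = 0
      rw [this]; exact h hji
  rw [key]
  constructor
  · intro h
    refine ⟨fun i j hij => ?_, fun i => ?_⟩
    · have := h j i hij.le
      rwa [if_neg (ne_of_gt hij), sub_zero] at this
    · have := h i i le_rfl
      rwa [if_pos rfl, sub_eq_zero] at this
  · rintro ⟨h1, h2⟩ j i hji
    rcases eq_or_lt_of_le hji with h | h
    · subst h; rw [if_pos rfl, h2, sub_self]
    · rw [if_neg (ne_of_gt h), h1 i j h, sub_zero]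

theorem stb_iff {g : SpecialLinearGroup (Fin n) K} : Stb g ↔ ∀ i j, j < i → g.1 i j = 0 := by
  constructor
  · intro h i j hij
    have h1 := h (j.1 + 1) (by omega) _ (e_mem_EE (Nat.lt_succ_self j.1)) i hij
    simpa [e] using h1
  · intro h k hk x hx i hi
    rw [Matrix.mulVec, dotProduct]
    apply Finset.sum_eq_zero
    intro j _
    rcases lt_or_ge j i with h2 | h2
    · rw [h i j h2, zero_mul]
    · rw [hx j (le_trans hi h2), mul_zero]

variable [Finite K]

theorem mem_norm_iff {g : SpecialLinearGroup (Fin n) K} :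
    g ∈ normalizer (S0 n K : Set (SpecialLinearGroup (Fin n) K)) ↔ ∀ i j, j < i → g.1 i j = 0 := by
  rw [← stb_iff]
  exact ⟨normalizer_stab, Stb.norm⟩

theorem mem_S0_iff {g : SpecialLinearGroup (Fin n) K} :
    g ∈ S0 n K ↔ (∀ i j, j < i → g.1 i j = 0) ∧ ∀ i, g.1 i i = 1 := by
  rw [mem_S0, ps_iff]

theorem comm_S0 {a b : SpecialLinearGroup (Fin n) K}
    (ha : a ∈ normalizer (S0 n K : Set (SpecialLinearGroup (Fin n) K)))
    (hb : b ∈ normalizer (S0 n K : Set (SpecialLinearGroup (Fin n) K))) : a * b * a⁻¹ * b⁻¹ ∈ S0 n K := by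
  have ha' := inv_mem ha
  have hb' := inv_mem hb
  rw [mem_norm_iff] at ha hb ha' hb'
  have h1 := ut_mul ha hb
  have h2 := ut_mul h1.1 ha'
  have h3 := ut_mul h2.1 hb'
  rw [mem_S0_iff]
  have e1 : (a * b * a⁻¹ * b⁻¹).1 = a.1 * b.1 * (a⁻¹).1 * (b⁻¹).1 := rfl
  rw [e1]
  refine ⟨h3.1, fun i => ?_⟩
  rw [h3.2, h2.2, h1.2]
  have e2 : a.1 i i * (a⁻¹).1 i i = 1 := by
    rw [← (ut_mul ha ha').2]
    have : a.1 * (a⁻¹).1 = 1 := by
      have := congrArg Subtype.val (mul_inv_cancel a)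
      exact this
    rw [this, Matrix.one_apply_eq]
  have e3 : b.1 i i * (b⁻¹).1 i i = 1 := by
    rw [← (ut_mul hb hb').2]
    have : b.1 * (b⁻¹).1 = 1 := by
      have := congrArg Subtype.val (mul_inv_cancel b)
      exact this
    rw [this, Matrix.one_apply_eq]
  linear_combination e2 * (b.1 i i * (b⁻¹).1 i i) + e3

/-- diagonal elements of `GL_n` -/
def dgl (d : Fin n → Kˣ) : GL (Fin n) K where
  val := Matrix.diagonal fun i => (d i : K)
  inv := Matrix.diagonal fun i => ((d i)⁻¹ : Kˣ)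
  val_inv := by rw [Matrix.diagonal_mul_diagonal]; simp
  inv_val := by rw [Matrix.diagonal_mul_diagonal]; simp

theorem mem_ut {g : GL (Fin n) K} : g ∈ Cfsg.upperTriangularGL n K ↔ ∀ i j, j < i → g.1 i j = 0 := by
  constructor
  · intro h i j hij; exact h hij
  · intro h i j hij; exact h i j hij

theorem dgl_mem (d : Fin n → Kˣ) : dgl d ∈ Cfsg.upperTriangularGL n K := by
  rw [mem_ut]
  intro i j hij
  exact Matrix.diagonal_apply_ne _ (ne_of_gt hij)

theorem dgl_pm (d : Fin n → Kˣ) (w : Equiv.Perm (Fin n)) :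
    dgl d * H45.Bruhat.pm K n w = H45.Bruhat.pm K n w * dgl (fun i => d (w i)) := by
  apply Units.ext
  rw [Units.val_mul, Units.val_mul]
  show Matrix.diagonal (fun i => (d i : K)) * _ = _ * Matrix.diagonal (fun i => (d (w i) : K))
  ext r c
  rw [H45.Bruhat.mul_pm_apply, Matrix.mul_diagonal, H45.Bruhat.pm_apply, Matrix.diagonal_apply]
  split_ifs with h
  · rw [h, one_mul]
  · rw [zero_mul]

theorem gl_diag_inv {c : GL (Fin n) K} (hc : c ∈ Cfsg.upperTriangularGL n K) (i : Fin n) :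
    c.1 i i * (c⁻¹ : GL (Fin n) K).1 i i = 1 := by
  rw [← (ut_mul (mem_ut.1 hc) (mem_ut.1 (inv_mem hc))).2, ← Units.val_mul, mul_inv_cancel, Units.val_one,
    Matrix.one_apply_eq]

theorem bru_S0 {b : SpecialLinearGroup (Fin n) K}
    (hb : b ∈ normalizer (S0 n K : Set (SpecialLinearGroup (Fin n) K))) (g : SpecialLinearGroup (Fin n) K) :
    ∃ s ∈ S0 n K, ∃ b' ∈ normalizer (S0 n K : Set (SpecialLinearGroup (Fin n) K)), b * g = s * g * b' := by
  classical
  obtain ⟨c, hc, c', hc', w, hg⟩ := H45.Bruhat.bruhat (SpecialLinearGroup.toGL g)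
  obtain ⟨B, hB⟩ : ∃ B : GL (Fin n) K, B = SpecialLinearGroup.toGL b := ⟨_, rfl⟩
  have hBv : B.1 = b.1 := by rw [hB]; rfl
  have hBm : B ∈ Cfsg.upperTriangularGL n K := by
    rw [mem_ut, hBv]; exact mem_norm_iff.1 hb
  have hne : ∀ i, b.1 i i ≠ 0 := by
    intro i h
    have := gl_diag_inv hBm i
    rw [hBv, h, zero_mul] at this
    exact zero_ne_one this
  obtain ⟨d, hd⟩ : ∃ d : Fin n → Kˣ, ∀ i, (d i : K) = b.1 i i :=
    ⟨fun i => Units.mk0 _ (hne i), fun i => rfl⟩
  obtain ⟨s, hs⟩ : ∃ s : GL (Fin n) K, s = B * c * (dgl d)⁻¹ * c⁻¹ := ⟨_, rfl⟩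
  have hm1 := mul_mem hBm hc
  have hm2 := mul_mem hm1 (inv_mem (dgl_mem d))
  have hsm : s ∈ Cfsg.upperTriangularGL n K := by rw [hs]; exact mul_mem hm2 (inv_mem hc)
  have hsd : ∀ i, s.1 i i = 1 := by
    intro i
    have e1 := (ut_mul (mem_ut.1 hBm) (mem_ut.1 hc)).2 i
    have e2 := (ut_mul (mem_ut.1 hm1) (mem_ut.1 (inv_mem (dgl_mem d)))).2 i
    have e3 := (ut_mul (mem_ut.1 hm2) (mem_ut.1 (inv_mem hc))).2 i
    rw [← Units.val_mul] at e1 e2 e3
    rw [hs, e3, e2, e1]
    have e4 := gl_diag_inv hc i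
    have e5 := gl_diag_inv (dgl_mem d) i
    have e6 : (dgl d).1 i i = b.1 i i := by
      show Matrix.diagonal (fun i => (d i : K)) i i = _
      rw [Matrix.diagonal_apply_eq, hd]
    rw [e6] at e5
    rw [hBv]
    linear_combination e4 * (b.1 i i * (((dgl d)⁻¹ : GL (Fin n) K).1 i i)) + e5
  have hdet : s.1.det = 1 := by
    rw [Matrix.det_of_upperTriangular (by intro i j hij; exact mem_ut.1 hsm i j hij)]
    exact Finset.prod_eq_one fun i _ => hsd i
  obtain ⟨s', hs'⟩ : ∃ s' : SpecialLinearGroup (Fin n) K, s'.1 = s.1 := ⟨⟨s.1, hdet⟩, rfl⟩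
  have hs'GL : SpecialLinearGroup.toGL s' = s := Units.ext hs'
  refine ⟨s', ?_, (s' * g)⁻¹ * (b * g), ?_, by group⟩
  · rw [mem_S0_iff, hs']
    exact ⟨mem_ut.1 hsm, hsd⟩
  · have h1 : SpecialLinearGroup.toGL ((s' * g)⁻¹ * (b * g)) = c'⁻¹ * dgl (fun i => d (w i)) * c' := by
      rw [map_mul, map_inv, map_mul, map_mul, hs'GL, ← hB, hg]
      have h2 : B * (c * H45.Bruhat.pm K n w * c') = s * c * (dgl d * H45.Bruhat.pm K n w) * c' := by
        rw [hs]; group
      rw [h2, dgl_pm]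
      group
    have h3 : c'⁻¹ * dgl (fun i => d (w i)) * c' ∈ Cfsg.upperTriangularGL n K :=
      mul_mem (mul_mem (inv_mem hc') (dgl_mem _)) hc'
    rw [← h1, mem_ut] at h3
    rw [mem_norm_iff]
    exact h3

theorem Q_SL (p : ℕ) [Fact p.Prime] [CharP K p] [NeZero n] : Q p (SpecialLinearGroup (Fin n) K) := by
  obtain ⟨S, hS⟩ := exists_sylow (n := n) (K := K) p
  refine ⟨S, ?_, ?_⟩
  · rw [hS]; exact fun a ha b hb => comm_S0 ha hb
  · rw [hS]; exact fun b hb g => bru_S0 hb g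

/-- every subgroup of `PSL_n(F)` of index prime to the characteristic is pronormal -/
theorem psl_pron (p : ℕ) [Fact p.Prime] [CharP K p] [NeZero n]
    (H : Subgroup (ProjectiveSpecialLinearGroup (Fin n) K)) (hH : ¬ p ∣ H.index) : Cfsg.IsPronormal H :=
  ((Q_SL (n := n) (K := K) p).of_surjective (QuotientGroup.mk' (center (SpecialLinearGroup (Fin n) K)))
    (QuotientGroup.mk'_surjective _)).pron H hH

end H38.Pron
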