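import Cfsg.Agent.Lib.H38.SFStep2
import Cfsg.Agent.Lib.H38.Goldschmidt
import Cfsg.Agent.Lib.H38.PPrime
import Cfsg.Agent.Lib.H51.QdStab2
import Cfsg.Agent.Lib.H51.Qd
import Cfsg.Agent.Lib.H39.PStab

set_option autoImplicit false

/-! Groups with `SL₂(p)`-free automizers of `p`-subgroups. -/

namespace H38.SLFree

open H38.Basic H38.Goldschmidt H38.PPrime H38.Section Cfsg
open scoped MatrixGroups

universe u

variable {p : ℕ}

/-- no section of an automizer `N(Q)/C(Q)` is `SL₂(p)` -/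
def SLf (p : ℕ) (X : Type*) [Group X] : Prop :=
  ∀ Q : Subgroup X, IsPGroup p ↥Q → ∀ H : Subgroup X, H ≤ Subgroup.normalizer (Q : Set X) →
    ∀ φ : ↥H →* SL(2, ZMod p), Function.Surjective φ → ∃ h : ↥H, (h : X) ∈ Subgroup.centralizer (Q : Set X) ∧ φ h ≠ 1

theorem SLf.of_lift {X Y : Type*} [Group X] [Group Y] (hX : SLf p X)
    (h : ∀ Q' : Subgroup Y, IsPGroup p ↥Q' → ∀ H' : Subgroup Y, H' ≤ Subgroup.normalizer (Q' : Set Y) →
      ∃ (Q H : Subgroup X) (g : ↥H →* ↥H'), IsPGroup p ↥Q ∧ H ≤ Subgroup.normalizer (Q : Set X) ∧ Function.Surjective g ∧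
        ∀ x : ↥H, (x : X) ∈ Subgroup.centralizer (Q : Set X) → ((g x : ↥H') : Y) ∈ Subgroup.centralizer (Q' : Set Y)) :
    SLf p Y := by
  intro Q' hQ' H' hH' φ hφ
  obtain ⟨Q, H, g, hQ, hH, hg, hgc⟩ := h Q' hQ' H' hH'
  obtain ⟨x, hx, hx1⟩ := hX Q hQ H hH (φ.comp g) (hφ.comp hg)
  exact ⟨g x, hgc x hx, hx1⟩

theorem SLf.subgroup {X : Type*} [Group X] (hX : SLf p X) (Z : Subgroup X) : SLf p ↥Z := by
  apply hX.of_lift
  intro Q' hQ' H' hH'
  refine ⟨Q'.map Z.subtype, H'.map Z.subtype, (H'.equivMapOfInjective Z.subtype Z.subtype_injective).symm.toMonoidHom,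
    hQ'.map _, ?_, (H'.equivMapOfInjective Z.subtype Z.subtype_injective).symm.surjective, ?_⟩
  · rintro _ ⟨h, hh, rfl⟩
    have h1 := hH' hh
    rw [Subgroup.mem_normalizer_iff] at h1 ⊢
    intro a
    constructor
    · rintro ⟨b, hb, rfl⟩
      exact ⟨h * b * h⁻¹, (h1 b).1 hb, rfl⟩
    · rintro ⟨b, hb, hba⟩
      have hba : (b : X) = (h : X) * a * (h : X)⁻¹ := hba
      refine ⟨h⁻¹ * b * h, (h1 _).2 (by
        have : h * (h⁻¹ * b * h) * h⁻¹ = b := by group
        rw [this]; exact hb), ?_⟩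
      show (h : X)⁻¹ * b * h = a
      rw [hba]; group
  · rintro x hx
    set y := (H'.equivMapOfInjective Z.subtype Z.subtype_injective).symm x with hy
    have h1 : ((y : ↥Z) : X) = x := by
      have h2 := (H'.equivMapOfInjective Z.subtype Z.subtype_injective).apply_symm_apply x
      have h3 := congrArg (fun w : ↥(H'.map Z.subtype) => (w : X)) h2
      exact h3
    show (y : ↥Z) ∈ _
    rw [Subgroup.mem_centralizer_iff] at hx ⊢
    intro a ha
    apply Subtype.ext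
    have := hx (a : X) ⟨a, ha, rfl⟩
    show (a : X) * ((y : ↥Z) : X) = ((y : ↥Z) : X) * a
    rw [h1]; exact this

theorem SLf.quot_pGroup {X : Type*} [Group X] (hX : SLf p X) (N : Subgroup X) [N.Normal] (hN : IsPGroup p ↥N) :
    SLf p (X ⧸ N) := by
  apply hX.of_lift
  intro Q' hQ' H' hH'
  set π := QuotientGroup.mk' N with hπ
  have hπs : Function.Surjective π := QuotientGroup.mk'_surjective N
  let g : ↥(H'.comap π) →* ↥H' := (π.comp (H'.comap π).subtype).codRestrict H' (fun x => x.2)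
  refine ⟨Q'.comap π, H'.comap π, g, ?_, ?_, ?_, ?_⟩
  · rintro ⟨x, hx⟩
    obtain ⟨k, hk⟩ := hQ' ⟨π x, hx⟩
    have hk : π x ^ p ^ k = 1 := congrArg Subtype.val hk
    obtain ⟨l, hl⟩ := hN ⟨x ^ p ^ k, (QuotientGroup.eq_one_iff _).1 (by
      show π (x ^ p ^ k) = 1
      rw [map_pow]; exact hk)⟩
    have hl : (x ^ p ^ k) ^ p ^ l = 1 := congrArg Subtype.val hl
    exact ⟨k + l, Subtype.ext (by show x ^ p ^ (k + l) = 1; rw [pow_add, pow_mul]; exact hl)⟩
  · intro h hh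
    have h1 := hH' hh
    rw [Subgroup.mem_normalizer_iff] at h1 ⊢
    intro a
    rw [Subgroup.mem_comap, Subgroup.mem_comap, h1 (π a)]
    simp only [map_mul, map_inv]
  · rintro ⟨y, hy⟩
    obtain ⟨x, rfl⟩ := hπs y
    exact ⟨⟨x, hy⟩, rfl⟩
  · intro x hx
    show π (x : X) ∈ _
    rw [Subgroup.mem_centralizer_iff] at hx ⊢
    intro a ha
    obtain ⟨a, rfl⟩ := hπs a
    rw [← map_mul, ← map_mul, hx a ha]

variable [hp : Fact p.Prime]

theorem SLf.quot {X : Type*} [Group X] [Finite X] (hX : SLf p X) (K : Subgroup X) [hKn : K.Normal] :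
    SLf p (X ⧸ K) := by
  apply hX.of_lift
  intro P' hP' H' hH'
  set π := QuotientGroup.mk' K with hπ
  have hπs : Function.Surjective π := QuotientGroup.mk'_surjective K
  have hπk : ∀ g, π g = 1 ↔ g ∈ K := fun g => QuotientGroup.eq_one_iff g
  set M := P'.comap π with hM
  have hKM : K ≤ M := by
    intro k hk
    rw [hM, Subgroup.mem_comap, (hπk k).2 hk]; exact P'.one_mem
  obtain ⟨T, hT⟩ := exists_isSyl (p := p) M
  have hTp : IsPGroup p ↥T := hT.2.1
  obtain ⟨k, hk⟩ := relIndex_eq_pow (p := p) (K := K) (X := M) (by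
    rw [Subgroup.normalizer_eq_top_iff.2 hKn]; exact le_top) (by
    intro m hm
    obtain ⟨k, hk⟩ := hP' ⟨π m, hm⟩
    refine ⟨k, (hπk _).1 ?_⟩
    rw [map_pow]; exact congrArg Subtype.val hk)
  have hMeq := eq_sup_of_relIndex_eq_pow hKM hT hk
  have hTP : T.map π = P' := by
    have h1 : M.map π = P' := Subgroup.map_comap_eq_self_of_surjective hπs _
    rw [hMeq, Subgroup.map_sup] at h1
    have h2 : K.map π = ⊥ := by
      rw [Subgroup.map_eq_bot_iff, QuotientGroup.ker_mk']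
    rwa [h2, bot_sup_eq] at h1
  -- lifting elements
  have hlift : ∀ z' ∈ Subgroup.normalizer (P' : Set (X ⧸ K)), ∃ z ∈ Subgroup.normalizer (T : Set X), π z = z' := by
    intro z' hz'
    obtain ⟨z, rfl⟩ := hπs z'
    have hzM : z ∈ Subgroup.normalizer (M : Set X) := by
      rw [Subgroup.mem_normalizer_iff] at hz' ⊢
      intro a
      rw [hM, Subgroup.mem_comap, Subgroup.mem_comap, hz' (π a)]
      simp only [map_mul, map_inv]
    obtain ⟨m, hm, n, hn, rfl⟩ := frattini hT (N := Subgroup.normalizer (M : Set X)) le_rfl hzM Subgroup.le_normalizer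
    have hm' := hm
    rw [hMeq, sup_comm] at hm'
    obtain ⟨k, hk, t, ht, rfl⟩ := (mem_sup_iff_of_le_normalizer (H := T) (K := K) (by
      rw [Subgroup.normalizer_eq_top_iff.2 hKn]; exact le_top)).1 hm'
    have hn' : t * n ∈ Subgroup.normalizer (T : Set X) := Subgroup.mul_mem _ (Subgroup.le_normalizer ht) hn.2
    refine ⟨t * n, hn', ?_⟩
    rw [map_mul, map_mul, map_mul, (hπk k).2 hk, one_mul]
  let H : Subgroup X := H'.comap π ⊓ Subgroup.normalizer (T : Set X)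
  let g : ↥H →* ↥H' := (π.comp H.subtype).codRestrict H' (fun x => x.2.1)
  refine ⟨T, H, g, hTp, inf_le_right, ?_, ?_⟩
  · rintro ⟨y, hy⟩
    obtain ⟨x, hx, rfl⟩ := hlift y (hH' hy)
    exact ⟨⟨x, hy, hx⟩, rfl⟩
  · intro x hx
    show π (x : X) ∈ _
    rw [Subgroup.mem_centralizer_iff] at hx ⊢
    intro a ha
    have ha' : a ∈ T.map π := by rw [hTP]; exact ha
    obtain ⟨b, hb, rfl⟩ := ha'
    rw [← map_mul, ← map_mul, hx b hb]

/-- in the constrained case there is no `SL₂(p)`-section at all -/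
theorem SLf.no_section {X : Type*} [Group X] [Finite X] (hX : SLf p X)
    (hc : Subgroup.centralizer ((pCore p X : Subgroup X) : Set X) ≤ pCore p X) (H : Subgroup X) (φ : ↥H →* SL(2, ZMod p))
    (hφ : Function.Surjective φ) : False := by
  have hQn : (pCore p X).Normal := inferInstance
  have hQp : IsPGroup p ↥(pCore p X) := H1.Cores.isPGroup_pCore p
  obtain ⟨h, hh, hh1⟩ := hX (pCore p X) hQp H (by
    rw [Subgroup.normalizer_eq_top_iff.2 hQn]; exact le_top) φ hφ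
  apply hh1
  have h1 : ((pCore p X).subgroupOf H).map φ ≤ pCore p SL(2, ZMod p) := by
    apply H13.Cores.le_pCore
    · exact (hQn.subgroupOf H).map φ hφ
    · exact (hQp.comap_of_injective H.subtype H.subtype_injective).map φ
  rw [H51.Qd.pCore_sl2] at h1
  have h2 : φ h ∈ (⊥ : Subgroup SL(2, ZMod p)) := h1 ⟨h, hc hh, rfl⟩
  exact Subgroup.mem_bot.1 h2

theorem SLf.stable_quot {X : Type u} [Group X] [Finite X] (hp2 : p ≠ 2) (hX : SLf p X)
    (hc : Subgroup.centralizer ((pCore p X : Subgroup X) : Set X) ≤ pCore p X) (N : Subgroup X) [N.Normal] :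
    IsNormalizerPStable p (X ⧸ N) := by
  apply H51.QdStab2.stable hp2
  rintro ⟨A, R, hn, ⟨e⟩⟩
  set π := QuotientGroup.mk' N with hπ
  have hπs : Function.Surjective π := QuotientGroup.mk'_surjective N
  let g : ↥(A.comap π) →* ↥A := (π.comp (A.comap π).subtype).codRestrict A (fun x => x.2)
  have hg : Function.Surjective g := by
    rintro ⟨y, hy⟩
    obtain ⟨x, rfl⟩ := hπs y
    exact ⟨⟨x, hy⟩, rfl⟩
  let e' : ↥A ⧸ R.subgroupOf A ≃* ↥(Cfsg.qdOver (ZMod p)) := e
  exact hX.no_section hc (A.comap π) ((H51.Qd.lin.comp (e'.toMonoidHom.comp (QuotientGroup.mk' _))).comp g)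
    ((H51.Qd.lin_surjective.comp (e'.surjective.comp (QuotientGroup.mk'_surjective _))).comp hg)

theorem sf {W : ∀ (Q : Type u) [Group Q], Subgroup Q} (hW : W = kInfLower ∨ W = kInfUpper) (hp2 : p ≠ 2)
    (X : Type u) [Group X] [Finite X] (hX : SLf p X) : SF p W X := by
  refine H38.SFStep2.SF_of_class (H39.KLocal.kInf_charPFunctor hW) (fun Y _ => SLf p Y) (fun Y _ _ H h => h.subgroup H)
    ?_ ?_ ?_ X hX
  · intro Y _ _ h
    exact h.quot _
  · intro Y _ _ h hc
    exact h.quot_pGroup _ (H1.Cores.isPGroup_pCore p)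
  · intro Y _ _ h hc S A g _ _ _
    have := H39.PStab.kInf_normal hW (fun N hN => h.stable_quot hp2 hc N) hc S
    refine ⟨g, ?_, fun _ _ => rfl⟩
    rw [(Subgroup.normalizer_eq_top_iff).2 this]; trivial

omit hp in
/-- from sections to homomorphisms -/
theorem slf_of {G : Type*} [Group G]
    (hfree : ∀ Q : Subgroup G, IsPGroup p ↥Q → ¬ ∃ (H K : Subgroup G) (_ : (K.subgroupOf H).Normal),
      Subgroup.centralizer (Q : Set G) ≤ K ∧ K ≤ H ∧ H ≤ Subgroup.normalizer (Q : Set G) ∧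
      Nonempty ((↥H ⧸ K.subgroupOf H) ≃* Matrix.SpecialLinearGroup (Fin 2) (ZMod p))) : SLf p G := by
  intro Q hQ H hH φ hφ
  by_contra hcon
  push Not at hcon
  apply hfree Q hQ
  set C := Subgroup.centralizer (Q : Set G) with hC
  have hCN : C ≤ Subgroup.normalizer (Q : Set G) := Subgroup.centralizer_le_normalizer _
  have hHC : H ≤ Subgroup.normalizer (C : Set G) := hH.trans (le_normalizer_centralizer Q)
  have hdec : ∀ x : ↥(H ⊔ C), ∃ h : ↥H, (x : G) * (h : G)⁻¹ ∈ C := by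
    rintro ⟨x, hx⟩
    obtain ⟨c, hc, h, hh, rfl⟩ := (mem_sup_iff_of_le_normalizer hHC).1 hx
    exact ⟨⟨h, hh⟩, by simpa using hc⟩
  choose d hd using hdec
  have huniq : ∀ (x : G) (h h' : ↥H), x * (h : G)⁻¹ ∈ C → x * (h' : G)⁻¹ ∈ C → φ h = φ h' := by
    intro x h h' h1 h2
    have h3 : ((h * h'⁻¹ : ↥H) : G) ∈ C := by
      have := C.mul_mem (C.inv_mem h1) h2
      have e : (x * (h : G)⁻¹)⁻¹ * (x * (h' : G)⁻¹) = (h : G) * (h' : G)⁻¹ := by group
      rwa [e] at this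
    have h4 := hcon _ h3
    rw [map_mul, map_inv, mul_inv_eq_one] at h4
    exact h4
  let ψ : ↥(H ⊔ C) →* SL(2, ZMod p) := MonoidHom.mk' (fun x => φ (d x)) (by
    intro x y
    rw [← map_mul]
    apply huniq ((x * y : ↥(H ⊔ C)) : G) _ _ (hd _)
    have h1 := hd x
    have h2 := hd y
    have h3 := (Subgroup.mem_normalizer_iff.1 (hHC (d x).2) _).1 h2
    have h4 := C.mul_mem h1 h3
    have e : (x : G) * (d x : G)⁻¹ * ((d x : G) * ((y : G) * (d y : G)⁻¹) * (d x : G)⁻¹) =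
        ((x * y : ↥(H ⊔ C)) : G) * ((d x * d y : ↥H) : G)⁻¹ := by
      show _ = (x : G) * y * ((d x : G) * (d y : G))⁻¹
      group
    rwa [e] at h4)
  have hψ : ∀ x, ψ x = φ (d x) := fun x => rfl
  have hψs : Function.Surjective ψ := by
    intro s
    obtain ⟨h, rfl⟩ := hφ s
    refine ⟨⟨h, Subgroup.mem_sup_left h.2⟩, ?_⟩
    rw [hψ]
    exact huniq h _ _ (hd ⟨h, Subgroup.mem_sup_left h.2⟩) (by rw [mul_inv_cancel]; exact C.one_mem)
  have hker : (ψ.ker.map (H ⊔ C).subtype).subgroupOf (H ⊔ C) = ψ.ker :=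
    Subgroup.comap_map_eq_self_of_injective (H ⊔ C).subtype_injective _
  have hn : ((ψ.ker.map (H ⊔ C).subtype).subgroupOf (H ⊔ C)).Normal := by rw [hker]; infer_instance
  refine ⟨H ⊔ C, ψ.ker.map (H ⊔ C).subtype, hn, ?_, Subgroup.map_subtype_le _,
    sup_le hH hCN, ?_⟩
  · intro c hc
    refine ⟨⟨c, Subgroup.mem_sup_right hc⟩, ?_, rfl⟩
    rw [SetLike.mem_coe, MonoidHom.mem_ker, hψ, ← map_one φ]
    exact huniq c _ _ (hd ⟨c, Subgroup.mem_sup_right hc⟩) (by simpa using hc)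
  · exact ⟨(QuotientGroup.quotientMulEquivOfEq hker).trans (QuotientGroup.quotientKerEquivOfSurjective ψ hψs)⟩

end H38.SLFree
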