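import Cfsg.Agent.Lib.H4.Brauer
import Cfsg.Agent.Lib.H4.Defect
import Cfsg.Agent.Lib.H18.CharOrtho

/-!
# Class functions depending only on the `p`-part (Smith-Tyrer 1)
-/

set_option autoImplicit false
set_option linter.unusedSectionVars false
set_option linter.unusedVariables false

namespace H38.ST1

open Cfsg H18.CharBasic H18.CharOrtho
open scoped ComplexConjugate Pointwise

universe u v

/-- `e` is an exponent extracting `p`-parts of elements `g` with `g ^ N = 1`. -/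
def IsPE (p N e : ℕ) : Prop := ∃ a m, N = p ^ a * m ∧ m.Coprime p ∧ m ∣ e ∧ e ≡ 1 [MOD p ^ a]

theorem exists_isPE {p N : ℕ} (hp : p.Prime) (hN : N ≠ 0) : ∃ e, IsPE p N e := by
  obtain ⟨a, m, hm, hN'⟩ := Nat.exists_eq_pow_mul_and_not_dvd hN p hp.ne_one
  have hc : m.Coprime p := ((Nat.Prime.coprime_iff_not_dvd hp).2 hm).symm
  have hc2 : (p ^ a).Coprime m := Nat.Coprime.pow_left a hc.symm
  obtain ⟨e, he1, he2⟩ := Nat.chineseRemainder hc2 1 0
  exact ⟨e, a, m, hN', hc, (Nat.modEq_zero_iff_dvd.1 he2), he1⟩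

variable {X : Type u} [Group X] {p N e : ℕ}

theorem pow_isP (he : IsPE p N e) {g : X} (hg : g ^ N = 1) : ∃ k, (g ^ e) ^ (p ^ k) = 1 := by
  obtain ⟨a, m, hN, hc, ⟨k, hk⟩, hmod⟩ := he
  refine ⟨a, ?_⟩
  rw [← pow_mul, hk, show m * k * p ^ a = (p ^ a * m) * k by ring, ← hN, pow_mul, hg, one_pow]

theorem pow_orderOf (hp : p.Prime) (he : IsPE p N e) {g : X} (hg : g ^ N = 1) :
    ∃ k, orderOf (g ^ e) = p ^ k := by
  obtain ⟨k, hk⟩ := pow_isP he hg
  obtain ⟨j, _, hj⟩ := (Nat.dvd_prime_pow hp).1 (orderOf_dvd_of_pow_eq_one hk)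
  exact ⟨j, hj⟩

theorem rest_reg (hp : p.Prime) (he : IsPE p N e) {g : X} (hg : g ^ N = 1) :
    ¬ p ∣ orderOf ((g ^ e)⁻¹ * g) := by
  obtain ⟨a, m, hN, hc, hme, hmod⟩ := he
  have h1 : ((g ^ e)⁻¹ * g) ^ m = 1 := by
    have h2 : (g ^ e)⁻¹ * g = g ^ ((1 : ℤ) - e) := by
      rw [sub_eq_add_neg, add_comm, zpow_add, zpow_neg, zpow_natCast, zpow_one]
    rw [h2, ← zpow_natCast, ← zpow_mul]
    have h3 : ((p ^ a : ℕ) : ℤ) ∣ (1 - (e : ℤ)) := by
      have := (Nat.modEq_iff_dvd (n := p ^ a) (a := e) (b := 1)).1 hmod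
      simpa using this
    obtain ⟨c, hc'⟩ := h3
    have h4 : (1 - (e : ℤ)) * m = (N : ℤ) * c := by
      rw [hc', hN]; push_cast; ring
    rw [h4, zpow_mul, zpow_natCast, hg, one_zpow]
  intro h
  have h2 := h.trans (orderOf_dvd_of_pow_eq_one h1)
  exact (Nat.Prime.coprime_iff_not_dvd hp).1 hc.symm h2

theorem pow_eq_self (hp : p.Prime) (he : IsPE p N e) {g : X} (hg : g ^ N = 1)
    {k : ℕ} (hk : orderOf g = p ^ k) : g ^ e = g := by
  obtain ⟨a, m, hN, hc, hme, hmod⟩ := he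
  have h1 : orderOf g ∣ p ^ a * m := hN ▸ orderOf_dvd_of_pow_eq_one hg
  have h2 : orderOf g ∣ p ^ a := by
    refine Nat.Coprime.dvd_of_dvd_mul_right ?_ h1
    rw [hk]
    exact Nat.Coprime.pow_left k hc.symm
  have h3 : e ≡ 1 [MOD orderOf g] := hmod.of_dvd h2
  have h4 := (pow_eq_pow_iff_modEq (x := g)).2 h3
  rwa [pow_one] at h4

theorem pow_eq_one (hp : p.Prime) (he : IsPE p N e) {g : X} (hg : g ^ N = 1)
    (hr : ¬ p ∣ orderOf g) : g ^ e = 1 := by
  obtain ⟨a, m, hN, hc, hme, hmod⟩ := he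
  have h1 : orderOf g ∣ p ^ a * m := hN ▸ orderOf_dvd_of_pow_eq_one hg
  have h2 : orderOf g ∣ m := by
    refine Nat.Coprime.dvd_of_dvd_mul_left ?_ h1
    exact Nat.Coprime.pow_right a ((Nat.Prime.coprime_iff_not_dvd hp).2 hr).symm
  exact orderOf_dvd_iff_pow_eq_one.1 (h2.trans hme)

theorem reg_of_pow_eq_one (hp : p.Prime) (he : IsPE p N e) {g : X} (hg : g ^ N = 1)
    (h : g ^ e = 1) : ¬ p ∣ orderOf g := by
  have := rest_reg hp he hg
  rwa [h, inv_one, one_mul] at this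

theorem pow_mul_eq (hp : p.Prime) (he : IsPE p N e) {x v : X} (hc : Commute x v)
    (hx : x ^ N = 1) (hv : v ^ N = 1) {k : ℕ} (hk : orderOf x = p ^ k) (hr : ¬ p ∣ orderOf v) :
    (x * v) ^ e = x := by
  rw [hc.mul_pow, pow_eq_self hp he hx hk, pow_eq_one hp he hv hr, mul_one]

theorem commute_rest (g : X) (e : ℕ) : Commute (g ^ e) ((g ^ e)⁻¹ * g) := by
  have h1 : Commute (g ^ e) g := (Commute.refl g).pow_left e
  have h2 : Commute (g ^ e) ((g ^ e)⁻¹) := (Commute.refl _).inv_right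
  exact h2.mul_right h1

theorem conj_pow (g h : X) (e : ℕ) : (h * g * h⁻¹) ^ e = h * g ^ e * h⁻¹ := by
  have := map_pow (MulAut.conj h) g e
  simp

/-- in a nilpotent group, `g ↦ g ^ e` is a homomorphism. -/
theorem pow_hom [Fact p.Prime] (he : IsPE p N e) [Finite X] [Group.IsNilpotent X]
    (hX : Nat.card X ∣ N) : ∃ φ : X →* X, ∀ g, φ g = g ^ e := by
  have hp : p.Prime := Fact.out
  obtain ⟨P, Q, hQ, hcard, hQcop⟩ := H4.Defect.exists_reg_part X p
  have hN : ∀ g : X, g ^ N = 1 := by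
    intro g
    obtain ⟨k, hk⟩ := hX
    rw [hk, pow_mul, pow_card_eq_one', one_pow]
  have hPn : (P : Subgroup X).Normal := H73.Nilp.sylow_normal P
  have hQn : Q.Normal := by
    refine ⟨fun x hx g => ?_⟩
    rw [hQ] at hx ⊢
    have h1 : orderOf (g * x * g⁻¹) = orderOf x := by
      have := MulEquiv.orderOf_eq (MulAut.conj g) x
      rw [← this]; rfl
    rw [h1]; exact hx
  have hP : ∀ x : X, (∃ k, x ^ (p ^ k) = 1) → x ∈ (P : Subgroup X) := by
    intro x ⟨k, hk⟩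
    have hz : IsPGroup p (Subgroup.zpowers x) := by
      rw [IsPGroup.iff_card]
      obtain ⟨j, _, hj⟩ := (Nat.dvd_prime_pow hp).1 (orderOf_dvd_of_pow_eq_one hk)
      exact ⟨j, by rw [Nat.card_zpowers, hj]⟩
    obtain ⟨S, hS⟩ := hz.exists_le_sylow
    have h1 : S = P := by
      obtain ⟨g, hg⟩ := MulAction.exists_smul_eq X P S
      rw [← hg]
      exact Sylow.smul_eq_of_normal
    rw [← h1]
    exact hS (Subgroup.mem_zpowers x)
  have hdis : ∀ x : X, x ∈ (P : Subgroup X) → x ∈ Q → x = 1 := by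
    intro x hx hxQ
    obtain ⟨k, hk⟩ := P.2 ⟨x, hx⟩
    have hk' : x ^ p ^ k = 1 := by simpa using congrArg Subtype.val hk
    have h1 : orderOf x ∣ p ^ k := orderOf_dvd_of_pow_eq_one hk'
    have h2 := (hQ x).1 hxQ
    rw [← orderOf_eq_one_iff]
    exact Nat.Coprime.eq_one_of_dvd (Nat.Coprime.pow_right k h2) h1
  have hcomm : ∀ a ∈ (P : Subgroup X), ∀ b ∈ Q, Commute a b := by
    intro a ha b hb
    have h1 : a * b * a⁻¹ * b⁻¹ = 1 := by
      apply hdis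
      · have : a * (b * a⁻¹ * b⁻¹) ∈ (P : Subgroup X) :=
          mul_mem ha (hPn.conj_mem _ (inv_mem ha) b)
        simpa [mul_assoc] using this
      · exact mul_mem (hQn.conj_mem _ hb a) (inv_mem hb)
    have h2 : a * b * a⁻¹ = b := by
      have := mul_inv_eq_one.1 h1
      exact this
    show a * b = b * a
    calc a * b = (a * b * a⁻¹) * a := by group
      _ = b * a := by rw [h2]
  refine ⟨⟨⟨fun g => g ^ e, one_pow e⟩, fun g h => ?_⟩, fun g => rfl⟩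
  show (g * h) ^ e = g ^ e * h ^ e
  have hgP : g ^ e ∈ (P : Subgroup X) := hP _ (pow_isP he (hN g))
  have hhP : h ^ e ∈ (P : Subgroup X) := hP _ (pow_isP he (hN h))
  have hgQ : (g ^ e)⁻¹ * g ∈ Q := (hQ _).2
    ((Nat.Prime.coprime_iff_not_dvd hp).2 (rest_reg hp he (hN g))).symm
  have hhQ : (h ^ e)⁻¹ * h ∈ Q := (hQ _).2
    ((Nat.Prime.coprime_iff_not_dvd hp).2 (rest_reg hp he (hN h))).symm
  have h1 : g * h = (g ^ e * h ^ e) * (((g ^ e)⁻¹ * g) * ((h ^ e)⁻¹ * h)) := by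
    have h2 := (hcomm _ hhP _ hgQ).eq
    calc g * h = g ^ e * (((g ^ e)⁻¹ * g) * h ^ e) * ((h ^ e)⁻¹ * h) := by group
      _ = g ^ e * (h ^ e * ((g ^ e)⁻¹ * g)) * ((h ^ e)⁻¹ * h) := by rw [h2]
      _ = _ := by group
  have hPP : g ^ e * h ^ e ∈ (P : Subgroup X) := mul_mem hgP hhP
  have hQQ : ((g ^ e)⁻¹ * g) * ((h ^ e)⁻¹ * h) ∈ Q := mul_mem hgQ hhQ
  obtain ⟨k, hk⟩ := P.2 ⟨_, hPP⟩
  have hk' : (g ^ e * h ^ e) ^ p ^ k = 1 := by simpa using congrArg Subtype.val hk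
  obtain ⟨j, _, hj⟩ := (Nat.dvd_prime_pow hp).1 (orderOf_dvd_of_pow_eq_one hk')
  rw [h1]
  exact pow_mul_eq hp he (hcomm _ hPP _ hQQ) (hN _) (hN _) hj
    ((Nat.Prime.coprime_iff_not_dvd hp).1 ((hQ _).1 hQQ).symm)

theorem isGen_comp {Y : Type v} [Group Y] (f : Y →* X) {θ : X → ℂ}
    (h : IsGeneralizedCharacter X θ) : IsGeneralizedCharacter Y (fun y => θ (f y)) := by
  obtain ⟨a, b, ha, hb, rfl⟩ := h
  exact ⟨_, _, isCharacter_comp f ha, isCharacter_comp f hb, rfl⟩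

/-- extension of a stable generalized character of a Sylow subgroup. -/
theorem isGen_stable [Finite X] [Fact p.Prime] (Q : Sylow p X) (he : IsPE p (Nat.card X) e)
    {f : ↥(Q : Subgroup X) → ℂ} (hf : IsGeneralizedCharacter ↥(Q : Subgroup X) f) {θ : X → ℂ}
    (hθ : ∀ g : X, ∀ w : ↥(Q : Subgroup X), IsConj (g ^ e) (w : X) → θ g = f w) :
    IsGeneralizedCharacter X θ := by
  have hp : p.Prime := Fact.out
  have hN : ∀ g : X, g ^ Nat.card X = 1 := fun g => pow_card_eq_one'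
  have hex : ∀ S : Subgroup X, IsPGroup p S → ∃ y : X, ∀ s ∈ S, y * s * y⁻¹ ∈ (Q : Subgroup X) := by
    intro S hS
    obtain ⟨T, hT⟩ := hS.exists_le_sylow
    obtain ⟨y, hy⟩ := MulAction.exists_smul_eq X T Q
    refine ⟨y, fun s hs => ?_⟩
    rw [← hy]
    exact Subgroup.smul_mem_pointwise_smul s (MulAut.conj y) _ (hT hs)
  refine H4.Brauer.brauer_characterization θ ?_ ?_
  · intro g h
    have hz : IsPGroup p (Subgroup.zpowers (g ^ e)) := by
      rw [IsPGroup.iff_card]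
      obtain ⟨j, hj⟩ := pow_orderOf hp he (hN g)
      exact ⟨j, by rw [Nat.card_zpowers, hj]⟩
    obtain ⟨y, hy⟩ := hex _ hz
    have h1 := hy _ (Subgroup.mem_zpowers (g ^ e))
    rw [hθ g ⟨_, h1⟩ (isConj_iff.2 ⟨y, rfl⟩), hθ (h * g * h⁻¹) ⟨_, h1⟩]
    rw [conj_pow]
    refine isConj_iff.2 ⟨y * h⁻¹, ?_⟩
    group
  · intro E q hq hE
    have hnil : Group.IsNilpotent E := H4.Brauer.isNilpotent_of_isElementary hq hE
    obtain ⟨φ, hφ⟩ := pow_hom he (X := E) (Subgroup.card_subgroup_dvd_card E)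
    have hS : IsPGroup p (φ.range.map E.subtype) := by
      refine IsPGroup.map ?_ _
      rintro ⟨x, ⟨g, hg⟩⟩
      obtain ⟨k, hk⟩ := pow_isP he (g := g) (by
        obtain ⟨j, hj⟩ := Subgroup.card_subgroup_dvd_card E
        rw [hj, pow_mul, pow_card_eq_one', one_pow])
      refine ⟨k, Subtype.ext ?_⟩
      simp only [SubmonoidClass.coe_pow, OneMemClass.coe_one]
      rw [← hg, hφ]
      exact hk
    obtain ⟨y, hy⟩ := hex _ hS
    let ψ : E →* ↥(Q : Subgroup X) :=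
      (((MulAut.conj y).toMonoidHom.comp E.subtype).comp φ).codRestrict (Q : Subgroup X) (by
        intro g
        exact hy _ ⟨φ g, ⟨g, rfl⟩, rfl⟩)
    have h1 : (fun g : E => θ g) = fun g : E => f (ψ g) := by
      funext g
      apply hθ
      refine isConj_iff.2 ⟨y, ?_⟩
      show y * ((g : X) ^ e) * y⁻¹ = y * ((φ g : E) : X) * y⁻¹
      rw [hφ]; rfl
    rw [h1]
    exact isGen_comp ψ hf

end H38.ST1
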