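import Cfsg.Agent.Lib.H38.ST9
import Cfsg.Agent.Lib.H5.ZStar3

/-!
# The final equation (Smith-Tyrer 10)
-/

set_option autoImplicit false
set_option linter.unusedSectionVars false
set_option linter.unusedVariables false

namespace H38.ST10

open Cfsg Subgroup H38.ST1 H38.ST2 H38.ST3 H38.ST4 H38.ST5 H38.ST6 H38.ST7 H38.ST8 H38.ST9
open H18.CharBasic H18.CharOrtho
open scoped Pointwise ComplexConjugate

universe u

theorem isPE_of_mul {p N e : ℕ} (hp : p.Prime) (h : IsPE p (p * N) e) : IsPE p N e := by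
  obtain ⟨a, m, hN, hc, hme, hmod⟩ := h
  rcases Nat.eq_zero_or_pos a with h0 | h0
  · exfalso
    rw [h0, pow_zero, one_mul] at hN
    have h1 : p ∣ m := ⟨N, hN.symm⟩
    exact (Nat.Prime.coprime_iff_not_dvd hp).1 hc.symm h1
  · obtain ⟨b, rfl⟩ : ∃ b, a = b + 1 := ⟨a - 1, by omega⟩
    refine ⟨b, m, ?_, hc, hme, hmod.of_dvd (pow_dvd_pow p (Nat.le_succ b))⟩
    apply Nat.eq_of_mul_eq_mul_left hp.pos
    rw [hN, pow_succ]; ring

variable {G : Type u} [Group G] [Fintype G] {p : ℕ} [hp : Fact p.Prime] {P : Sylow p G}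
variable (D : Dat p P) {e : ℕ}

theorem sum_X [Fintype (CE D.κ)] (f : G → ℂ) :
    ∑ x : CE D.κ, f x.g = (p : ℂ) * ∑ g : G, f g := by
  rw [Fintype.sum_equiv (eqv D.κ) (fun x => f x.g) (fun y => f y.2) (fun x => rfl),
    Fintype.sum_prod_type]
  simp only [Finset.sum_const, Finset.card_univ, ZMod.card, nsmul_eq_mul]

theorem inner_X [Fintype (CE D.κ)] {α β : CE D.κ → ℂ} {f : G → ℂ}
    (h : ∀ x, α x * conj (β x) = f x.g) :
    classInner α β = (Nat.card G : ℂ)⁻¹ * ∑ g : G, f g := by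
  unfold classInner
  rw [Finset.sum_congr rfl fun x _ => h x, sum_X, card_CE]
  have hp0 : (p : ℂ) ≠ 0 := by exact_mod_cast hp.out.ne_zero
  push_cast
  rw [mul_inv]
  field_simp

theorem ζ_conj (a : ZMod p) : (ζ a : ℂ) * conj (ζ a) = 1 := by
  rw [← AddChar.map_neg_eq_conj, ← AddChar.map_add_eq_mul, add_neg_cancel, AddChar.map_zero_eq_one]

/-- number of elements of the radical -/
theorem card_rad [Fintype (P : Subgroup G)] [DecidableEq (ZMod p)] :
    ∑ w : ↥(P : Subgroup G), (if D.g1 w = 0 ∧ D.g2 w = 0 then ((p : ℂ)) ^ 2 else 0) =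
      Nat.card (P : Subgroup G) := by
  classical
  let Φ : ↥(P : Subgroup G) →* Multiplicative (ZMod p × ZMod p) :=
    { toFun := fun w => Multiplicative.ofAdd (D.g1 w, D.g2 w)
      map_one' := by
        show Multiplicative.ofAdd (D.g1 1, D.g2 1) = 1
        rw [D.g1_one, D.g2_one]; rfl
      map_mul' := fun x y => by
        show Multiplicative.ofAdd (D.g1 ((x : G) * y), D.g2 ((x : G) * y)) =
          Multiplicative.ofAdd ((D.g1 x, D.g2 x) + (D.g1 y, D.g2 y))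
        rw [D.h1 _ x.2 _ y.2, D.h2 _ x.2 _ y.2]; rfl }
  have hsurj : Function.Surjective Φ := by
    intro z
    obtain ⟨w, hw, h1, h2⟩ := D.hs (Multiplicative.toAdd z).1 (Multiplicative.toAdd z).2
    refine ⟨⟨w, hw⟩, ?_⟩
    show Multiplicative.ofAdd (D.g1 w, D.g2 w) = z
    rw [h1, h2]; rfl
  have hk : Nat.card Φ.ker * p ^ 2 = Nat.card (P : Subgroup G) := by
    have h1 := Subgroup.card_mul_index Φ.ker
    have h2 : Φ.ker.index = p ^ 2 := by
      rw [Subgroup.index_ker, MonoidHom.range_eq_top.2 hsurj, Subgroup.card_top,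
        Nat.card_congr (Multiplicative.toAdd (α := ZMod p × ZMod p)), Nat.card_prod, Nat.card_zmod]
      ring
    rw [h2] at h1
    exact h1
  have h3 : (Finset.univ.filter (fun w : ↥(P : Subgroup G) => D.g1 w = 0 ∧ D.g2 w = 0)).card =
      Nat.card Φ.ker := by
    rw [← Fintype.card_subtype, ← Nat.card_eq_fintype_card]
    refine Nat.card_congr (Equiv.subtypeEquivRight fun w => ?_)
    rw [MonoidHom.mem_ker]
    show _ ↔ Multiplicative.ofAdd (D.g1 w, D.g2 w) = 1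
    rw [← ofAdd_zero, Multiplicative.ofAdd.apply_eq_iff_eq, Prod.ext_iff]
    rfl
  rw [← Finset.sum_filter, Finset.sum_const, h3, nsmul_eq_mul, ← hk]
  push_cast
  ring

section Eta

variable {Η : CE D.κ → ℂ}
  (hΗ : ∀ g w : CE D.κ, w ∈ (D.Q : Subgroup (CE D.κ)) → IsConj (g ^ e) w → Η g = D.eta0 w)

include hΗ

theorem Eta_reg {x : CE D.κ} (hx : x.g ^ e = 1) : Η x = (p : ℂ) * ζ (x ^ e).a := by
  have h1 : (x ^ e).g = 1 := by rw [pow_g]; exact hx
  rw [hΗ x (x ^ e) (by rw [D.mem_Q, h1]; exact one_mem _) (IsConj.refl _)]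
  unfold Dat.eta0
  rw [if_pos (by rw [h1]; exact ⟨D.g1_one, D.g2_one⟩)]

theorem Eta_zz (he : IsPE p (Nat.card (CE D.κ)) e) (a : ZMod p) (x : CE D.κ) :
    Η (zz D.κ a * x) = ζ a * Η x := by
  obtain ⟨w, hw, hc⟩ := exists_conj_sylow D.Q he x
  obtain ⟨y, hy⟩ := isConj_iff.1 hc
  have hw' : zz D.κ a * w ∈ (D.Q : Subgroup (CE D.κ)) := by
    rw [D.mem_Q, zz_mul]; exact hw
  have hc' : IsConj ((zz D.κ a * x) ^ e) (zz D.κ a * w) := by
    refine isConj_iff.2 ⟨y, ?_⟩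
    rw [zz_mul_pow D he, ← hy, ← mul_assoc, ← zz_comm D.κ a y]
    simp only [mul_assoc]
  rw [hΗ _ _ hw' hc', hΗ _ _ hw hc]
  unfold Dat.eta0
  have h1 : (zz D.κ a * w).g = w.g := by rw [zz_mul]
  have h2 : (zz D.κ a * w).a = a + w.a := by rw [zz_mul]
  rw [h1, h2, AddChar.map_add_eq_mul]
  split_ifs with h3
  · ring
  · ring

theorem Eta_norm (he : IsPE p (Nat.card (CE D.κ)) e) [Fintype (CE D.κ)] :
    classInner Η Η = (1 / 2) * ((p : ℂ) ^ 2 + 1) := by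
  classical
  have hfP : Fintype (P : Subgroup G) := Fintype.ofFinite _
  have heG : IsPE p (Nat.card G) e := isPE_of_mul hp.out (by rw [← card_CE D.κ]; exact he)
  have hPc : (Nat.card (P : Subgroup G) : ℂ) ≠ 0 := by
    exact_mod_cast (Nat.card_pos (α := (P : Subgroup G))).ne'
  have h1 : ∀ x : CE D.κ, Η x * conj (Η x) = Η ⟨0, x.g⟩ * conj (Η ⟨0, x.g⟩) := by
    intro x
    have h2 : x = zz D.κ x.a * ⟨0, x.g⟩ := by rw [zz_mul, add_zero]
    have h3 : Η x = ζ x.a * Η ⟨0, x.g⟩ := by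
      conv_lhs => rw [h2]
      rw [Eta_zz D hΗ he]
    rw [h3, map_mul]
    linear_combination (Η ⟨0, x.g⟩ * conj (Η ⟨0, x.g⟩)) * ζ_conj x.a
  rw [inner_X D (f := fun g => Η ⟨0, g⟩ * conj (Η ⟨0, g⟩)) h1]
  rw [sum_all D.h heG (φ := fun w => if D.g1 w = 0 ∧ D.g2 w = 0 then (p : ℂ) ^ 2 else 0)]
  · rw [card_rad D, inv_mul_cancel₀ hPc]
    rw [if_pos ⟨D.g1_one, D.g2_one⟩]
  · intro g w hw hc
    obtain ⟨y, hy⟩ := isConj_iff.1 hc
    let Y : CE D.κ := ⟨0, y⟩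
    let w' : CE D.κ := Y * (⟨0, g⟩ : CE D.κ) ^ e * Y⁻¹
    have hw'g : w'.g = w := by
      show y * ((⟨0, g⟩ : CE D.κ) ^ e).g * y⁻¹ = w
      rw [pow_g]; exact hy
    have h2 : Η ⟨0, g⟩ = D.eta0 w' := hΗ _ _ (by rw [D.mem_Q, hw'g]; exact hw) (isConj_iff.2 ⟨Y, rfl⟩)
    rw [h2]
    unfold Dat.eta0
    rw [hw'g]
    split_ifs with h3
    · rw [map_mul, Complex.conj_natCast]
      linear_combination ((p : ℂ) ^ 2) * ζ_conj w'.a
    · simp

end Eta

theorem WW_norm [Fintype (CE D.κ)] {Pi : G → ℂ} (hv : ∀ g : G, g ^ e ≠ 1 → Pi g = 0) :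
    classInner (WW D e Pi) (WW D e Pi) = classInner Pi Pi := by
  have h1 : ∀ x : CE D.κ, WW D e Pi x * conj (WW D e Pi x) = Pi x.g * conj (Pi x.g) := by
    intro x
    unfold WW
    by_cases hx : x.g ^ e = 1
    · rw [if_pos hx, map_mul]
      linear_combination (Pi x.g * conj (Pi x.g)) * ζ_conj (x ^ e).a
    · rw [if_neg hx, hv _ hx]
  rw [inner_X D (f := fun g => Pi g * conj (Pi g)) h1]
  rfl

theorem WW_Eta [Fintype (CE D.κ)] {Pi : G → ℂ} (hv : ∀ g : G, g ^ e ≠ 1 → Pi g = 0)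
    {Η : CE D.κ → ℂ}
    (hΗ : ∀ g w : CE D.κ, w ∈ (D.Q : Subgroup (CE D.κ)) → IsConj (g ^ e) w → Η g = D.eta0 w) :
    classInner (WW D e Pi) Η = (p : ℂ) * classInner Pi (tt G) := by
  have h1 : ∀ x : CE D.κ, WW D e Pi x * conj (Η x) = (p : ℂ) * Pi x.g := by
    intro x
    unfold WW
    by_cases hx : x.g ^ e = 1
    · rw [if_pos hx, Eta_reg D hΗ hx, map_mul, Complex.conj_natCast]
      linear_combination ((p : ℂ) * Pi x.g) * ζ_conj (x ^ e).a
    · rw [if_neg hx, hv _ hx]; simp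
  rw [inner_X D (f := fun g => (p : ℂ) * Pi g) h1]
  unfold classInner tt
  rw [← Finset.mul_sum]
  simp only [map_one, mul_one]
  ring

theorem alg {q M s a0 a1 b0 b1 : ℂ} (hq : q ^ 2 - 1 ≠ 0) (hM : M ≠ 0) (ha : a0 ≠ 0) (hb : b0 ≠ 0)
    (e1 : a0 + b0 = 1 - M) (e2 : a0 - b0 = q * (1 + M)) (e3 : a1 + b1 = 1 - s)
    (e4 : a1 - b1 = q * (1 + s)) (h : a1 ^ 2 / a0 + b1 ^ 2 / b0 = 1 - s ^ 2 / M) :
    M = 1 ∨ M = s := by
  have ha0 : a0 = ((1 - M) + q * (1 + M)) / 2 := by linear_combination (e1 + e2) / 2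
  have hb0 : b0 = ((1 - M) - q * (1 + M)) / 2 := by linear_combination (e1 - e2) / 2
  have ha1 : a1 = ((1 - s) + q * (1 + s)) / 2 := by linear_combination (e3 + e4) / 2
  have hb1 : b1 = ((1 - s) - q * (1 + s)) / 2 := by linear_combination (e3 - e4) / 2
  have h1 : M * (a1 ^ 2 * b0 + b1 ^ 2 * a0) = (M - s ^ 2) * a0 * b0 := by
    field_simp at h
    linear_combination h
  have h2 : (q ^ 2 - 1) * ((M - 1) * (M - s) ^ 2) = 0 := by
    rw [ha0, hb0, ha1, hb1] at h1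
    linear_combination 4 * h1
  rcases mul_eq_zero.1 h2 with h3 | h3
  · exact absurd h3 hq
  rcases mul_eq_zero.1 h3 with h4 | h4
  · left; linear_combination h4
  · right
    have := pow_eq_zero_iff (two_ne_zero) |>.1 h4
    linear_combination this

end H38.ST10
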