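import Cfsg.Agent.Lib.H38.ST10

/-!
# The final equation (Smith-Tyrer 11)
-/

set_option autoImplicit false
set_option linter.unusedSectionVars false
set_option linter.unusedVariables false

namespace H38.ST11

open Cfsg Subgroup H38.ST1 H38.ST2 H38.ST3 H38.ST4 H38.ST5 H38.ST6 H38.ST7 H38.ST8 H38.ST9 H38.ST10
open H18.CharBasic H18.CharOrtho
open scoped Pointwise ComplexConjugate

universe u

variable {G : Type u} [Group G] [Fintype G] {p : ℕ} [hp : Fact p.Prime] {P : Sylow p G}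
variable (D : Dat p P) {e : ℕ}

/-- the function `Pi = 1 - ε ψ`. -/
def Pf (ε : ℤ) (χ : IrrCharacter G) : G → ℂ := tt G - sg ε χ

theorem Pf_apply (ε : ℤ) (χ : IrrCharacter G) (g : G) : Pf ε χ g = 1 - (ε : ℂ) * (χ : G → ℂ) g := rfl

theorem isGen_Pf (ε : ℤ) (χ : IrrCharacter G) : IsGeneralizedCharacter G (Pf ε χ) :=
  isGen_sub isGen_one (isGen_sg ε χ)

theorem Pf_tt {ε : ℤ} {χ : IrrCharacter G} (hχ : χ ≠ t0 G) : classInner (Pf ε χ) (tt G) = 1 := by
  unfold Pf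
  rw [H18.CharOrtho.inner_sub_left, inner_sg_tt ε hχ, inner_irr_self isIrr_tt, sub_zero]

theorem Pf_norm {ε : ℤ} (hε : ε = 1 ∨ ε = -1) {χ : IrrCharacter G} (hχ : χ ≠ t0 G) :
    classInner (Pf ε χ) (Pf ε χ) = 2 := by
  have h1 := inner_symm_int (n := 0) (by rw [inner_sg_tt ε hχ]; simp)
  unfold Pf
  rw [H18.CharOrtho.inner_sub_left, H18.CharOrtho.inner_sub_right, H18.CharOrtho.inner_sub_right,
    inner_sg_tt ε hχ, inner_irr_self isIrr_tt, inner_sg_self hε, h1]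
  norm_num

theorem half_zero (hp2 : p ≠ 2) {a : ZMod p} (h : a = -a) : a = 0 := by
  have h1 : (2 : ZMod p) * a = 0 := by linear_combination h
  have h2 : (2 : ZMod p) ≠ 0 := by
    intro h3
    have h4 : ((2 : ℕ) : ZMod p) = 0 := by exact_mod_cast h3
    rw [ZMod.natCast_eq_zero_iff] at h4
    exact hp2 ((Nat.prime_dvd_prime_iff_eq hp.out Nat.prime_two).1 h4)
  exact (mul_eq_zero.1 h1).resolve_left h2

theorem WW_real (he : IsPE p (Nat.card (CE D.κ)) e) {Pi : G → ℂ}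
    (hv : ∀ g : G, g ^ e ≠ 1 → Pi g = 0) {t : CE D.κ} (ht : t * t = 1) (g : CE D.κ) :
    WW D e Pi (t * (g * t * g⁻¹)) = Pi (t * (g * t * g⁻¹)).g := by
  set y := t * (g * t * g⁻¹) with hy
  have ht' : t⁻¹ = t := inv_eq_of_mul_eq_one_left ht
  have hyi : t * y * t⁻¹ = y⁻¹ := by
    rw [hy]
    simp only [mul_inv_rev, inv_inv, ht']
    calc t * (t * (g * t * g⁻¹)) * t = (t * t) * (g * t * g⁻¹) * t := by simp only [mul_assoc]
      _ = g * (t * g⁻¹) * t := by rw [ht, one_mul]; simp only [mul_assoc]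
  unfold WW
  by_cases hx : y.g ^ e = 1
  · rw [if_pos hx]
    have h2 : y ^ e = zz D.κ (y ^ e).a := eq_zz D.κ (by rw [pow_g]; exact hx)
    have h3 : zz D.κ (y ^ e).a = (zz D.κ (y ^ e).a)⁻¹ := by
      rw [← h2, ← inv_pow, ← hyi, _root_.conj_pow, h2, ← zz_comm, mul_inv_cancel_right]
    have h4 : (zz D.κ (y ^ e).a)⁻¹ = zz D.κ (-(y ^ e).a) := by
      rw [inv_eq_iff_mul_eq_one, ← zz_add, add_neg_cancel, zz_zero]
    rw [h4] at h3
    have h5 : (y ^ e).a = 0 := half_zero D.h.odd (congrArg CE.a h3)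
    rw [h5, AddChar.map_zero_eq_one, one_mul]
  · rw [if_neg hx, hv _ hx]

theorem final_eq (he : IsPE p (Nat.card (CE D.κ)) e) [Fintype (CE D.κ)] {ε : ℤ}
    (hε : ε = 1 ∨ ε = -1) {χ : IrrCharacter G}
    (hv : ∀ g : G, g ^ e ≠ 1 → Pf ε χ g = 0) {Η : CE D.κ → ℂ}
    (hΗ : ∀ g w : CE D.κ, w ∈ (D.Q : Subgroup (CE D.κ)) → IsConj (g ^ e) w → Η g = D.eta0 w)
    {x y : IrrCharacter (CE D.κ)} {δ δ' : ℤ} (hδ : δ = 1 ∨ δ = -1) (hδ' : δ' = 1 ∨ δ' = -1)
    (hW : WW D e (Pf ε χ) = sg δ x + sg δ' y)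
    (hU : (2 : ℂ) • Η - (p : ℂ) • WW D e (Pf ε χ) = sg δ x - sg δ' y) {t : CE D.κ}
    (ht : t * t = 1) : (ε : ℂ) * (χ : G → ℂ) 1 = 1 ∨ (χ : G → ℂ) t.g = (χ : G → ℂ) 1 := by
  have hX0 : (Nat.card (CE D.κ) : ℂ) ≠ 0 := by exact_mod_cast (Nat.card_pos (α := CE D.κ)).ne'
  have hε0 : (ε : ℂ) ≠ 0 := by rcases hε with h | h <;> rw [h] <;> simp
  have hε2 : (ε : ℂ) * ε = 1 := by rcases hε with h | h <;> rw [h] <;> simp
  have hδ0 : (δ : ℂ) ≠ 0 := by rcases hδ with h | h <;> rw [h] <;> simp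
  have hδ2 : (δ : ℂ) * δ = 1 := by rcases hδ with h | h <;> rw [h] <;> simp
  have hδ'0 : (δ' : ℂ) ≠ 0 := by rcases hδ' with h | h <;> rw [h] <;> simp
  have hδ'2 : (δ' : ℂ) * δ' = 1 := by rcases hδ' with h | h <;> rw [h] <;> simp
  -- `t` is `p`-regular
  have hte : t ^ e = 1 := by
    apply pow_eq_one hp.out he pow_card_eq_one'
    intro hd
    have h1 : orderOf t ∣ 2 := orderOf_dvd_of_pow_eq_one (by rw [pow_two]; exact ht)
    exact D.h.odd ((Nat.prime_dvd_prime_iff_eq hp.out Nat.prime_two).1 (hd.trans h1))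
  have hval : ∀ z : CE D.κ, z ^ e = 1 → WW D e (Pf ε χ) z = 1 - (ε : ℂ) * (χ : G → ℂ) z.g ∧
      Η z = p := by
    intro z hz
    have h1 : z.g ^ e = 1 := by rw [← pow_g, hz]; rfl
    have h2 : (z ^ e).a = 0 := by rw [hz]; rfl
    constructor
    · unfold WW
      rw [if_pos h1, h2, AddChar.map_zero_eq_one, one_mul, Pf_apply]
    · rw [Eta_reg D hΗ h1, h2, AddChar.map_zero_eq_one, mul_one]
  have e1 : ∀ z : CE D.κ, z ^ e = 1 → (δ : ℂ) * (x : CE D.κ → ℂ) z + (δ' : ℂ) * (y : CE D.κ → ℂ) z =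
      1 - (ε : ℂ) * (χ : G → ℂ) z.g := by
    intro z hz
    rw [← (hval z hz).1, hW]; rfl
  have e2 : ∀ z : CE D.κ, z ^ e = 1 → (δ : ℂ) * (x : CE D.κ → ℂ) z - (δ' : ℂ) * (y : CE D.κ → ℂ) z =
      (p : ℂ) * (1 + (ε : ℂ) * (χ : G → ℂ) z.g) := by
    intro z hz
    have h1 := congrFun hU z
    simp only [Pi.sub_apply, Pi.smul_apply, smul_eq_mul, (hval z hz).1, (hval z hz).2, sg] at h1
    linear_combination -h1
  -- the counting identity
  have hψ : IsIrrCharacter (CE D.κ) (fun z => (χ : G → ℂ) (pr D.κ z)) :=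
    isIrrCharacter_comp (pr D.κ) (pr_surj D.κ) χ.2
  have s1 := H5.ZStar3.sum_char_conj x.2 t t
  have s2 := H5.ZStar3.sum_char_conj y.2 t t
  have s3 := H5.ZStar3.sum_char_conj hψ t t
  have hsum : ∑ g : CE D.κ, WW D e (Pf ε χ) (t * (g * t * g⁻¹)) =
      ∑ g : CE D.κ, (1 - (ε : ℂ) * (χ : G → ℂ) (pr D.κ (t * (g * t * g⁻¹)))) := by
    refine Finset.sum_congr rfl fun g _ => ?_
    rw [WW_real D he hv ht g, Pf_apply]; rfl
  rw [hW] at hsum
  simp only [Pi.add_apply, sg, Pi.smul_apply, smul_eq_mul] at hsum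
  rw [Finset.sum_add_distrib, ← Finset.mul_sum, ← Finset.mul_sum, s1, s2, Finset.sum_sub_distrib,
    ← Finset.mul_sum, s3, Finset.sum_const, Finset.card_univ, nsmul_eq_mul, mul_one,
    ← Nat.card_eq_fintype_card] at hsum
  have hx1 := irr_one_ne_zero x.2
  have hy1 := irr_one_ne_zero y.2
  have hχ1 := irr_one_ne_zero χ.2
  have hpr1 : (χ : G → ℂ) (pr D.κ 1) = (χ : G → ℂ) 1 := by rw [map_one]
  have hprt : (χ : G → ℂ) (pr D.κ t) = (χ : G → ℂ) t.g := rfl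
  rw [hpr1, hprt] at hsum
  have hq : ((p : ℂ)) ^ 2 - 1 ≠ 0 := by
    have h2 : (2 : ℝ) ≤ p := by exact_mod_cast hp.out.two_le
    intro h3
    have h4 : ((p : ℝ)) ^ 2 - 1 = 0 := by exact_mod_cast h3
    nlinarith
  have hone : (1 : CE D.κ) ^ e = 1 := one_pow e
  have hfin := alg (q := (p : ℂ)) (M := (ε : ℂ) * (χ : G → ℂ) 1) (s := (ε : ℂ) * (χ : G → ℂ) t.g)
    (a0 := (δ : ℂ) * (x : CE D.κ → ℂ) 1) (a1 := (δ : ℂ) * (x : CE D.κ → ℂ) t)
    (b0 := (δ' : ℂ) * (y : CE D.κ → ℂ) 1) (b1 := (δ' : ℂ) * (y : CE D.κ → ℂ) t)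
    hq (mul_ne_zero hε0 hχ1) (mul_ne_zero hδ0 hx1) (mul_ne_zero hδ'0 hy1)
    (e1 1 hone) (e2 1 hone) (e1 t hte) (e2 t hte) (by
      have k1 : ((δ : ℂ) * (x : CE D.κ → ℂ) t) ^ 2 / ((δ : ℂ) * (x : CE D.κ → ℂ) 1) =
          (δ : ℂ) * ((x : CE D.κ → ℂ) t * (x : CE D.κ → ℂ) t / (x : CE D.κ → ℂ) 1) := by
        field_simp
      have k2 : ((δ' : ℂ) * (y : CE D.κ → ℂ) t) ^ 2 / ((δ' : ℂ) * (y : CE D.κ → ℂ) 1) =
          (δ' : ℂ) * ((y : CE D.κ → ℂ) t * (y : CE D.κ → ℂ) t / (y : CE D.κ → ℂ) 1) := by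
        field_simp
      have k3 : ((ε : ℂ) * (χ : G → ℂ) t.g) ^ 2 / ((ε : ℂ) * (χ : G → ℂ) 1) =
          (ε : ℂ) * ((χ : G → ℂ) t.g * (χ : G → ℂ) t.g / (χ : G → ℂ) 1) := by
        field_simp
      rw [k1, k2, k3]
      apply mul_left_cancel₀ hX0
      linear_combination hsum)
  rcases hfin with h | h
  · left; exact h
  · right; exact (mul_left_cancel₀ hε0 h).symm

theorem key (he : IsPE p (Nat.card (CE D.κ)) e) {ε : ℤ} (hε : ε = 1 ∨ ε = -1)
    {χ : IrrCharacter G} (hχ : χ ≠ t0 G) (hs : ∀ g : G, g ^ e ≠ 1 → (ε : ℂ) * (χ : G → ℂ) g = 1)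
    {τ : G} (hτ : τ * τ = 1) :
    (ε : ℂ) * (χ : G → ℂ) 1 = 1 ∨ (χ : G → ℂ) τ = (χ : G → ℂ) 1 := by
  classical
  have hfX : Fintype (CE D.κ) := Fintype.ofFinite _
  have hv : ∀ g : G, g ^ e ≠ 1 → Pf ε χ g = 0 := by
    intro g hg
    rw [Pf_apply, hs g hg, sub_self]
  -- lift the involution
  obtain ⟨t, ht, htg⟩ : ∃ t : CE D.κ, t * t = 1 ∧ t.g = τ := by
    let x : CE D.κ := ⟨0, τ⟩
    have h1 : (x * x).g = 1 := hτ
    have h2 := eq_zz D.κ h1
    set c := (x * x).a with hc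
    have hp2 : (2 : ZMod p) ≠ 0 := by
      intro h3
      have h4 : ((2 : ℕ) : ZMod p) = 0 := by exact_mod_cast h3
      rw [ZMod.natCast_eq_zero_iff] at h4
      exact D.h.odd ((Nat.prime_dvd_prime_iff_eq hp.out Nat.prime_two).1 h4)
    refine ⟨zz D.κ (-(c / 2)) * x, ?_, ?_⟩
    · calc zz D.κ (-(c / 2)) * x * (zz D.κ (-(c / 2)) * x)
          = zz D.κ (-(c / 2)) * (x * zz D.κ (-(c / 2))) * x := by simp only [mul_assoc]
        _ = zz D.κ (-(c / 2)) * (zz D.κ (-(c / 2)) * x) * x := by rw [zz_comm D.κ (-(c / 2)) x]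
        _ = (zz D.κ (-(c / 2)) * zz D.κ (-(c / 2))) * (x * x) := by simp only [mul_assoc]
        _ = 1 := by
          rw [h2, ← zz_add, ← zz_add, ← zz_zero]
          congr 1
          field_simp
          ring
    · rw [zz_mul]
  rw [← htg]
  obtain ⟨Η, gΗ, hΗ⟩ := D.exists_Eta he
  set W := WW D e (Pf ε χ) with hWdef
  have gW : IsGeneralizedCharacter (CE D.κ) W := isGen_WW D he (isGen_Pf ε χ) hv
  have WWn : classInner W W = 2 := by rw [hWdef, WW_norm D hv, Pf_norm hε hχ]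
  have WΗ : classInner W Η = p := by rw [hWdef, WW_Eta D hv hΗ, Pf_tt hχ, mul_one]
  have ΗW : classInner Η W = p := inner_symm_int (n := (p : ℤ)) (by rw [WΗ]; simp) |>.trans (by simp)
  have ΗΗ := Eta_norm D hΗ he
  obtain ⟨s, δ, hcs, hδ, hWs⟩ := H5.CharSmallNorm.exists_signed gW (n := 2) (by norm_num)
    (by rw [WWn]; norm_num)
  obtain ⟨x, y, hxy, rfl⟩ := Finset.card_eq_two.1 hcs
  rw [Finset.sum_pair hxy] at hWs
  have hWs' : W = sg (δ x) x + sg (δ y) y := hWs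
  set U : CE D.κ → ℂ := (2 : ℂ) • Η - (p : ℂ) • W with hUdef
  have gU : IsGeneralizedCharacter (CE D.κ) U := by
    have h1 := isGen_intCast_smul 2 gΗ
    have h2 := isGen_intCast_smul (p : ℤ) gW
    push_cast at h1 h2
    exact isGen_sub h1 h2
  have Wx : classInner W (x : CE D.κ → ℂ) = δ x := by
    rw [hWs', H18.CharOrtho.inner_add_left]
    unfold sg
    rw [H18.CharOrtho.inner_smul_left, H18.CharOrtho.inner_smul_left, inner_irr_self x.2,
      inner_irr_ne y.2 x.2 (fun hh => hxy (Subtype.ext hh.symm))]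
    ring
  have Wy : classInner W (y : CE D.κ → ℂ) = δ y := by
    rw [hWs', H18.CharOrtho.inner_add_left]
    unfold sg
    rw [H18.CharOrtho.inner_smul_left, H18.CharOrtho.inner_smul_left, inner_irr_self y.2,
      inner_irr_ne x.2 y.2 (fun hh => hxy (Subtype.ext hh))]
    ring
  obtain ⟨α, hα⟩ := inner_gen_intCast gU (isGen_of_isIrr x.2)
  obtain ⟨β, hβ⟩ := inner_gen_intCast gU (isGen_of_isIrr y.2)
  obtain ⟨a, ha⟩ := inner_gen_intCast gΗ (isGen_of_isIrr x.2)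
  obtain ⟨b, hb⟩ := inner_gen_intCast gΗ (isGen_of_isIrr y.2)
  have hα' : α = 2 * a - p * δ x := by
    have h1 : classInner U (x : CE D.κ → ℂ) = 2 * a - p * δ x := by
      rw [hUdef, H18.CharOrtho.inner_sub_left, H18.CharOrtho.inner_smul_left,
        H18.CharOrtho.inner_smul_left, ha, Wx]
    rw [hα] at h1
    exact_mod_cast h1
  have hβ' : β = 2 * b - p * δ y := by
    have h1 : classInner U (y : CE D.κ → ℂ) = 2 * b - p * δ y := by
      rw [hUdef, H18.CharOrtho.inner_sub_left, H18.CharOrtho.inner_smul_left,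
        H18.CharOrtho.inner_smul_left, hb, Wy]
    rw [hβ] at h1
    exact_mod_cast h1
  have hpodd : (p : ℤ) % 2 = 1 := by
    have := hp.out.eq_two_or_odd
    have h2 := D.h.odd
    omega
  have hodd : ∀ {a' c d : ℤ}, (d = 1 ∨ d = -1) → c = 2 * a' - p * d → c ≠ 0 := by
    intro a' c d hd hc h0
    rcases hd with h | h <;> subst h <;> omega
  have hα0 : α ≠ 0 := hodd (hδ x) hα'
  have hβ0 : β ≠ 0 := hodd (hδ y) hβ'
  have UU : classInner U U = 2 := by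
    rw [hUdef]
    simp only [H18.CharOrtho.inner_sub_left, H18.CharOrtho.inner_sub_right,
      H18.CharOrtho.inner_smul_left, H18.CharOrtho.inner_smul_right, WWn, WΗ, ΗW, ΗΗ,
      Complex.conj_natCast]
    have : conj (2 : ℂ) = 2 := Complex.conj_ofNat 2
    rw [this]
    ring
  have UW : classInner U W = 0 := by
    rw [hUdef]
    simp only [H18.CharOrtho.inner_sub_left, H18.CharOrtho.inner_smul_left, WWn, ΗW]
    ring
  have xx := inner_irr_self x.2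
  have yy := inner_irr_self y.2
  have xy0 : classInner (x : CE D.κ → ℂ) (y : CE D.κ → ℂ) = 0 :=
    inner_irr_ne x.2 y.2 (fun hh => hxy (Subtype.ext hh))
  have yx0 : classInner (y : CE D.κ → ℂ) (x : CE D.κ → ℂ) = 0 :=
    inner_irr_ne y.2 x.2 (fun hh => hxy (Subtype.ext hh.symm))
  have xU := inner_symm_int hα
  have yU := inner_symm_int hβ
  have hR : classInner (U - (α : ℂ) • (x : CE D.κ → ℂ) - (β : ℂ) • (y : CE D.κ → ℂ))
      (U - (α : ℂ) • (x : CE D.κ → ℂ) - (β : ℂ) • (y : CE D.κ → ℂ)) =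
      ((2 - α ^ 2 - β ^ 2 : ℤ) : ℂ) := by
    simp only [H18.CharOrtho.inner_sub_left, H18.CharOrtho.inner_sub_right,
      H18.CharOrtho.inner_smul_left, H18.CharOrtho.inner_smul_right, UU, xx, yy, xy0, yx0, xU, yU,
      hα, hβ, map_intCast]
    push_cast
    ring
  have hRn := inner_self_re_nonneg (U - (α : ℂ) • (x : CE D.κ → ℂ) - (β : ℂ) • (y : CE D.κ → ℂ))
  rw [hR] at hRn
  have h2 : 0 ≤ 2 - α ^ 2 - β ^ 2 := by
    have h3 : (((2 - α ^ 2 - β ^ 2 : ℤ) : ℂ)).re = ((2 - α ^ 2 - β ^ 2 : ℤ) : ℝ) := by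
      rw [← Complex.ofReal_intCast, Complex.ofReal_re]
    rw [h3] at hRn
    exact_mod_cast hRn
  have hα1 : 1 ≤ α ^ 2 := by
    have : 0 < α ^ 2 := by positivity
    omega
  have hβ1 : 1 ≤ β ^ 2 := by
    have : 0 < β ^ 2 := by positivity
    omega
  have hz : U - (α : ℂ) • (x : CE D.κ → ℂ) - (β : ℂ) • (y : CE D.κ → ℂ) = 0 := by
    apply H18.CharOrtho.inner_self_eq_zero.1
    rw [hR]
    have : 2 - α ^ 2 - β ^ 2 = 0 := by omega
    rw [this]; simp
  have hUs : U = sg α x + sg β y := by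
    unfold sg
    have h4 : U = (U - (α : ℂ) • (x : CE D.κ → ℂ) - (β : ℂ) • (y : CE D.κ → ℂ)) +
        ((α : ℂ) • (x : CE D.κ → ℂ) + (β : ℂ) • (y : CE D.κ → ℂ)) := by ring
    rw [h4, hz, zero_add]
  have hrel : α * δ x + β * δ y = 0 := by
    have h5 : classInner U W = ((α * δ x + β * δ y : ℤ) : ℂ) := by
      rw [hUs, H18.CharOrtho.inner_add_left]
      unfold sg
      rw [H18.CharOrtho.inner_smul_left, H18.CharOrtho.inner_smul_left,
        inner_symm_int Wx, inner_symm_int Wy]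
      push_cast; ring
    rw [UW] at h5
    exact_mod_cast h5.symm
  have hαv : α = 1 ∨ α = -1 := by
    have h6 : α ^ 2 = 1 := by omega
    have h7 : (α - 1) * (α + 1) = 0 := by linear_combination h6
    rcases mul_eq_zero.1 h7 with h8 | h8 <;> omega
  have hβv : β = 1 ∨ β = -1 := by
    have h6 : β ^ 2 = 1 := by omega
    have h7 : (β - 1) * (β + 1) = 0 := by linear_combination h6
    rcases mul_eq_zero.1 h7 with h8 | h8 <;> omega
  have hneg : ∀ (n : ℤ) (z : IrrCharacter (CE D.κ)), sg (-n) z = - sg n z := by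
    intro n z
    unfold sg
    push_cast
    rw [neg_smul]
  by_cases hc : α = δ x
  · have hβd : β = - δ y := by
      rcases hδ x with h7 | h7 <;> rcases hδ y with h8 | h8 <;> rw [h7] at hc hrel <;>
        rw [h8] at hrel ⊢ <;> omega
    apply final_eq D he hε hv hΗ (hδ x) (hδ y) hWs' ?_ ht
    show U = _
    rw [hUs, hc, hβd, hneg]; ring
  · have hαd : α = - δ x := by
      rcases hδ x with h7 | h7 <;> rw [h7] at hc ⊢ <;> omega
    have hβd : β = δ y := by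
      rcases hδ x with h7 | h7 <;> rcases hδ y with h8 | h8 <;> rw [h7] at hαd hrel <;>
        rw [h8] at hrel ⊢ <;> omega
    apply final_eq D he hε hv hΗ (hδ y) (hδ x) (by rw [← hWdef, hWs']; ring) ?_ ht
    show U = _
    rw [hUs, hαd, hβd, hneg]; ring

end H38.ST11
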