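import Cfsg.Agent.Lib.H38.ST11
import Cfsg.Agent.Lib.H18.CharQuot
import Cfsg.Agent.Lib.H1.Cores

/-!
# No perfect group (Smith-Tyrer 12)
-/

set_option autoImplicit false
set_option linter.unusedSectionVars false
set_option linter.unusedVariables false

namespace H38.ST12

open Cfsg Subgroup H38.ST1 H38.ST2 H38.ST3 H38.ST4 H38.ST8 H38.ST10
open H18.CharBasic H18.CharOrtho
open scoped Pointwise ComplexConjugate

universe u

variable {G : Type u} [Group G] [Finite G] {p : ℕ} [hp : Fact p.Prime] {P : Sylow p G}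

/-- the linear character attached to an additive function on `P`. -/
noncomputable def lin (P : Sylow p G) (f : G → ZMod p)
    (hf : ∀ x ∈ (P : Subgroup G), ∀ y ∈ (P : Subgroup G), f (x * y) = f x + f y) :
    ↥(P : Subgroup G) →* ℂˣ :=
  MonoidHom.toHomUnits
    { toFun := fun w => (ζ : AddChar (ZMod p) ℂ) (f w)
      map_one' := by
        have h0 : f 1 = 0 := by
          have := hf 1 (one_mem _) 1 (one_mem _)
          rw [mul_one] at this
          linear_combination -this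
        show (ζ : AddChar (ZMod p) ℂ) (f ((1 : ↥(P : Subgroup G)) : G)) = 1
        rw [Subgroup.coe_one, h0, AddChar.map_zero_eq_one]
      map_mul' := by
        intro x y
        show (ζ : AddChar (ZMod p) ℂ) (f ((x * y : ↥(P : Subgroup G)) : G)) = _
        rw [Subgroup.coe_mul, hf _ x.2 _ y.2, AddChar.map_add_eq_mul] }

theorem lin_apply (f : G → ZMod p)
    (hf : ∀ x ∈ (P : Subgroup G), ∀ y ∈ (P : Subgroup G), f (x * y) = f x + f y)
    (w : ↥(P : Subgroup G)) : ((lin P f hf w : ℂˣ) : ℂ) = (ζ : AddChar (ZMod p) ℂ) (f w) := rfl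

theorem ζ_inj {a b : ZMod p} (h : (ζ : AddChar (ZMod p) ℂ) a = ζ b) : a = b :=
  ZMod.injective_stdAddChar h

theorem two_dvd (h : SH p P) (hnc : ¬ IsCyclic (P : Subgroup G)) : 2 ∣ Nat.card G := by
  by_contra h2
  obtain ⟨t, ht, hti⟩ := h.ex
  obtain ⟨x, hx, hx1⟩ : ∃ x ∈ (P : Subgroup G), x ≠ 1 := by
    by_contra hc
    push Not at hc
    apply hnc
    have h3 : (P : Subgroup G) = ⊥ := (Subgroup.eq_bot_iff_forall _).2 hc
    rw [h3]
    infer_instance
  -- `t` has odd order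
  have hodd : ¬ 2 ∣ orderOf t := fun h3 => h2 (h3.trans (orderOf_dvd_natCard t))
  have hinv2 : ∀ k : ℕ, t ^ (2 * k) * x * (t ^ (2 * k))⁻¹ = x := by
    intro k
    induction k with
    | zero => simp
    | succ k ih =>
      have e1 : t ^ (2 * (k + 1)) = t ^ (2 * k) * (t * t) := by
        rw [mul_add, mul_one, pow_add, pow_two t]
      rw [e1]
      have e2 : t * t * x * (t * t)⁻¹ = x := by
        have h4 := hti x hx
        have h5 := hti x⁻¹ (inv_mem hx)
        rw [inv_inv] at h5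
        calc t * t * x * (t * t)⁻¹ = t * (t * x * t⁻¹) * t⁻¹ := by group
          _ = t * x⁻¹ * t⁻¹ := by rw [h4]
          _ = x := h5
      calc t ^ (2 * k) * (t * t) * x * (t ^ (2 * k) * (t * t))⁻¹
          = t ^ (2 * k) * (t * t * x * (t * t)⁻¹) * (t ^ (2 * k))⁻¹ := by group
        _ = t ^ (2 * k) * x * (t ^ (2 * k))⁻¹ := by rw [e2]
        _ = x := ih
  obtain ⟨k, hk⟩ : ∃ k, orderOf t = 2 * k + 1 := by
    have := Nat.odd_iff.2 (Nat.two_dvd_ne_zero.1 hodd)
    exact this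
  have h6 := hinv2 (k + 1)
  have h7 : t ^ (2 * (k + 1)) = t := by
    have : 2 * (k + 1) = orderOf t + 1 := by omega
    rw [this, pow_add, pow_orderOf_eq_one, one_mul, pow_one]
  rw [h7, hti x hx] at h6
  exact ne_inv h hx hx1 h6.symm

theorem main (h : SH p P) (hnc : ¬ IsCyclic (P : Subgroup G)) (hperf : commutator G = ⊤)
    (hO : pPrimeCore p G = ⊥) : False := by
  classical
  have hfG : Fintype G := Fintype.ofFinite G
  obtain ⟨D⟩ := exists_dat h hnc
  obtain ⟨e, he⟩ := exists_isPE (N := Nat.card (CE D.κ)) hp.out Nat.card_pos.ne'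
  have heG : IsPE p (Nat.card G) e := by
    apply isPE_of_mul hp.out
    rw [← card_CE D.κ]
    exact he
  let lam := lin P D.g1 D.h1
  let mu := lin P D.g2 D.h2
  have hsep : ∀ {f f' : ↥(P : Subgroup G) →* ℂˣ} (w : ↥(P : Subgroup G)),
      ((f w : ℂˣ) : ℂ) ≠ ((f' w : ℂˣ) : ℂ) → f ≠ f' := by
    rintro f f' w hw rfl
    exact hw rfl
  have h10 : (1 : ZMod p) ≠ 0 := by
    have : Nontrivial (ZMod p) := inferInstance
    exact one_ne_zero
  obtain ⟨w1, hw1, hw1a, hw1b⟩ := D.hs 1 0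
  obtain ⟨w2, hw2, hw2a, hw2b⟩ := D.hs 0 1
  have hl1 : ((lam ⟨w1, hw1⟩ : ℂˣ) : ℂ) ≠ 1 := by
    intro h0
    apply h10
    apply ζ_inj (p := p)
    rw [AddChar.map_zero_eq_one, ← h0, ← hw1a]
    rfl
  have hm1 : ((mu ⟨w2, hw2⟩ : ℂˣ) : ℂ) ≠ 1 := by
    intro h0
    apply h10
    apply ζ_inj (p := p)
    rw [AddChar.map_zero_eq_one, ← h0, ← hw2b]
    rfl
  have hm0 : ((mu ⟨w1, hw1⟩ : ℂˣ) : ℂ) = 1 := by
    show (ζ : AddChar (ZMod p) ℂ) (D.g2 w1) = 1
    rw [hw1b, AddChar.map_zero_eq_one]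
  have k1 : lam ≠ 1 := hsep ⟨w1, hw1⟩ (by simpa using hl1)
  have k2 : mu ≠ 1 := hsep ⟨w2, hw2⟩ (by simpa using hm1)
  have k3 : lam ≠ mu := hsep ⟨w1, hw1⟩ (by rw [hm0]; exact hl1)
  have k4 : lam * mu ≠ 1 := hsep ⟨w1, hw1⟩ (by
    rw [MonoidHom.mul_apply, Units.val_mul, hm0, mul_one]
    simpa using hl1)
  obtain ⟨χ, ε, hε, hχ, hs⟩ := exists_psi h heG k1 k2 k3 k4
  have hdeg : (ε : ℂ) * (χ : G → ℂ) 1 ≠ 1 := by
    intro h0
    obtain ⟨n, hn⟩ : ∃ n : ℕ, (χ : G → ℂ) 1 = n := by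
      obtain ⟨n, ρ, hρ⟩ := isCharacter_of_isIrr χ.2
      refine ⟨n, ?_⟩
      rw [← hρ]
      simp
    have h1 : (χ : G → ℂ) 1 = 1 := by
      rw [hn] at h0 ⊢
      rcases hε with rfl | rfl
      · simpa using h0
      · exfalso
        have h3 : ((-1 : ℤ) * (n : ℤ)) = 1 := by exact_mod_cast h0
        omega
    obtain ⟨f, hf⟩ := H18.CharQuot.exists_hom_of_degree_one (isCharacter_of_isIrr χ.2) h1
    apply hχ
    apply Subtype.ext
    rw [hf]
    have hf1 : f = 1 := by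
      have h2 : commutator G ≤ f.ker := Abelianization.commutator_subset_ker f
      rw [hperf, top_le_iff] at h2
      ext g
      have h3 : g ∈ f.ker := by rw [h2]; exact Subgroup.mem_top g
      rw [MonoidHom.mem_ker] at h3
      rw [h3]; rfl
    funext g
    rw [hf1]
    rfl
  obtain ⟨τ, hτ⟩ := exists_prime_orderOf_dvd_card' 2 (two_dvd h hnc)
  have hττ : τ * τ = 1 := by
    rw [← pow_two, ← hτ]; exact pow_orderOf_eq_one τ
  have hK : τ ∈ H18.CharQuot.kerSub (χ : G → ℂ) (isCharacter_of_isIrr χ.2) :=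
    (H38.ST11.key D he hε hχ hs hττ).resolve_left hdeg
  have hcop : (Nat.card (H18.CharQuot.kerSub (χ : G → ℂ) (isCharacter_of_isIrr χ.2))).Coprime p := by
    rw [Nat.coprime_comm, hp.out.coprime_iff_not_dvd]
    intro hd
    obtain ⟨x, hx⟩ := exists_prime_orderOf_dvd_card' p hd
    have hx' : orderOf (x : G) = p := by rw [← hx]; exact Subgroup.orderOf_coe x
    have hxe : (x : G) ^ e = x := by
      apply pow_eq_self hp.out heG pow_card_eq_one' (k := 1)
      rw [pow_one, hx']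
    have hx1 : (x : G) ≠ 1 := by
      intro h0
      rw [h0, orderOf_one] at hx'
      exact hp.out.one_lt.ne hx'
    have h1 := hs (x : G) (by rw [hxe]; exact hx1)
    have h2 : (χ : G → ℂ) x = (χ : G → ℂ) 1 := x.2
    rw [h2] at h1
    exact hdeg h1
  have hle := H1.Cores.le_pPrimeCore inferInstance hcop
  rw [hO, le_bot_iff] at hle
  rw [hle, Subgroup.mem_bot] at hK
  rw [hK, orderOf_one] at hτ
  exact absurd hτ (by norm_num)

end H38.ST12
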