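import Cfsg.Agent.Lib.H38.ST12
import Cfsg.Agent.Lib.H13.Cores
import Cfsg.Agent.Lib.H30.PLen
import Cfsg.Agent.Lib.H37.NormQuot
import Cfsg.Prelude.Def_Transfer

/-!
# The reductions (Smith-Tyrer 13)
-/

set_option autoImplicit false
set_option linter.unusedSectionVars false
set_option linter.unusedVariables false

namespace H38.ST13

open Cfsg Subgroup H38.ST2
open scoped Pointwise IsMulCommutative commutatorElement

universe u

variable {G : Type u} [Group G] [Finite G] {p : ℕ} [hp : Fact p.Prime]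

/-- a homomorphism to a `p`-group kills the `p'`-elements. -/
theorem hom_trivial (hR : pResidual p G = ⊤) {A : Type*} [Group A] (hA : IsPGroup p A)
    (f : G →* A) (g : G) : f g = 1 := by
  have h1 : pResidual p G ≤ f.ker := by
    unfold pResidual
    rw [Subgroup.closure_le]
    intro x hx
    rw [SetLike.mem_coe, MonoidHom.mem_ker, ← orderOf_eq_one_iff]
    have h2 : orderOf (f x) ∣ orderOf x := orderOf_map_dvd f x
    obtain ⟨k, hk⟩ := hA (f x)
    have h3 : orderOf (f x) ∣ p ^ k := orderOf_dvd_of_pow_eq_one hk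
    have h4 : Nat.Coprime (orderOf x) (p ^ k) := Nat.Coprime.pow_right k hx
    exact Nat.Coprime.eq_one_of_dvd (h4.coprime_dvd_left h2) h3
  rw [hR] at h1
  exact h1 (Subgroup.mem_top g)

/-- with `O^p(G) = G` and an abelian Sylow subgroup, `P ∩ Z(N(P)) = 1`. -/
theorem fixed_eq_one (P : Sylow p G) (hab : IsMulCommutative (P : Subgroup G))
    (hR : pResidual p G = ⊤) {x : G} (hx : x ∈ (P : Subgroup G))
    (hf : ∀ n ∈ normalizer ((P : Subgroup G) : Set G), n * x * n⁻¹ = x) : x = 1 := by
  have key : ∀ (k : ℕ) (g₀ : G), g₀⁻¹ * x ^ k * g₀ ∈ (P : Subgroup G) →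
      g₀⁻¹ * x ^ k * g₀ = x ^ k := by
    intro k g₀ hg
    obtain ⟨n, hn, h⟩ := P.conj_eq_normalizer_conj_of_mem (x ^ k) g₀ (pow_mem hx k) hg
    rw [h]
    have h1 := hf n⁻¹ (inv_mem hn)
    rw [inv_inv] at h1
    have h2 : n⁻¹ * x ^ k * n = (n⁻¹ * x * n) ^ k := by
      have := _root_.conj_pow (i := k) (a := n⁻¹) (b := x)
      rw [inv_inv] at this
      exact this.symm
    rw [h2, h1]
  have h1 := MonoidHom.transfer_eq_pow (MonoidHom.id (P : Subgroup G)) x key
  have h2 := hom_trivial hR P.2 (MonoidHom.transfer (MonoidHom.id (P : Subgroup G))) x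
  rw [h2] at h1
  have h3 : x ^ (P : Subgroup G).index = 1 := (congrArg Subtype.val h1).symm
  have h4 : orderOf x ∣ (P : Subgroup G).index := orderOf_dvd_of_pow_eq_one h3
  obtain ⟨k, hk⟩ := P.2 ⟨x, hx⟩
  have hk' : x ^ p ^ k = 1 := by simpa using congrArg Subtype.val hk
  have h5 : orderOf x ∣ p ^ k := orderOf_dvd_of_pow_eq_one hk'
  have h6 : Nat.Coprime p (P : Subgroup G).index := (hp.out.coprime_iff_not_dvd).2 P.not_dvd_index
  have h7 : Nat.Coprime (p ^ k) (P : Subgroup G).index := Nat.Coprime.pow_left k h6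
  exact orderOf_eq_one_iff.1 (Nat.Coprime.eq_one_of_dvd (h7.coprime_dvd_left h5) h4)

/-- the normalizer acts by `±1`. -/
theorem exists_SH (hp2 : p ≠ 2) (P : Sylow p G) (hab : IsMulCommutative (P : Subgroup G))
    (hR : pResidual p G = ⊤)
    (hidx : ((Subgroup.centralizer ((P : Subgroup G) : Set G)).subgroupOf
      (Subgroup.normalizer ((P : Subgroup G) : Set G))).index = 2) : SH p P := by
  set N := Subgroup.normalizer ((P : Subgroup G) : Set G) with hN
  set C := (Subgroup.centralizer ((P : Subgroup G) : Set G)).subgroupOf N with hC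
  have hmemC : ∀ n : N, n ∈ C ↔ ∀ x ∈ (P : Subgroup G), (n : G) * x * (n : G)⁻¹ = x := by
    intro n
    rw [hC, Subgroup.mem_subgroupOf, Subgroup.mem_centralizer_iff]
    constructor
    · intro h x hx
      rw [mul_inv_eq_iff_eq_mul]; exact (h x hx).symm
    · intro h x hx
      exact (mul_inv_eq_iff_eq_mul.1 (h x hx)).symm
  have hcomm : ∀ x ∈ (P : Subgroup G), ∀ y ∈ (P : Subgroup G), x * y = y * x := by
    intro x hx y hy
    exact congrArg Subtype.val (hab.is_comm.comm ⟨x, hx⟩ ⟨y, hy⟩)
  have hinvert : ∀ n : N, n ∉ C → ∀ x ∈ (P : Subgroup G), (n : G) * x * (n : G)⁻¹ = x⁻¹ := by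
    intro n hn x hx
    have hnx : (n : G) * x * (n : G)⁻¹ ∈ (P : Subgroup G) := (mem_normalizer_iff.1 n.2 x).1 hx
    have hnn : n * n ∈ C := (Subgroup.mul_mem_iff_of_index_two hidx).2 Iff.rfl
    have hfix : (n : G) * (x * ((n : G) * x * (n : G)⁻¹)) * (n : G)⁻¹ = x * ((n : G) * x * (n : G)⁻¹) := by
      have h1 := (hmemC _).1 hnn x hx
      rw [Subgroup.coe_mul] at h1
      calc (n : G) * (x * ((n : G) * x * (n : G)⁻¹)) * (n : G)⁻¹
          = ((n : G) * x * (n : G)⁻¹) * ((n : G) * (n : G) * x * ((n : G) * (n : G))⁻¹) := by group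
        _ = ((n : G) * x * (n : G)⁻¹) * x := by rw [h1]
        _ = _ := hcomm _ hnx _ hx
    have h2 : x * ((n : G) * x * (n : G)⁻¹) = 1 := by
      apply fixed_eq_one P hab hR (mul_mem hx hnx)
      intro m hm
      by_cases hmC : (⟨m, hm⟩ : N) ∈ C
      · exact (hmemC _).1 hmC _ (mul_mem hx hnx)
      · -- `m = n c`
        have h3 : n⁻¹ * ⟨m, hm⟩ ∈ C := by
          rw [Subgroup.mul_mem_iff_of_index_two hidx]
          constructor
          · intro h; exact absurd (by simpa using inv_mem h) hn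
          · intro h; exact absurd h hmC
        have h4 := (hmemC _).1 h3 _ (mul_mem hx hnx)
        rw [Subgroup.coe_mul, Subgroup.coe_inv] at h4
        calc m * (x * ((n : G) * x * (n : G)⁻¹)) * m⁻¹ =
            (n : G) * ((n : G)⁻¹ * m * (x * ((n : G) * x * (n : G)⁻¹)) * ((n : G)⁻¹ * m)⁻¹) * (n : G)⁻¹ := by
              group
          _ = (n : G) * (x * ((n : G) * x * (n : G)⁻¹)) * (n : G)⁻¹ := by rw [h4]
          _ = _ := hfix
    exact (eq_inv_of_mul_eq_one_right h2)
  refine ⟨hp2, hcomm, ?_, ?_⟩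
  · intro n hn
    by_cases hc : (⟨n, hn⟩ : N) ∈ C
    · left; exact (hmemC _).1 hc
    · right; exact hinvert _ hc
  · by_contra hcon
    push Not at hcon
    have h1 : C = ⊤ := by
      rw [eq_top_iff]
      intro n _
      by_contra hn
      obtain ⟨x, hx, hx'⟩ := hcon n n.2
      exact hx' (hinvert n hn x hx)
    rw [h1, Subgroup.index_top] at hidx
    exact absurd hidx (by norm_num)

/-- the main reduction: `P` is normal when `O_{p'} = 1`. -/
theorem normal_of {X : Type u} [Group X] [Finite X] (hp2 : p ≠ 2) (P : Sylow p X)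
    (hab : ∀ x ∈ (P : Subgroup X), ∀ y ∈ (P : Subgroup X), x * y = y * x)
    (hnc : ¬ IsCyclic (P : Subgroup X))
    (hinv : ∀ n ∈ normalizer ((P : Subgroup X) : Set X),
      (∀ x ∈ (P : Subgroup X), n * x * n⁻¹ = x) ∨ (∀ x ∈ (P : Subgroup X), n * x * n⁻¹ = x⁻¹))
    (hO : pPrimeCore p X = ⊥) : (P : Subgroup X).Normal := by
  set H := Subgroup.normalClosure ((P : Subgroup X) : Set X) with hH
  have hHn : H.Normal := Subgroup.normalClosure_normal
  have hPH : (P : Subgroup X) ≤ H := Subgroup.subset_normalClosure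
  let S : Sylow p H := P.subtype hPH
  have hS : ∀ x : H, x ∈ (S : Subgroup H) ↔ (x : X) ∈ (P : Subgroup X) := fun x => Iff.rfl
  have hOH : pPrimeCore p H = ⊥ := by
    have h1 := H13.Cores.map_pPrimeCore_le_of_normal (p := p) H
    rw [hO, le_bot_iff, Subgroup.map_eq_bot_iff_of_injective _ H.subtype_injective] at h1
    exact h1
  have habS : ∀ x ∈ (S : Subgroup H), ∀ y ∈ (S : Subgroup H), x * y = y * x := fun x hx y hy =>
    Subtype.ext (hab _ ((hS x).1 hx) _ ((hS y).1 hy))
  have hncS : ¬ IsCyclic (S : Subgroup H) := by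
    intro hc
    apply hnc
    have hc' : IsCyclic ((P : Subgroup X).subgroupOf H) := hc
    have e : ((P : Subgroup X).subgroupOf H) ≃* (P : Subgroup X) := subgroupOfEquivOfLe hPH
    exact isCyclic_of_surjective e.toMonoidHom e.surjective
  have hinvS : ∀ n ∈ normalizer ((S : Subgroup H) : Set H),
      (∀ x ∈ (S : Subgroup H), n * x * n⁻¹ = x) ∨ (∀ x ∈ (S : Subgroup H), n * x * n⁻¹ = x⁻¹) := by
    intro n hn
    have hn' : (n : X) ∈ normalizer ((P : Subgroup X) : Set X) := by
      rw [mem_normalizer_iff] at hn ⊢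
      intro x
      constructor
      · intro hx
        exact (hn ⟨x, hPH hx⟩).1 hx
      · intro hx
        have hxH : x ∈ H := by
          have h1 := hHn.conj_mem _ (hPH hx) (n : X)⁻¹
          have h2 : (n : X)⁻¹ * ((n : X) * x * (n : X)⁻¹) * ((n : X)⁻¹)⁻¹ = x := by group
          rwa [h2] at h1
        exact (hn ⟨x, hxH⟩).2 hx
    rcases hinv n hn' with h | h
    · left; intro x hx; exact Subtype.ext (h _ ((hS x).1 hx))
    · right; intro x hx; exact Subtype.ext (h _ ((hS x).1 hx))
  by_cases hcase : ∀ n ∈ normalizer ((S : Subgroup H) : Set H), ∀ x ∈ (S : Subgroup H), n * x * n⁻¹ = x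
  · -- Burnside
    have hle : normalizer ((S : Subgroup H) : Set H) ≤ centralizer ((S : Subgroup H) : Set H) := by
      intro n hn
      rw [Subgroup.mem_centralizer_iff]
      intro x hx
      exact (mul_inv_eq_iff_eq_mul.1 (hcase n hn x hx)).symm
    have h1 := MonoidHom.ker_transferSylow_isComplement' S hle
    have h2 := MonoidHom.not_dvd_card_ker_transferSylow S hle
    have h3 : (MonoidHom.transferSylow S hle).ker ≤ pPrimeCore p H :=
      H1.Cores.le_pPrimeCore inferInstance
        (Nat.coprime_comm.1 ((hp.out.coprime_iff_not_dvd).2 h2))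
    rw [hOH, le_bot_iff] at h3
    rw [h3] at h1
    have h4 : (S : Subgroup H) = ⊤ := Subgroup.isComplement'_bot_left.1 h1
    have h5 : (P : Subgroup X) = H := by
      apply le_antisymm hPH
      intro x hx
      have h6 : (⟨x, hx⟩ : H) ∈ (S : Subgroup H) := by rw [h4]; exact Subgroup.mem_top _
      exact h6
    rw [h5]
    exact hHn
  · exfalso
    push Not at hcase
    obtain ⟨n, hn, x0, hx0, hx0'⟩ := hcase
    have hninv : ∀ x ∈ (S : Subgroup H), n * x * n⁻¹ = x⁻¹ := by
      rcases hinvS n hn with h | h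
      · exact absurd (h x0 hx0) hx0'
      · exact h
    have hSH : SH p S := ⟨hp2, habS, hinvS, n, hn, hninv⟩
    have hSle : (S : Subgroup H) ≤ commutator H := by
      intro x hx
      have h1 : ⁅n, x⁆ ∈ commutator H := Subgroup.commutator_mem_commutator (Subgroup.mem_top _) (Subgroup.mem_top _)
      rw [commutatorElement_def, hninv x hx] at h1
      obtain ⟨k, hk⟩ := S.2 ⟨x, hx⟩
      have hk' : x ^ p ^ k = 1 := by simpa using congrArg Subtype.val hk
      have hodd : Odd (p ^ k) := (hp.out.odd_of_ne_two hp2).pow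
      obtain ⟨m, hm⟩ := hodd
      have h2 : x = (x⁻¹ * x⁻¹) ^ m := by
        rw [← pow_two, ← pow_mul, inv_pow, eq_inv_iff_mul_eq_one, ← pow_succ', ← hm]
        exact hk'
      rw [h2]
      exact pow_mem h1 m
    have hperf : commutator H = ⊤ := by
      have h1 : ((commutator H).map H.subtype).Normal := by
        have : (commutator H).Characteristic := inferInstance
        infer_instance
      have h2 : H ≤ (commutator H).map H.subtype := by
        apply Subgroup.normalClosure_le_normal
        intro x hx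
        exact ⟨⟨x, hPH hx⟩, hSle hx, rfl⟩
      rw [eq_top_iff]
      intro x _
      obtain ⟨y, hy, hyx⟩ := h2 x.2
      have : y = x := Subtype.ext hyx
      rw [← this]; exact hy
    exact H38.ST12.main hSH hncS hperf hOH

theorem main (hp2 : p ≠ 2) (P : Sylow p G) (hab : IsMulCommutative (P : Subgroup G))
    (hnc : ¬ IsCyclic (P : Subgroup G))
    (hidx : ((Subgroup.centralizer ((P : Subgroup G) : Set G)).subgroupOf
      (Subgroup.normalizer ((P : Subgroup G) : Set G))).index = 2)
    (hR : pResidual p G = ⊤) : PLengthLE p 1 G := by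
  have hSH := exists_SH hp2 P hab hR hidx
  set O := pPrimeCore p G with hOdef
  have hOcop : (Nat.card O).Coprime p := H1.Cores.coprime_card_pPrimeCore p
  have hsurj := QuotientGroup.mk'_surjective O
  let Q : Sylow p (G ⧸ O) := P.mapSurjective hsurj
  have hQ : (Q : Subgroup (G ⧸ O)) = (P : Subgroup G).map (QuotientGroup.mk' O) := rfl
  have hQn : (Q : Subgroup (G ⧸ O)).Normal := by
    apply normal_of hp2 Q
    · rintro _ ⟨x, hx, rfl⟩ _ ⟨y, hy, rfl⟩
      rw [← map_mul, hSH.ab x hx y hy, map_mul]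
    · intro hc
      apply hnc
      let f : (P : Subgroup G) →* (Q : Subgroup (G ⧸ O)) :=
        ((QuotientGroup.mk' O).comp (P : Subgroup G).subtype).codRestrict _
          (fun x => ⟨x, x.2, rfl⟩)
      have hf : Function.Injective f := by
        rw [injective_iff_map_eq_one]
        intro x hx
        have h1 : (QuotientGroup.mk' O) (x : G) = 1 := congrArg Subtype.val hx
        rw [QuotientGroup.mk'_apply, QuotientGroup.eq_one_iff] at h1
        have h2 := H1.Cores.disjoint_of_isPGroup P.2 hOcop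
        have h3 : (x : G) ∈ (P : Subgroup G) ⊓ O := ⟨x.2, h1⟩
        rw [h2, Subgroup.mem_bot] at h3
        exact Subtype.ext h3
      exact isCyclic_of_injective f hf
    · intro n hn
      rw [hQ, H37.NormQuot.map_normalizer P.2 hOcop] at hn
      obtain ⟨m, hm, rfl⟩ := hn
      rcases hSH.inv m hm with h | h
      · left
        rintro _ ⟨x, hx, rfl⟩
        rw [← map_mul, ← map_inv, ← map_mul, h x hx]
      · right
        rintro _ ⟨x, hx, rfl⟩
        rw [← map_mul, ← map_inv, ← map_mul, h x hx, map_inv]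
    · exact H1.Cores.pPrimeCore_quotient_pPrimeCore p
  rw [H30.PLen.pLengthLE_one_iff, pPrimePCore, Subgroup.index_comap_of_surjective _ hsurj]
  have h1 : (Q : Subgroup (G ⧸ O)) ≤ pCore p (G ⧸ O) := H1.Cores.le_pCore hQn Q.2
  have h2 : (pCore p (G ⧸ O)).index ∣ (Q : Subgroup (G ⧸ O)).index := Subgroup.index_dvd_of_le h1
  exact Nat.Coprime.coprime_dvd_left h2
    (Nat.coprime_comm.1 ((hp.out.coprime_iff_not_dvd).2 Q.not_dvd_index))

end H38.ST13
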