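import Cfsg.Agent.Lib.H38.ST1

/-!
# Fusion in an abelian Sylow subgroup inverted by its normalizer (Smith-Tyrer 2)
-/

set_option autoImplicit false
set_option linter.unusedSectionVars false
set_option linter.unusedVariables false

namespace H38.ST2

open Cfsg Subgroup
open scoped Pointwise

universe u

/-- the standing hypothesis -/
structure SH (p : ℕ) {G : Type u} [Group G] (P : Sylow p G) : Prop where
  odd : p ≠ 2
  ab : ∀ x ∈ (P : Subgroup G), ∀ y ∈ (P : Subgroup G), x * y = y * x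
  inv : ∀ n ∈ normalizer ((P : Subgroup G) : Set G),
    (∀ x ∈ (P : Subgroup G), n * x * n⁻¹ = x) ∨ (∀ x ∈ (P : Subgroup G), n * x * n⁻¹ = x⁻¹)
  ex : ∃ t ∈ normalizer ((P : Subgroup G) : Set G), ∀ x ∈ (P : Subgroup G), t * x * t⁻¹ = x⁻¹

variable {G : Type u} [Group G] {p : ℕ} {P : Sylow p G}

theorem fus_set [Finite G] [Fact p.Prime] (h : SH p P) (d : G) :
    ∃ ε : ℤ, (ε = 1 ∨ ε = -1) ∧ ∀ b ∈ (P : Subgroup G), d⁻¹ * b * d ∈ (P : Subgroup G) →
      d⁻¹ * b * d = b ^ ε := by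
  let S : Set G := {c | c ∈ (P : Subgroup G) ∧ ∃ b ∈ (P : Subgroup G), d⁻¹ * b * d = c}
  let K := centralizer S
  have hPK : (P : Subgroup G) ≤ K := by
    intro x hx c hc
    exact h.ab _ hc.1 _ hx
  have hP'K : ((d⁻¹ • P : Sylow p G) : Subgroup G) ≤ K := by
    intro x hx c hc
    obtain ⟨_, b, hb, rfl⟩ := hc
    rw [Sylow.coe_subgroup_smul, Subgroup.mem_pointwise_smul_iff_inv_smul_mem] at hx
    have hx' : d * x * d⁻¹ ∈ (P : Subgroup G) := by
      have h2 : (MulAut.conj d⁻¹)⁻¹ • x = d * x * d⁻¹ := by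
        rw [MulAut.smul_def, ← map_inv, inv_inv, MulAut.conj_apply]
      rw [← h2]; exact hx
    have h1 := h.ab _ hb _ hx'
    calc d⁻¹ * b * d * x = d⁻¹ * (b * (d * x * d⁻¹)) * d := by group
      _ = d⁻¹ * ((d * x * d⁻¹) * b) * d := by rw [h1]
      _ = _ := by group
  obtain ⟨c, hc⟩ := MulAction.exists_smul_eq K ((d⁻¹ • P).subtype hP'K) (P.subtype hPK)
  have hn : (c : G) * d⁻¹ ∈ normalizer ((P : Subgroup G) : Set G) := by
    simp_rw [Sylow.smul_subtype, Subgroup.smul_def, smul_smul] at hc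
    exact Sylow.smul_eq_iff_mem_normalizer.mp (Sylow.subtype_injective hc)
  have key : ∀ b ∈ (P : Subgroup G), d⁻¹ * b * d ∈ (P : Subgroup G) →
      d⁻¹ * b * d = (c * d⁻¹) * b * (c * d⁻¹)⁻¹ := by
    intro b hb hb'
    have h1 : d⁻¹ * b * d ∈ S := ⟨hb', b, hb, rfl⟩
    have h2 := c.2 _ h1
    calc d⁻¹ * b * d = (d⁻¹ * b * d * c) * (c : G)⁻¹ := by group
      _ = (c * (d⁻¹ * b * d)) * (c : G)⁻¹ := by rw [h2]
      _ = _ := by group
  rcases h.inv _ hn with h3 | h3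
  · exact ⟨1, Or.inl rfl, fun b hb hb' => by rw [key b hb hb', h3 b hb, zpow_one]⟩
  · exact ⟨-1, Or.inr rfl, fun b hb hb' => by rw [key b hb hb', h3 b hb, zpow_neg_one]⟩

theorem fus [Finite G] [Fact p.Prime] (h : SH p P) {x y g : G} (hx : x ∈ (P : Subgroup G))
    (hy : y ∈ (P : Subgroup G)) (hg : g * x * g⁻¹ = y) : y = x ∨ y = x⁻¹ := by
  obtain ⟨ε, hε, hf⟩ := fus_set h g⁻¹
  have h1 := hf x hx (by rw [inv_inv, hg]; exact hy)
  rw [inv_inv, hg] at h1
  rcases hε with rfl | rfl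
  · left; rw [h1, zpow_one]
  · right; rw [h1, zpow_neg_one]

theorem isConj_inv (h : SH p P) {x : G} (hx : x ∈ (P : Subgroup G)) : IsConj x x⁻¹ := by
  obtain ⟨t, ht, ht'⟩ := h.ex
  exact isConj_iff.2 ⟨t, ht' x hx⟩

theorem ne_inv [Finite G] [hp : Fact p.Prime] (h : SH p P) {x : G} (hx : x ∈ (P : Subgroup G))
    (hx1 : x ≠ 1) : x ≠ x⁻¹ := by
  intro h1
  have h2 : x ^ 2 = 1 := by rw [pow_two]; nth_rw 2 [h1]; exact mul_inv_cancel x
  obtain ⟨k, hk⟩ := P.2 ⟨x, hx⟩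
  have hk' : x ^ p ^ k = 1 := by simpa using congrArg Subtype.val hk
  have h3 : orderOf x ∣ 2 := orderOf_dvd_of_pow_eq_one h2
  have h4 : orderOf x ∣ p ^ k := orderOf_dvd_of_pow_eq_one hk'
  have h5 : Nat.Coprime 2 (p ^ k) := Nat.Coprime.pow_right k
    ((Nat.coprime_primes Nat.prime_two hp.out).2 h.odd.symm)
  exact hx1 (orderOf_eq_one_iff.1 (Nat.Coprime.eq_one_of_dvd (h5.coprime_dvd_left h3) h4))

/-- an equivariant retraction `G → P`. -/
theorem exists_r [Finite G] [Fact p.Prime] (h : SH p P) : ∃ (r : G → G) (ε : G → ℤ),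
    (∀ s, r s ∈ (P : Subgroup G)) ∧ (∀ s, ε s = 1 ∨ ε s = -1) ∧
    (∀ s, ∀ b ∈ (P : Subgroup G), r (s * b) = r s * b) ∧
    (∀ s, ∀ x ∈ (P : Subgroup G), r (x * s) = x ^ ε s * r s) ∧
    (∀ s, ∀ x ∈ (P : Subgroup G), ε (x * s) = ε s) := by
  classical
  let H : Subgroup G := (P : Subgroup G)
  let d : G → G := fun s => (DoubleCoset.mk H H s).out
  have hd : ∀ s, ∃ x ∈ H, ∃ y ∈ H, s = x * d s * y := by
    intro s
    obtain ⟨a, b, ha, hb, hab⟩ := DoubleCoset.mk_out_eq_mul H H s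
    refine ⟨a⁻¹, inv_mem ha, b⁻¹, inv_mem hb, ?_⟩
    show s = a⁻¹ * (DoubleCoset.mk H H s).out * b⁻¹
    rw [hab]; group
  have hdc : ∀ s, ∀ x ∈ H, ∀ y ∈ H, d (x * s * y) = d s := by
    intro s x hx y hy
    have : DoubleCoset.mk H H (x * s * y) = DoubleCoset.mk H H s := by
      rw [eq_comm, DoubleCoset.eq]
      exact ⟨x, hx, y, hy, rfl⟩
    show (DoubleCoset.mk H H (x * s * y)).out = _
    rw [this]
  choose ε hε hf using fus_set h
  choose X hX Y hY hXY using hd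
  have key : ∀ {δ x y x' y' : G}, x ∈ H → y ∈ H → x' ∈ H → y' ∈ H → x * δ * y = x' * δ * y' →
      x ^ ε δ * y = x' ^ ε δ * y' := by
    intro δ x y x' y' hx hy hx' hy' hxy
    have h1 : δ⁻¹ * (x'⁻¹ * x) * δ = y' * y⁻¹ := by
      have : x = x' * δ * y' * y⁻¹ * δ⁻¹ := by rw [← hxy]; group
      rw [this]; group
    have h2 := hf δ (x'⁻¹ * x) (mul_mem (inv_mem hx') hx) (by
      rw [h1]; exact mul_mem hy' (inv_mem hy))
    rw [h1] at h2
    have hc : Commute x'⁻¹ x := h.ab _ (inv_mem hx') _ hx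
    rw [hc.mul_zpow, inv_zpow] at h2
    have h3 : x' ^ ε δ * (y' * y⁻¹) * y = x' ^ ε δ * ((x' ^ ε δ)⁻¹ * x ^ ε δ) * y := by rw [h2]
    simpa [mul_assoc] using h3.symm
  refine ⟨fun s => X s ^ ε (d s) * Y s, fun s => ε (d s), fun s =>
    mul_mem (zpow_mem (hX s) _) (hY s), fun s => hε _, ?_, ?_, ?_⟩
  · intro s b hb
    have h1 : d (s * b) = d s := by
      have := hdc s 1 (one_mem _) b hb
      rwa [one_mul] at this
    show X (s * b) ^ ε (d (s * b)) * Y (s * b) = X s ^ ε (d s) * Y s * b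
    rw [h1, mul_assoc]
    apply key (hX _) (hY _) (hX _) (mul_mem (hY _) hb)
    have h2 := hXY (s * b)
    rw [h1] at h2
    rw [← h2, ← mul_assoc, ← hXY s]
  · intro s x hx
    have h1 : d (x * s) = d s := by
      have := hdc s x hx 1 (one_mem _)
      rwa [mul_one] at this
    show X (x * s) ^ ε (d (x * s)) * Y (x * s) = x ^ ε (d s) * (X s ^ ε (d s) * Y s)
    rw [h1, ← mul_assoc]
    have hc : Commute x (X s) := h.ab _ hx _ (hX s)
    rw [← hc.mul_zpow]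
    apply key (hX _) (hY _) (mul_mem hx (hX _)) (hY _)
    have h2 := hXY (x * s)
    rw [h1] at h2
    rw [← h2, mul_assoc x, mul_assoc x, ← hXY s]
  · intro s x hx
    have h1 : d (x * s) = d s := by
      have := hdc s x hx 1 (one_mem _)
      rwa [mul_one] at this
    show ε (d (x * s)) = ε (d s)
    rw [h1]

end H38.ST2
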