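import Cfsg.Agent.Lib.H38.ST2

/-!
# A central extension by transfer of a bilinear cocycle (Smith-Tyrer 3)
-/

set_option autoImplicit false
set_option linter.unusedSectionVars false
set_option linter.unusedVariables false

namespace H38.ST3

open Cfsg Subgroup H38.ST2
open scoped Pointwise

universe u

/-- normalised 2-cocycles with values in `ZMod p`. -/
structure Coc (p : ℕ) (G : Type u) [Group G] where
  c : G → G → ZMod p
  coc : ∀ x y z, c x y + c (x * y) z = c x (y * z) + c y z
  one_l : ∀ x, c 1 x = 0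
  one_r : ∀ x, c x 1 = 0

/-- the central extension -/
@[ext]
structure CE {p : ℕ} {G : Type u} [Group G] (κ : Coc p G) : Type u where
  a : ZMod p
  g : G

variable {p : ℕ} {G : Type u} [Group G] (κ : Coc p G)

instance : Mul (CE κ) := ⟨fun x y => ⟨x.a + y.a + κ.c x.g y.g, x.g * y.g⟩⟩
instance : One (CE κ) := ⟨⟨0, 1⟩⟩
instance : Inv (CE κ) := ⟨fun x => ⟨-x.a - κ.c x.g⁻¹ x.g, x.g⁻¹⟩⟩

theorem mul_def (x y : CE κ) : x * y = ⟨x.a + y.a + κ.c x.g y.g, x.g * y.g⟩ := rfl
theorem one_def : (1 : CE κ) = ⟨0, 1⟩ := rfl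
theorem inv_def (x : CE κ) : x⁻¹ = ⟨-x.a - κ.c x.g⁻¹ x.g, x.g⁻¹⟩ := rfl

instance : Group (CE κ) := Group.ofLeftAxioms
  (by
    intro x y z
    simp only [mul_def, mul_assoc]
    congr 1
    have := κ.coc x.g y.g z.g
    linear_combination this)
  (by
    intro x
    simp only [mul_def, one_def, κ.one_l, one_mul, zero_add, add_zero])
  (by
    intro x
    simp only [mul_def, one_def, inv_def, inv_mul_cancel]
    congr 1
    ring)

/-- the projection -/
def pr : CE κ →* G where
  toFun := CE.g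
  map_one' := rfl
  map_mul' _ _ := rfl

@[simp] theorem pr_apply (x : CE κ) : pr κ x = x.g := rfl

theorem pr_surj : Function.Surjective (pr κ) := fun g => ⟨⟨0, g⟩, rfl⟩

/-- `CE κ` as a product. -/
def eqv : CE κ ≃ ZMod p × G where
  toFun x := (x.a, x.g)
  invFun y := ⟨y.1, y.2⟩
  left_inv _ := rfl
  right_inv _ := rfl

theorem card_CE : Nat.card (CE κ) = p * Nat.card G := by
  rw [Nat.card_congr (eqv κ), Nat.card_prod, Nat.card_zmod]

instance [NeZero p] [Finite G] : Finite (CE κ) := Finite.of_equiv _ (eqv κ).symm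

/-- central elements -/
def zz (a : ZMod p) : CE κ := ⟨a, 1⟩

theorem zz_mul (a : ZMod p) (x : CE κ) : zz κ a * x = ⟨a + x.a, x.g⟩ := by
  simp only [mul_def, zz, κ.one_l, one_mul, add_zero]

theorem mul_zz (a : ZMod p) (x : CE κ) : x * zz κ a = ⟨a + x.a, x.g⟩ := by
  simp only [mul_def, zz, κ.one_r, mul_one, add_zero]
  congr 1; ring

theorem zz_comm (a : ZMod p) (x : CE κ) : zz κ a * x = x * zz κ a := by
  rw [zz_mul, mul_zz]

theorem zz_add (a b : ZMod p) : zz κ (a + b) = zz κ a * zz κ b := by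
  rw [zz_mul]; rfl

theorem zz_zero : zz κ 0 = 1 := rfl

theorem eq_zz {x : CE κ} (hx : x.g = 1) : x = zz κ x.a := by
  ext
  · rfl
  · exact hx

section P
variable {P : Sylow p G}

theorem exists_fns [Finite G] [hp : Fact p.Prime] (h : SH p P) (hnc : ¬ IsCyclic (P : Subgroup G)) :
    ∃ g1 g2 : G → ZMod p, (∀ x ∈ (P : Subgroup G), ∀ y ∈ (P : Subgroup G), g1 (x * y) = g1 x + g1 y) ∧
      (∀ x ∈ (P : Subgroup G), ∀ y ∈ (P : Subgroup G), g2 (x * y) = g2 x + g2 y) ∧
      (∀ a b, ∃ x ∈ (P : Subgroup G), g1 x = a ∧ g2 x = b) := by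
  classical
  let H : Subgroup G := (P : Subgroup G)
  let _ : CommGroup H := { (inferInstance : Group H) with
    mul_comm := fun a b => Subtype.ext (h.ab _ a.2 _ b.2) }
  obtain ⟨ι, hι, n, hn, ⟨e⟩⟩ := CommGroup.equiv_prod_multiplicative_zmod_of_finite H
  have hdvd : ∀ i, p ∣ n i := by
    intro i
    obtain ⟨k, hk⟩ := P.2.exists_card_eq
    have h1 : n i ∣ Nat.card H := by
      have h2 : Nat.card H = ∏ j, n j := by
        rw [Nat.card_congr e.toEquiv, Nat.card_pi]
        refine Finset.prod_congr rfl fun j _ => ?_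
        rw [Nat.card_congr (Multiplicative.toAdd (α := ZMod (n j))), Nat.card_zmod]
      rw [h2]
      exact Finset.dvd_prod_of_mem _ (Finset.mem_univ i)
    have h3 : n i ∣ p ^ k := by
      have h4 : Nat.card H = p ^ k := hk
      rwa [h4] at h1
    obtain ⟨j, _, hj⟩ := (Nat.dvd_prime_pow hp.out).1 h3
    rcases Nat.eq_zero_or_pos j with h0 | h0
    · rw [h0, pow_zero] at hj
      have := hn i
      omega
    · rw [hj]; exact dvd_pow_self p h0.ne'
  have hij : ∃ i j : ι, i ≠ j := by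
    by_contra hcon
    push Not at hcon
    apply hnc
    rcases isEmpty_or_nonempty ι with h0 | ⟨⟨i0⟩⟩
    · have : Subsingleton H := e.toEquiv.subsingleton
      exact isCyclic_of_subsingleton
    · have hs : ∀ j, j = i0 := fun j => hcon j i0
      let u : Unique ι := ⟨⟨i0⟩, hs⟩
      have h1 : IsCyclic (Multiplicative (ZMod (n i0))) := inferInstance
      exact isCyclic_of_injective ((Pi.evalMonoidHom (fun i => Multiplicative (ZMod (n i))) i0).comp
        e.toMonoidHom) (by
          intro a b hab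
          apply e.injective
          funext j
          have := hs j
          subst this
          exact hab)
  obtain ⟨i, j, hne⟩ := hij
  let F : ∀ i : ι, H → ZMod p := fun i x => ZMod.castHom (hdvd i) (ZMod p) (Multiplicative.toAdd (e x i))
  have hF : ∀ i (x y : H), F i (x * y) = F i x + F i y := by
    intro i x y
    show ZMod.castHom (hdvd i) (ZMod p) (Multiplicative.toAdd (e (x * y) i)) = _
    rw [map_mul, Pi.mul_apply, toAdd_mul, map_add]
  have hsurj : ∀ (i : ι) (a : ZMod p), ∃ b : ZMod (n i), ZMod.castHom (hdvd i) (ZMod p) b = a := by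
    intro i a
    exact ZMod.castHom_surjective (hdvd i) a
  refine ⟨fun x => if hx : x ∈ (P : Subgroup G) then F i ⟨x, hx⟩ else 0,
    fun x => if hx : x ∈ (P : Subgroup G) then F j ⟨x, hx⟩ else 0, ?_, ?_, ?_⟩
  · intro x hx y hy
    simp only [dif_pos hx, dif_pos hy, dif_pos (mul_mem hx hy)]
    exact hF i ⟨x, hx⟩ ⟨y, hy⟩
  · intro x hx y hy
    simp only [dif_pos hx, dif_pos hy, dif_pos (mul_mem hx hy)]
    exact hF j ⟨x, hx⟩ ⟨y, hy⟩
  · intro a b
    obtain ⟨a', ha'⟩ := hsurj i a
    obtain ⟨b', hb'⟩ := hsurj j b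
    let w : ∀ k, Multiplicative (ZMod (n k)) :=
      Function.update (Function.update (fun _ => 1) i (Multiplicative.ofAdd a')) j
        (Multiplicative.ofAdd b')
    have hx : ((e.symm w : H) : G) ∈ (P : Subgroup G) := (e.symm w).2
    refine ⟨(e.symm w : H), hx, ?_, ?_⟩
    · show dite _ _ _ = a
      rw [dif_pos hx]
      show ZMod.castHom (hdvd i) (ZMod p) (Multiplicative.toAdd (e (e.symm w) i)) = a
      rw [MulEquiv.apply_symm_apply]
      have : w i = Multiplicative.ofAdd a' := by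
        simp only [w]
        rw [Function.update_of_ne hne, Function.update_self]
      rw [this, toAdd_ofAdd]; exact ha'
    · show dite _ _ _ = b
      rw [dif_pos hx]
      show ZMod.castHom (hdvd j) (ZMod p) (Multiplicative.toAdd (e (e.symm w) j)) = b
      rw [MulEquiv.apply_symm_apply]
      have : w j = Multiplicative.ofAdd b' := by
        simp only [w]
        rw [Function.update_self]
      rw [this, toAdd_ofAdd]; exact hb'

theorem exists_coc [Finite G] [hp : Fact p.Prime] (h : SH p P) {g1 g2 : G → ZMod p}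
    (h1 : ∀ x ∈ (P : Subgroup G), ∀ y ∈ (P : Subgroup G), g1 (x * y) = g1 x + g1 y)
    (h2 : ∀ x ∈ (P : Subgroup G), ∀ y ∈ (P : Subgroup G), g2 (x * y) = g2 x + g2 y) :
    ∃ (κ : Coc p G) (n : ZMod p), n ≠ 0 ∧
      (∀ x ∈ (P : Subgroup G), ∀ y ∈ (P : Subgroup G), κ.c x y = n * g1 x * g2 y) ∧
      (∀ x ∈ (P : Subgroup G), g1 x = 0 → g2 x = 0 → ∀ g, κ.c x g = 0 ∧ κ.c g x = 0) := by
  classical
  let H : Subgroup G := (P : Subgroup G)
  obtain ⟨r, ε, hr, hε, hrb, hrx, hεx⟩ := exists_r h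
  have hzp : ∀ {f : G → ZMod p}, (∀ x ∈ (P : Subgroup G), ∀ y ∈ (P : Subgroup G),
      f (x * y) = f x + f y) → ∀ (s x : G), x ∈ (P : Subgroup G) → f (x ^ ε s) = (ε s : ZMod p) * f x := by
    intro f hf s x hx
    have h1 : f 1 = 0 := by
      have := hf 1 (one_mem _) 1 (one_mem _)
      rw [mul_one] at this
      linear_combination -this
    rcases hε s with h0 | h0
    · rw [h0, zpow_one]; push_cast; ring
    · rw [h0, zpow_neg_one]
      have := hf x⁻¹ (inv_mem hx) x hx
      rw [inv_mul_cancel, h1] at this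
      push_cast
      linear_combination -this
  have hε2 : ∀ s, (ε s : ZMod p) * (ε s : ZMod p) = 1 := by
    intro s
    rcases hε s with h0 | h0 <;> rw [h0] <;> push_cast <;> ring
  -- the functions `a_i`
  let D : (G → ZMod p) → G → G ⧸ H → ZMod p := fun f g q => f (r q.out) - f (r (g⁻¹ * q.out))
  have hD : ∀ {f : G → ZMod p}, (∀ x ∈ (P : Subgroup G), ∀ y ∈ (P : Subgroup G),
      f (x * y) = f x + f y) → ∀ g s : G, D f g (QuotientGroup.mk s) = f (r s) - f (r (g⁻¹ * s)) := by
    intro f hf g s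
    obtain ⟨b, hb⟩ := QuotientGroup.mk_out_eq_mul H s
    show f (r (QuotientGroup.mk s : G ⧸ H).out) - f (r (g⁻¹ * (QuotientGroup.mk s : G ⧸ H).out)) = _
    rw [hb, ← mul_assoc, hrb _ _ b.2, hrb _ _ b.2, hf _ (hr _) _ b.2, hf _ (hr _) _ b.2]
    ring
  have hDmul : ∀ {f : G → ZMod p}, (∀ x ∈ (P : Subgroup G), ∀ y ∈ (P : Subgroup G),
      f (x * y) = f x + f y) → ∀ (g g' : G) (q : G ⧸ H),
      D f (g * g') q = D f g' (g⁻¹ • q) + D f g q := by
    intro f hf g g' q
    induction q using QuotientGroup.induction_on with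
    | H s =>
      rw [MulAction.Quotient.smul_mk, hD hf, hD hf, hD hf, smul_eq_mul, mul_inv_rev, mul_assoc]
      ring
  have hDP : ∀ {f : G → ZMod p}, (∀ x ∈ (P : Subgroup G), ∀ y ∈ (P : Subgroup G),
      f (x * y) = f x + f y) → ∀ x ∈ (P : Subgroup G), ∀ s : G,
      D f x (QuotientGroup.mk s) = (ε s : ZMod p) * f x := by
    intro f hf x hx s
    rw [hD hf, hrx s x⁻¹ (inv_mem hx), hf _ (zpow_mem (inv_mem hx) _) _ (hr _), inv_zpow]
    have h3 : f (x ^ ε s)⁻¹ = - f (x ^ ε s) := by
      have h4 := hf (x ^ ε s)⁻¹ (inv_mem (zpow_mem hx _)) (x ^ ε s) (zpow_mem hx _)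
      have h5 : f 1 = 0 := by
        have := hf 1 (one_mem _) 1 (one_mem _)
        rw [mul_one] at this
        linear_combination -this
      rw [inv_mul_cancel, h5] at h4
      linear_combination -h4
    rw [h3, hzp hf s x hx]
    ring
  have : Fintype (G ⧸ H) := Fintype.ofFinite _
  let C : G → G → ZMod p := fun g g' => ∑ q : G ⧸ H, D g1 g q * D g2 g' (g⁻¹ • q)
  have hD1 : ∀ (f : G → ZMod p) (q : G ⧸ H), D f 1 q = 0 := by
    intro f q
    show f (r q.out) - f (r (1⁻¹ * q.out)) = 0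
    rw [inv_one, one_mul, sub_self]
  let κ : Coc p G :=
    { c := C
      coc := by
        intro x y z
        show (∑ q, D g1 x q * D g2 y (x⁻¹ • q)) + (∑ q, D g1 (x * y) q * D g2 z ((x * y)⁻¹ • q)) =
          (∑ q, D g1 x q * D g2 (y * z) (x⁻¹ • q)) + (∑ q, D g1 y q * D g2 z (y⁻¹ • q))
        have h3 : (∑ q : G ⧸ H, D g1 y q * D g2 z (y⁻¹ • q)) =
            ∑ q : G ⧸ H, D g1 y (x⁻¹ • q) * D g2 z (y⁻¹ • x⁻¹ • q) :=
          (Fintype.sum_bijective (fun q : G ⧸ H => x⁻¹ • q) (MulAction.bijective x⁻¹) _ _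
            (fun q => rfl)).symm
        rw [h3, ← Finset.sum_add_distrib, ← Finset.sum_add_distrib]
        refine Finset.sum_congr rfl fun q _ => ?_
        rw [hDmul h1, hDmul h2, mul_inv_rev, mul_smul]
        ring
      one_l := by
        intro x
        show (∑ q, D g1 1 q * D g2 x (1⁻¹ • q)) = 0
        refine Finset.sum_eq_zero fun q _ => ?_
        rw [hD1, zero_mul]
      one_r := by
        intro x
        show (∑ q, D g1 x q * D g2 1 (x⁻¹ • q)) = 0
        refine Finset.sum_eq_zero fun q _ => ?_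
        rw [hD1, mul_zero] }
  refine ⟨κ, (Nat.card (G ⧸ H) : ZMod p), ?_, ?_, ?_⟩
  · intro h0
    rw [ZMod.natCast_eq_zero_iff] at h0
    exact P.not_dvd_index h0
  · intro x hx y hy
    show (∑ q : G ⧸ H, D g1 x q * D g2 y (x⁻¹ • q)) = _
    have h3 : ∀ q : G ⧸ H, D g1 x q * D g2 y (x⁻¹ • q) = g1 x * g2 y := by
      intro q
      induction q using QuotientGroup.induction_on with
      | H s =>
        rw [MulAction.Quotient.smul_mk, hDP h1 x hx, hDP h2 y hy, smul_eq_mul, hεx s x⁻¹ (inv_mem hx)]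
        linear_combination (g1 x * g2 y) * hε2 s
    rw [Finset.sum_congr rfl fun q _ => h3 q, Finset.sum_const, Finset.card_univ, nsmul_eq_mul,
      Nat.card_eq_fintype_card]
    ring
  · intro x hx hx1 hx2 g
    constructor
    · show (∑ q : G ⧸ H, D g1 x q * D g2 g (x⁻¹ • q)) = 0
      refine Finset.sum_eq_zero fun q _ => ?_
      induction q using QuotientGroup.induction_on with
      | H s => rw [hDP h1 x hx, hx1, mul_zero, zero_mul]
    · show (∑ q : G ⧸ H, D g1 g q * D g2 x (g⁻¹ • q)) = 0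
      refine Finset.sum_eq_zero fun q _ => ?_
      induction q using QuotientGroup.induction_on with
      | H s => rw [MulAction.Quotient.smul_mk, hDP h2 x hx, hx2, mul_zero, mul_zero]

end P

end H38.ST3
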