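import Cfsg.Agent.Lib.H38.ST3
import Mathlib.Analysis.SpecialFunctions.Complex.CircleAddChar
import Mathlib.NumberTheory.LegendreSymbol.AddCharacter

/-!
# The generalized character `Eta` of the central extension (Smith-Tyrer 4)
-/

set_option autoImplicit false
set_option linter.unusedSectionVars false
set_option linter.unusedVariables false

namespace H38.ST4

open Cfsg Subgroup H38.ST1 H38.ST2 H38.ST3
open scoped Pointwise ComplexConjugate

universe u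

/-- all data -/
structure Dat (p : ℕ) {G : Type u} [Group G] (P : Sylow p G) where
  h : SH p P
  g1 : G → ZMod p
  g2 : G → ZMod p
  h1 : ∀ x ∈ (P : Subgroup G), ∀ y ∈ (P : Subgroup G), g1 (x * y) = g1 x + g1 y
  h2 : ∀ x ∈ (P : Subgroup G), ∀ y ∈ (P : Subgroup G), g2 (x * y) = g2 x + g2 y
  hs : ∀ a b, ∃ x ∈ (P : Subgroup G), g1 x = a ∧ g2 x = b
  κ : Coc p G
  n : ZMod p
  hn : n ≠ 0
  hκ : ∀ x ∈ (P : Subgroup G), ∀ y ∈ (P : Subgroup G), κ.c x y = n * g1 x * g2 y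
  hκ0 : ∀ x ∈ (P : Subgroup G), g1 x = 0 → g2 x = 0 → ∀ g, κ.c x g = 0 ∧ κ.c g x = 0

variable {G : Type u} [Group G] [Finite G] {p : ℕ} [hp : Fact p.Prime] {P : Sylow p G}

theorem exists_dat (h : SH p P) (hnc : ¬ IsCyclic (P : Subgroup G)) : Nonempty (Dat p P) := by
  obtain ⟨g1, g2, h1, h2, hs⟩ := exists_fns h hnc
  obtain ⟨κ, n, hn, hκ, hκ0⟩ := exists_coc h h1 h2
  exact ⟨⟨h, g1, g2, h1, h2, hs, κ, n, hn, hκ, hκ0⟩⟩

variable (D : Dat p P)

theorem Dat.g1_one : D.g1 1 = 0 := by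
  have := D.h1 1 (one_mem _) 1 (one_mem _)
  rw [mul_one] at this
  linear_combination -this

theorem Dat.g2_one : D.g2 1 = 0 := by
  have := D.h2 1 (one_mem _) 1 (one_mem _)
  rw [mul_one] at this
  linear_combination -this

theorem Dat.g1_inv {x : G} (hx : x ∈ (P : Subgroup G)) : D.g1 x⁻¹ = - D.g1 x := by
  have := D.h1 _ (inv_mem hx) x hx
  rw [inv_mul_cancel, D.g1_one] at this
  linear_combination -this

theorem Dat.g2_inv {x : G} (hx : x ∈ (P : Subgroup G)) : D.g2 x⁻¹ = - D.g2 x := by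
  have := D.h2 _ (inv_mem hx) x hx
  rw [inv_mul_cancel, D.g2_one] at this
  linear_combination -this

/-- the Sylow subgroup of the extension -/
noncomputable def Dat.Q : Sylow p (CE D.κ) :=
  IsPGroup.toSylow (P := (P : Subgroup G).comap (pr D.κ)) (by
    rw [IsPGroup.iff_card]
    obtain ⟨k, hk⟩ := P.2.exists_card_eq
    refine ⟨k + 1, ?_⟩
    have h1 := Subgroup.card_mul_index ((P : Subgroup G).comap (pr D.κ))
    rw [Subgroup.index_comap_of_surjective _ (pr_surj D.κ), card_CE] at h1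
    have h2 := Subgroup.card_mul_index (P : Subgroup G)
    have hk' : Nat.card (P : Subgroup G) = p ^ k := hk
    have h3 : (P : Subgroup G).index ≠ 0 := Subgroup.index_ne_zero_of_finite
    apply Nat.eq_of_mul_eq_mul_right (Nat.pos_of_ne_zero h3)
    rw [h1, ← h2, hk']; ring) (by
    rw [Subgroup.index_comap_of_surjective _ (pr_surj D.κ)]
    exact P.not_dvd_index)

theorem Dat.mem_Q {w : CE D.κ} : w ∈ (D.Q : Subgroup (CE D.κ)) ↔ w.g ∈ (P : Subgroup G) := Iff.rfl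

/-- the additive character -/
noncomputable def ζ : AddChar (ZMod p) ℂ := ZMod.stdAddChar

theorem sum_ζ (b : ZMod p) : ∑ x : ZMod p, (ζ : AddChar (ZMod p) ℂ) (x * b) =
    if b = 0 then (p : ℂ) else 0 := by
  have := AddChar.sum_mulShift b (ZMod.isPrimitive_stdAddChar p)
  rw [ZMod.card] at this
  exact_mod_cast this

open Classical in
/-- the character of `Q` -/
noncomputable def Dat.eta0 (w : CE D.κ) : ℂ :=
  if D.g1 w.g = 0 ∧ D.g2 w.g = 0 then (p : ℂ) * ζ w.a else 0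

/-- the Schrödinger representation -/
noncomputable def Dat.rep : Representation ℂ ↥(D.Q : Subgroup (CE D.κ)) (ZMod p → ℂ) where
  toFun w :=
    { toFun := fun φ j => ζ ((w : CE D.κ).a + D.n * j * D.g2 (w : CE D.κ).g) *
        φ (j + D.g1 (w : CE D.κ).g)
      map_add' := by intro φ ψ; funext j; simp [mul_add]
      map_smul' := by intro c φ; funext j; simp; ring }
  map_one' := by
    ext φ j
    simp [D.g1_one, D.g2_one, one_def]
  map_mul' := by
    intro w w'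
    apply LinearMap.ext
    intro φ
    funext j
    have hw := (D.mem_Q).1 w.2
    have hw' := (D.mem_Q).1 w'.2
    show ζ (((w : CE D.κ) * (w' : CE D.κ)).a + D.n * j * D.g2 ((w : CE D.κ) * (w' : CE D.κ)).g) *
        φ (j + D.g1 ((w : CE D.κ) * (w' : CE D.κ)).g) =
      ζ ((w : CE D.κ).a + D.n * j * D.g2 (w : CE D.κ).g) *
        (ζ ((w' : CE D.κ).a + D.n * (j + D.g1 (w : CE D.κ).g) * D.g2 (w' : CE D.κ).g) *
          φ (j + D.g1 (w : CE D.κ).g + D.g1 (w' : CE D.κ).g))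
    simp only [mul_def]
    rw [D.h1 _ hw _ hw', D.h2 _ hw _ hw', D.hκ _ hw _ hw', ← mul_assoc, ← AddChar.map_add_eq_mul,
      add_assoc j]
    congr 2
    ring

theorem Dat.rep_char (w : ↥(D.Q : Subgroup (CE D.κ))) : D.rep.character w = D.eta0 w := by
  classical
  show LinearMap.trace ℂ _ (D.rep w) = _
  rw [LinearMap.trace_eq_matrix_trace ℂ (Pi.basisFun ℂ (ZMod p)), Matrix.trace]
  have h1 : ∀ j : ZMod p, (LinearMap.toMatrix (Pi.basisFun ℂ (ZMod p)) (Pi.basisFun ℂ (ZMod p))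
      (D.rep w)).diag j = if D.g1 (w : CE D.κ).g = 0 then
        ζ ((w : CE D.κ).a + D.n * j * D.g2 (w : CE D.κ).g) else 0 := by
    intro j
    rw [Matrix.diag_apply, LinearMap.toMatrix_apply, Pi.basisFun_apply, Pi.basisFun_repr]
    show ζ ((w : CE D.κ).a + D.n * j * D.g2 (w : CE D.κ).g) *
      (Pi.single j (1 : ℂ) : ZMod p → ℂ) (j + D.g1 (w : CE D.κ).g) = _
    by_cases h0 : D.g1 (w : CE D.κ).g = 0
    · rw [if_pos h0, h0, add_zero, Pi.single_eq_same, mul_one]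
    · rw [if_neg h0, Pi.single_eq_of_ne, mul_zero]
      intro h
      apply h0
      have h2 : j + D.g1 (w : CE D.κ).g = j + 0 := by rw [h, add_zero]
      exact add_left_cancel h2
  rw [Finset.sum_congr rfl fun j _ => h1 j]
  unfold Dat.eta0
  by_cases h0 : D.g1 (w : CE D.κ).g = 0
  · simp only [if_pos h0]
    have h2 : ∀ j : ZMod p, ζ ((w : CE D.κ).a + D.n * j * D.g2 (w : CE D.κ).g) =
        ζ (w : CE D.κ).a * ζ (j * (D.n * D.g2 (w : CE D.κ).g)) := by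
      intro j
      rw [← AddChar.map_add_eq_mul]
      congr 1; ring
    rw [Finset.sum_congr rfl fun j _ => h2 j, ← Finset.mul_sum, sum_ζ]
    by_cases h3 : D.g2 (w : CE D.κ).g = 0
    · rw [if_pos (by rw [h3, mul_zero]), if_pos ⟨h0, h3⟩]; ring
    · rw [if_neg (mul_ne_zero D.hn h3), if_neg (fun h => h3 h.2), mul_zero]
  · simp only [if_neg h0]
    rw [Finset.sum_const_zero, if_neg (fun h => h0 h.1)]

theorem Dat.isGen_eta0 : IsGeneralizedCharacter ↥(D.Q : Subgroup (CE D.κ))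
    (fun w => D.eta0 (w : CE D.κ)) := by
  have h1 : (fun w : ↥(D.Q : Subgroup (CE D.κ)) => D.eta0 (w : CE D.κ)) = D.rep.character := by
    funext w
    exact (D.rep_char w).symm
  rw [h1]
  exact H18.CharOrtho.isGen_of_isCharacter (H18.CharBasic.isCharacter_of_rep _)

theorem Dat.conj_R (y : CE D.κ) {w : CE D.κ} (hw : w.g ∈ (P : Subgroup G)) (h1 : D.g1 w.g = 0)
    (h2 : D.g2 w.g = 0) (hy : y.g * w.g * y.g⁻¹ ∈ (P : Subgroup G)) :
    (y * w * y⁻¹).a = w.a ∧ (y * w * y⁻¹).g = y.g * w.g * y.g⁻¹ ∧ D.g1 (y.g * w.g * y.g⁻¹) = 0 ∧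
      D.g2 (y.g * w.g * y.g⁻¹) = 0 := by
  have h3 : D.g1 (y.g * w.g * y.g⁻¹) = 0 ∧ D.g2 (y.g * w.g * y.g⁻¹) = 0 := by
    rcases fus D.h hw hy rfl with h | h
    · rw [h]; exact ⟨h1, h2⟩
    · rw [h, D.g1_inv hw, D.g2_inv hw, h1, h2, neg_zero]; exact ⟨rfl, rfl⟩
  refine ⟨?_, rfl, h3.1, h3.2⟩
  have h4 : y * w * y⁻¹ = ⟨w.a, y.g * w.g * y.g⁻¹⟩ := by
    rw [mul_inv_eq_iff_eq_mul]
    simp only [mul_def]
    rw [(D.hκ0 _ hw h1 h2 y.g).2, (D.hκ0 _ hy h3.1 h3.2 y.g).1]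
    congr 1
    · ring
    · group
  rw [h4]

theorem Dat.eta0_stable {w w' : CE D.κ} (hw : w ∈ (D.Q : Subgroup (CE D.κ)))
    (hw' : w' ∈ (D.Q : Subgroup (CE D.κ))) (h : IsConj w w') : D.eta0 w = D.eta0 w' := by
  obtain ⟨y, hy⟩ := isConj_iff.1 h
  rw [D.mem_Q] at hw hw'
  have hg : y.g * w.g * y.g⁻¹ = w'.g := by rw [← hy]; rfl
  unfold Dat.eta0
  by_cases h1 : D.g1 w.g = 0 ∧ D.g2 w.g = 0
  · have h2 := D.conj_R y hw h1.1 h1.2 (by rw [hg]; exact hw')
    rw [hg, hy] at h2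
    rw [if_pos h1, if_pos ⟨h2.2.2.1, h2.2.2.2⟩, h2.1]
  · rw [if_neg h1, if_neg]
    intro h3
    apply h1
    have h4 : y⁻¹ * w' * (y⁻¹)⁻¹ = w := by rw [← hy]; group
    have hg' : (y⁻¹).g * w'.g * ((y⁻¹).g)⁻¹ = w.g := by rw [← h4]; rfl
    have h5 := D.conj_R y⁻¹ hw' h3.1 h3.2 (by rw [hg']; exact hw)
    rw [hg'] at h5
    exact ⟨h5.2.2.1, h5.2.2.2⟩

theorem exists_conj_sylow {X : Type u} [Group X] [Finite X] {e : ℕ} (Q : Sylow p X)
    (he : IsPE p (Nat.card X) e) (g : X) : ∃ w ∈ (Q : Subgroup X), IsConj (g ^ e) w := by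
  have hz : IsPGroup p (Subgroup.zpowers (g ^ e)) := by
    rw [IsPGroup.iff_card]
    obtain ⟨j, hj⟩ := pow_orderOf hp.out he (g := g) pow_card_eq_one'
    exact ⟨j, by rw [Nat.card_zpowers, hj]⟩
  obtain ⟨T, hT⟩ := hz.exists_le_sylow
  obtain ⟨y, hy⟩ := MulAction.exists_smul_eq X T Q
  refine ⟨y * g ^ e * y⁻¹, ?_, isConj_iff.2 ⟨y, rfl⟩⟩
  rw [← hy]
  exact Subgroup.smul_mem_pointwise_smul _ (MulAut.conj y) _ (hT (Subgroup.mem_zpowers _))

theorem Dat.exists_Eta {e : ℕ} (he : IsPE p (Nat.card (CE D.κ)) e) :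
    ∃ Η : CE D.κ → ℂ, IsGeneralizedCharacter (CE D.κ) Η ∧
      ∀ g w : CE D.κ, w ∈ (D.Q : Subgroup (CE D.κ)) → IsConj (g ^ e) w → Η g = D.eta0 w := by
  choose W hWQ hW using fun g : CE D.κ => exists_conj_sylow D.Q he g
  have hst : ∀ g w : CE D.κ, w ∈ (D.Q : Subgroup (CE D.κ)) → IsConj (g ^ e) w →
      D.eta0 (W g) = D.eta0 w := fun g w hw hc =>
    D.eta0_stable (hWQ g) hw ((hW g).symm.trans hc)
  refine ⟨fun g => D.eta0 (W g), ?_, hst⟩
  exact isGen_stable D.Q he D.isGen_eta0 (fun g w hc => hst g w w.2 hc)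

end H38.ST4
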