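import Cfsg.Agent.Lib.H38.ST4
import Cfsg.Agent.Lib.H20.GA
import Cfsg.Prelude.Def_Local

/-!
# Counting `p`-sections (Smith-Tyrer 5)
-/

set_option autoImplicit false
set_option linter.unusedSectionVars false
set_option linter.unusedVariables false

namespace H38.ST5

open Cfsg Subgroup H38.ST1 H38.ST2
open scoped Pointwise ComplexConjugate

universe u

variable {G : Type u} [Group G] [Finite G] {p : ℕ} [hp : Fact p.Prime] {P : Sylow p G}

theorem le_cent (h : SH p P) {x : G} (hx : x ∈ (P : Subgroup G)) :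
    (P : Subgroup G) ≤ centralizer ({x} : Set G) := by
  intro y hy
  rw [mem_centralizer_singleton_iff]
  exact h.ab _ hy _ hx

/-- the normal `p`-complement of the centralizer of `1 ≠ x ∈ P` -/
theorem exists_compl (h : SH p P) {x : G} (hx : x ∈ (P : Subgroup G)) (hx1 : x ≠ 1) :
    ∃ K : Subgroup (centralizer ({x} : Set G)), K.Normal ∧ (Nat.card K).Coprime p ∧
      Nat.card K * Nat.card (P : Subgroup G) = Nat.card (centralizer ({x} : Set G)) ∧
      ∀ v : centralizer ({x} : Set G), ¬ p ∣ orderOf v ↔ v ∈ K := by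
  let C := centralizer ({x} : Set G)
  let Pc : Sylow p C := P.subtype (le_cent h hx)
  have hPc : ∀ y : C, y ∈ (Pc : Subgroup C) ↔ (y : G) ∈ (P : Subgroup G) := fun y => Iff.rfl
  have hle : normalizer ((Pc : Subgroup C) : Set C) ≤ centralizer ((Pc : Subgroup C) : Set C) := by
    intro n hn
    have hn' : (n : G) ∈ normalizer ((P : Subgroup G) : Set G) := by
      rw [Subgroup.mem_normalizer_iff] at hn ⊢
      intro y
      constructor
      · intro hy
        exact (hn ⟨y, le_cent h hx hy⟩).1 hy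
      · intro hy
        have h1 : (n : G) * y * (n : G)⁻¹ ∈ C := le_cent h hx hy
        have h2 : y ∈ C := by
          have := mul_mem (mul_mem (inv_mem n.2) h1) n.2
          simpa [mul_assoc] using this
        exact (hn ⟨y, h2⟩).2 hy
    have hnx : (n : G) * x * (n : G)⁻¹ = x := by
      have := mem_centralizer_singleton_iff.1 n.2
      rw [this]; group
    rcases h.inv _ hn' with h1 | h1
    · intro y hy
      apply Subtype.ext
      have := h1 y hy
      show (y : G) * n = n * y
      rw [mul_inv_eq_iff_eq_mul] at this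
      exact this.symm
    · exact absurd (hnx.symm.trans (h1 x hx)) (ne_inv h hx hx1)
  let K := (MonoidHom.transferSylow Pc hle).ker
  have hK : IsComplement' K (Pc : Subgroup C) := MonoidHom.ker_transferSylow_isComplement' Pc hle
  have hcard : Nat.card (Pc : Subgroup C) = Nat.card (P : Subgroup G) := by
    have : (Pc : Subgroup C) = (P : Subgroup G).subgroupOf C := rfl
    rw [this]
    exact Nat.card_congr (Subgroup.subgroupOfEquivOfLe (le_cent h hx)).toEquiv
  have hKc : ¬ p ∣ Nat.card K := MonoidHom.not_dvd_card_ker_transferSylow Pc hle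
  refine ⟨K, inferInstance, ((Nat.Prime.coprime_iff_not_dvd hp.out).2 hKc).symm, ?_, ?_⟩
  · rw [← hcard]; exact hK.card_mul_card
  · intro v
    constructor
    · intro hv
      show MonoidHom.transferSylow Pc hle v = 1
      have h1 : orderOf (MonoidHom.transferSylow Pc hle v) ∣ orderOf v := orderOf_map_dvd _ _
      obtain ⟨k, hk⟩ := Pc.2 (MonoidHom.transferSylow Pc hle v)
      have h2 := orderOf_dvd_of_pow_eq_one hk
      rw [← orderOf_eq_one_iff]
      have h3 : Nat.Coprime (p ^ k) (orderOf v) :=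
        Nat.Coprime.pow_left k ((Nat.Prime.coprime_iff_not_dvd hp.out).2 hv)
      exact Nat.Coprime.eq_one_of_dvd (h3.coprime_dvd_left h2) h1
    · intro hv hd
      exact hKc (hd.trans (by
        have := Subgroup.orderOf_dvd_natCard K hv
        exact this))

theorem mem_core (h : SH p P) {x : G} (hx : x ∈ (P : Subgroup G)) (hx1 : x ≠ 1) {v : G}
    (hv : v ∈ centralizer ({x} : Set G)) (hr : ¬ p ∣ orderOf v) :
    v ∈ centralizerPPrimeCore p x := by
  obtain ⟨K, hKn, hKc, -, hK⟩ := exists_compl h hx hx1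
  refine ⟨⟨v, hv⟩, ?_, rfl⟩
  have h1 : K ≤ pPrimeCore p (centralizer ({x} : Set G)) := le_sSup ⟨hKn, hKc⟩
  apply h1
  rw [← hK, Subgroup.orderOf_mk]
  exact hr

variable {e : ℕ}

theorem card_fib (h : SH p P) (he : IsPE p (Nat.card G) e) {x : G} (hx : x ∈ (P : Subgroup G))
    (hx1 : x ≠ 1) :
    Nat.card {g : G // g ^ e = x} * Nat.card (P : Subgroup G) =
      Nat.card (centralizer ({x} : Set G)) := by
  obtain ⟨K, hKn, hKc, hcard, hK⟩ := exists_compl h hx hx1
  rw [← hcard]
  congr 1
  have hN : ∀ g : G, g ^ Nat.card G = 1 := fun g => pow_card_eq_one'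
  obtain ⟨k, hk⟩ := P.2 ⟨x, hx⟩
  have hk' : x ^ p ^ k = 1 := by simpa using congrArg Subtype.val hk
  obtain ⟨j, _, hj⟩ := (Nat.dvd_prime_pow hp.out).1 (orderOf_dvd_of_pow_eq_one hk')
  have hmemC : ∀ g : G, g ^ e = x → x⁻¹ * g ∈ centralizer ({x} : Set G) := by
    intro g hg
    rw [mem_centralizer_singleton_iff]
    have := commute_rest g e
    rw [hg] at this
    exact this.symm.eq
  have hmemK : ∀ g : G, ∀ hg : g ^ e = x, (⟨x⁻¹ * g, hmemC g hg⟩ : centralizer ({x} : Set G)) ∈ K := by
    intro g hg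
    rw [← hK, Subgroup.orderOf_mk]
    have := rest_reg hp.out he (hN g)
    rwa [hg] at this
  refine Nat.card_congr
    { toFun := fun g => ⟨⟨x⁻¹ * g, hmemC g g.2⟩, hmemK g g.2⟩
      invFun := fun v => ⟨x * ((v : centralizer ({x} : Set G)) : G), ?_⟩
      left_inv := ?_
      right_inv := ?_ }
  · have h1 : ¬ p ∣ orderOf ((v : centralizer ({x} : Set G)) : G) := by
      have h2 := (hK (v : centralizer ({x} : Set G))).2 v.2
      rwa [← Subgroup.orderOf_coe] at h2
    have h2 : Commute x ((v : centralizer ({x} : Set G)) : G) :=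
      (mem_centralizer_singleton_iff.1 (v : centralizer ({x} : Set G)).2).symm
    exact pow_mul_eq hp.out he h2 (hN _) (hN _) hj h1
  · intro g
    apply Subtype.ext
    show x * (x⁻¹ * (g : G)) = g
    group
  · intro v
    apply Subtype.ext
    apply Subtype.ext
    show x⁻¹ * (x * ((v : centralizer ({x} : Set G)) : G)) = _
    group

theorem card_sec (h : SH p P) (he : IsPE p (Nat.card G) e) {x : G} (hx : x ∈ (P : Subgroup G))
    (hx1 : x ≠ 1) :
    Nat.card {g : G // IsConj (g ^ e) x} * Nat.card (P : Subgroup G) = Nat.card G := by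
  classical
  let α := {g : G // IsConj (g ^ e) x}
  let β := {u : G // IsConj x u}
  let f : α → β := fun g => ⟨(g : G) ^ e, g.2.symm⟩
  have h1 : ∀ u : β, Nat.card {a : α // f a = u} = Nat.card {g : G // g ^ e = x} := by
    intro u
    obtain ⟨y, hy⟩ := isConj_iff.1 u.2
    refine Nat.card_congr
      { toFun := fun a => ⟨y⁻¹ * ((a : α) : G) * y, ?_⟩
        invFun := fun g => ⟨⟨y * (g : G) * y⁻¹, ?_⟩, ?_⟩
        left_inv := ?_
        right_inv := ?_ }
    · have h2 : ((a : α) : G) ^ e = u := congrArg Subtype.val a.2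
      have h3 := conj_pow ((a : α) : G) y⁻¹ e
      rw [inv_inv] at h3
      rw [h3, h2, ← hy]; group
    · rw [_root_.conj_pow, g.2, hy]
      exact u.2.symm
    · apply Subtype.ext
      show (y * (g : G) * y⁻¹) ^ e = u
      rw [_root_.conj_pow, g.2, hy]
    · intro a
      apply Subtype.ext
      apply Subtype.ext
      show y * (y⁻¹ * ((a : α) : G) * y) * y⁻¹ = _
      group
    · intro g
      apply Subtype.ext
      show y⁻¹ * (y * (g : G) * y⁻¹) * y = _
      group
  have h2 : Nat.card α = Nat.card β * Nat.card {g : G // g ^ e = x} := by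
    rw [← Nat.card_congr (Equiv.sigmaFiberEquiv f)]
    have : Fintype β := Fintype.ofFinite _
    rw [Nat.card_sigma, Finset.sum_congr rfl fun u _ => h1 u, Finset.sum_const, Finset.card_univ,
      smul_eq_mul, Nat.card_eq_fintype_card (α := β)]
  have h3 : Nat.card β = (centralizer ({x} : Set G)).index := H20.GA.card_conj_eq x
  show Nat.card α * _ = _
  rw [h2, mul_assoc, card_fib h he hx hx1, h3, mul_comm, Subgroup.card_mul_index]

/-- the section formula -/
theorem sum_sing [Fintype G] (h : SH p P) (he : IsPE p (Nat.card G) e) {θ φ : G → ℂ}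
    (hθ : ∀ g x : G, x ∈ (P : Subgroup G) → IsConj (g ^ e) x → θ g = φ x)
    [Fintype (P : Subgroup G)] [DecidableEq G] :
    2 * (Nat.card (P : Subgroup G) : ℂ) * ∑ g : G, (if g ^ e = 1 then 0 else θ g) =
      (Nat.card G : ℂ) * ∑ x : ↥(P : Subgroup G), (if (x : G) = 1 then 0 else φ x) := by
  classical
  have h1 : ∀ x : ↥(P : Subgroup G), (x : G) ≠ 1 →
      (Nat.card (P : Subgroup G) : ℂ) * ∑ g : G, (if IsConj (g ^ e) (x : G) then θ g else 0) =
      (Nat.card G : ℂ) * φ x := by
    intro x hx1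
    have h2 : ∀ g : G, (if IsConj (g ^ e) (x : G) then θ g else 0) =
        (if IsConj (g ^ e) (x : G) then φ x else 0) := by
      intro g
      split_ifs with hc
      · exact hθ g x x.2 hc
      · rfl
    rw [Finset.sum_congr rfl fun g _ => h2 g, ← Finset.sum_filter, Finset.sum_const, nsmul_eq_mul,
      ← card_sec h he x.2 hx1, Nat.card_eq_fintype_card (α := {g : G // IsConj (g ^ e) (x : G)}),
      Fintype.card_subtype]
    push_cast
    ring
  have h2 : ∀ g : G, ∑ x : ↥(P : Subgroup G), (if (x : G) = 1 then 0 else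
      (if IsConj (g ^ e) (x : G) then θ g else 0)) = 2 * (if g ^ e = 1 then 0 else θ g) := by
    intro g
    by_cases hg : g ^ e = 1
    · rw [if_pos hg, mul_zero]
      refine Finset.sum_eq_zero fun x _ => ?_
      split_ifs with h3 h4
      · rfl
      · rw [hg] at h4
        exact absurd (isConj_one_right.1 h4) h3
      · rfl
    · rw [if_neg hg]
      obtain ⟨w, hw, hc⟩ := H38.ST4.exists_conj_sylow P he g
      have hw1 : w ≠ 1 := by
        rintro rfl
        exact hg (isConj_one_left.1 hc)
      have hwi : w⁻¹ ∈ (P : Subgroup G) := inv_mem hw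
      have hne : (⟨w, hw⟩ : ↥(P : Subgroup G)) ≠ ⟨w⁻¹, hwi⟩ := by
        intro hh
        exact ne_inv h hw hw1 (congrArg Subtype.val hh)
      rw [← Finset.sum_subset (Finset.subset_univ {(⟨w, hw⟩ : ↥(P : Subgroup G)), ⟨w⁻¹, hwi⟩})]
      · rw [Finset.sum_pair hne]
        have hwi1 : w⁻¹ ≠ 1 := inv_ne_one.2 hw1
        simp only [if_neg hw1, if_neg hwi1, if_pos hc, if_pos (hc.trans (isConj_inv h hw))]
        ring
      · intro x _ hx
        split_ifs with h3 h4
        · rfl
        · exfalso
          apply hx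
          obtain ⟨y, hy⟩ := isConj_iff.1 (hc.symm.trans h4)
          rcases fus h hw x.2 hy with h5 | h5
          · rw [Finset.mem_insert]; left; exact Subtype.ext h5
          · rw [Finset.mem_insert, Finset.mem_singleton]; right; exact Subtype.ext h5
        · rfl
  have h3 : ∑ x : ↥(P : Subgroup G), (if (x : G) = 1 then 0 else
      (Nat.card (P : Subgroup G) : ℂ) * ∑ g : G, (if IsConj (g ^ e) (x : G) then θ g else 0)) =
      (Nat.card G : ℂ) * ∑ x : ↥(P : Subgroup G), (if (x : G) = 1 then 0 else φ x) := by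
    rw [Finset.mul_sum]
    refine Finset.sum_congr rfl fun x _ => ?_
    split_ifs with hx1
    · rw [mul_zero]
    · exact h1 x hx1
  rw [← h3, mul_assoc, Finset.mul_sum, Finset.mul_sum]
  have h4 : ∀ x : ↥(P : Subgroup G), (if (x : G) = 1 then 0 else
      (Nat.card (P : Subgroup G) : ℂ) * ∑ g : G, (if IsConj (g ^ e) (x : G) then θ g else 0)) =
      ∑ g : G, (Nat.card (P : Subgroup G) : ℂ) * (if (x : G) = 1 then 0 else
        (if IsConj (g ^ e) (x : G) then θ g else 0)) := by
    intro x
    split_ifs with hx1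
    · simp
    · rw [Finset.mul_sum]
  rw [Finset.sum_congr rfl fun x _ => h4 x, Finset.sum_comm]
  refine Finset.sum_congr rfl fun g _ => ?_
  rw [← Finset.mul_sum, h2 g]
  ring

theorem sum_all [Fintype G] (h : SH p P) (he : IsPE p (Nat.card G) e) {θ φ : G → ℂ}
    (hθ : ∀ g x : G, x ∈ (P : Subgroup G) → IsConj (g ^ e) x → θ g = φ x)
    [Fintype (P : Subgroup G)] :
    (Nat.card G : ℂ)⁻¹ * ∑ g : G, θ g =
      (1 / 2) * (φ 1 + (Nat.card (P : Subgroup G) : ℂ)⁻¹ * ∑ x : ↥(P : Subgroup G), φ x) := by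
  classical
  have hG : (Nat.card G : ℂ) ≠ 0 := by exact_mod_cast (Nat.card_pos (α := G)).ne'
  have hPc : (Nat.card (P : Subgroup G) : ℂ) ≠ 0 := by
    exact_mod_cast (Nat.card_pos (α := (P : Subgroup G))).ne'
  have a1 := sum_sing h he hθ
  have a2 := sum_sing (θ := fun _ => 1) (φ := fun _ => 1) h he (fun _ _ _ _ => rfl)
  have b1 : ∀ g : G, θ g = (if g ^ e = 1 then 0 else θ g) + φ 1 * (1 - (if g ^ e = 1 then 0 else 1)) := by
    intro g
    split_ifs with hg
    · rw [hθ g 1 (one_mem _) (by rw [hg])]; ring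
    · ring
  have b2 : ∀ f : G → ℂ, ∑ x : ↥(P : Subgroup G), (if (x : G) = 1 then 0 else f x) =
      (∑ x : ↥(P : Subgroup G), f x) - f 1 := by
    intro f
    have : ∀ x : ↥(P : Subgroup G), (if (x : G) = 1 then 0 else f x) =
        f x - (if x = 1 then f 1 else 0) := by
      intro x
      by_cases hx : x = 1
      · subst hx; simp
      · have hx' : (x : G) ≠ 1 := fun hh => hx (Subtype.ext hh)
        simp only [if_neg hx, if_neg hx', sub_zero]
    rw [Finset.sum_congr rfl fun x _ => this x, Finset.sum_sub_distrib, Finset.sum_ite_eq']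
    simp
  have a2' := b2 (fun _ => (1 : ℂ))
  rw [b2] at a1
  rw [a2'] at a2
  rw [Finset.sum_congr rfl fun g _ => b1 g, Finset.sum_add_distrib, ← Finset.mul_sum,
    Finset.sum_sub_distrib]
  simp only [Finset.sum_const, Finset.card_univ, nsmul_eq_mul, mul_one] at a2 ⊢
  rw [← Nat.card_eq_fintype_card (α := G)] at *
  rw [← Nat.card_eq_fintype_card (α := (P : Subgroup G))] at a2
  set S1 := ∑ g : G, (if g ^ e = 1 then 0 else θ g) with hS1
  set S2 := ∑ g : G, (if g ^ e = 1 then (0 : ℂ) else 1) with hS2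
  set T := ∑ x : ↥(P : Subgroup G), φ x with hT
  have c1 : S1 = (Nat.card G : ℂ) * (T - φ 1) / (2 * (Nat.card (P : Subgroup G) : ℂ)) := by
    field_simp
    linear_combination a1
  have c2 : S2 = (Nat.card G : ℂ) * ((Nat.card (P : Subgroup G) : ℂ) - 1) /
      (2 * (Nat.card (P : Subgroup G) : ℂ)) := by
    field_simp
    linear_combination a2
  rw [c1, c2]
  field_simp
  ring

end H38.ST5
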