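import Cfsg.Agent.Lib.H38.ST5
import Cfsg.Agent.Lib.H5.CharSmallNorm

/-!
# The generalized characters `2 - θ_λ` (Smith-Tyrer 6)
-/

set_option autoImplicit false
set_option linter.unusedSectionVars false
set_option linter.unusedVariables false

namespace H38.ST6

open Cfsg Subgroup H38.ST1 H38.ST2 H38.ST5 H18.CharBasic H18.CharOrtho
open scoped Pointwise ComplexConjugate

universe u

variable {G : Type u} [Group G] [Fintype G] {p : ℕ} [hp : Fact p.Prime] {P : Sylow p G} {e : ℕ}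

open Classical in
/-- extension by zero of a linear character of `P` -/
noncomputable def L (P : Sylow p G) (lam : ↥(P : Subgroup G) →* ℂˣ) (w : G) : ℂ :=
  if hw : w ∈ (P : Subgroup G) then ((lam ⟨w, hw⟩ : ℂˣ) : ℂ) else 0

theorem L_coe (lam : ↥(P : Subgroup G) →* ℂˣ) (w : ↥(P : Subgroup G)) : L P lam w = (lam w : ℂ) := by
  unfold L
  rw [dif_pos w.2]

theorem L_inv (lam : ↥(P : Subgroup G) →* ℂˣ) (w : ↥(P : Subgroup G)) :
    L P lam (w : G)⁻¹ = ((lam w)⁻¹ : ℂˣ) := by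
  have h1 : (w : G)⁻¹ = ((w⁻¹ : ↥(P : Subgroup G)) : G) := rfl
  rw [h1, L_coe, map_inv]

theorem L_one (lam : ↥(P : Subgroup G) →* ℂˣ) : L P lam 1 = 1 := by
  have := L_coe lam 1
  rw [map_one] at this
  simpa using this

/-- `F` is the function `2 - θ_λ`. -/
def IsF (e : ℕ) (lam : ↥(P : Subgroup G) →* ℂˣ) (F : G → ℂ) : Prop :=
  ∀ g w : G, w ∈ (P : Subgroup G) → IsConj (g ^ e) w → F g = 2 - L P lam w - L P lam w⁻¹

theorem exists_F (h : SH p P) (he : IsPE p (Nat.card G) e) (lam : ↥(P : Subgroup G) →* ℂˣ) :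
    ∃ F : G → ℂ, IsGeneralizedCharacter G F ∧ IsF e lam F := by
  choose W hWP hW using fun g : G => H38.ST4.exists_conj_sylow P he g
  have hst : IsF e lam (fun g => 2 - L P lam (W g) - L P lam (W g)⁻¹) := by
    intro g w hw hc
    obtain ⟨y, hy⟩ := isConj_iff.1 ((hW g).symm.trans hc)
    rcases fus h (hWP g) hw hy with h1 | h1
    · rw [h1]
    · rw [h1, inv_inv]; ring
  refine ⟨_, ?_, hst⟩
  refine isGen_stable P he (f := fun w => 2 - L P lam w - L P lam (w : G)⁻¹) ?_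
    (fun g w hc => hst g w w.2 hc)
  have h1 : (fun w : ↥(P : Subgroup G) => (2 : ℂ) - L P lam w - L P lam (w : G)⁻¹) =
      ((fun _ => 1) + (fun _ => 1)) - (fun w => ((lam w : ℂˣ) : ℂ)) -
        (fun w => ((lam⁻¹ w : ℂˣ) : ℂ)) := by
    funext w
    simp only [Pi.sub_apply, Pi.add_apply]
    rw [L_coe, L_inv, MonoidHom.inv_apply]
    ring
  rw [h1]
  exact isGen_sub (isGen_sub (isGen_add isGen_one isGen_one) (isGen_of_isIrr (isIrrCharacter_of_hom lam)))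
    (isGen_of_isIrr (isIrrCharacter_of_hom lam⁻¹))

theorem F_one {lam : ↥(P : Subgroup G) →* ℂˣ} {F : G → ℂ} (hF : IsF e lam F) : F 1 = 0 := by
  have := hF 1 1 (one_mem _) (by rw [one_pow])
  rw [this, inv_one, L_one]; ring

theorem F_reg {lam : ↥(P : Subgroup G) →* ℂˣ} {F : G → ℂ} (hF : IsF e lam F) {g : G}
    (hg : g ^ e = 1) : F g = 0 := by
  have := hF g 1 (one_mem _) (by rw [hg])
  rw [this, inv_one, L_one]; ring

theorem hmul_inv (lam : ↥(P : Subgroup G) →* ℂˣ) : lam * lam⁻¹ = 1 := by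
  ext w
  simp

theorem hinv_ne {lam : ↥(P : Subgroup G) →* ℂˣ} (h : lam ≠ 1) : lam⁻¹ ≠ 1 := by
  intro h1
  apply h
  ext w
  have := DFunLike.congr_fun h1 w
  rw [MonoidHom.inv_apply, MonoidHom.one_apply, inv_eq_one] at this
  rw [this]; rfl

theorem heq_of {lam mu : ↥(P : Subgroup G) →* ℂˣ} (h : lam * mu⁻¹ = 1) : lam = mu := by
  ext w
  have := DFunLike.congr_fun h w
  rw [MonoidHom.mul_apply, MonoidHom.inv_apply, MonoidHom.one_apply, mul_inv_eq_one] at this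
  rw [this]

theorem heq_inv_of {lam mu : ↥(P : Subgroup G) →* ℂˣ} (h : lam * mu = 1) : lam = mu⁻¹ := by
  ext w
  have := DFunLike.congr_fun h w
  rw [MonoidHom.mul_apply, MonoidHom.one_apply] at this
  rw [MonoidHom.inv_apply, eq_inv_of_mul_eq_one_left this]

theorem sum_hom [Fintype (P : Subgroup G)] {χ : ↥(P : Subgroup G) →* ℂˣ} (h : χ ≠ 1) :
    ∑ w, ((χ w : ℂˣ) : ℂ) = 0 := by
  have h1 : (Units.coeHom ℂ).comp χ ≠ 1 := by
    intro h2
    apply h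
    ext w
    have := DFunLike.congr_fun h2 w
    simpa using this
  exact sum_hom_units_eq_zero _ h1

theorem sum_hom_one [Fintype (P : Subgroup G)] :
    ∑ w, (((1 : ↥(P : Subgroup G) →* ℂˣ) w : ℂˣ) : ℂ) = Nat.card (P : Subgroup G) := by
  simp [Nat.card_eq_fintype_card]

theorem inner_eq (h : SH p P) (he : IsPE p (Nat.card G) e) [Fintype (P : Subgroup G)]
    {θ θ' φ : G → ℂ}
    (hθ : ∀ g w : G, w ∈ (P : Subgroup G) → IsConj (g ^ e) w → θ g * conj (θ' g) = φ w) :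
    classInner θ θ' =
      (1 / 2) * (φ 1 + (Nat.card (P : Subgroup G) : ℂ)⁻¹ * ∑ x : ↥(P : Subgroup G), φ x) :=
  sum_all h he hθ

theorem conj_L (lam : ↥(P : Subgroup G) →* ℂˣ) {w : G} (hw : w ∈ (P : Subgroup G)) :
    conj (L P lam w) = L P lam w⁻¹ := by
  have h1 := L_coe lam ⟨w, hw⟩
  have h2 := L_inv lam ⟨w, hw⟩
  simp only at h1 h2
  rw [h1, h2, ← hom_inv_eq_conj, map_inv]

theorem conj_F {lam : ↥(P : Subgroup G) →* ℂˣ} {F : G → ℂ} (hF : IsF e lam F) {g w : G}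
    (hw : w ∈ (P : Subgroup G)) (hc : IsConj (g ^ e) w) :
    conj (F g) = 2 - L P lam w - L P lam w⁻¹ := by
  rw [hF g w hw hc, map_sub, map_sub, conj_L lam hw, conj_L lam (inv_mem hw), inv_inv]
  have : conj (2 : ℂ) = 2 := Complex.conj_ofNat 2
  rw [this]; ring

theorem gram (h : SH p P) (he : IsPE p (Nat.card G) e) [Fintype (P : Subgroup G)]
    {lam mu : ↥(P : Subgroup G) →* ℂˣ} {F F' : G → ℂ} (hF : IsF e lam F) (hF' : IsF e mu F')
    (h1 : lam ≠ 1) (h2 : mu ≠ 1) :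
    classInner F F' = (1 / 2) * (4 + (Nat.card (P : Subgroup G) : ℂ)⁻¹ *
      (2 * ∑ w, (((lam * mu) w : ℂˣ) : ℂ) + 2 * ∑ w, (((lam * mu⁻¹) w : ℂˣ) : ℂ))) := by
  have hPc : (Nat.card (P : Subgroup G) : ℂ) ≠ 0 := by
    exact_mod_cast (Nat.card_pos (α := (P : Subgroup G))).ne'
  rw [inner_eq h he (θ := F) (θ' := F')
    (φ := fun w => (2 - L P lam w - L P lam w⁻¹) * (2 - L P mu w - L P mu w⁻¹))
    (fun g w hw hc => by rw [hF g w hw hc, conj_F hF' hw hc])]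
  have a1 : ∀ w : ↥(P : Subgroup G), (2 - L P lam w - L P lam (w : G)⁻¹) *
      (2 - L P mu w - L P mu (w : G)⁻¹) =
      4 - 2 * ((lam w : ℂˣ) : ℂ) - 2 * ((lam⁻¹ w : ℂˣ) : ℂ) - 2 * ((mu w : ℂˣ) : ℂ)
        - 2 * ((mu⁻¹ w : ℂˣ) : ℂ) + (((lam * mu) w : ℂˣ) : ℂ) + (((lam * mu⁻¹) w : ℂˣ) : ℂ)
        + (((lam * mu)⁻¹ w : ℂˣ) : ℂ) + (((lam * mu⁻¹)⁻¹ w : ℂˣ) : ℂ) := by
    intro w
    rw [L_coe, L_inv, L_coe, L_inv]
    simp only [MonoidHom.inv_apply, MonoidHom.mul_apply, Units.val_mul, mul_inv, inv_inv]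
    ring
  have a2 : ∀ χ : ↥(P : Subgroup G) →* ℂˣ, ∑ w, ((χ⁻¹ w : ℂˣ) : ℂ) = ∑ w, ((χ w : ℂˣ) : ℂ) := by
    intro χ
    rw [← Equiv.sum_comp (Equiv.inv ↥(P : Subgroup G))]
    refine Finset.sum_congr rfl fun w _ => ?_
    rw [Equiv.inv_apply, MonoidHom.inv_apply, map_inv, inv_inv]
  have a3 : (L P lam (1 : G)) = 1 := L_one lam
  have a4 : (L P mu (1 : G)) = 1 := L_one mu
  simp only [inv_one, a3, a4]
  rw [Finset.sum_congr rfl fun w _ => a1 w]
  simp only [Finset.sum_add_distrib, Finset.sum_sub_distrib, ← Finset.mul_sum, Finset.sum_const,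
    Finset.card_univ, nsmul_eq_mul]
  rw [a2, a2, a2, a2, sum_hom h1, sum_hom h2, ← Nat.card_eq_fintype_card]
  field_simp
  ring

theorem sq_ne_one (h : SH p P) {lam : ↥(P : Subgroup G) →* ℂˣ} (h1 : lam ≠ 1) : lam * lam ≠ 1 := by
  intro h2
  apply h1
  ext w
  have h3 : (lam w) * (lam w) = 1 := by
    have := DFunLike.congr_fun h2 w
    simpa using this
  obtain ⟨k, hk⟩ := P.2 w
  have h4 : (lam w) ^ (p ^ k) = 1 := by rw [← map_pow, hk, map_one]
  have h5 : orderOf (lam w) ∣ p ^ k := orderOf_dvd_of_pow_eq_one h4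
  have h6 : orderOf (lam w) ∣ 2 := orderOf_dvd_of_pow_eq_one (by rw [pow_two]; exact h3)
  have h7 : Nat.Coprime 2 (p ^ k) := Nat.Coprime.pow_right k
    ((Nat.coprime_primes Nat.prime_two hp.out).2 h.odd.symm)
  have h8 := orderOf_eq_one_iff.1 (Nat.Coprime.eq_one_of_dvd (h7.coprime_dvd_left h6) h5)
  rw [h8]; simp

theorem gram_self (h : SH p P) (he : IsPE p (Nat.card G) e)
    {lam : ↥(P : Subgroup G) →* ℂˣ} {F : G → ℂ} (hF : IsF e lam F) (h1 : lam ≠ 1) :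
    classInner F F = 3 := by
  have := Fintype.ofFinite (P : Subgroup G)
  have hPc : (Nat.card (P : Subgroup G) : ℂ) ≠ 0 := by
    exact_mod_cast (Nat.card_pos (α := (P : Subgroup G))).ne'
  rw [gram h he hF hF h1 h1, hmul_inv, sum_hom (sq_ne_one h h1), sum_hom_one]
  field_simp
  ring

theorem gram_ne (h : SH p P) (he : IsPE p (Nat.card G) e)
    {lam mu : ↥(P : Subgroup G) →* ℂˣ} {F F' : G → ℂ} (hF : IsF e lam F) (hF' : IsF e mu F')
    (h1 : lam ≠ 1) (h2 : mu ≠ 1) (h3 : lam ≠ mu) (h4 : lam * mu ≠ 1) :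
    classInner F F' = 2 := by
  have := Fintype.ofFinite (P : Subgroup G)
  rw [gram h he hF hF' h1 h2, sum_hom h4, sum_hom (fun h5 => h3 (heq_of h5))]
  ring

theorem inner_one (h : SH p P) (he : IsPE p (Nat.card G) e)
    {lam : ↥(P : Subgroup G) →* ℂˣ} {F : G → ℂ} (hF : IsF e lam F) (h1 : lam ≠ 1) :
    classInner F (fun _ => 1) = 1 := by
  have := Fintype.ofFinite (P : Subgroup G)
  have hPc : (Nat.card (P : Subgroup G) : ℂ) ≠ 0 := by
    exact_mod_cast (Nat.card_pos (α := (P : Subgroup G))).ne'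
  rw [inner_eq h he (θ := F) (θ' := fun _ => 1)
    (φ := fun w => (2 - L P lam w - L P lam w⁻¹))
    (fun g w hw hc => by rw [hF g w hw hc, map_one, mul_one])]
  have a1 : ∀ w : ↥(P : Subgroup G), (2 - L P lam w - L P lam (w : G)⁻¹) =
      2 - ((lam w : ℂˣ) : ℂ) - ((lam⁻¹ w : ℂˣ) : ℂ) := by
    intro w
    rw [L_coe, L_inv, MonoidHom.inv_apply]
  have a3 : (L P lam (1 : G)) = 1 := L_one lam
  simp only [inv_one, a3]
  rw [Finset.sum_congr rfl fun w _ => a1 w]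
  simp only [Finset.sum_sub_distrib, Finset.sum_const, Finset.card_univ, nsmul_eq_mul]
  rw [sum_hom h1, sum_hom (hinv_ne h1), ← Nat.card_eq_fintype_card]
  field_simp
  ring

/-- `F_λ` depends only on `{λ, λ⁻¹}`. -/
theorem F_congr (he : IsPE p (Nat.card G) e) {lam mu : ↥(P : Subgroup G) →* ℂˣ} {F F' : G → ℂ}
    (hF : IsF e lam F) (hF' : IsF e mu F') (h : lam = mu ∨ lam * mu = 1) : F = F' := by
  funext g
  obtain ⟨w, hw, hc⟩ := H38.ST4.exists_conj_sylow P he g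
  rw [hF g w hw hc, hF' g w hw hc]
  rcases h with h | h
  · rw [h]
  · have h1 : lam = mu⁻¹ := heq_inv_of h
    have h2 := L_coe lam ⟨w, hw⟩
    have h3 := L_inv lam ⟨w, hw⟩
    have h4 := L_coe mu ⟨w, hw⟩
    have h5 := L_inv mu ⟨w, hw⟩
    simp only at h2 h3 h4 h5
    rw [h2, h3, h4, h5, h1, MonoidHom.inv_apply, inv_inv]
    ring

end H38.ST6
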