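import Cfsg.Agent.Lib.H38.ST6
import Cfsg.Agent.Lib.H19.Second
import Cfsg.Agent.Lib.H78.Cong
import Cfsg.Agent.S0942

/-!
# The character `ψ` with `ε ψ = 1` on `p`-singular elements (Smith-Tyrer 7)
-/

set_option autoImplicit false
set_option linter.unusedSectionVars false
set_option linter.unusedVariables false

namespace H38.ST7

open Cfsg Subgroup H38.ST1 H38.ST2 H38.ST5 H38.ST6 H18.CharBasic H18.CharOrtho
open scoped Pointwise ComplexConjugate

universe u

variable {G : Type u} [Group G] [Fintype G] {p : ℕ} [hp : Fact p.Prime] {P : Sylow p G} {e : ℕ}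

/-- the trivial character -/
def tt (G : Type u) [Group G] : G → ℂ := fun _ => 1

theorem isIrr_tt : IsIrrCharacter G (tt G) := isIrrCharacter_one

theorem inner_symm_int {a b : G → ℂ} {n : ℤ} (h : classInner a b = n) : classInner b a = n := by
  rw [← H18.CharOrtho.inner_conj_symm, h]; simp

theorem Z {F A B : G → ℂ} (hF : IsGeneralizedCharacter G F) (hA : IsGeneralizedCharacter G A)
    (hB : IsGeneralizedCharacter G B) (FF : classInner F F = 3) (Ft : classInner F (tt G) = 1)
    (AA : classInner A A = 1) (BB : classInner B B = 1) (AB : classInner A B = 0)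
    (At : classInner A (tt G) = 0) (Bt : classInner B (tt G) = 0)
    (hs : classInner F A + classInner F B = 1) :
    (classInner F A = 1 ∧ classInner F B = 0) ∨ (classInner F A = 0 ∧ classInner F B = 1) := by
  obtain ⟨α, hα⟩ := inner_gen_intCast hF hA
  obtain ⟨β, hβ⟩ := inner_gen_intCast hF hB
  have tF : classInner (tt G) F = 1 := by
    have := inner_symm_int (n := 1) (by rw [Ft]; simp)
    simpa using this
  have tA : classInner (tt G) A = 0 := by
    have := inner_symm_int (n := 0) (by rw [At]; simp)
    simpa using this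
  have tB : classInner (tt G) B = 0 := by
    have := inner_symm_int (n := 0) (by rw [Bt]; simp)
    simpa using this
  have BA : classInner B A = 0 := by
    have := inner_symm_int (n := 0) (by rw [AB]; simp)
    simpa using this
  have AF := inner_symm_int hα
  have BF := inner_symm_int hβ
  have ttt : classInner (tt G) (tt G) = 1 := inner_irr_self isIrr_tt
  have hR : classInner (F - tt G - (α : ℂ) • A - (β : ℂ) • B)
      (F - tt G - (α : ℂ) • A - (β : ℂ) • B) = ((2 - α ^ 2 - β ^ 2 : ℤ) : ℂ) := by
    simp only [H18.CharOrtho.inner_sub_left, H18.CharOrtho.inner_sub_right, H18.CharOrtho.inner_smul_left, H18.CharOrtho.inner_smul_right, map_intCast,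
      FF, Ft, AA, BB, AB, At, Bt, tF, tA, tB, BA, AF, BF, ttt, hα, hβ]
    push_cast
    ring
  have h1 := inner_self_re_nonneg (F - tt G - (α : ℂ) • A - (β : ℂ) • B)
  rw [hR] at h1
  have h2 : 0 ≤ 2 - α ^ 2 - β ^ 2 := by
    have h3 : (((2 - α ^ 2 - β ^ 2 : ℤ) : ℂ)).re = ((2 - α ^ 2 - β ^ 2 : ℤ) : ℝ) := by
      rw [← Complex.ofReal_intCast, Complex.ofReal_re]
    rw [h3] at h1
    exact_mod_cast h1
  have h3 : α + β = 1 := by
    rw [hα, hβ] at hs
    exact_mod_cast hs
  have hβ0 : 0 ≤ β := by nlinarith
  have hβ1 : β ≤ 1 := by nlinarith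
  have : β = 0 ∨ β = 1 := by omega
  rcases this with h4 | h4
  · left
    rw [hα, hβ, h4, show α = 1 by omega]; simp
  · right
    rw [hα, hβ, h4, show α = 0 by omega]; simp

theorem par {F1 F2 F A B : G → ℂ} (gF : IsGeneralizedCharacter G F) (gA : IsGeneralizedCharacter G A)
    (gB : IsGeneralizedCharacter G B) (g2 : IsGeneralizedCharacter G F2)
    (h1 : F1 = tt G + A + B) (FF : classInner F F = 3) (F22 : classInner F2 F2 = 3)
    (Ft : classInner F (tt G) = 1) (F2t : classInner F2 (tt G) = 1)
    (AA : classInner A A = 1) (BB : classInner B B = 1) (AB : classInner A B = 0)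
    (At : classInner A (tt G) = 0) (Bt : classInner B (tt G) = 0)
    (FF1 : classInner F F1 = 2) (FF2 : classInner F F2 = 2)
    (F2A : classInner F2 A = 1) (F2B : classInner F2 B = 0)
    (o : F 1 = 0) (o1 : F1 1 = 0) (o2 : F2 1 = 0) : classInner F A = 1 := by
  have ttt : classInner (tt G) (tt G) = 1 := inner_irr_self isIrr_tt
  have sy : ∀ {a b : G → ℂ} {n : ℤ}, classInner a b = n → classInner b a = n := fun h => inner_symm_int h
  have tA : classInner (tt G) A = 0 := by
    have := sy (n := 0) (by rw [At]; simp)
    simpa using this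
  have tB : classInner (tt G) B = 0 := by
    have := sy (n := 0) (by rw [Bt]; simp)
    simpa using this
  have tF : classInner (tt G) F = 1 := by
    have := sy (n := 1) (by rw [Ft]; simp)
    simpa using this
  have tF2 : classInner (tt G) F2 = 1 := by
    have := sy (n := 1) (by rw [F2t]; simp)
    simpa using this
  have BA : classInner B A = 0 := by
    have := sy (n := 0) (by rw [AB]; simp)
    simpa using this
  have AF2 : classInner A F2 = 1 := by
    have := sy (n := 1) (by rw [F2A]; simp)
    simpa using this
  have BF2 : classInner B F2 = 0 := by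
    have := sy (n := 0) (by rw [F2B]; simp)
    simpa using this
  have e1 : classInner F A + classInner F B = 1 := by
    rw [h1, H18.CharOrtho.inner_add_right, H18.CharOrtho.inner_add_right, Ft] at FF1
    linear_combination FF1
  rcases Z gF gA gB FF Ft AA BB AB At Bt e1 with h | ⟨hA0, hB1⟩
  · exact h.1
  exfalso
  -- the second decomposition
  have gC : IsGeneralizedCharacter G (F2 - tt G - A) := isGen_sub (isGen_sub g2 isGen_one) gA
  have FC : classInner F (F2 - tt G - A) = 1 := by
    rw [H18.CharOrtho.inner_sub_right, H18.CharOrtho.inner_sub_right, FF2, Ft, hA0]; ring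
  have CF : classInner (F2 - tt G - A) F = 1 := by
    have := sy (n := 1) (by rw [FC]; simp)
    simpa using this
  have BF : classInner B F = 1 := by
    have := sy (n := 1) (by rw [hB1]; simp)
    simpa using this
  have CC : classInner (F2 - tt G - A) (F2 - tt G - A) = 1 := by
    simp only [H18.CharOrtho.inner_sub_left, H18.CharOrtho.inner_sub_right, F22, F2t, tF2, F2A, AF2, ttt, tA, At, AA]
    ring
  have Ct : classInner (F2 - tt G - A) (tt G) = 0 := by
    simp only [H18.CharOrtho.inner_sub_left, F2t, ttt, At]; ring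
  have tC : classInner (tt G) (F2 - tt G - A) = 0 := by
    simp only [H18.CharOrtho.inner_sub_right, tF2, ttt, tA]; ring
  have BC : classInner B (F2 - tt G - A) = 0 := by
    simp only [H18.CharOrtho.inner_sub_right, BF2, Bt, BA]; ring
  have CB : classInner (F2 - tt G - A) B = 0 := by
    simp only [H18.CharOrtho.inner_sub_left, F2B, tB, AB]; ring
  have e2 : classInner F2 F = 2 := by
    have := sy (n := 2) (by rw [FF2]; simp)
    simpa using this
  have e3 : classInner A F = 0 := by
    have := sy (n := 0) (by rw [hA0]; simp)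
    simpa using this
  have hR : classInner (F - tt G - B - (F2 - tt G - A)) (F - tt G - B - (F2 - tt G - A)) = 0 := by
    simp only [H18.CharOrtho.inner_sub_left, H18.CharOrtho.inner_sub_right, FF, Ft, tF, hB1, BF,
      BB, Bt, tB, ttt, FF2, F2t, tF2, F2A, AF2, tA, At, hA0, F2B, BF2, BA, AB, e2, e3, F22, AA]
    ring
  have hz := (H18.CharOrtho.inner_self_eq_zero).1 hR
  have v0 := congrFun hz 1
  have v1 := congrFun h1 1
  simp only [Pi.sub_apply, Pi.add_apply, Pi.zero_apply, o, o1, o2] at v0 v1
  obtain ⟨n, hn⟩ := gen_one_int gA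
  have ht : tt G 1 = 1 := rfl
  rw [ht, hn] at v0 v1
  have v2 : (1 : ℂ) + 2 * n = 0 := by linear_combination v0 - v1
  have v3 : 1 + 2 * n = 0 := by exact_mod_cast v2
  omega

end H38.ST7
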