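import Cfsg.Agent.Lib.H38.ST7

/-!
# The character `ψ` with `ε ψ = 1` on `p`-singular elements (Smith-Tyrer 8)
-/

set_option autoImplicit false
set_option linter.unusedSectionVars false
set_option linter.unusedVariables false

namespace H38.ST8

open Cfsg Subgroup H38.ST1 H38.ST2 H38.ST5 H38.ST6 H38.ST7 H18.CharBasic H18.CharOrtho
open scoped Pointwise ComplexConjugate

universe u

variable {G : Type u} [Group G] [Fintype G] {p : ℕ} [hp : Fact p.Prime] {P : Sylow p G} {e : ℕ}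

/-- signed irreducible -/
def sg (ε : ℤ) (χ : IrrCharacter G) : G → ℂ := (ε : ℂ) • (χ : G → ℂ)

theorem isGen_sg (ε : ℤ) (χ : IrrCharacter G) : IsGeneralizedCharacter G (sg ε χ) :=
  isGen_intCast_smul ε (isGen_of_isIrr χ.2)

theorem inner_sg_self {ε : ℤ} (hε : ε = 1 ∨ ε = -1) (χ : IrrCharacter G) :
    classInner (sg ε χ) (sg ε χ) = 1 := by
  unfold sg
  rw [H18.CharOrtho.inner_smul_left, H18.CharOrtho.inner_smul_right, inner_irr_self χ.2]
  rcases hε with h | h <;> rw [h] <;> simp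

theorem inner_sg_ne (ε δ : ℤ) {χ ψ : IrrCharacter G} (h : χ ≠ ψ) :
    classInner (sg ε χ) (sg δ ψ) = 0 := by
  unfold sg
  rw [H18.CharOrtho.inner_smul_left, H18.CharOrtho.inner_smul_right,
    inner_irr_ne χ.2 ψ.2 (fun hh => h (Subtype.ext hh))]
  simp

/-- the trivial irreducible character -/
def t0 (G : Type u) [Group G] : IrrCharacter G := ⟨tt G, isIrrCharacter_one⟩

theorem inner_sg_tt (ε : ℤ) {χ : IrrCharacter G} (h : χ ≠ t0 G) :
    classInner (sg ε χ) (tt G) = 0 := by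
  have := inner_sg_ne ε 1 h
  unfold sg at this ⊢
  have h2 : ((1 : ℤ) : ℂ) • ((t0 G : IrrCharacter G) : G → ℂ) = tt G := by
    rw [Int.cast_one, one_smul]; rfl
  rwa [h2] at this

theorem decomp {F1 : G → ℂ} (g1 : IsGeneralizedCharacter G F1) (h11 : classInner F1 F1 = 3)
    (h1t : classInner F1 (tt G) = 1) :
    ∃ (a b : IrrCharacter G) (ε δ : ℤ), (ε = 1 ∨ ε = -1) ∧ (δ = 1 ∨ δ = -1) ∧ a ≠ b ∧ a ≠ t0 G ∧
      b ≠ t0 G ∧ F1 = tt G + sg ε a + sg δ b := by
  classical
  obtain ⟨s, ε, hs, hε, hF⟩ := H5.CharSmallNorm.exists_signed g1 (n := 3) le_rfl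
    (by rw [h11]; norm_num)
  have hin : classInner F1 (tt G) = if t0 G ∈ s then (ε (t0 G) : ℂ) else 0 := by
    rw [hF, H18.CharOrtho.inner_sum_left]
    have h1 : ∀ χ ∈ s, classInner ((ε χ : ℂ) • (χ : G → ℂ)) (tt G) =
        if χ = t0 G then (ε χ : ℂ) else 0 := by
      intro χ _
      split_ifs with h
      · subst h
        rw [H18.CharOrtho.inner_smul_left]
        have : classInner ((t0 G : IrrCharacter G) : G → ℂ) (tt G) = 1 := inner_irr_self isIrr_tt
        rw [this, mul_one]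
      · exact inner_sg_tt (ε χ) h
    rw [Finset.sum_congr rfl h1, Finset.sum_ite_eq']
  rw [h1t] at hin
  have ht : t0 G ∈ s := by
    by_contra h
    rw [if_neg h] at hin
    exact one_ne_zero hin
  rw [if_pos ht] at hin
  have hcard : (s.erase (t0 G)).card = 2 := by rw [Finset.card_erase_of_mem ht, hs]
  obtain ⟨a, b, hab, hab'⟩ := Finset.card_eq_two.1 hcard
  have ha : a ∈ s.erase (t0 G) := by rw [hab']; simp
  have hb : b ∈ s.erase (t0 G) := by rw [hab']; simp
  refine ⟨a, b, ε a, ε b, hε a, hε b, hab, Finset.ne_of_mem_erase ha, Finset.ne_of_mem_erase hb, ?_⟩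
  rw [hF, ← Finset.add_sum_erase s _ ht, hab', Finset.sum_pair hab, ← hin, one_smul]
  rw [add_assoc]
  rfl

theorem exists_common (h : SH p P) (he : IsPE p (Nat.card G) e)
    {lam mu : ↥(P : Subgroup G) →* ℂˣ} {F1 F2 : G → ℂ} (g1 : IsGeneralizedCharacter G F1)
    (g2 : IsGeneralizedCharacter G F2) (hF1 : IsF e lam F1) (hF2 : IsF e mu F2)
    (h1 : lam ≠ 1) (h2 : mu ≠ 1) (h3 : lam ≠ mu) (h4 : lam * mu ≠ 1) :
    ∃ (a b : IrrCharacter G) (ε δ : ℤ), (ε = 1 ∨ ε = -1) ∧ (δ = 1 ∨ δ = -1) ∧ a ≠ b ∧ a ≠ t0 G ∧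
      b ≠ t0 G ∧ F1 = tt G + sg ε a + sg δ b ∧ classInner F2 (sg ε a) = 1 ∧
        classInner F2 (sg δ b) = 0 := by
  have F11 := gram_self h he hF1 h1
  have F22 := gram_self h he hF2 h2
  have F1t := inner_one h he hF1 h1
  have F2t := inner_one h he hF2 h2
  have F21 := gram_ne h he hF2 hF1 h2 h1 h3.symm (by
    intro h5
    apply h4
    ext w
    have := DFunLike.congr_fun h5 w
    rw [MonoidHom.mul_apply, MonoidHom.one_apply, mul_comm] at this
    rw [MonoidHom.mul_apply, MonoidHom.one_apply, this])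
  obtain ⟨a, b, ε, δ, hε, hδ, hab, hat, hbt, hF⟩ := decomp g1 F11 F1t
  have hs : classInner F2 (sg ε a) + classInner F2 (sg δ b) = 1 := by
    rw [hF, H18.CharOrtho.inner_add_right, H18.CharOrtho.inner_add_right] at F21
    have F2t' : classInner F2 (tt G) = 1 := F2t
    rw [F2t'] at F21
    linear_combination F21
  rcases Z g2 (isGen_sg ε a) (isGen_sg δ b) F22 F2t (inner_sg_self hε a) (inner_sg_self hδ b)
    (inner_sg_ne ε δ hab) (inner_sg_tt ε hat) (inner_sg_tt δ hbt) hs with ⟨h5, h6⟩ | ⟨h5, h6⟩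
  · exact ⟨a, b, ε, δ, hε, hδ, hab, hat, hbt, hF, h5, h6⟩
  · refine ⟨b, a, δ, ε, hδ, hε, hab.symm, hbt, hat, ?_, h6, h5⟩
    rw [hF]; ring

theorem inner_all (h : SH p P) (he : IsPE p (Nat.card G) e)
    {lam mu : ↥(P : Subgroup G) →* ℂˣ} {F1 F2 : G → ℂ} (g1 : IsGeneralizedCharacter G F1)
    (g2 : IsGeneralizedCharacter G F2) (hF1 : IsF e lam F1) (hF2 : IsF e mu F2)
    (h1 : lam ≠ 1) (h2 : mu ≠ 1) {a b : IrrCharacter G} {ε δ : ℤ} (hε : ε = 1 ∨ ε = -1)
    (hδ : δ = 1 ∨ δ = -1) (hab : a ≠ b) (hat : a ≠ t0 G) (hbt : b ≠ t0 G)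
    (hF : F1 = tt G + sg ε a + sg δ b) (h2a : classInner F2 (sg ε a) = 1)
    (h2b : classInner F2 (sg δ b) = 0) {nu : ↥(P : Subgroup G) →* ℂˣ} {F : G → ℂ}
    (gF : IsGeneralizedCharacter G F) (hFF : IsF e nu F) (hn : nu ≠ 1) :
    classInner F (sg ε a) = 1 := by
  by_cases c1 : nu = lam ∨ nu * lam = 1
  · have : F = F1 := F_congr he hFF hF1 c1
    rw [this, hF, H18.CharOrtho.inner_add_left, H18.CharOrtho.inner_add_left,
      inner_sg_self hε a, inner_sg_ne δ ε hab.symm]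
    have h5 := inner_symm_int (n := 0) (by rw [inner_sg_tt ε hat]; simp)
    rw [h5]; simp
  by_cases c2 : nu = mu ∨ nu * mu = 1
  · have : F = F2 := F_congr he hFF hF2 c2
    rw [this]; exact h2a
  push Not at c1 c2
  exact par gF (isGen_sg ε a) (isGen_sg δ b) g2 hF (gram_self h he hFF hn) (gram_self h he hF2 h2)
    (inner_one h he hFF hn) (inner_one h he hF2 h2) (inner_sg_self hε a) (inner_sg_self hδ b)
    (inner_sg_ne ε δ hab) (inner_sg_tt ε hat) (inner_sg_tt δ hbt)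
    (gram_ne h he hFF hF1 hn h1 c1.1 c1.2) (gram_ne h he hFF hF2 hn h2 c2.1 c2.2) h2a h2b
    (F_one hFF) (F_one hF1) (F_one hF2)

/-- the block argument -/
theorem mem_B0 (he : IsPE p (Nat.card G) e) {M : Ideal AlgInt}
    (hM : IsPModular p M) {lam : ↥(P : Subgroup G) →* ℂˣ} {F1 : G → ℂ}
    (hF1 : IsF e lam F1) {a b : IrrCharacter G} {ε δ : ℤ} (hε : ε = 1 ∨ ε = -1)
    (hδ : δ = 1 ∨ δ = -1) (hab : a ≠ b) (hat : a ≠ t0 G) (hbt : b ≠ t0 G)
    (hF : F1 = tt G + sg ε a + sg δ b) : a ∈ principalBlock M G := by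
  classical
  have hfi : Fintype (IrrCharacter G) := Fintype.ofFinite _
  haveI : M.IsPrime := H20.Loc.pm_isPrime hM
  set B := principalBlock M G with hB
  have hBb : IsPBlock M B := ⟨t0 G, rfl⟩
  have htB : t0 G ∈ B := H20.Blk.mem_blockOf_self (t0 G)
  -- the block part vanishes at 1
  have hz : ∑ χ : IrrCharacter G, (if χ ∈ B then classInner F1 (χ : G → ℂ) * (χ : G → ℂ) 1 else 0)
      = 0 := by
    have h1 : ∀ χ : IrrCharacter G, (if χ ∈ B then classInner F1 (χ : G → ℂ) * (χ : G → ℂ) 1 else 0)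
        = (Nat.card G : ℂ)⁻¹ * ∑ g : G, F1 g *
          (if χ ∈ B then (χ : G → ℂ) 1 * (χ : G → ℂ) g⁻¹ else 0) := by
      intro χ
      by_cases hχ : χ ∈ B
      · simp only [if_pos hχ, classInner]
        rw [mul_assoc, Finset.sum_mul]
        congr 1
        refine Finset.sum_congr rfl fun g _ => ?_
        rw [char_inv (isCharacter_of_isIrr χ.2)]
        ring
      · simp [if_neg hχ]
    rw [Finset.sum_congr rfl fun χ _ => h1 χ, ← Finset.mul_sum, Finset.sum_comm]
    have h2 : ∀ g : G, ∑ χ : IrrCharacter G, F1 g *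
        (if χ ∈ B then (χ : G → ℂ) 1 * (χ : G → ℂ) g⁻¹ else 0) = 0 := by
      intro g
      rw [← Finset.mul_sum]
      by_cases hg : g ^ e = 1
      · rw [F_reg hF1 hg, zero_mul]
      · have hN : g ^ Nat.card G = 1 := pow_card_eq_one'
        have h3 := H19.Second.block_orth (G := G) hM 1 g 1 (g ^ e)
          ⟨1, mul_one 1, Commute.one_right 1, ⟨0, by simp⟩, by
            rw [orderOf_one]; exact hp.out.one_lt.ne' ∘ Nat.dvd_one.1⟩
          ⟨(g ^ e)⁻¹ * g, by group, commute_rest g e, pow_orderOf hp.out he hN,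
            rest_reg hp.out he hN⟩
          (fun hc => hg (isConj_one_right.1 hc)) B hBb
        have h4 : ∑ χ : IrrCharacter G, (if χ ∈ B then (χ : G → ℂ) 1 * (χ : G → ℂ) g⁻¹ else 0) =
            ∑ᶠ χ ∈ B, (χ : G → ℂ) 1 * (χ : G → ℂ) g⁻¹ := by
          rw [finsum_mem_def, finsum_eq_sum_of_fintype]
          refine Finset.sum_congr rfl fun χ _ => ?_
          rw [Set.indicator_apply]
        rw [h4, h3, mul_zero]
    rw [Finset.sum_congr rfl fun g _ => h2 g, Finset.sum_const_zero, mul_zero]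
  -- evaluate
  have hin : ∀ χ : IrrCharacter G, classInner F1 (χ : G → ℂ) =
      (if χ = t0 G then 1 else 0) + (if χ = a then (ε : ℂ) else 0) + (if χ = b then (δ : ℂ) else 0) := by
    intro χ
    rw [hF, H18.CharOrtho.inner_add_left, H18.CharOrtho.inner_add_left]
    congr 1
    · congr 1
      · split_ifs with hc
        · subst hc; exact inner_irr_self isIrr_tt
        · exact inner_irr_ne isIrr_tt χ.2 (fun hh => hc (Subtype.ext hh.symm))
      · unfold sg
        rw [H18.CharOrtho.inner_smul_left]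
        split_ifs with hc
        · subst hc; rw [inner_irr_self χ.2, mul_one]
        · rw [inner_irr_ne a.2 χ.2 (fun hh => hc (Subtype.ext hh.symm)), mul_zero]
    · unfold sg
      rw [H18.CharOrtho.inner_smul_left]
      split_ifs with hc
      · subst hc; rw [inner_irr_self χ.2, mul_one]
      · rw [inner_irr_ne b.2 χ.2 (fun hh => hc (Subtype.ext hh.symm)), mul_zero]
  have hsum : ∑ χ : IrrCharacter G, (if χ ∈ B then classInner F1 (χ : G → ℂ) * (χ : G → ℂ) 1 else 0)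
      = 1 + (if a ∈ B then (ε : ℂ) * (a : G → ℂ) 1 else 0) +
        (if b ∈ B then (δ : ℂ) * (b : G → ℂ) 1 else 0) := by
    have h1 : ∀ χ : IrrCharacter G,
        (if χ ∈ B then classInner F1 (χ : G → ℂ) * (χ : G → ℂ) 1 else 0) =
        (if χ = t0 G then (if t0 G ∈ B then ((t0 G : IrrCharacter G) : G → ℂ) 1 else 0) else 0) +
        (if χ = a then (if a ∈ B then (ε : ℂ) * (a : G → ℂ) 1 else 0) else 0) +
        (if χ = b then (if b ∈ B then (δ : ℂ) * (b : G → ℂ) 1 else 0) else 0) := by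
      intro χ
      rw [hin χ]
      by_cases c0 : χ = t0 G
      · subst c0
        rw [if_neg hat.symm, if_neg hbt.symm, if_neg hat.symm, if_neg hbt.symm]
        simp
      · by_cases c1 : χ = a
        · subst c1
          rw [if_neg c0, if_neg hab, if_neg c0, if_neg hab]
          simp
        · by_cases c2 : χ = b
          · subst c2
            rw [if_neg c0, if_neg c1, if_neg c0, if_neg c1]
            simp
          · simp [c0, c1, c2]
    rw [Finset.sum_congr rfl fun χ _ => h1 χ]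
    simp only [Finset.sum_add_distrib, Finset.sum_ite_eq', Finset.mem_univ, if_true]
    rw [if_pos htB]
    rfl
  rw [hsum] at hz
  have hone := congrFun hF 1
  rw [F_one hF1] at hone
  simp only [Pi.add_apply, sg, Pi.smul_apply, smul_eq_mul] at hone
  have htt : tt G 1 = 1 := rfl
  rw [htt] at hone
  by_contra ha
  rw [if_neg ha] at hz
  by_cases hb : b ∈ B
  · rw [if_pos hb] at hz
    have h5 : (ε : ℂ) * (a : G → ℂ) 1 = 0 := by linear_combination -hz - hone
    rcases mul_eq_zero.1 h5 with h6 | h6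
    · rcases hε with h7 | h7 <;> rw [h7] at h6 <;> simp at h6
    · exact irr_one_ne_zero a.2 h6
  · rw [if_neg hb] at hz
    simp at hz

/-- the main output of the analysis of the principal block -/
theorem exists_psi (h : SH p P) (he : IsPE p (Nat.card G) e)
    {lam mu : ↥(P : Subgroup G) →* ℂˣ} (h1 : lam ≠ 1) (h2 : mu ≠ 1) (h3 : lam ≠ mu)
    (h4 : lam * mu ≠ 1) :
    ∃ (χ : IrrCharacter G) (ε : ℤ), (ε = 1 ∨ ε = -1) ∧ χ ≠ t0 G ∧
      ∀ g : G, g ^ e ≠ 1 → (ε : ℂ) * (χ : G → ℂ) g = 1 := by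
  classical
  obtain ⟨F1, g1, hF1⟩ := exists_F h he lam
  obtain ⟨F2, g2, hF2⟩ := exists_F h he mu
  obtain ⟨a, b, ε, δ, hε, hδ, hab, hat, hbt, hF, h2a, h2b⟩ :=
    exists_common h he g1 g2 hF1 hF2 h1 h2 h3 h4
  obtain ⟨M, hM⟩ := H78.Cong.exists_isPModular hp.out
  have hB := mem_B0 he hM hF1 hε hδ hab hat hbt hF
  refine ⟨a, ε, hε, hat, ?_⟩
  have hfP : Fintype (P : Subgroup G) := Fintype.ofFinite _
  have hPc : (Nat.card (P : Subgroup G) : ℂ) ≠ 0 := by
    exact_mod_cast (Nat.card_pos (α := (P : Subgroup G))).ne'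
  have hcl := isClassFunction_of_isIrr a.2
  -- constancy on sections
  have hconst : ∀ g w : G, w ∈ (P : Subgroup G) → w ≠ 1 → IsConj (g ^ e) w →
      (a : G → ℂ) g = (a : G → ℂ) w := by
    intro g w hw hw1 hc
    obtain ⟨y, hy⟩ := isConj_iff.1 hc
    have e1 : (y * g * y⁻¹) ^ e = w := by rw [_root_.conj_pow, hy]
    have hN : (y * g * y⁻¹) ^ Nat.card G = 1 := pow_card_eq_one'
    have e2 := commute_rest (y * g * y⁻¹) e
    have e3 := rest_reg hp.out he hN
    have e4 := pow_orderOf hp.out he hN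
    rw [e1] at e2 e3 e4
    have e5 : w⁻¹ * (y * g * y⁻¹) ∈ centralizerPPrimeCore p w :=
      mem_core h hw hw1 (mem_centralizer_singleton_iff.2 e2.symm.eq) e3
    have e6 := Cfsg.Agent.S0942.result p M hM w e4 _ e5 a hB
    rw [mul_inv_cancel_left] at e6
    rw [← e6]
    exact (hcl g y).symm
  -- the Fourier argument
  let c : ↥(P : Subgroup G) → ℂ := fun w =>
    if (w : G) = 1 then 0 else conj ((ε : ℂ) * (a : G → ℂ) w - 1)
  have hc1 : ∀ nu : ↥(P : Subgroup G) →* ℂˣ, ∑ w, (2 - ((nu w : ℂˣ) : ℂ) - ((nu⁻¹ w : ℂˣ) : ℂ)) * c w = 0 := by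
    intro nu
    by_cases hn : nu = 1
    · refine Finset.sum_eq_zero fun w _ => ?_
      rw [hn]
      simp only [MonoidHom.inv_apply, MonoidHom.one_apply, inv_one, Units.val_one]
      ring
    obtain ⟨F, gF, hFF⟩ := exists_F h he nu
    have k1 := inner_all h he g1 g2 hF1 hF2 h1 h2 hε hδ hab hat hbt hF h2a h2b gF hFF hn
    have k2 : classInner F (tt G) = 1 := inner_one h he hFF hn
    have k3 : classInner F (sg ε a - tt G) = 0 := by
      rw [H18.CharOrtho.inner_sub_right, k1, k2, sub_self]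
    rw [inner_eq h he (θ := F) (θ' := sg ε a - tt G)
      (φ := fun w => (2 - L P nu w - L P nu w⁻¹) *
        (if w = 1 then 0 else conj ((ε : ℂ) * (a : G → ℂ) w - 1))) ?_] at k3
    · have k4 : ∀ w : ↥(P : Subgroup G), (2 - L P nu w - L P nu (w : G)⁻¹) *
          (if (w : G) = 1 then 0 else conj ((ε : ℂ) * (a : G → ℂ) w - 1)) =
          (2 - ((nu w : ℂˣ) : ℂ) - ((nu⁻¹ w : ℂˣ) : ℂ)) * c w := by
        intro w
        rw [L_coe, L_inv, MonoidHom.inv_apply]
      rw [Finset.sum_congr rfl fun w _ => k4 w] at k3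
      simp only [if_true, mul_zero, zero_add] at k3
      have k5 : (Nat.card (P : Subgroup G) : ℂ)⁻¹ ≠ 0 := inv_ne_zero hPc
      have k6 : ((1 : ℂ) / 2) ≠ 0 := by norm_num
      exact (mul_eq_zero.1 ((mul_eq_zero.1 k3).resolve_left k6)).resolve_left k5
    · intro g w hw hc
      rw [hFF g w hw hc]
      by_cases hw1 : w = 1
      · rw [if_pos hw1, hw1, inv_one, L_one]; ring
      · rw [if_neg hw1]
        simp only [Pi.sub_apply, sg, Pi.smul_apply, smul_eq_mul]
        rw [hconst g w hw hw1 hc]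
        rfl
  -- `c` is even
  have hev : ∀ w, c w⁻¹ = c w := by
    intro w
    have k1 : (a : G → ℂ) (w : G)⁻¹ = (a : G → ℂ) w :=
      (classFunction_isConj hcl (isConj_inv h w.2)).symm
    show (if ((w⁻¹ : ↥(P : Subgroup G)) : G) = 1 then (0 : ℂ) else
      conj ((ε : ℂ) * (a : G → ℂ) ((w⁻¹ : ↥(P : Subgroup G)) : G) - 1)) = _
    rw [Subgroup.coe_inv, k1]
    by_cases hw1 : (w : G) = 1
    · rw [if_pos (inv_eq_one.2 hw1)]
      show (0 : ℂ) = (if (w : G) = 1 then 0 else _)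
      rw [if_pos hw1]
    · rw [if_neg (fun hh => hw1 (inv_eq_one.1 hh))]
      show _ = (if (w : G) = 1 then 0 else _)
      rw [if_neg hw1]
  set s : ℂ := ∑ w, c w with hs
  have hc2 : ∀ nu : ↥(P : Subgroup G) →* ℂˣ, ∑ w, ((nu w : ℂˣ) : ℂ) * c w = s := by
    intro nu
    have k1 := hc1 nu
    have k2 : ∑ w, ((nu⁻¹ w : ℂˣ) : ℂ) * c w = ∑ w, ((nu w : ℂˣ) : ℂ) * c w := by
      rw [← Equiv.sum_comp (Equiv.inv ↥(P : Subgroup G))]
      refine Finset.sum_congr rfl fun w _ => ?_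
      rw [Equiv.inv_apply, hev, MonoidHom.inv_apply, map_inv, inv_inv]
    have k3 : ∀ w, (2 - ((nu w : ℂˣ) : ℂ) - ((nu⁻¹ w : ℂˣ) : ℂ)) * c w =
        2 * c w - ((nu w : ℂˣ) : ℂ) * c w - ((nu⁻¹ w : ℂˣ) : ℂ) * c w := fun w => by ring
    rw [Finset.sum_congr rfl fun w _ => k3 w, Finset.sum_sub_distrib, Finset.sum_sub_distrib,
      ← Finset.mul_sum, k2] at k1
    have : (2 : ℂ) ≠ 0 := two_ne_zero
    apply mul_left_cancel₀ this
    linear_combination -k1
  have hcf : (fun w => c w - s * (if w = 1 then 1 else 0)) = (0 : ↥(P : Subgroup G) → ℂ) := by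
    have hcomm : ∀ x y : ↥(P : Subgroup G), x * y = y * x := fun x y =>
      Subtype.ext (h.ab _ x.2 _ y.2)
    apply classFun_eq_zero
    · intro g x
      have : x * g * x⁻¹ = g := by rw [hcomm x g]; group
      rw [this]
    · intro χ hχ
      obtain ⟨f, rfl⟩ := exists_hom_of_isIrr_of_comm hcomm hχ
      unfold classInner
      have k1 : ∀ w, (c w - s * (if w = 1 then 1 else 0)) * conj ((f w : ℂˣ) : ℂ) =
          ((f⁻¹ w : ℂˣ) : ℂ) * c w - (if w = 1 then s else 0) := by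
        intro w
        rw [← hom_inv_eq_conj, map_inv, MonoidHom.inv_apply]
        by_cases hw : w = 1
        · subst hw; simp
        · simp [hw]; ring
      rw [Finset.sum_congr rfl fun w _ => k1 w, Finset.sum_sub_distrib, hc2,
        Finset.sum_ite_eq']
      simp
  intro g hg
  obtain ⟨w, hw, hc⟩ := H38.ST4.exists_conj_sylow P he g
  have hw1 : w ≠ 1 := by
    rintro rfl
    exact hg (isConj_one_left.1 hc)
  rw [hconst g w hw hw1 hc]
  have k1 := congrFun hcf ⟨w, hw⟩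
  have hw1' : (⟨w, hw⟩ : ↥(P : Subgroup G)) ≠ 1 := fun hh => hw1 (congrArg Subtype.val hh)
  simp only [if_neg hw1', mul_zero, sub_zero, Pi.zero_apply] at k1
  have k2 : conj ((ε : ℂ) * (a : G → ℂ) w - 1) = 0 := by
    have : c ⟨w, hw⟩ = conj ((ε : ℂ) * (a : G → ℂ) w - 1) := by
      show (if w = 1 then (0 : ℂ) else _) = _
      rw [if_neg hw1]
    rw [← this]; exact k1
  rw [map_eq_zero] at k2
  linear_combination k2

end H38.ST8
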