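import Cfsg.Agent.Lib.H38.ST8
import Cfsg.Agent.Lib.H62.CentralInv

/-!
# The generalized character `W` of the extension (Smith-Tyrer 9)
-/

set_option autoImplicit false
set_option linter.unusedSectionVars false
set_option linter.unusedVariables false

namespace H38.ST9

open Cfsg Subgroup H38.ST1 H38.ST2 H38.ST3 H38.ST4 H18.CharBasic H18.CharOrtho
open scoped Pointwise ComplexConjugate

universe u

/-- commuting of `p`- and `p'`-parts in nilpotent groups -/
theorem nil_comm {X : Type u} [Group X] [Finite X] [Group.IsNilpotent X] {p : ℕ} [hp : Fact p.Prime]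
    {a b : X} (ha : ∃ k, a ^ (p ^ k) = 1) (hb : ¬ p ∣ orderOf b) : Commute a b := by
  obtain ⟨P, Q, hQ, hcard, hQcop⟩ := H4.Defect.exists_reg_part X p
  have hPn : (P : Subgroup X).Normal := H73.Nilp.sylow_normal P
  have hQn : Q.Normal := by
    refine ⟨fun x hx g => ?_⟩
    rw [hQ] at hx ⊢
    have h1 : orderOf (g * x * g⁻¹) = orderOf x := by
      have := MulEquiv.orderOf_eq (MulAut.conj g) x
      rw [← this]; rfl
    rw [h1]; exact hx
  have hP : a ∈ (P : Subgroup X) := by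
    obtain ⟨k, hk⟩ := ha
    have hz : IsPGroup p (Subgroup.zpowers a) := by
      rw [IsPGroup.iff_card]
      obtain ⟨j, _, hj⟩ := (Nat.dvd_prime_pow hp.out).1 (orderOf_dvd_of_pow_eq_one hk)
      exact ⟨j, by rw [Nat.card_zpowers, hj]⟩
    obtain ⟨S, hS⟩ := hz.exists_le_sylow
    have h1 : S = P := by
      obtain ⟨g, hg⟩ := MulAction.exists_smul_eq X P S
      rw [← hg]
      exact Sylow.smul_eq_of_normal
    rw [← h1]
    exact hS (Subgroup.mem_zpowers a)
  have hbQ : b ∈ Q := (hQ b).2 ((Nat.Prime.coprime_iff_not_dvd hp.out).2 hb).symm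
  have h1 : a * b * a⁻¹ * b⁻¹ = 1 := by
    have m1 : a * b * a⁻¹ * b⁻¹ ∈ (P : Subgroup X) := by
      have : a * (b * a⁻¹ * b⁻¹) ∈ (P : Subgroup X) :=
        mul_mem hP (hPn.conj_mem _ (inv_mem hP) b)
      simpa [mul_assoc] using this
    have m2 : a * b * a⁻¹ * b⁻¹ ∈ Q := mul_mem (hQn.conj_mem _ hbQ a) (inv_mem hbQ)
    obtain ⟨k, hk⟩ := P.2 ⟨_, m1⟩
    have hk' : (a * b * a⁻¹ * b⁻¹) ^ p ^ k = 1 := by simpa using congrArg Subtype.val hk
    have d1 : orderOf (a * b * a⁻¹ * b⁻¹) ∣ p ^ k := orderOf_dvd_of_pow_eq_one hk'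
    rw [← orderOf_eq_one_iff]
    exact Nat.Coprime.eq_one_of_dvd (Nat.Coprime.pow_right k ((hQ _).1 m2)) d1
  have h2 : a * b * a⁻¹ = b := mul_inv_eq_one.1 h1
  show a * b = b * a
  calc a * b = (a * b * a⁻¹) * a := by group
    _ = b * a := by rw [h2]

theorem psi_hom {X : Type u} [Group X] [Finite X] [Group.IsNilpotent X] {p N e : ℕ}
    [hp : Fact p.Prime] (he : IsPE p N e) (hX : Nat.card X ∣ N) :
    ∃ ψ : X →* X, ∀ g, ψ g = (g ^ e)⁻¹ * g := by
  obtain ⟨φ, hφ⟩ := pow_hom he hX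
  have hN : ∀ g : X, g ^ N = 1 := by
    intro g
    obtain ⟨k, hk⟩ := hX
    rw [hk, pow_mul, pow_card_eq_one', one_pow]
  refine ⟨⟨⟨fun g => (g ^ e)⁻¹ * g, by simp⟩, fun g h => ?_⟩, fun g => rfl⟩
  show ((g * h) ^ e)⁻¹ * (g * h) = ((g ^ e)⁻¹ * g) * ((h ^ e)⁻¹ * h)
  have h1 : (g * h) ^ e = g ^ e * h ^ e := by
    rw [← hφ, ← hφ, ← hφ, map_mul]
  have h2 : Commute (h ^ e) ((g ^ e)⁻¹ * g) :=
    nil_comm (pow_isP he (hN h)) (rest_reg hp.out he (hN g))
  rw [h1, mul_inv_rev]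
  have h3 := h2.inv_left.eq
  calc (h ^ e)⁻¹ * (g ^ e)⁻¹ * (g * h) = ((h ^ e)⁻¹ * ((g ^ e)⁻¹ * g)) * h := by group
    _ = (((g ^ e)⁻¹ * g) * (h ^ e)⁻¹) * h := by rw [h3]
    _ = _ := by group

variable {G : Type u} [Group G] [Finite G] {p : ℕ} [hp : Fact p.Prime] {P : Sylow p G}
variable (D : Dat p P) {e : ℕ}

theorem pow_g (x : CE D.κ) (n : ℕ) : (x ^ n).g = x.g ^ n := map_pow (pr D.κ) x n

open Classical in
/-- the function `W` -/
noncomputable def WW (D : Dat p P) (e : ℕ) (Pi : G → ℂ) (x : CE D.κ) : ℂ :=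
  if x.g ^ e = 1 then ζ (x ^ e).a * Pi x.g else 0

theorem zz_pow (he : IsPE p (Nat.card (CE D.κ)) e) (a : ZMod p) : zz D.κ a ^ e = zz D.κ a := by
  have h1 : ∀ n : ℕ, zz D.κ a ^ n = zz D.κ (n * a) := by
    intro n
    induction n with
    | zero => rw [pow_zero, Nat.cast_zero, zero_mul, zz_zero]
    | succ n ih => rw [pow_succ, ih, ← zz_add]; push_cast; ring_nf
  have h2 : zz D.κ a ^ (p ^ 1) = 1 := by
    rw [pow_one, h1, CharP.cast_eq_zero, zero_mul, zz_zero]
  obtain ⟨j, _, hj⟩ := (Nat.dvd_prime_pow hp.out).1 (orderOf_dvd_of_pow_eq_one h2)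
  exact pow_eq_self hp.out he pow_card_eq_one' hj

theorem zz_mul_pow (he : IsPE p (Nat.card (CE D.κ)) e) (a : ZMod p) (x : CE D.κ) :
    (zz D.κ a * x) ^ e = zz D.κ a * x ^ e := by
  have hc : Commute (zz D.κ a) x := zz_comm D.κ a x
  rw [hc.mul_pow, zz_pow D he]

theorem WW_zz (he : IsPE p (Nat.card (CE D.κ)) e) (Pi : G → ℂ) (a : ZMod p) (x : CE D.κ) :
    WW D e Pi (zz D.κ a * x) = ζ a * WW D e Pi x := by
  unfold WW
  have h1 : (zz D.κ a * x).g = x.g := by rw [zz_mul]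
  rw [zz_mul_pow D he, h1]
  by_cases hx : x.g ^ e = 1
  · rw [if_pos hx, if_pos hx]
    have h2 : (zz D.κ a * x ^ e).a = a + (x ^ e).a := by rw [zz_mul]
    rw [h2, AddChar.map_add_eq_mul]; ring
  · rw [if_neg hx, if_neg hx, mul_zero]

theorem WW_conj {Pi : G → ℂ} (hcl : IsClassFunction G Pi) (x y : CE D.κ) :
    WW D e Pi (y * x * y⁻¹) = WW D e Pi x := by
  unfold WW
  have h1 : (y * x * y⁻¹).g = y.g * x.g * y.g⁻¹ := rfl
  rw [h1, _root_.conj_pow, _root_.conj_pow, hcl]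
  by_cases hx : x.g ^ e = 1
  · rw [if_pos hx, if_pos (by rw [hx]; group)]
    have h2 : x ^ e = zz D.κ (x ^ e).a := eq_zz D.κ (by rw [pow_g]; exact hx)
    have h3 : y * x ^ e * y⁻¹ = x ^ e := by
      rw [h2, ← zz_comm, mul_inv_cancel_right]
    rw [h3]
  · rw [if_neg hx, if_neg]
    intro h2
    apply hx
    have : x.g ^ e = y.g⁻¹ * (y.g * x.g ^ e * y.g⁻¹) * y.g := by group
    rw [this, h2]; group

theorem isGen_WW (he : IsPE p (Nat.card (CE D.κ)) e) {Pi : G → ℂ} (hPi : IsGeneralizedCharacter G Pi)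
    (hv : ∀ g : G, g ^ e ≠ 1 → Pi g = 0) : IsGeneralizedCharacter (CE D.κ) (WW D e Pi) := by
  classical
  have hcl := isClassFunction_of_isGen hPi
  refine H4.Brauer.brauer_characterization _ ?_ ?_
  · intro x y
    exact WW_conj D hcl x y
  · intro E q hq hE
    have hnil : Group.IsNilpotent E := H4.Brauer.isNilpotent_of_isElementary hq hE
    have : Fintype E := Fintype.ofFinite E
    obtain ⟨ψ, hψ⟩ := psi_hom he (X := E) (Subgroup.card_subgroup_dvd_card E)
    have hE0 : (Nat.card E : ℂ) ≠ 0 := by exact_mod_cast (Nat.card_pos (α := E)).ne'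
    rw [isGen_iff]
    constructor
    · intro x y
      exact WW_conj D hcl (x : CE D.κ) (y : CE D.κ)
    intro χ hχ
    have hχ1 := irr_one_ne_zero hχ
    by_cases hz : ∃ a : ZMod p, ∃ hm : zz D.κ a ∈ E, (ζ a : ℂ) * conj (χ ⟨zz D.κ a, hm⟩) ≠ conj (χ 1)
    · -- the inner product vanishes
      obtain ⟨a, hm, hne⟩ := hz
      refine ⟨0, ?_⟩
      have hcen : ∀ g : E, (⟨zz D.κ a, hm⟩ : E) * g = g * ⟨zz D.κ a, hm⟩ := fun g =>
        Subtype.ext (zz_comm D.κ a g)
      have h1 : ∀ g : E, (WW D e Pi (((⟨zz D.κ a, hm⟩ : E) * g : E) : CE D.κ) *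
          conj (χ ((⟨zz D.κ a, hm⟩ : E) * g))) * conj (χ 1) =
          (ζ a * conj (χ ⟨zz D.κ a, hm⟩)) * (WW D e Pi (g : CE D.κ) * conj (χ g)) := by
        intro g
        have h2 : (((⟨zz D.κ a, hm⟩ : E) * g : E) : CE D.κ) = zz D.κ a * (g : CE D.κ) := rfl
        rw [h2, WW_zz D he]
        have h3 := congrArg conj (H62.CentralInv.central_mul hχ hcen g)
        rw [map_mul, map_mul] at h3
        linear_combination (ζ a * WW D e Pi (g : CE D.κ)) * h3
      have h4 : (∑ g : E, WW D e Pi (g : CE D.κ) * conj (χ g)) * conj (χ 1) =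
          (ζ a * conj (χ ⟨zz D.κ a, hm⟩)) * ∑ g : E, WW D e Pi (g : CE D.κ) * conj (χ g) := by
        rw [Finset.mul_sum, ← Finset.sum_congr rfl fun g _ => h1 g, Finset.sum_mul]
        exact (Fintype.sum_bijective (fun g : E => (⟨zz D.κ a, hm⟩ : E) * g)
          (Group.mulLeft_bijective _) _ _ (fun g => rfl)).symm
      have h5 : (∑ g : E, WW D e Pi (g : CE D.κ) * conj (χ g)) = 0 := by
        have h6 : (∑ g : E, WW D e Pi (g : CE D.κ) * conj (χ g)) *
            (conj (χ 1) - ζ a * conj (χ ⟨zz D.κ a, hm⟩)) = 0 := by linear_combination h4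
        rcases mul_eq_zero.1 h6 with h7 | h7
        · exact h7
        · exact absurd (sub_eq_zero.1 h7).symm hne
      unfold classInner
      rw [h5, mul_zero]; simp
    · push Not at hz
      have hgen1 : IsGeneralizedCharacter E (fun g : E => Pi ((g : CE D.κ).g)) :=
        isGen_comp ((pr D.κ).comp E.subtype) hPi
      have hgen2 : IsGeneralizedCharacter E (fun g : E => χ (ψ g)) :=
        isGen_comp ψ (isGen_of_isIrr hχ)
      obtain ⟨n, hn⟩ := inner_gen_intCast hgen1 hgen2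
      refine ⟨n, ?_⟩
      rw [← hn]
      unfold classInner
      congr 1
      refine Finset.sum_congr rfl fun g _ => ?_
      show WW D e Pi (g : CE D.κ) * conj (χ g) = Pi (g : CE D.κ).g * conj (χ (ψ g))
      unfold WW
      by_cases hg : (g : CE D.κ).g ^ e = 1
      · rw [if_pos hg]
        set a := ((g : CE D.κ) ^ e).a with ha
        have h2 : (g : CE D.κ) ^ e = zz D.κ a := eq_zz D.κ (by rw [pow_g]; exact hg)
        have hm : zz D.κ a ∈ E := by rw [← h2]; exact pow_mem g.2 e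
        have hcen : ∀ y : E, (⟨zz D.κ a, hm⟩ : E) * y = y * ⟨zz D.κ a, hm⟩ := fun y =>
          Subtype.ext (zz_comm D.κ a y)
        have h3 : g = (⟨zz D.κ a, hm⟩ : E) * ψ g := by
          rw [hψ]
          have h4 : g ^ e = (⟨zz D.κ a, hm⟩ : E) := Subtype.ext h2
          rw [h4]; group
        have h5 := congrArg conj (H62.CentralInv.central_mul hχ hcen (ψ g))
        rw [← h3, map_mul, map_mul] at h5
        have h6 := hz a hm
        have h7 : conj (χ 1) ≠ 0 := by rwa [Ne, map_eq_zero]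
        apply mul_right_cancel₀ h7
        linear_combination (ζ a * Pi (g : CE D.κ).g) * h5 + (Pi (g : CE D.κ).g * conj (χ (ψ g))) * h6
      · rw [if_neg hg, hv _ hg, zero_mul, zero_mul]

end H38.ST9
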