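import Cfsg.Agent.Lib.H24.U3Syl
import Cfsg.Agent.Lib.H38.SchE

/-!
The centraliser of a transvection in `SU₃(q)`, `q` even.
-/

set_option autoImplicit false

namespace H38.Sch

open Matrix hiding J
open Cfsg H7.QuadExt H7.UnitSU H24.U3Syl

variable {K : Type*} [Field K] {q : ℕ}

/-- diagonal matrices centralising the transvection -/
def dm (q : ℕ) (a : K) : Matrix (Fin 3) (Fin 3) K := !![a, 0, 0; 0, (a ^ q) ^ 2, 0; 0, 0, a]

theorem dm_det {a : K} (ha : a ^ (q + 1) = 1) : (dm q a).det = 1 := by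
  simp [dm, Matrix.det_fin_three]
  rw [pow_succ] at ha
  linear_combination (a ^ q * a + 1) * ha

/-- as an element of `SL₃` -/
def dS (q : ℕ) (a : K) (ha : a ^ (q + 1) = 1) : SL3 K := ⟨dm q a, dm_det ha⟩

variable [Fintype K]

theorem dm_form (hK : Fintype.card K = q ^ 2) {a : K} (ha : a ^ (q + 1) = 1) :
    (dm q a)ᵀ * J K * bar q (dm q a) = J K := by
  have h3 := pow_q_pow_q hK a
  rw [pow_succ] at ha
  have h4 : ((a ^ q) ^ 2) ^ q = a ^ 2 := by rw [← pow_mul, mul_comm 2 q, pow_mul, h3]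
  ext i j
  fin_cases i <;> fin_cases j <;>
    simp [dm, J, bar, Matrix.mul_apply, Fin.sum_univ_three, zero_pow_q hK, h3, h4]
  · linear_combination ha
  · linear_combination (a ^ q * a + 1) * ha
  · linear_combination ha

theorem cent_form (two : (2 : K) = 0) (hK : Fintype.card K = q ^ 2) (g : SL3 K)
    (hform : g.1ᵀ * J K * bar q g.1 = J K) (hc : g * u q 0 1 = u q 0 1 * g) :
    ∃ (a : K) (ha : a ^ (q + 1) = 1) (x y : K), Good q x y ∧ g = dS q a ha * u q x y := by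
  have hc' : g.1 * um q 0 1 = um q 0 1 * g.1 := congrArg Subtype.val hc
  obtain ⟨G, hG⟩ := g
  have hform' : Gᵀ * J K * bar q G = J K := hform
  have hc'' : G * um q 0 1 = um q 0 1 * G := hc'
  have e := fun i j => congrFun (congrFun hc'' i) j
  have e11 := e 0 0
  have e12 := e 0 1
  have e13 := e 0 2
  have e23 := e 1 2
  have e33 := e 2 2
  have f := fun i j => congrFun (congrFun hform' i) j
  have f13 := f 0 2
  have f22 := f 1 1
  have f23 := f 1 2
  have f33 := f 2 2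
  simp [um, Matrix.mul_apply, Fin.sum_univ_three, zero_pow_q hK] at e11 e12 e13 e23 e33
  simp [J, bar, Matrix.mul_apply, Fin.sum_univ_three, zero_pow_q hK] at f13 f22 f23 f33
  have hdet : G.det = 1 := hG
  rw [Matrix.det_fin_three, e11, e12, e23] at hdet
  have hG22 : G 2 2 = G 0 0 := by linear_combination -e13
  rw [e11, e23, hG22] at f13
  rw [e12, hG22] at f23
  rw [hG22] at f33 hdet
  clear e f hform hc hform' hc'' hc' f22
  have ha : G 0 0 * G 0 0 ^ q = 1 := by linear_combination f13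
  have ha' : G 0 0 ^ (q + 1) = 1 := by rw [pow_succ]; linear_combination f13
  have haa := pow_q_pow_q hK (G 0 0)
  have hX : (G 0 0 ^ 2 * G 1 2) ^ q = (G 0 0 ^ q) ^ 2 * G 1 2 ^ q := by
    rw [mul_pow, ← pow_mul, ← pow_mul, mul_comm 2 q]
  have hY : (G 0 0 ^ q * G 0 2) ^ q = G 0 0 * G 0 2 ^ q := by rw [mul_pow, haa]
  have hb : G 1 1 = (G 0 0 ^ q) ^ 2 := by
    linear_combination (G 0 0 ^ q) ^ 2 * hdet - (G 0 0 * G 0 0 ^ q + 1) * G 1 1 * ha + (G 0 0 ^ q) ^ 2 * 0
  have hx : G 0 1 = G 0 0 * (G 0 0 ^ 2 * G 1 2) ^ q := by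
    rw [hX]
    rw [hb] at f23
    linear_combination G 0 0 * f23 - G 0 1 * ha - G 0 0 * (G 0 0 ^ q) ^ 2 * G 1 2 ^ q * two
  refine ⟨G 0 0, ha', G 0 0 ^ 2 * G 1 2, G 0 0 ^ q * G 0 2, ?_, ?_⟩
  · unfold Good
    rw [pow_succ (G 0 0 ^ 2 * G 1 2) q, hX, hY]
    linear_combination f33 - (G 0 0 * G 0 0 ^ q + 1) * G 1 2 * G 1 2 ^ q * ha - G 1 2 * G 1 2 ^ q * two
  · apply Subtype.ext
    show G = dm q (G 0 0) * um q (G 0 0 ^ 2 * G 1 2) (G 0 0 ^ q * G 0 2)
    ext i j
    fin_cases i <;> fin_cases j <;> simp [dm, um, Matrix.mul_apply, Fin.sum_univ_three, zero_pow_q hK]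
    · exact hx
    · linear_combination (-G 0 2) * ha
    · exact e23
    · exact hb
    · linear_combination (-(G 0 0 * G 0 0 ^ q + 1) * G 1 2) * ha
    · exact e11
    · exact e12
    · exact hG22

omit [Fintype K] in
theorem dS_mul {a b : K} (ha : a ^ (q + 1) = 1) (hb : b ^ (q + 1) = 1) :
    dS q a ha * dS q b hb = dS q (a * b) (by rw [mul_pow, ha, hb, one_mul]) := by
  apply Subtype.ext
  show dm q a * dm q b = dm q (a * b)
  ext i j
  fin_cases i <;> fin_cases j <;> simp [dm, Matrix.mul_apply, Fin.sum_univ_three, mul_pow]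

omit [Fintype K] in
theorem dS_one : dS q (1 : K) (one_pow _) = 1 := by
  apply Subtype.ext
  show dm q 1 = 1
  ext i j
  fin_cases i <;> fin_cases j <;> simp [dm]

omit [Fintype K] in
theorem dS_congr {a b : K} (ha : a ^ (q + 1) = 1) (hb : b ^ (q + 1) = 1) (h : a = b) : dS q a ha = dS q b hb := by
  subst h; rfl

omit [Fintype K] in
theorem dS_pow {a : K} (ha : a ^ (q + 1) = 1) (k : ℕ) :
    (dS q a ha) ^ k = dS q (a ^ k) (by rw [← pow_mul, mul_comm, pow_mul, ha, one_pow]) := by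
  induction k with
  | zero => rw [pow_zero, ← dS_one (q := q)]; exact dS_congr _ _ (pow_zero a).symm
  | succ k ih => rw [pow_succ, ih, dS_mul]; exact dS_congr _ _ (pow_succ a k).symm

theorem dS_u (hK : Fintype.card K = q ^ 2) {a : K} (ha : a ^ (q + 1) = 1) (x y : K) :
    dS q a ha * u q x y = u q (a ^ (3 * q) * x) y * dS q a ha := by
  apply Subtype.ext
  show dm q a * um q x y = um q (a ^ (3 * q) * x) y * dm q a
  have h3 := pow_q_pow_q hK a
  have h5 : (a ^ (3 * q) * x) ^ q = a ^ 3 * x ^ q := by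
    rw [mul_pow, mul_comm 3 q, pow_mul, ← pow_mul (a ^ q), mul_comm 3 q, pow_mul, h3]
  have h6 : a ^ (3 * q) = (a ^ q) ^ 3 := by rw [mul_comm, pow_mul]
  rw [pow_succ] at ha
  ext i j
  fin_cases i <;> fin_cases j <;> simp [dm, um, Matrix.mul_apply, Fin.sum_univ_three, h5]
  · linear_combination (-(a ^ q * a + 1) * a * x ^ q) * ha
  · ring
  · rw [h6]; linear_combination (-(a ^ q) ^ 2 * x) * ha

/-- the unitary group for the antidiagonal form -/
def Wf (hK : Fintype.card K = q ^ 2) : Subgroup (SL3 K) where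
  carrier := {g | g.1ᵀ * J K * bar q g.1 = J K}
  one_mem' := by
    show (1 : Matrix (Fin 3) (Fin 3) K)ᵀ * J K * bar q 1 = J K
    rw [bar_one hK, Matrix.transpose_one, Matrix.one_mul, Matrix.mul_one]
  mul_mem' := by
    intro g h hg hh
    have hg' : g.1ᵀ * J K * bar q g.1 = J K := hg
    have hh' : h.1ᵀ * J K * bar q h.1 = J K := hh
    show (g.1 * h.1)ᵀ * J K * bar q (g.1 * h.1) = J K
    rw [bar_mul hK, Matrix.transpose_mul]
    calc h.1ᵀ * g.1ᵀ * J K * (bar q g.1 * bar q h.1) = h.1ᵀ * (g.1ᵀ * J K * bar q g.1) * bar q h.1 := by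
          simp only [Matrix.mul_assoc]
      _ = J K := by rw [hg', hh']
  inv_mem' := by
    intro g hg
    have hg' : g.1ᵀ * J K * bar q g.1 = J K := hg
    have h1 : g.1 * (g⁻¹).1 = 1 := congrArg Subtype.val (mul_inv_cancel g)
    have h2 : bar q g.1 * bar q (g⁻¹).1 = 1 := by rw [← bar_mul hK, h1, bar_one hK]
    have h3 : (g⁻¹).1ᵀ * g.1ᵀ = 1 := by rw [← Matrix.transpose_mul, h1, Matrix.transpose_one]
    show (g⁻¹).1ᵀ * J K * bar q (g⁻¹).1 = J K
    calc (g⁻¹).1ᵀ * J K * bar q (g⁻¹).1 = (g⁻¹).1ᵀ * (g.1ᵀ * J K * bar q g.1) * bar q (g⁻¹).1 := by rw [hg']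
      _ = ((g⁻¹).1ᵀ * g.1ᵀ) * J K * (bar q g.1 * bar q (g⁻¹).1) := by simp only [Matrix.mul_assoc]
      _ = J K := by rw [h2, h3, Matrix.one_mul, Matrix.mul_one]

theorem form_of_mem (hK : Fintype.card K = q ^ 2) {M s : SL3 K} (hM : M.1ᵀ * bar q M.1 = J K)
    (hs : s ∈ SU 3 K q) : M⁻¹ * s * M ∈ Wf hK := by
  rw [mem_SU_iff hK] at hs
  show (M⁻¹ * s * M).1ᵀ * J K * bar q (M⁻¹ * s * M).1 = J K
  have e1 : M.1 * (M⁻¹ * s * M).1 = s.1 * M.1 := by
    have : M * (M⁻¹ * s * M) = s * M := by group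
    exact congrArg Subtype.val this
  calc (M⁻¹ * s * M).1ᵀ * J K * bar q (M⁻¹ * s * M).1
      = (M⁻¹ * s * M).1ᵀ * (M.1ᵀ * bar q M.1) * bar q (M⁻¹ * s * M).1 := by rw [hM]
    _ = (M.1 * (M⁻¹ * s * M).1)ᵀ * bar q (M.1 * (M⁻¹ * s * M).1) := by
        rw [bar_mul hK, Matrix.transpose_mul]; simp only [Matrix.mul_assoc]
    _ = M.1ᵀ * (s.1ᵀ * bar q s.1) * bar q M.1 := by
        rw [e1, bar_mul hK, Matrix.transpose_mul]; simp only [Matrix.mul_assoc]
    _ = J K := by
        have hs' : s.1ᵀ * bar q s.1 = 1 := hs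
        rw [hs', Matrix.mul_one, hM]

/-- `PSU₃(q) ≅` the special unitary group when the centre is trivial -/
theorem exists_equiv (two : (2 : K) = 0) (hK : Fintype.card K = q ^ 2) (hcen : Subgroup.center (SU 3 K q) = ⊥) :
    Nonempty (Wf hK ≃* PSU 3 K q) := by
  obtain ⟨θ, hθ⟩ := exists_trace_eq hK (one_pow q)
  have hM := Mm_form two hK hθ
  let M : SL3 K := MS two hθ
  let f : Wf hK →* SU 3 K q :=
    { toFun := fun g => ⟨M * g.1 * M⁻¹, conj_mem hK (M := M) hM g.2⟩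
      map_one' := by
        apply Subtype.ext
        show M * 1 * M⁻¹ = 1
        group
      map_mul' := fun g h => by
        apply Subtype.ext
        show M * (g.1 * h.1) * M⁻¹ = (M * g.1 * M⁻¹) * (M * h.1 * M⁻¹)
        group }
  have hf : Function.Bijective f := by
    constructor
    · rw [injective_iff_map_eq_one]
      intro g hg
      have h1 : M * g.1 * M⁻¹ = 1 := congrArg Subtype.val hg
      have h2 : g.1 = 1 := by
        calc g.1 = M⁻¹ * (M * g.1 * M⁻¹) * M := by group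
          _ = 1 := by rw [h1]; group
      exact Subtype.ext h2
    · intro s
      refine ⟨⟨M⁻¹ * s.1 * M, form_of_mem hK hM s.2⟩, ?_⟩
      apply Subtype.ext
      show M * (M⁻¹ * s.1 * M) * M⁻¹ = s.1
      group
  exact ⟨(MulEquiv.ofBijective f hf).trans
    (QuotientGroup.quotientBot.symm.trans (QuotientGroup.quotientMulEquivOfEq hcen.symm))⟩

end H38.Sch
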