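import Cfsg.Agent.Lib.H38.SchJ
import Cfsg.Agent.Lib.H38.SchI

/-!
The centraliser of an involution in `PSU₃(4)` as an extension of the universal datum.
-/

set_option autoImplicit false

namespace H38.Sch

open Cfsg H7.QuadExt H7.UnitSU H24.U3Syl

theorem int_psu {K : Type*} [Field K] [Fintype K] (hK : Fintype.card K = 4 ^ 2) (σ : K →+* K) (hσ4 : ∀ x, σ x = x ^ 4)
    (hσ : ∀ x, σ (σ x) = x) (h1 : σ ≠ RingHom.id K) (ζ : K) (hζ : σ ζ * ζ = 1) (ho : orderOf ζ = 5)
    (hpg : letI := Hs.grp σ hσ; IsPGroup 2 (Hs σ)) :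
    letI := Hs.grp σ hσ
    ∃ t : PSU 3 K 4, orderOf t = 2 ∧ Nonempty (Int' (Hs.dat σ hσ h1 ζ hζ hpg) 5 (Subgroup.centralizer ({t} : Set (PSU 3 K 4)))) := by
  letI := Hs.grp σ hσ
  have two : (2 : K) = 0 := by
    have h2 := FiniteField.cast_card_eq_zero K
    rw [hK] at h2
    have h3 : ((2 : K)) ^ 4 = 0 := by
      have : ((4 ^ 2 : ℕ) : K) = (2 : K) ^ 4 := by push_cast; norm_num
      rw [← this]; exact h2
    exact pow_eq_zero_iff (by norm_num) |>.1 h3
  have hcen : Subgroup.center (SU 3 K 4) = ⊥ := by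
    have h2 := H7.UnitSU.card_center hK (n := 3) (by norm_num)
    have h3 : Nat.card (Subgroup.center (SU 3 K 4)) = 1 := by rw [h2]; rfl
    exact Subgroup.card_eq_one.1 h3
  obtain ⟨e⟩ := exists_equiv two hK hcen
  have hg01 : Good 4 (0 : K) 1 := by
    unfold Good; rw [one_pow, zero_pow (by norm_num)]; linear_combination two
  have hgood : ∀ a : Hs σ, Good 4 a.x a.y := by
    intro a
    unfold Good
    have := a.h
    rw [hσ4, hσ4] at this
    rw [this, pow_succ]; ring
  let t₀ : Wf hK := ⟨u 4 0 1, u_form two hK hg01⟩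
  have ht₀ : orderOf t₀ = 2 := by
    apply orderOf_eq_prime
    · apply Subtype.ext
      show (u 4 (0 : K) 1) ^ 2 = 1
      rw [sq, (invol_iff two hK).2 rfl]
    · intro h
      have h2 : u 4 (0 : K) 1 = 1 := congrArg Subtype.val h
      rw [← u_zero hK] at h2
      exact one_ne_zero (u_inj h2).2
  have hcomm : ∀ x y : K, u 4 0 1 * u 4 x y = u 4 x y * u 4 0 1 := by
    intro x y
    rw [u_mul hK, u_mul hK, zero_pow (by norm_num), zero_mul, mul_zero]
    congr 1 <;> ring
  have hC : ∀ g : Wf hK, g ∈ Subgroup.centralizer ({t₀} : Set (Wf hK)) ↔ g.1 * u 4 0 1 = u 4 0 1 * g.1 := by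
    intro g
    rw [Subgroup.mem_centralizer_singleton_iff]
    constructor
    · intro h; exact congrArg Subtype.val h
    · intro h; exact Subtype.ext h
  let ι₀ : Hs σ →* Wf hK :=
    { toFun := fun a => ⟨u 4 a.x a.y, u_form two hK (hgood a)⟩
      map_one' := by
        apply Subtype.ext
        exact u_zero hK
      map_mul' := by
        intro a b
        apply Subtype.ext
        show u 4 (a.x + b.x) (a.y + b.y + σ a.x * b.x) = u 4 a.x a.y * u 4 b.x b.y
        rw [u_mul hK, hσ4] }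
  let ι : Hs σ →* Subgroup.centralizer ({t₀} : Set (Wf hK)) := ι₀.codRestrict _ (by
    intro a
    rw [hC]
    exact (hcomm a.x a.y).symm)
  have hζ5 : ζ ^ 5 = 1 := by rw [← ho]; exact pow_orderOf_eq_one ζ
  let a : K := ζ ^ 3
  have ha5 : a ^ (4 + 1) = 1 := by
    show (ζ ^ 3) ^ 5 = 1
    rw [← pow_mul, mul_comm, pow_mul, hζ5, one_pow]
  have ha12 : a ^ (3 * 4) = ζ := by
    show (ζ ^ 3) ^ 12 = ζ
    calc (ζ ^ 3) ^ 12 = (ζ ^ 5) ^ 7 * ζ := by ring
      _ = ζ := by rw [hζ5]; ring
  have ha1 : a ≠ 1 := by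
    intro h
    rw [h, one_pow] at ha12
    rw [← ha12, orderOf_one] at ho
    omega
  have hao : orderOf a = 5 := by
    haveI : Fact (Nat.Prime 5) := ⟨by norm_num⟩
    exact orderOf_eq_prime ha5 ha1
  have hdcomm : ∀ (b : K) (hb : b ^ (4 + 1) = 1), dS 4 b hb * u 4 0 1 = u 4 0 1 * dS 4 b hb := by
    intro b hb
    rw [dS_u hK, mul_zero]
  let c : Subgroup.centralizer ({t₀} : Set (Wf hK)) :=
    ⟨⟨dS 4 a ha5, dm_form hK ha5⟩, (hC _).2 (hdcomm a ha5)⟩
  let I : Int' (Hs.dat σ hσ h1 ζ hζ hpg) 5 (Subgroup.centralizer ({t₀} : Set (Wf hK))) :=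
    { ι := ι
      inj := by
        intro x y hxy
        have h2 : u 4 x.x x.y = u 4 y.x y.y := congrArg (fun z => z.1.1) hxy
        obtain ⟨h3, h4⟩ := u_inj h2
        exact Hs.ext h3 h4
      c := c
      hc := by
        intro x
        rw [mul_inv_eq_iff_eq_mul]
        apply Subtype.ext
        apply Subtype.ext
        show dS 4 a ha5 * u 4 x.x x.y = u 4 (ζ * x.x) x.y * dS 4 a ha5
        rw [dS_u hK, ha12]
      ord := by
        haveI : Fact (Nat.Prime 5) := ⟨by norm_num⟩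
        apply orderOf_eq_prime
        · apply Subtype.ext
          apply Subtype.ext
          show (dS 4 a ha5) ^ 5 = 1
          rw [dS_pow, ← dS_one (q := 4)]
          exact dS_congr _ _ ha5
        · intro h
          have h2 : dS 4 a ha5 = 1 := congrArg (fun z => z.1.1) h
          have h3 : dm 4 a = 1 := congrArg Subtype.val h2
          have h4 := congrFun (congrFun h3 0) 0
          simp [dm] at h4
          exact ha1 h4
      gen := by
        rw [eq_top_iff]
        rintro ⟨g, hg⟩ -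
        rw [hC] at hg
        obtain ⟨b, hb, x, y, hxy, hgb⟩ := cent_form two hK g.1 g.2 hg
        have hprim : IsPrimitiveRoot a 5 := by rw [← hao]; exact IsPrimitiveRoot.orderOf a
        obtain ⟨k, -, hk⟩ := hprim.eq_pow_of_pow_eq_one hb
        have h2 : (⟨g, (hC g).2 hg⟩ : Subgroup.centralizer ({t₀} : Set (Wf hK))) = c ^ k * ι ⟨x, y, by
            unfold Good at hxy
            rw [hσ4, hσ4, hxy, pow_succ]; ring⟩ := by
          apply Subtype.ext
          apply Subtype.ext
          show g.1 = (dS 4 a ha5) ^ k * u 4 x y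
          rw [dS_pow, hgb]
          congr 1
          exact dS_congr _ _ hk.symm
        rw [h2]
        exact Subgroup.mul_mem _ ((le_sup_right : _ ≤ ι.range ⊔ Subgroup.zpowers c) (Subgroup.npow_mem_zpowers c k))
          ((le_sup_left : _ ≤ ι.range ⊔ Subgroup.zpowers c) ⟨_, rfl⟩) }
  have hmap : (Subgroup.centralizer ({t₀} : Set (Wf hK))).map (e : Wf hK →* PSU 3 K 4) =
      Subgroup.centralizer ({e t₀} : Set (PSU 3 K 4)) := by
    ext x
    rw [Subgroup.mem_centralizer_singleton_iff]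
    constructor
    · rintro ⟨y, hy, rfl⟩
      rw [SetLike.mem_coe, Subgroup.mem_centralizer_singleton_iff] at hy
      show e y * e t₀ = e t₀ * e y
      rw [← map_mul, hy, map_mul]
    · intro hx
      obtain ⟨y, rfl⟩ := e.surjective x
      refine ⟨y, ?_, rfl⟩
      rw [SetLike.mem_coe, Subgroup.mem_centralizer_singleton_iff]
      apply e.injective
      rw [map_mul, map_mul]; exact hx
  refine ⟨e t₀, ?_, ⟨I.map ((e.subgroupMap _).trans (MulEquiv.subgroupCongr hmap))⟩⟩
  rw [← ht₀]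
  exact orderOf_injective (e : Wf hK →* PSU 3 K 4) e.injective t₀

/-- recognition of the semidirect product -/
theorem sd_iso {n : ℕ} [NeZero n] {P : Type*} [Group P] [Finite P] (α : MulAut P)
    (ψ : Multiplicative (ZMod n) →* MulAut P) (hψ : ψ (Multiplicative.ofAdd 1) = α)
    {X : Type*} [Group X] [Finite X] (h : P →* X) (g : X) (hg : g ^ n = 1) (hh : ∀ x, g * h x * g⁻¹ = h (α x))
    (htop : h.range ⊔ Subgroup.zpowers g = ⊤) (hcard : Nat.card X = Nat.card P * n) :
    Nonempty (P ⋊[ψ] Multiplicative (ZMod n) ≃* X) := by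
  have hgenz : ∀ z : Multiplicative (ZMod n), ∃ k : ℕ, z = (Multiplicative.ofAdd (1 : ZMod n)) ^ k := by
    intro z
    refine ⟨z.toAdd.val, ?_⟩
    rw [← ofAdd_nsmul, nsmul_eq_mul, mul_one, ZMod.natCast_zmod_val]; rfl
  obtain ⟨γ, hγ⟩ := exists_zhom (n := n) g hg
  have hpow : ∀ (k : ℕ) (x : P), g ^ k * h x * (g ^ k)⁻¹ = h ((α ^ k : MulAut P) x) := by
    intro k
    induction k with
    | zero => intro x; simp
    | succ k ih => intro x; rw [pow_succ α, MulAut.mul_apply, ← ih, ← hh, pow_succ]; group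
  let φ₀ : P ⋊[ψ] Multiplicative (ZMod n) →* X := SemidirectProduct.lift h γ (by
    intro z
    obtain ⟨k, rfl⟩ := hgenz z
    ext x
    show h (ψ _ x) = γ _ * h x * (γ _)⁻¹
    rw [map_pow, map_pow, hψ, hγ, hpow])
  have hsurj : Function.Surjective φ₀ := by
    rw [← MonoidHom.range_eq_top, eq_top_iff, ← htop, sup_le_iff]
    constructor
    · rintro _ ⟨x, rfl⟩
      exact ⟨SemidirectProduct.inl x, SemidirectProduct.lift_inl _ _ _ _⟩
    · rw [Subgroup.zpowers_le]
      exact ⟨SemidirectProduct.inr (Multiplicative.ofAdd 1), (SemidirectProduct.lift_inr _ _ _ _).trans hγ⟩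
  have hc : Nat.card (P ⋊[ψ] Multiplicative (ZMod n)) = Nat.card X := by
    rw [SemidirectProduct.card, hcard]
    congr 1
    rw [Nat.card_eq_fintype_card, Fintype.card_multiplicative, ZMod.card]
  haveI : Finite (P ⋊[ψ] Multiplicative (ZMod n)) := Finite.of_equiv _ SemidirectProduct.equivProd.symm
  exact ⟨MulEquiv.ofBijective φ₀ ((Nat.bijective_iff_surjective_and_card φ₀).2 ⟨hsurj, hc⟩)⟩

/-- isomorphic data give isomorphic extensions -/
theorem exists_iso {p n : ℕ} {K : Type*} [Field K] {ζ : K} {P P' : Type*} [Group P] [Group P'] {D : Dat p ζ P} {D' : Dat p ζ P'}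
    {G G' : Type*} [Group G] [Group G'] [Finite G] [Finite G'] [hp : Fact p.Prime] (hn0 : n ≠ 0) (hn : n.Coprime p)
    (I : Int' D n G) (I' : Int' D' n G') (f : P ≃* P') (hf : ∀ x, f (D.α x) = D'.α (f x)) : Nonempty (G ≃* G') := by
  haveI : NeZero n := ⟨hn0⟩
  haveI : Finite P := Finite.of_injective I.ι I.inj
  have hDn : ∀ x, D.α^[n] x = x := by
    intro x
    apply I.inj
    rw [← I.iter, I.pow_c]; group
  have hiter : ∀ (k : ℕ) (x : P), (((D.α : MulAut P) ^ k : MulAut P) : P → P) x = D.α^[k] x := by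
    intro k
    induction k with
    | zero => intro x; rfl
    | succ k ih => intro x; rw [pow_succ, MulAut.mul_apply, ih, Function.iterate_succ_apply]
  obtain ⟨ψ, hψ⟩ := exists_zhom (n := n) (D.α : MulAut P) (MulEquiv.ext (fun x => by rw [hiter, hDn]; rfl))
  obtain ⟨e₁⟩ := sd_iso (D.α : MulAut P) ψ hψ I.ι I.c I.pow_c I.hc I.gen (I.card hn)
  obtain ⟨e₂⟩ := sd_iso (D.α : MulAut P) ψ hψ (I'.ι.comp (f : P →* P')) I'.c I'.pow_c (by
      intro x
      show I'.c * I'.ι (f x) * I'.c⁻¹ = I'.ι (f (D.α x))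
      rw [hf, I'.hc]) (by
      have h1 : (I'.ι.comp (f : P →* P')).range = I'.ι.range := by
        rw [MonoidHom.range_comp, MonoidHom.range_eq_top.2 f.surjective, ← MonoidHom.range_eq_map]
      rw [h1, I'.gen]) (by rw [I'.card hn, Nat.card_congr f.toEquiv])
  exact ⟨e₁.symm.trans e₂⟩

end H38.Sch
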