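import Cfsg.Agent.Lib.H38.SchK

/-!
Groups of order 320 with derived group of order 64 with centre of order 4.
-/

set_option autoImplicit false

namespace H38.Sch

open Subgroup

theorem count_mod {P : Type*} [Group P] [Finite P] (q : ℕ) [hq : Fact q.Prime] (α : P ≃* P) (hαq : ∀ x, α^[q] x = x)
    (U : Subgroup P) (hU : ∀ x ∈ U, α x ∈ U) :
    Nat.card U ≡ Nat.card (U ⊓ MonoidHom.eqLocus (α : P →* P) (MonoidHom.id P) : Subgroup P) [MOD q] := by
  classical
  letI : Fintype U := Fintype.ofFinite U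
  let f : Function.End U := fun x => ⟨α x, hU x x.2⟩
  have hf : ∀ (i : ℕ) (x : U), (((f ^ i : Function.End U) x : U) : P) = α^[i] x := by
    intro i
    induction i with
    | zero => intro x; rfl
    | succ i ih =>
      intro x
      rw [pow_succ, Function.iterate_succ_apply]
      exact ih (f x)
  have hf1 : f ^ q ^ 1 = 1 := by
    funext x
    apply Subtype.ext
    rw [pow_one, hf, hαq]; rfl
  have h1 := Equiv.Perm.card_fixedPoints_modEq hf1
  rw [← Nat.card_eq_fintype_card, ← Nat.card_eq_fintype_card] at h1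
  have h2 : Nat.card (Function.fixedPoints f) = Nat.card (U ⊓ MonoidHom.eqLocus (α : P →* P) (MonoidHom.id P) : Subgroup P) := by
    refine Nat.card_congr ⟨fun x => ⟨x.1.1, x.1.2, ?_⟩, fun x => ⟨⟨x.1, x.2.1⟩, ?_⟩, fun x => rfl, fun x => rfl⟩
    · exact congrArg Subtype.val x.2
    · exact Subtype.ext x.2.2
  rw [h2] at h1
  exact h1

theorem dat320 {G : Type*} [Group G] [Finite G] (hG : Nat.card G = 320) (hD : Nat.card (commutator G) = 64)
    (hZ : Nat.card (center (commutator G)) = 4) {K : Type*} [Field K] [Fintype K]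
    [h5 : Fact (Nat.Prime 5)]
    (hK : Fintype.card K = 2 ^ orderOf ((2 : ℕ) : ZMod 5)) {ζ : K} (hζ : orderOf ζ = 5) :
    ∃ (D : Dat 2 ζ (commutator G)) (_I : Int' D 5 G), ∀ x, D.α^[5] x = x := by
  classical
  haveI : Fact (Nat.Prime 2) := ⟨Nat.prime_two⟩
  set P := commutator G with hP
  have hPn : P.Normal := inferInstance
  obtain ⟨g, hg⟩ := exists_prime_orderOf_dvd_card' (G := G) 5 (by rw [hG]; norm_num)
  have hPp : IsPGroup 2 P := IsPGroup.of_card (n := 6) (by rw [hD]; norm_num)
  have hcop : (Nat.card P).Coprime (Nat.card (zpowers g)) := by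
    rw [hD, Nat.card_zpowers, hg]; norm_num
  have hinf : Disjoint P (zpowers g) := disjoint_iff.2 (Subgroup.inf_eq_bot_of_coprime hcop)
  have htop : P ⊔ zpowers g = ⊤ := by
    have h1 : IsComplement' P (zpowers g) := Subgroup.isComplement'_of_card_mul_and_disjoint (by
      rw [hD, Nat.card_zpowers, hg, hG]) hinf
    exact h1.sup_eq_top
  let α : P ≃* P := (MulAut.conjNormal g : MulAut P)
  have hα : ∀ x : P, ((α x : P) : G) = g * x * g⁻¹ := fun x => MulAut.conjNormal_apply g x
  have hαi : ∀ (i : ℕ) (x : P), ((α^[i] x : P) : G) = g ^ i * x * (g ^ i)⁻¹ := by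
    intro i
    induction i with
    | zero => intro x; simp
    | succ i ih =>
      intro x
      rw [Function.iterate_succ_apply, ih, hα, pow_succ]; group
  have hg5 : g ^ 5 = 1 := by rw [← hg]; exact pow_orderOf_eq_one g
  have hα5 : ∀ x, α^[5] x = x := by
    intro x
    apply Subtype.ext
    rw [hαi, hg5]; group
  haveI : Nontrivial P := by
    rw [← Finite.one_lt_card_iff_nontrivial, hD]; norm_num
  have hnil : Group.IsNilpotent P := hPp.isNilpotent
  have hsolv : Group.IsSolvable P := inferInstance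
  have hP' : commutator P ≠ ⊤ := (IsSolvable.commutator_lt_top_of_nontrivial P).ne
  -- (1) `[P, g] = P`
  set R : Subgroup P := Subgroup.closure {c : P | ∃ h, h⁻¹ * α h = c} with hR
  have hRα : ∀ x ∈ R, α x ∈ R := by
    intro x hx
    have h1 : R.map (α : P →* P) ≤ R := by
      rw [hR, MonoidHom.map_closure, closure_le]
      rintro _ ⟨_, ⟨h, rfl⟩, rfl⟩
      exact subset_closure ⟨α h, by
        show (α h)⁻¹ * α (α h) = α (h⁻¹ * α h)
        rw [map_mul, map_inv]⟩
    exact h1 ⟨x, hx, rfl⟩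
  have hRn : R.Normal := by
    constructor
    intro n hn y
    have h1 : R.map (MulAut.conj y).toMonoidHom ≤ R := by
      rw [hR, MonoidHom.map_closure, closure_le]
      rintro _ ⟨_, ⟨h, rfl⟩, rfl⟩
      have h2 : (MulAut.conj y).toMonoidHom (h⁻¹ * α h) = ((h * y⁻¹)⁻¹ * α (h * y⁻¹)) * (y⁻¹⁻¹ * α y⁻¹)⁻¹ := by
        show y * (h⁻¹ * α h) * y⁻¹ = _
        rw [map_mul]; group
      rw [h2]
      exact R.mul_mem (subset_closure ⟨_, rfl⟩) (R.inv_mem (subset_closure ⟨_, rfl⟩))
    exact h1 ⟨n, hn, rfl⟩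
  have hRg : (R.map P.subtype).Normal := by
    rw [← Subgroup.normalizer_eq_top_iff, eq_top_iff, ← htop, sup_le_iff]
    constructor
    · intro y hy
      apply Subgroup.mem_normalizer_fintype
      rintro _ ⟨x, hx, rfl⟩
      exact ⟨⟨y, hy⟩ * x * ⟨y, hy⟩⁻¹, hRn.conj_mem x hx ⟨y, hy⟩, rfl⟩
    · rw [zpowers_le]
      apply Subgroup.mem_normalizer_fintype
      rintro _ ⟨x, hx, rfl⟩
      exact ⟨α x, hRα x hx, hα x⟩
  have hmap : (commutator P).map P.subtype = ⁅P, P⁆ := by
    rw [_root_.commutator_def, Subgroup.map_commutator, ← MonoidHom.range_eq_map, Subgroup.range_subtype]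
  have hN : (⁅P, P⁆ ⊔ R.map P.subtype : Subgroup G).Normal := inferInstance
  set N : Subgroup G := ⁅P, P⁆ ⊔ R.map P.subtype with hNdef
  have hab : ∀ x y : G, QuotientGroup.mk' N x * QuotientGroup.mk' N y = QuotientGroup.mk' N y * QuotientGroup.mk' N x := by
    have c1 : ∀ x ∈ P, ∀ y ∈ P, QuotientGroup.mk' N y * QuotientGroup.mk' N x = QuotientGroup.mk' N x * QuotientGroup.mk' N y := by
      intro x hx y hy
      have h1 : y * x * y⁻¹ * x⁻¹ ∈ N := (le_sup_left : ⁅P, P⁆ ≤ N) (commutator_mem_commutator hy hx)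
      rw [← QuotientGroup.ker_mk' N, MonoidHom.mem_ker, map_mul, map_mul, map_mul, map_inv, map_inv,
        mul_inv_eq_one, mul_inv_eq_iff_eq_mul] at h1
      exact h1
    have c2 : ∀ x ∈ P, QuotientGroup.mk' N g * QuotientGroup.mk' N x = QuotientGroup.mk' N x * QuotientGroup.mk' N g := by
      intro x hx
      have h1 : x⁻¹ * (g * x * g⁻¹) ∈ N := by
        apply (le_sup_right : R.map P.subtype ≤ N)
        exact ⟨(⟨x, hx⟩ : P)⁻¹ * α ⟨x, hx⟩, subset_closure ⟨_, rfl⟩, by
          show x⁻¹ * ((α ⟨x, hx⟩ : P) : G) = _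
          rw [hα]⟩
      rw [← QuotientGroup.ker_mk' N, MonoidHom.mem_ker, map_mul, map_mul, map_mul, map_inv, map_inv,
        inv_mul_eq_one] at h1
      rw [eq_comm, mul_inv_eq_iff_eq_mul] at h1
      exact h1
    have c3 : ∀ w : G, (∀ y ∈ P, QuotientGroup.mk' N y * QuotientGroup.mk' N w = QuotientGroup.mk' N w * QuotientGroup.mk' N y) →
        QuotientGroup.mk' N g * QuotientGroup.mk' N w = QuotientGroup.mk' N w * QuotientGroup.mk' N g →
        ∀ y, QuotientGroup.mk' N y * QuotientGroup.mk' N w = QuotientGroup.mk' N w * QuotientGroup.mk' N y := by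
      intro w h1 h2 y
      have h3 : (centralizer ({QuotientGroup.mk' N w} : Set (G ⧸ N))).comap (QuotientGroup.mk' N) = ⊤ := by
        rw [eq_top_iff, ← htop, sup_le_iff]
        refine ⟨fun y hy => ?_, ?_⟩
        · rw [mem_comap, mem_centralizer_singleton_iff]; exact h1 y hy
        · rw [zpowers_le, mem_comap, mem_centralizer_singleton_iff]; exact h2
      have h4 : y ∈ (centralizer ({QuotientGroup.mk' N w} : Set (G ⧸ N))).comap (QuotientGroup.mk' N) := by
        rw [h3]; trivial
      rw [mem_comap, mem_centralizer_singleton_iff] at h4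
      exact h4
    intro x y
    apply c3 y
    · intro z hz
      exact (c3 z (fun y hy => c1 z hz y hy) (c2 z hz) y).symm
    · exact (c3 g (fun y hy => (c2 y hy).symm) rfl y).symm
  have hPN : P ≤ N := by
    rw [hP, _root_.commutator_def, Subgroup.commutator_le]
    intro x _ y _
    rw [← QuotientGroup.ker_mk' N, MonoidHom.mem_ker, commutatorElement_def, map_mul, map_mul, map_mul, map_inv, map_inv, hab x y]
    group
  have hsup : commutator P ⊔ R = ⊤ := by
    rw [eq_top_iff]
    intro x _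
    have h1 : (x : G) ∈ N := hPN x.2
    rw [hNdef, ← hmap, ← Subgroup.map_sup] at h1
    obtain ⟨y, hy, hyx⟩ := h1
    rwa [← Subtype.ext hyx]
  have hRtop : R = ⊤ := by
    by_contra hne
    haveI : Nontrivial (P ⧸ R) := QuotientGroup.nontrivial_iff.2 hne
    have h1 : commutator (P ⧸ R) = ⊤ := by
      have h2 : (commutator P).map (QuotientGroup.mk' R) = commutator (P ⧸ R) := by
        rw [_root_.commutator_def, _root_.commutator_def, Subgroup.map_commutator, ← MonoidHom.range_eq_map,
          MonoidHom.range_eq_top.2 (QuotientGroup.mk'_surjective R)]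
      have h3 : (commutator P ⊔ R).map (QuotientGroup.mk' R) = ⊤ := by
        rw [hsup, ← MonoidHom.range_eq_map, MonoidHom.range_eq_top.2 (QuotientGroup.mk'_surjective R)]
      rw [Subgroup.map_sup, QuotientGroup.map_mk'_self, sup_bot_eq] at h3
      rw [← h2, h3]
    have hs : Group.IsSolvable (P ⧸ R) := inferInstance
    exact (IsSolvable.commutator_lt_top_of_nontrivial (P ⧸ R)).ne h1
  -- (2) fixed points
  set C : Subgroup P := MonoidHom.eqLocus (α : P →* P) (MonoidHom.id P) with hC
  have hmemC : ∀ x, x ∈ C ↔ α x = x := fun x => Iff.rfl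
  have hCP : C ≤ commutator P := by
    intro x hx
    apply coprime_fix (α : P →* P) 5 hα5 (by rw [hD]; norm_num) (x := x)
    · have : x ∈ R := by rw [hRtop]; trivial
      exact this
    · exact hx
  -- orders
  have hpow2 : ∀ U : Subgroup P, Nat.card U ≡ 4 [MOD 5] → Nat.card U = 4 ∨ U = ⊤ := by
    intro U hU
    have h1 : Nat.card U ∣ 2 ^ 6 := by
      have := U.card_subgroup_dvd_card
      rw [hD] at this
      exact this
    obtain ⟨k, hk, h2⟩ := (Nat.dvd_prime_pow Nat.prime_two).1 h1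
    rw [h2] at hU
    interval_cases k
    · exact absurd hU (by decide)
    · exact absurd hU (by decide)
    · left; rw [h2]; norm_num
    · exact absurd hU (by decide)
    · exact absurd hU (by decide)
    · exact absurd hU (by decide)
    · right
      apply Subgroup.eq_top_of_card_eq
      rw [h2, hD]; norm_num
  have hCcard : Nat.card C = 4 := by
    have h1 := count_mod 5 α hα5 ⊤ (fun x _ => trivial)
    rw [top_inf_eq, Subgroup.card_top, hD] at h1
    rcases hpow2 C (h1.symm.trans (by decide)) with h2 | h2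
    · exact h2
    · exfalso
      apply hP'
      rw [eq_top_iff, ← h2]
      exact hCP
  have hcenα : ∀ x ∈ center P, α x ∈ center P := by
    intro x hx
    rw [mem_center_iff] at hx ⊢
    intro y
    obtain ⟨y, rfl⟩ := α.surjective y
    rw [← map_mul, hx, map_mul]
  have hZC : center P = C := by
    have h1 := count_mod 5 α hα5 (center P) hcenα
    rw [hZ] at h1
    have h2 : Nat.card (center P ⊓ C : Subgroup P) ≤ 4 := by
      rw [← hZ]
      exact Subgroup.card_le_of_le inf_le_left
    have h3 : Nat.card (center P ⊓ C : Subgroup P) = 4 := by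
      have h4 : Nat.card (center P ⊓ C : Subgroup P) % 5 = 4 := h1.symm
      omega
    have h4 : center P ⊓ C = center P := Subgroup.eq_of_le_of_card_ge inf_le_left (by rw [h3, hZ])
    have h5 : center P ≤ C := inf_eq_left.1 h4
    exact Subgroup.eq_of_le_of_card_ge h5 (by rw [hZ, hCcard])
  have hU4 : ∀ U : Subgroup P, (∀ x ∈ U, α x ∈ U) → C ≤ U → Nat.card U = 4 ∨ U = ⊤ := by
    intro U hU hCU
    apply hpow2
    have h1 := count_mod 5 α hα5 U hU
    rw [inf_eq_right.2 hCU, hCcard] at h1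
    exact h1
  have hcomα : ∀ x ∈ commutator P, α x ∈ commutator P := by
    intro x hx
    have h1 : (commutator P).map (α : P →* P) ≤ commutator P := by
      rw [_root_.commutator_def, Subgroup.map_commutator]
      exact Subgroup.commutator_mono le_top le_top
    exact h1 ⟨x, hx, rfl⟩
  have hcomC : commutator P = C := by
    rcases hU4 _ hcomα hCP with h1 | h1
    · exact (Subgroup.eq_of_le_of_card_ge hCP (by rw [h1, hCcard])).symm
    · exact absurd h1 hP'
  have hirr : ∀ U : Subgroup P, commutator P ≤ U → (∀ x ∈ U, α x ∈ U) → U = commutator P ∨ U = ⊤ := by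
    intro U hU hUα
    rcases hU4 U hUα (hCP.trans hU) with h1 | h1
    · left
      exact (Subgroup.eq_of_le_of_card_ge hU (by rw [h1, hcomC, hCcard])).symm
    · exact Or.inr h1
  have hfix : ∀ z ∈ commutator P, α z = z := by
    intro z hz
    rw [hcomC] at hz
    exact hz
  have hcen : ∀ z ∈ commutator P, ∀ x, z * x = x * z := by
    intro z hz x
    rw [hcomC, ← hZC] at hz
    exact ((mem_center_iff.1 hz) x).symm
  have hne : ∃ x : P, x⁻¹ * α x ∉ commutator P := by
    by_contra hcon
    push Not at hcon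
    apply hP'
    rw [eq_top_iff, ← hRtop, hR, closure_le]
    rintro _ ⟨x, rfl⟩
    exact hcon x
  have hpow : ∀ x : P, x ^ 2 ∈ commutator P := by
    let U : Subgroup P := ((powMonoidHom 2 : Abelianization P →* Abelianization P).comp Abelianization.of).ker
    have hU : ∀ x, x ∈ U ↔ x ^ 2 ∈ commutator P := by
      intro x
      have e1 : x ^ 2 ∈ commutator P ↔ (Abelianization.of x) ^ 2 = 1 := by
        rw [← Abelianization.ker_of, MonoidHom.mem_ker, map_pow]
      rw [e1]
      exact Iff.rfl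
    have h1 := hirr U (fun x hx => (hU x).2 ((commutator P).pow_mem hx 2)) (fun x hx => by
      rw [hU] at hx ⊢
      rw [← map_pow]; exact hcomα _ hx)
    have h2 : U ≠ commutator P := by
      intro h
      have h3 : Nat.card (Abelianization P) * 4 = 64 := by
        rw [← hD, ← hCcard, ← hcomC]
        exact (Subgroup.card_eq_card_quotient_mul_card_subgroup (commutator P)).symm
      obtain ⟨y, hy⟩ := exists_prime_orderOf_dvd_card' (G := Abelianization P) 2 (by
        have : Nat.card (Abelianization P) = 16 := by omega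
        rw [this]; norm_num)
      obtain ⟨x, hx⟩ := QuotientGroup.mk_surjective (s := commutator P) y
      have hx' : Abelianization.of x = y := hx
      have h4 : x ∈ U := by
        rw [hU, ← Abelianization.ker_of, MonoidHom.mem_ker, map_pow, hx', ← hy]
        exact pow_orderOf_eq_one y
      rw [h, ← Abelianization.ker_of, MonoidHom.mem_ker, hx'] at h4
      rw [h4, orderOf_one] at hy
      omega
    intro x
    rw [← hU, h1.resolve_left h2]; trivial
  obtain ⟨j, D, hj, hDα⟩ := dat_of (p := 2) (q := 5) (by norm_num) hK hζ hPp α hα5 hcen hpow hfix hne hirr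
  have hjc : (orderOf g).Coprime j := by
    rw [hg]; exact (Nat.Prime.coprime_iff_not_dvd h5.out).2 hj
  refine ⟨D,
    { ι := P.subtype
      inj := P.subtype_injective
      c := g ^ j
      hc := ?_
      ord := ?_
      gen := ?_ }, ?_⟩
  · intro x
    rw [hDα]
    exact (hαi j x).symm
  · rw [hjc.orderOf_pow, hg]
  · have h3 : zpowers (g ^ j) = zpowers g := by
      apply Subgroup.eq_of_le_of_card_ge
      · rw [zpowers_le]; exact npow_mem_zpowers g j
      · rw [Nat.card_zpowers, Nat.card_zpowers, hjc.orderOf_pow]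
    rw [h3, Subgroup.range_subtype]
    exact htop
  · have h3 : ⇑D.α = α^[j] := funext hDα
    intro x
    rw [h3, ← Function.iterate_mul, mul_comm, Function.iterate_mul]
    have h4 : α^[5] = id := funext hα5
    rw [h4, Function.iterate_id]; rfl

theorem ord25 : orderOf ((2 : ℕ) : ZMod 5) = 4 := by
  haveI h2 : Fact (Nat.Prime 2) := ⟨Nat.prime_two⟩
  have h1 : ¬ ((2 : ℕ) : ZMod 5) ^ 2 ^ 1 = 1 := by decide
  have h2 : ((2 : ℕ) : ZMod 5) ^ 2 ^ (1 + 1) = 1 := by decide
  exact orderOf_eq_prime_pow h1 h2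

theorem main320 {G : Type*} [Group G] [Finite G] (hG : Nat.card G = 320) (hD : Nat.card (commutator G) = 64)
    (hZ : Nat.card (center (commutator G)) = 4) {K : Type*} [Field K] [Fintype K] (hK : Fintype.card K = 16) :
    ∃ t : Cfsg.PSU 3 K 4, orderOf t = 2 ∧ Nonempty (G ≃* Subgroup.centralizer ({t} : Set (Cfsg.PSU 3 K 4))) := by
  haveI h2 : Fact (Nat.Prime 2) := ⟨Nat.prime_two⟩
  haveI h5 : Fact (Nat.Prime 5) := ⟨by norm_num⟩
  have h25 : (2 : ℕ) ≠ 5 := by norm_num
  have hord : orderOf ((2 : ℕ) : ZMod 5) = 4 := ord25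
  have hK' : Fintype.card K = 2 ^ orderOf ((2 : ℕ) : ZMod 5) := by rw [hK, hord]; norm_num
  have hK4 : Fintype.card K = 4 ^ 2 := by rw [hK]; norm_num
  obtain ⟨ζ, hζ⟩ := exists_root (q := 5) hK'
  have hgen := closure_root h25 hK' hζ
  have hζ1 : ζ ≠ 1 := by
    rintro rfl
    rw [orderOf_one] at hζ
    omega
  have hζ5 : ζ ^ 5 = 1 := by rw [← hζ]; exact pow_orderOf_eq_one ζ
  obtain ⟨σ, hσ4⟩ := H7.QuadExt.exists_conj hK4
  have hσ : ∀ x, σ (σ x) = x := by
    intro x
    rw [hσ4, hσ4, ← pow_mul]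
    have := FiniteField.pow_card x
    rw [hK] at this
    exact this
  have hσζ : σ ζ * ζ = 1 := by rw [hσ4, ← pow_succ]; exact hζ5
  have hσ1 : σ ≠ RingHom.id K := by
    intro h
    rw [h, RingHom.id_apply, ← sq] at hσζ
    have h3 := orderOf_dvd_of_pow_eq_one hσζ
    rw [hζ] at h3
    exact absurd h3 (by norm_num)
  letI := Hs.grp σ hσ
  haveI : Finite (Hs σ) := Hs.finite σ
  have hcard : Nat.card (Hs σ) = 64 := by
    rw [Hs.card σ hσ hσ1]
    have h1 := card_ker σ hσ hσ1
    rw [hK] at h1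
    have h2 : Nat.card {z : K // z + σ z = 0} = 4 := Nat.mul_self_inj.1 (by rw [h1])
    rw [h2, hK]
  have hpg : IsPGroup 2 (Hs σ) := IsPGroup.of_card (n := 6) (by rw [hcard]; norm_num)
  obtain ⟨D, I, hDq⟩ := dat320 hG hD hZ hK' hζ
  have hna : ∃ x y : commutator G, x * y ≠ y * x := by
    by_contra hcon
    push Not at hcon
    have h3 : center (commutator G) = ⊤ := by
      rw [eq_top_iff]
      intro x _
      rw [mem_center_iff]
      intro y
      exact hcon y x
    rw [h3, Subgroup.card_top, hD] at hZ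
    omega
  have h₀q : ∀ x, (Hs.dat σ hσ hσ1 ζ hσζ hpg).α^[5] x = x := by
    intro a
    obtain ⟨e1, e2⟩ := iter_dat σ hσ hσ1 ζ hσζ hpg 5 a
    exact Hs.ext (by rw [e1, hζ5, one_mul]) e2
  obtain ⟨f, hf1, hf2, -⟩ := univ_bar (Hs.dat σ hσ hσ1 ζ hσζ hpg) D hgen hζ1 σ hσζ (by
    intro k hk
    have h1 : (Dat.ell (Hs.dat σ hσ hσ1 ζ hσζ hpg) k).y = 0 := by
      rw [hk]; rfl
    have h2 : ∀ a b : Hs σ, (Dat.cm a b).y = σ a.x * b.x - σ b.x * a.x := fun a b => Hs.cm_y σ hσ a b
    have h3 : (Dat.ell (Hs.dat σ hσ hσ1 ζ hσζ hpg) k).y = k.toAdd - σ k.toAdd := by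
      have h4 : ∀ k : K, ((Hs.dat σ hσ hσ1 ζ hσζ hpg).sec k).x = k := fun k =>
        Multiplicative.ofAdd.injective ((Hs.dat σ hσ hσ1 ζ hσζ hpg).π_sec k)
      show (Dat.cm ((Hs.dat σ hσ hσ1 ζ hσζ hpg).sec 1) ((Hs.dat σ hσ hσ1 ζ hσζ hpg).sec k.toAdd)).y = _
      rw [h2, h4, h4, map_one]; ring
    rw [h3, sub_eq_zero] at h1
    exact D.ell_fixed hgen σ hσζ (fun a ha => H16.Forms.norm_surj σ hσ1 (by
      first
        | exact hσ
        | exact RingHom.ext hσ) a ha) h1.symm) 5 (by norm_num) h₀q hDq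
  have hfb : Function.Bijective f := (Nat.bijective_iff_surjective_and_card f).2 ⟨hf1, by rw [hcard, hD]⟩
  obtain ⟨t, ht, ⟨I'⟩⟩ := int_psu hK4 σ hσ4 hσ hσ1 ζ hσζ hζ hpg
  refine ⟨t, ht, ?_⟩
  obtain ⟨e⟩ := exists_iso (n := 5) (by norm_num) (by norm_num) I' I (MulEquiv.ofBijective f hfb) hf2
  exact ⟨e.symm⟩

end H38.Sch
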