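import Cfsg.Agent.Lib.H38.NormFix

set_option autoImplicit false

/-! The fixed points of `N` on a normal abelian `p`-subgroup are a direct factor of the fixed points of a subgroup of
index prime to `p`. -/

namespace H38.Split

open H38.Basic H38.Norm H38.NormFix Cfsg

variable {X : Type*} [Group X] {p : ℕ} [Finite X] [Fact p.Prime]

theorem split_top {V S : Subgroup X} (hVn : V.Normal) (hVp : IsPGroup p ↥V)
    (hab : V ≤ Subgroup.centralizer (V : Set X)) (hidx : ¬ p ∣ S.index) :
    ∃ K : Subgroup X, K ≤ V ⊓ Subgroup.centralizer (S : Set X) ∧ (V ⊓ Subgroup.center X) ⊓ K = ⊥ ∧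
      (V ⊓ Subgroup.center X) ⊔ K = V ⊓ Subgroup.centralizer (S : Set X) := by
  let _ : CommGroup ↥V :=
    { (inferInstance : Group ↥V) with
      mul_comm := fun a b => Subtype.ext (Subgroup.mem_centralizer_iff.1 (hab b.2) a a.2) }
  let _ : DistribMulAction X (Additive ↥V) := act V
  have hsmul : ∀ (h : X) (v : Additive ↥V), (((h • v).toMul : ↥V) : X) = h * (v.toMul : ↥V) * h⁻¹ := fun h v => rfl
  classical
  have : Fintype (X ⧸ S) := Fintype.ofFinite _
  let N : Additive ↥V →+ Additive ↥V := ∑ ω : X ⧸ S, DistribSMul.toAddMonoidHom (Additive ↥V) (Quotient.out ω : X)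
  have hNv : ∀ v : Additive ↥V, N v = ∑ ω : X ⧸ S, (Quotient.out ω : X) • v := by
    intro v
    show (∑ ω : X ⧸ S, DistribSMul.toAddMonoidHom (Additive ↥V) (Quotient.out ω : X)) v = _
    rw [AddMonoidHom.finsetSum_apply]
    rfl
  -- elements fixed by `S`
  have hfix : ∀ v : Additive ↥V, (∀ s ∈ S, s • v = v) → ∀ a b : X, a⁻¹ * b ∈ S → a • v = b • v := by
    intro v hv a b hab'
    have h1 := hv _ hab'
    calc a • v = a • (a⁻¹ * b) • v := by rw [h1]
      _ = b • v := by rw [smul_smul, mul_inv_cancel_left]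
  have hNc : ∀ v : Additive ↥V, (∀ s ∈ S, s • v = v) → ∀ h : X, h • N v = N v := by
    intro v hv h
    rw [hNv, Finset.smul_sum]
    refine Fintype.sum_equiv (MulAction.toPerm h) _ _ ?_
    intro ω
    rw [smul_smul]
    apply hfix v hv
    have h1 : (QuotientGroup.mk (Quotient.out (h • ω)) : X ⧸ S) = h • ω := Quotient.out_eq' _
    have h2 : (QuotientGroup.mk (h * Quotient.out ω) : X ⧸ S) = h • ω := by
      show h • (QuotientGroup.mk (Quotient.out ω) : X ⧸ S) = h • ω
      congr 1
      exact Quotient.out_eq' _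
    exact QuotientGroup.eq.1 (h2.trans h1.symm)
  have hNcentral : ∀ v : Additive ↥V, (∀ s : X, s • v = v) → N v = S.index • v := by
    intro v hv
    rw [hNv]
    simp only [hv]
    rw [Finset.sum_const, Finset.card_univ, Subgroup.index, Nat.card_eq_fintype_card]
  have hmemcent : ∀ v : Additive ↥V, ((v.toMul : ↥V) : X) ∈ Subgroup.center X ↔ ∀ s : X, s • v = v := by
    intro v
    rw [Subgroup.mem_center_iff]
    refine forall_congr' fun s => ?_
    constructor
    · intro h
      apply congrArg Additive.ofMul (a₁ := (s • v).toMul) (a₂ := v.toMul)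
      apply Subtype.ext
      rw [hsmul, h]; group
    · intro h
      have := congrArg (fun v : Additive ↥V => ((v.toMul : ↥V) : X)) h
      simp only [hsmul] at this
      calc s * ((v.toMul : ↥V) : X) = (s * ((v.toMul : ↥V) : X) * s⁻¹) * s := by group
        _ = _ := by rw [this]
  have hmemS : ∀ v : Additive ↥V, ((v.toMul : ↥V) : X) ∈ Subgroup.centralizer (S : Set X) ↔ ∀ s ∈ S, s • v = v := by
    intro v
    rw [Subgroup.mem_centralizer_iff]
    refine forall₂_congr fun s _ => ?_
    constructor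
    · intro h
      apply congrArg Additive.ofMul (a₁ := (s • v).toMul) (a₂ := v.toMul)
      apply Subtype.ext
      rw [hsmul, h]; group
    · intro h
      have := congrArg (fun v : Additive ↥V => ((v.toMul : ↥V) : X)) h
      simp only [hsmul] at this
      calc s * ((v.toMul : ↥V) : X) = (s * ((v.toMul : ↥V) : X) * s⁻¹) * s := by group
        _ = _ := by rw [this]
  -- the complement
  let K₀ : Subgroup ↥V := N.ker.toSubgroup'
  have hK₀ : ∀ v : ↥V, v ∈ K₀ ↔ N (Additive.ofMul v) = 0 := fun v => Iff.rfl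
  obtain ⟨k, hk⟩ := IsPGroup.iff_card.1 hVp
  have hcop : (S.index).Coprime (Nat.card ↥V) := by
    rw [hk]; exact (((Nat.Prime.coprime_iff_not_dvd Fact.out).2 hidx).symm).pow_right k
  have hcard : ∀ v : Additive ↥V, Nat.card ↥V • v = 0 := by
    intro v
    have h1 : (v.toMul : ↥V) ^ Nat.card ↥V = 1 := pow_card_eq_one'
    exact congrArg Additive.ofMul h1
  refine ⟨K₀.map V.subtype ⊓ Subgroup.centralizer (S : Set X), ?_, ?_, ?_⟩
  · exact inf_le_inf_right _ (Subgroup.map_subtype_le _)
  · rw [eq_bot_iff]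
    rintro x ⟨⟨hxV, hxc⟩, ⟨v, hv, hvx⟩, -⟩
    have hvx' : (v : X) = x := hvx
    have h1 : N (Additive.ofMul v) = 0 := (hK₀ v).1 hv
    have h2 := hNcentral (Additive.ofMul v) ((hmemcent (Additive.ofMul v)).1 (by
      show (v : X) ∈ _
      rw [hvx']; exact hxc))
    rw [h1] at h2
    have h3 : v ^ S.index = 1 := congrArg Additive.toMul h2.symm
    have h4 : v ^ Nat.card ↥V = 1 := pow_card_eq_one'
    have h5 : orderOf v ∣ Nat.gcd (S.index) (Nat.card ↥V) := Nat.dvd_gcd (orderOf_dvd_of_pow_eq_one h3)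
      (orderOf_dvd_of_pow_eq_one h4)
    rw [hcop, Nat.dvd_one, orderOf_eq_one_iff] at h5
    rw [Subgroup.mem_bot, ← hvx', h5]; rfl
  · apply le_antisymm
    · refine sup_le ?_ (inf_le_inf_right _ (Subgroup.map_subtype_le _))
      exact inf_le_inf_left _ (Subgroup.center_le_centralizer _)
    · rintro x ⟨hxV, hxS⟩
      set v : Additive ↥V := Additive.ofMul ⟨x, hxV⟩ with hv
      have hvS : ∀ s ∈ S, s • v = v := (hmemS v).1 hxS
      have hb := Nat.gcd_eq_gcd_ab S.index (Nat.card ↥V)
      rw [hcop, Nat.cast_one] at hb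
      set a := Nat.gcdA S.index (Nat.card ↥V) with ha
      set w : Additive ↥V := a • N v with hw
      have hwc : ∀ h : X, h • w = w := by
        intro h
        rw [hw]
        have : h • (a • N v) = a • (h • N v) := map_zsmul (DistribSMul.toAddMonoidHom (Additive ↥V) h) a (N v)
        rw [this, hNc v hvS]
      have hNw : N w = N v := by
        rw [hNcentral w hwc, hw, ← natCast_zsmul, smul_smul]
        have h1 : (S.index : ℤ) * a = 1 - (Nat.card ↥V : ℤ) * Nat.gcdB S.index (Nat.card ↥V) := by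
          rw [hb]; ring
        rw [h1, sub_smul, one_smul, mul_comm, mul_smul, natCast_zsmul, hcard, smul_zero, sub_zero]
      have hker : (v - w).toMul ∈ K₀ := by
        rw [hK₀]
        show N (v - w) = 0
        rw [map_sub, hNw, sub_self]
      have e : x = ((w.toMul : ↥V) : X) * (((v - w).toMul : ↥V) : X) := by
        have h1 : w + (v - w) = v := add_sub_cancel w v
        have h2 := congrArg (fun v : Additive ↥V => ((v.toMul : ↥V) : X)) h1
        exact h2.symm
      rw [e]
      refine Subgroup.mul_mem_sup ⟨(w.toMul).2, (hmemcent w).2 hwc⟩ ⟨⟨_, hker, rfl⟩, ?_⟩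
      refine (hmemS (v - w)).2 fun s hs => ?_
      rw [smul_sub, hvS s hs, hwc s]

/-- The relative form. -/
theorem split {G : Type*} [Group G] [Finite G] {V S N : Subgroup G} (hVN : V ≤ N)
    (hVn : N ≤ Subgroup.normalizer (V : Set G)) (hVp : IsPGroup p ↥V)
    (hab : V ≤ Subgroup.centralizer (V : Set G)) (hSN : S ≤ N) (hidx : ¬ p ∣ S.relIndex N) :
    ∃ K : Subgroup G, K ≤ V ⊓ Subgroup.centralizer (S : Set G) ∧ (V ⊓ Subgroup.centralizer (N : Set G)) ⊓ K = ⊥ ∧
      (V ⊓ Subgroup.centralizer (N : Set G)) ⊔ K = V ⊓ Subgroup.centralizer (S : Set G) := by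
  have h1 : (V.subgroupOf N).Normal := Subgroup.normal_subgroupOf_of_le_normalizer hVn
  obtain ⟨K, hK1, hK2, hK3⟩ := split_top (X := ↥N) (V := V.subgroupOf N) (S := S.subgroupOf N) h1
    hVp.comap_subtype (by
      intro x hx
      rw [Subgroup.mem_centralizer_iff]
      intro y hy
      exact Subtype.ext (Subgroup.mem_centralizer_iff.1 (hab hx) y hy)) hidx
  have hc1 : (V.subgroupOf N ⊓ Subgroup.center ↥N).map N.subtype = V ⊓ Subgroup.centralizer (N : Set G) := by
    ext x
    constructor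
    · rintro ⟨y, ⟨hy1, hy2⟩, rfl⟩
      refine Subgroup.mem_inf.2 ⟨hy1, ?_⟩
      rw [Subgroup.mem_centralizer_iff]
      intro z hz
      exact congrArg Subtype.val (Subgroup.mem_center_iff.1 hy2 ⟨z, hz⟩)
    · rintro ⟨hx1, hx2⟩
      refine ⟨⟨x, hVN hx1⟩, Subgroup.mem_inf.2 ⟨hx1, ?_⟩, rfl⟩
      rw [Subgroup.mem_center_iff]
      intro z
      exact Subtype.ext (Subgroup.mem_centralizer_iff.1 hx2 z z.2)
  have hc2 : (V.subgroupOf N ⊓ Subgroup.centralizer ((S.subgroupOf N : Subgroup ↥N) : Set ↥N)).map N.subtype =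
      V ⊓ Subgroup.centralizer (S : Set G) := by
    ext x
    constructor
    · rintro ⟨y, ⟨hy1, hy2⟩, rfl⟩
      refine Subgroup.mem_inf.2 ⟨hy1, ?_⟩
      rw [Subgroup.mem_centralizer_iff]
      intro z hz
      exact congrArg Subtype.val (Subgroup.mem_centralizer_iff.1 hy2 ⟨z, hSN hz⟩ hz)
    · rintro ⟨hx1, hx2⟩
      refine ⟨⟨x, hVN hx1⟩, Subgroup.mem_inf.2 ⟨hx1, ?_⟩, rfl⟩
      rw [Subgroup.mem_centralizer_iff]
      intro z hz
      exact Subtype.ext (Subgroup.mem_centralizer_iff.1 hx2 z hz)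
  refine ⟨K.map N.subtype, ?_, ?_, ?_⟩
  · rw [← hc2]; exact Subgroup.map_mono hK1
  · rw [← hc1, ← Subgroup.map_inf_eq _ _ _ N.subtype_injective, hK2, Subgroup.map_bot]
  · rw [← hc1, ← hc2, ← Subgroup.map_sup, hK3]

end H38.Split
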