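import Cfsg.Agent.Lib.H64.SylowNumbers
import Cfsg.Agent.Lib.H21.SylowTools
import Cfsg.Agent.Lib.H72.CoprimeIndex
import Cfsg.Agent.Lib.H4.Burnside

set_option autoImplicit false

/-! Sylow numbers: divisibility in normal subgroups; groups all of whose Sylow numbers are prime
powers. -/

namespace H38.SylNum

open Subgroup

universe u

variable {G : Type u} [Group G] [Finite G] {r : ℕ}

theorem relIndex_of_sup_eq_top (K N : Subgroup G) [N.Normal] (h : K ⊔ N = ⊤) :
    K.relIndex N = K.index := by
  have h1 : N.relIndex (K ⊔ N) = N.relIndex K := Subgroup.relIndex_sup_right K N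
  rw [h, Subgroup.relIndex_top_right] at h1
  have h2 : Nat.card (N ⊓ K : Subgroup G) * N.relIndex K = Nat.card K := by
    have := Subgroup.card_mul_index (N.subgroupOf K)
    rw [← this]
    congr 1
    rw [← Subgroup.inf_subgroupOf_right]
    exact (Nat.card_congr (Subgroup.subgroupOfEquivOfLe inf_le_right).toEquiv).symm
  have h3 : Nat.card (K ⊓ N : Subgroup G) * K.relIndex N = Nat.card N := by
    have := Subgroup.card_mul_index (K.subgroupOf N)
    rw [← this]
    congr 1
    rw [← Subgroup.inf_subgroupOf_right]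
    exact (Nat.card_congr (Subgroup.subgroupOfEquivOfLe inf_le_right).toEquiv).symm
  have h4 : Nat.card N * N.index = Nat.card K * K.index := by
    rw [Subgroup.card_mul_index, Subgroup.card_mul_index]
  have h5 : 0 < Nat.card K := Nat.card_pos
  apply Nat.eq_of_mul_eq_mul_left h5
  rw [← h4, h1, ← h3, ← h2, inf_comm]
  ring

theorem card_sylow_dvd_of_normal [Fact r.Prime] (N : Subgroup G) [N.Normal] :
    Nat.card (Sylow r N) ∣ Nat.card (Sylow r G) := by
  obtain ⟨Q⟩ : Nonempty (Sylow r N) := inferInstance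
  obtain ⟨P, hP⟩ := (Q.2.map N.subtype).exists_le_sylow
  have hPQ : (P : Subgroup G) ⊓ N = (Q : Subgroup N).map N.subtype := by
    apply le_antisymm
    · have h1 : IsPGroup r ((P : Subgroup G).subgroupOf N) := P.2.comap_subtype
      have h2 : (Q : Subgroup N) ≤ (P : Subgroup G).subgroupOf N := fun x hx =>
        hP ⟨x, hx, rfl⟩
      have h3 := Q.3 h1 h2
      rintro x ⟨hx, hxN⟩
      refine ⟨⟨x, hxN⟩, ?_, rfl⟩
      have : (⟨x, hxN⟩ : N) ∈ (P : Subgroup G).subgroupOf N := hx
      rw [h3] at this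
      exact this
    · refine le_inf hP ?_
      rintro _ ⟨x, _, rfl⟩
      exact x.2
  have hfr := Sylow.normalizer_sup_eq_top Q
  rw [Q.card_eq_index_normalizer, P.card_eq_index_normalizer]
  have h1 : normalizer ((Q : Subgroup N) : Set N) =
      (normalizer (((Q : Subgroup N).map N.subtype : Subgroup G) : Set G)).subgroupOf N := by
    ext x
    rw [Subgroup.mem_subgroupOf, Subgroup.mem_set_normalizer_iff, Subgroup.mem_set_normalizer_iff]
    constructor
    · intro h y
      constructor
      · rintro ⟨z, hz, rfl⟩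
        exact ⟨x * z * x⁻¹, (h z).1 hz, by simp⟩
      · rintro ⟨z, hz, hzy⟩
        refine ⟨x⁻¹ * z * x, (h _).2 (by simpa [mul_assoc] using hz), ?_⟩
        rw [map_mul, map_mul, hzy, map_inv, Subgroup.coe_subtype]; group
    · intro h y
      constructor
      · intro hy
        obtain ⟨z, hz, hzy⟩ := (h y).1 ⟨y, hy, rfl⟩
        have : z = x * y * x⁻¹ := Subtype.ext hzy
        rw [← this]; exact hz
      · intro hy
        obtain ⟨z, hz, hzy⟩ := (h y).2 ⟨x * y * x⁻¹, hy, by simp⟩
        have : z = y := Subtype.ext hzy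
        rw [← this]; exact hz
  have h2 : (normalizer ((Q : Subgroup N) : Set N)).index =
      (normalizer (((Q : Subgroup N).map N.subtype : Subgroup G) : Set G)).index := by
    rw [h1]
    exact relIndex_of_sup_eq_top _ N hfr
  have h2' : (normalizer (Q : Set N)).index =
      (normalizer (((Q : Subgroup N).map N.subtype : Subgroup G) : Set G)).index := h2
  rw [h2']
  apply Subgroup.index_dvd_of_le
  intro g hg
  rw [Subgroup.mem_set_normalizer_iff] at hg ⊢
  intro x
  rw [← hPQ]
  have hN : x ∈ N ↔ g * x * g⁻¹ ∈ N := by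
    constructor
    · intro hx; exact Subgroup.Normal.conj_mem inferInstance x hx g
    · intro hx
      have := Subgroup.Normal.conj_mem (inferInstance : N.Normal) _ hx g⁻¹
      simpa [mul_assoc] using this
  constructor
  · rintro ⟨h1, h2⟩; exact ⟨(hg x).1 h1, hN.1 h2⟩
  · rintro ⟨h1, h2⟩; exact ⟨(hg x).2 h1, hN.2 h2⟩

/-- two primes with different bases: contradiction in a simple group -/
theorem key [IsSimpleGroup G] (hG : ¬ IsMulCommutative G) {r s q t a b : ℕ} [hr : Fact r.Prime] [hs : Fact s.Prime]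
    (hrG : r ∣ Nat.card G) (hsG : s ∣ Nat.card G) (hq : q.Prime) (ht : t.Prime)
    (h1 : Nat.card (Sylow r G) = q ^ a) (h2 : Nat.card (Sylow s G) = t ^ b) (hqt : q ≠ t) (htr : t ≠ r) :
    False := by
  obtain ⟨S⟩ : Nonempty (Sylow s G) := inferInstance
  have hSi : (normalizer ((S : Subgroup G) : Set G)).index = t ^ b :=
    S.card_eq_index_normalizer.symm.trans h2
  have hSn := H21.SylowTools.normalizer_sylow_ne_top hG hsG S
  set M := normalizer ((S : Subgroup G) : Set G) with hM
  -- a Sylow `r`-subgroup inside `M`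
  have hrM : ¬ r ∣ M.index := by
    rw [hSi]
    intro h
    exact htr ((Nat.prime_dvd_prime_iff_eq hr.out ht).1 (hr.out.dvd_of_dvd_pow h)).symm
  obtain ⟨R0⟩ : Nonempty (Sylow r M) := inferInstance
  obtain ⟨R, hR⟩ := (R0.2.map M.subtype).exists_le_sylow
  have hRM : (R : Subgroup G) ≤ M := by
    have hc : Nat.card ((R0 : Subgroup M).map M.subtype) = Nat.card (R : Subgroup G) := by
      rw [Nat.card_congr ((R0 : Subgroup M).equivMapOfInjective _ M.subtype_injective).toEquiv.symm,
        R0.card_eq_multiplicity, R.card_eq_multiplicity, ← Subgroup.card_mul_index M,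
        Nat.factorization_mul Nat.card_pos.ne' Subgroup.index_ne_zero_of_finite, Finsupp.add_apply,
        Nat.factorization_eq_zero_of_not_dvd hrM, add_zero]
    have := Subgroup.eq_of_le_of_card_ge hR hc.ge
    rw [← this]
    rintro _ ⟨x, _, rfl⟩
    exact x.2
  have hRi : (normalizer ((R : Subgroup G) : Set G)).index = q ^ a :=
    R.card_eq_index_normalizer.symm.trans h1
  have hcop : M.index.Coprime (normalizer ((R : Subgroup G) : Set G)).index := by
    rw [hSi, hRi]
    exact Nat.Coprime.pow _ _ ((Nat.coprime_primes ht hq).2 hqt.symm)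
  have hncl : Subgroup.normalClosure ((R : Subgroup G) : Set G) ≤ M := by
    rw [Subgroup.normalClosure]
    rw [Subgroup.closure_le]
    intro y hy
    rw [Group.mem_conjugatesOfSet_iff] at hy
    obtain ⟨x, hx, hxy⟩ := hy
    obtain ⟨g, rfl⟩ := isConj_iff.1 hxy
    obtain ⟨n, hn, m, hm, hg⟩ := H72.CoprimeIndex.exists_mul_of_coprime_index M
      (normalizer ((R : Subgroup G) : Set G)) hcop g⁻¹
    have hg' : g = m⁻¹ * n⁻¹ := by rw [← mul_inv_rev, ← hg, inv_inv]
    rw [hg']
    have h3 : n⁻¹ * x * n⁻¹⁻¹ ∈ (R : Subgroup G) :=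
      (Subgroup.mem_set_normalizer_iff.1 (inv_mem hn) x).1 hx
    have h4 : m⁻¹ * (n⁻¹ * x * n⁻¹⁻¹) * m⁻¹⁻¹ ∈ M := mul_mem (mul_mem (inv_mem hm) (hRM h3)) (inv_mem (inv_mem hm))
    have h5 : m⁻¹ * n⁻¹ * x * (m⁻¹ * n⁻¹)⁻¹ = m⁻¹ * (n⁻¹ * x * n⁻¹⁻¹) * m⁻¹⁻¹ := by group
    rw [SetLike.mem_coe, h5]; exact h4
  rcases IsSimpleGroup.eq_bot_or_eq_top_of_normal (Subgroup.normalClosure ((R : Subgroup G) : Set G))
    inferInstance with h | h
  · apply R.ne_bot_of_dvd_card hrG
    rw [eq_bot_iff, ← h]
    exact Subgroup.subset_normalClosure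
  · rw [h] at hncl
    exact hSn (top_le_iff.1 hncl)

/-- there is no nonabelian simple group with all Sylow numbers prime powers -/
theorem not_simple [IsSimpleGroup G] (hG : ¬ IsMulCommutative G)
    (h : ∀ (r : ℕ) [Fact r.Prime], Nat.card (Sylow r G) = 1 ∨ IsPrimePow (Nat.card (Sylow r G))) :
    False := by
  -- for each prime divisor of the order, a prime `q`
  have hex : ∀ r : ℕ, r.Prime → r ∣ Nat.card G → ∃ q a : ℕ, q.Prime ∧ q ≠ r ∧ q ∣ Nat.card G ∧
      ∀ _ : Fact r.Prime, Nat.card (Sylow r G) = q ^ a := by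
    intro r hr hrG
    haveI : Fact r.Prime := ⟨hr⟩
    rcases h r with h1 | h1
    · exact absurd h1 (H21.SylowTools.card_sylow_ne_one hG hrG)
    · rw [isPrimePow_nat_iff] at h1
      obtain ⟨q, a, hq, ha, h1⟩ := h1
      have hq1 : q ∣ Nat.card (Sylow r G) := by rw [← h1]; exact dvd_pow_self q ha.ne'
      refine ⟨q, a, hq, ?_, hq1.trans (H21.SylowTools.card_sylow_dvd r), fun _ => h1.symm⟩
      rintro rfl
      exact not_dvd_card_sylow q G hq1
  choose! q a hq hqr hqG hcard using hex
  have hkey : ∀ r s : ℕ, r.Prime → s.Prime → r ∣ Nat.card G → s ∣ Nat.card G → q r ≠ q s → q s = r := by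
    intro r s hr hs hrG hsG hne
    by_contra hc
    haveI : Fact r.Prime := ⟨hr⟩
    haveI : Fact s.Prime := ⟨hs⟩
    exact key hG hrG hsG (hq r hr hrG) (hq s hs hsG) (hcard r hr hrG inferInstance) (hcard s hs hsG inferInstance)
      hne hc
  -- three primes
  have h3 : ∀ r s : ℕ, r.Prime → s.Prime → r ∣ Nat.card G → s ∣ Nat.card G → 
      ∃ t : ℕ, t.Prime ∧ t ∣ Nat.card G ∧ t ≠ r ∧ t ≠ s := by
    intro r s hr hs _ _
    by_contra hc
    push Not at hc
    have : Nat.card G = r ^ (Nat.card G).factorization r * s ^ (if s = r then 0 else (Nat.card G).factorization s) := by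
      conv_lhs => rw [← Nat.prod_factorization_pow_eq_self (Nat.card_pos (α := G)).ne']
      have hsub : (Nat.card G).factorization.support ⊆ {r, s} := by
        intro t ht
        rw [Nat.support_factorization, Nat.mem_primeFactors] at ht
        by_cases h1 : t = r
        · simp [h1]
        · simp [hc t ht.1 ht.2.1 h1]
      rw [Finsupp.prod_of_support_subset _ hsub _ (by simp)]
      by_cases hrs : s = r
      · subst hrs
        simp
      · rw [Finset.prod_pair (Ne.symm hrs), if_neg hrs]
    have hsol := H4.Burnside.isSolvable_of_card_eq r s hr hs _ G rfl ⟨_, _, this⟩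
    have h5 := IsSimpleGroup.comm_iff_isSolvable.2 hsol
    exact hG ⟨⟨h5⟩⟩
  -- all `q r` are equal
  have hconst : ∀ r s : ℕ, r.Prime → s.Prime → r ∣ Nat.card G → s ∣ Nat.card G → q r = q s := by
    intro r s hr hs hrG hsG
    by_contra hne
    have e1 := hkey r s hr hs hrG hsG hne
    have e2 := hkey s r hs hr hsG hrG (Ne.symm hne)
    obtain ⟨t, ht, htG, htr, hts⟩ := h3 r s hr hs hrG hsG
    by_cases h5 : q t = q r
    · have h6 := hkey t s ht hs htG hsG (by rw [h5]; exact hne)
      exact htr (h6.symm.trans e1)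
    · have h6 := hkey t r ht hr htG hrG h5
      exact hts (h6.symm.trans e2)
  -- a prime divisor
  obtain ⟨r, hr, hrG⟩ : ∃ r : ℕ, r.Prime ∧ r ∣ Nat.card G := by
    apply Nat.exists_prime_and_dvd
    intro h1
    have := Finite.one_lt_card_iff_nontrivial.2 (inferInstance : Nontrivial G)
    omega
  exact hqr (q r) (hq r hr hrG) (hqG r hr hrG) (hconst _ _ (hq r hr hrG) hr (hqG r hr hrG) hrG)

theorem isPrimePow_of_dvd {m n : ℕ} (h : m ∣ n) (hn : n = 1 ∨ IsPrimePow n) : m = 1 ∨ IsPrimePow m := by
  rcases hn with hn | hn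
  · rw [hn, Nat.dvd_one] at h; exact Or.inl h
  · by_cases h1 : m = 1
    · exact Or.inl h1
    · exact Or.inr (hn.dvd h h1)

theorem main (n : ℕ) : ∀ (G : Type u) [Group G] [Finite G], Nat.card G = n →
    (∀ (r : ℕ) [Fact r.Prime], Nat.card (Sylow r G) = 1 ∨ IsPrimePow (Nat.card (Sylow r G))) →
    Group.IsSolvable G := by
  induction n using Nat.strong_induction_on with
  | _ n ih =>
    intro G _ _ hn h
    by_cases hs : ∃ N : Subgroup G, N.Normal ∧ N ≠ ⊥ ∧ N ≠ ⊤
    · obtain ⟨N, hN, h1, h2⟩ := hs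
      have hN1 : 1 < Nat.card N := (Subgroup.one_lt_card_iff_ne_bot N).2 h1
      have hN2 : Nat.card N < n := by
        rw [← hn]; exact lt_of_le_of_ne (Subgroup.card_le_card_group N) (fun h => h2 (Subgroup.eq_top_of_card_eq N h))
      have hs1 : Group.IsSolvable N := ih _ hN2 N rfl (fun r hr =>
        isPrimePow_of_dvd (card_sylow_dvd_of_normal N) (h r))
      have hc : Nat.card N * N.index = Nat.card G := Subgroup.card_mul_index N
      have hs2 : Group.IsSolvable (G ⧸ N) := by
        refine ih (Nat.card (G ⧸ N)) ?_ (G ⧸ N) rfl (fun r hr =>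
          isPrimePow_of_dvd (H64.SylowNumbers.card_dvd_of_surjective (QuotientGroup.mk' N)
            (QuotientGroup.mk'_surjective N)) (h r))
        have : 0 < Nat.card (G ⧸ N) := Nat.card_pos
        have hc' : Nat.card N * Nat.card (G ⧸ N) = n := by rw [← hn]; exact hc
        nlinarith
      exact Group.isSolvable_of_ker_le_range N.subtype (QuotientGroup.mk' N) (by simp)
    · push Not at hs
      rcases subsingleton_or_nontrivial G with hsub | hnt
      · infer_instance
      · haveI : IsSimpleGroup G := ⟨fun N hN => by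
          by_cases h1 : N = ⊥
          · exact Or.inl h1
          · exact Or.inr (hs N hN h1)⟩
        by_cases hG : IsMulCommutative G
        · exact IsSimpleGroup.comm_iff_isSolvable.1 (fun a b => hG.is_comm.comm a b)
        · exact (not_simple hG h).elim

end H38.SylNum
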