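import Cfsg.Agent.Lib.H38.Split
import Cfsg.Agent.Lib.H38.JFun

set_option autoImplicit false

/-! The weakly closed elements of a Sylow subgroup form a direct factor of its centre. -/

namespace H38.WCSplit

open H38.Basic H38.Functor H38.PPrime H38.Split H38.JFun H38.NormFix Cfsg
open scoped commutatorElement

variable {G : Type*} [Group G] {p : ℕ} [Finite G] [Fact p.Prime]

/-- the general criterion -/
theorem wc_split (S : Sylow p G) {V N : Subgroup G} (hVN : V ≤ N) (hVS : V ≤ (S : Subgroup G))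
    (hVn : N ≤ Subgroup.normalizer (V : Set G))
    (hab : V ≤ Subgroup.centralizer (V : Set G)) (hSN : (S : Subgroup G) ≤ N)
    (hZ : (S : Subgroup G) ⊓ Subgroup.centralizer ((S : Subgroup G) : Set G) ≤ V)
    (hwc : ∀ x ∈ V ⊓ Subgroup.centralizer (N : Set G), ∀ g : G, g * x * g⁻¹ ∈ (S : Subgroup G) → g * x * g⁻¹ = x) :
    ∃ W K : Subgroup G, (∀ x : G, x ∈ W ↔ (x ∈ (S : Subgroup G) ∧
        ∀ g : G, g * x * g⁻¹ ∈ (S : Subgroup G) → g * x * g⁻¹ = x)) ∧
      K ≤ ((S : Subgroup G) ⊓ Subgroup.centralizer ((S : Subgroup G) : Set G)) ∧ W ⊓ K = ⊥ ∧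
      W ⊔ K = ((S : Subgroup G) ⊓ Subgroup.centralizer ((S : Subgroup G) : Set G)) := by
  have hidx : ¬ p ∣ (S : Subgroup G).relIndex N := ((isSyl_sylow S).of_le hSN le_top).2.2
  obtain ⟨K, hK1, hK2, hK3⟩ := split hVN hVn (S.2.to_le hVS) hab hSN hidx
  have hZeq : V ⊓ Subgroup.centralizer ((S : Subgroup G) : Set G) =
      (S : Subgroup G) ⊓ Subgroup.centralizer ((S : Subgroup G) : Set G) :=
    le_antisymm (inf_le_inf_right _ hVS) (le_inf hZ inf_le_right)
  rw [hZeq] at hK1 hK3
  refine ⟨V ⊓ Subgroup.centralizer (N : Set G), K, ?_, hK1, hK2, hK3⟩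
  intro x
  constructor
  · intro hx
    exact ⟨hVS hx.1, hwc x hx⟩
  · rintro ⟨hxS, hx⟩
    have hxZ : x ∈ (S : Subgroup G) ⊓ Subgroup.centralizer ((S : Subgroup G) : Set G) := by
      refine Subgroup.mem_inf.2 ⟨hxS, ?_⟩
      rw [Subgroup.mem_centralizer_iff]
      intro s hs
      have := hx s (mul_mem (mul_mem hs hxS) (inv_mem hs))
      calc s * x = (s * x * s⁻¹) * s := by group
        _ = x * s := by rw [this]
    have hxV := hZ hxZ
    refine Subgroup.mem_inf.2 ⟨hxV, ?_⟩
    rw [Subgroup.mem_centralizer_iff]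
    intro n hn
    have h1 : n * x * n⁻¹ ∈ V := (Subgroup.mem_normalizer_iff.1 (hVn hn) x).1 hxV
    have := hx n (hVS h1)
    calc n * x = (n * x * n⁻¹) * n := by group
      _ = x * n := by rw [this]

theorem core_case (S : Sylow p G)
    (hZ : ((S : Subgroup G) ⊓ Subgroup.centralizer ((S : Subgroup G) : Set G)) ≤ pPrimePCore p G) :
    ∃ W K : Subgroup G, (∀ x : G, x ∈ W ↔ (x ∈ (S : Subgroup G) ∧
        ∀ g : G, g * x * g⁻¹ ∈ (S : Subgroup G) → g * x * g⁻¹ = x)) ∧
      K ≤ ((S : Subgroup G) ⊓ Subgroup.centralizer ((S : Subgroup G) : Set G)) ∧ W ⊓ K = ⊥ ∧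
      W ⊔ K = ((S : Subgroup G) ⊓ Subgroup.centralizer ((S : Subgroup G) : Set G)) := by
  set R := (S : Subgroup G) ⊓ pPrimePCore p G with hR
  have hRs : IsSyl p R (pPrimePCore p G) := inf_pPrimePCore_isSyl S
  have hRn : Subgroup.normalizer (R : Set G) ≤ Subgroup.normalizer ((R ⊓ Subgroup.centralizer (R : Set G) : Subgroup G) : Set G) :=
    WeakInd.le_normalizer_inf le_rfl (Goldschmidt.le_normalizer_centralizer R)
  refine wc_split S (V := R ⊓ Subgroup.centralizer (R : Set G)) (N := Subgroup.normalizer (R : Set G))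
    (inf_le_left.trans Subgroup.le_normalizer) (inf_le_left.trans inf_le_left) hRn
    (inf_le_right.trans (Subgroup.centralizer_le inf_le_left)) ?_ ?_ ?_
  · rw [hR]
    refine WeakInd.le_normalizer_inf Subgroup.le_normalizer ?_
    rw [(Subgroup.normalizer_eq_top_iff (H := pPrimePCore p G)).2 inferInstance]; exact le_top
  · refine le_inf (le_inf inf_le_left hZ) ?_
    exact inf_le_right.trans (Subgroup.centralizer_le inf_le_left)
  · rintro x ⟨hxV, hxc⟩ g hg
    have h1 : g ∈ pPrimeCore p G ⊔ Subgroup.normalizer (R : Set G) := by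
      rw [sup_normalizer_eq_top hRs]; trivial
    rw [sup_comm] at h1
    obtain ⟨k, hk, n, hn, rfl⟩ := (Goldschmidt.mem_sup_iff_of_le_normalizer
      (H := Subgroup.normalizer (R : Set G)) (K := pPrimeCore p G) (by
      rw [(Subgroup.normalizer_eq_top_iff (H := pPrimeCore p G)).2 inferInstance]; exact le_top)).1 h1
    have h2 : n * x * n⁻¹ = x := by
      rw [Subgroup.mem_centralizer_iff.1 hxc n hn]; group
    have h3 : k * n * x * (k * n)⁻¹ = k * x * k⁻¹ := by
      calc k * n * x * (k * n)⁻¹ = k * (n * x * n⁻¹) * k⁻¹ := by group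
        _ = _ := by rw [h2]
    rw [h3] at hg ⊢
    have hxS : x ∈ (S : Subgroup G) := hxV.1.1
    have h4 : k * x * k⁻¹ * x⁻¹ ∈ (S : Subgroup G) ⊓ pPrimeCore p G := by
      refine Subgroup.mem_inf.2 ⟨mul_mem hg (inv_mem hxS), ?_⟩
      have h5 := (inferInstance : (pPrimeCore p G).Normal).conj_mem _ (inv_mem hk) x
      have := mul_mem hk h5
      convert this using 1
      group
    have h5 : (S : Subgroup G) ⊓ pPrimeCore p G = ⊥ :=
      H1.Cores.disjoint_of_isPGroup S.2 (H1.Cores.coprime_card_pPrimeCore p)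
    rw [h5, Subgroup.mem_bot] at h4
    exact mul_inv_eq_one.1 h4

/-- for odd `p`: control by the Thompson subgroup -/
theorem odd_case (hp : p ≠ 2) (S : Sylow p G) :
    ∃ W K : Subgroup G, (∀ x : G, x ∈ W ↔ (x ∈ (S : Subgroup G) ∧
        ∀ g : G, g * x * g⁻¹ ∈ (S : Subgroup G) → g * x * g⁻¹ = x)) ∧
      K ≤ ((S : Subgroup G) ⊓ Subgroup.centralizer ((S : Subgroup G) : Set G)) ∧ W ⊓ K = ⊥ ∧
      W ⊔ K = ((S : Subgroup G) ⊓ Subgroup.centralizer ((S : Subgroup G) : Set G)) := by
  set J := JA (S : Subgroup G) with hJ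
  have hJS : J ≤ (S : Subgroup G) := JA_le _
  have hW : IsConjugacyFunctor p (JA : Subgroup G → Subgroup G) := isConjugacyFunctor_JA
  refine wc_split S (V := J ⊓ Subgroup.centralizer (J : Set G)) (N := Subgroup.normalizer (J : Set G))
    (inf_le_left.trans Subgroup.le_normalizer) (inf_le_left.trans hJS)
    (WeakInd.le_normalizer_inf le_rfl (Goldschmidt.le_normalizer_centralizer J))
    (inf_le_right.trans (Subgroup.centralizer_le inf_le_left)) (le_normalizer_W hW S.2) ?_ ?_
  · exact le_inf (center_le_JA _) (inf_le_right.trans (Subgroup.centralizer_le hJS))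
  · rintro x ⟨hxV, hxc⟩ g hg
    have h2 : 2 ≤ p - 1 := by
      have := (Fact.out : p.Prime).two_le
      omega
    have h1 := engel_weak (W := JA) (A := Subgroup.zpowers x) hW (fun P _ => center_le_JA P) (by
      intro H T hT hne
      obtain ⟨g, hgT, hgQ, hg2⟩ := exists_quadratic hT hne
      refine ⟨g, hgT, hgQ, fun U Y _ hU => ?_⟩
      have h3 : iterCommutator (U.map H.subtype) (Subgroup.zpowers g) 2 = ⊥ := by
        rw [eq_bot_iff, ← hg2]
        exact Subgroup.commutator_mono (Subgroup.commutator_mono hU le_rfl) le_rfl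
      have h4 : ∀ n, iterCommutator (U.map H.subtype) (Subgroup.zpowers g) (n + 2) = ⊥ := by
        intro n
        induction n with
        | zero => exact h3
        | succ n ih =>
          show ⁅iterCommutator (U.map H.subtype) (Subgroup.zpowers g) (n + 2), _⁆ = ⊥
          rw [ih, Subgroup.commutator_bot_left]
      obtain ⟨n, hn⟩ := Nat.exists_eq_add_of_le h2
      rw [hn, add_comm 2 n, h4]; exact bot_le) ⊤ (S : Subgroup G) (isSyl_sylow S) (by
        rw [Subgroup.zpowers_le]
        refine Subgroup.mem_inf.2 ⟨hJS hxV.1, ?_⟩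
        exact Subgroup.centralizer_le (le_normalizer_W hW S.2) hxc) (by
        rw [top_inf_eq]
        refine Subgroup.le_centralizer_iff.1 ?_
        rw [Subgroup.zpowers_le]; exact hxc) g trivial (by
        rw [MonoidHom.map_zpowers, Subgroup.zpowers_le]; exact hg)
    rw [← Subgroup.mem_centralizer_iff.1 h1 x (Subgroup.mem_zpowers x)]; group

end H38.WCSplit
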