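import Cfsg.Agent.Lib.H38.Basic

set_option autoImplicit false

/-! Weakly closed elements of Sylow subgroups. -/

namespace H38.WeakClosed

open Subgroup H38.Basic

variable {G : Type*} [Group G] {p : ℕ}

/-- `a` is its only conjugate in the subgroup `S`. -/
def WC (S : Subgroup G) (a : G) : Prop :=
  a ∈ S ∧ ∀ g : G, g * a * g⁻¹ ∈ S → g * a * g⁻¹ = a

theorem WC.comm {S : Subgroup G} {a : G} (h : WC S a) {s : G} (hs : s ∈ S) : s * a = a * s := by
  have := h.2 s (S.mul_mem (S.mul_mem hs h.1) (S.inv_mem hs))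
  calc s * a = s * a * s⁻¹ * s := by group
    _ = a * s := by rw [this]

variable [Finite G] [Fact p.Prime]

/-- If `a` is weakly closed in the Sylow subgroup `S`, then two conjugates of `a` in a common `p`-subgroup agree. -/
theorem WC.eq_of_mem {S : Sylow p G} {a : G} (h : WC (S : Subgroup G) a) {Q : Subgroup G} (hQ : IsPGroup p ↥Q)
    {x y : G} (hx : x * a * x⁻¹ ∈ Q) (hy : y * a * y⁻¹ ∈ Q) : x * a * x⁻¹ = y * a * y⁻¹ := by
  obtain ⟨g, -, hg⟩ := (isSyl_sylow S).exists_conj_le hQ le_top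
  have h1 : g * (x * a * x⁻¹) * g⁻¹ ∈ (S : Subgroup G) := hg (conj_mem_conj.2 hx)
  have h2 : g * (y * a * y⁻¹) * g⁻¹ ∈ (S : Subgroup G) := hg (conj_mem_conj.2 hy)
  have h3 := h.2 (g * x) (by simpa [mul_assoc] using h1)
  have h4 := h.2 (g * y) (by simpa [mul_assoc] using h2)
  have h5 : g * x * a * (g * x)⁻¹ = g * y * a * (g * y)⁻¹ := by rw [h3, h4]
  have := congrArg (fun z => g⁻¹ * z * g) h5
  simpa [mul_assoc] using this

/-- If `a` is weakly closed in `S`, then an element `g` which conjugates the subset `A` of `S` into `S` is of the form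
`c * n` with `n` centralizing `a` and `c` centralizing `g A g⁻¹`. -/
theorem WC.factor {S : Sylow p G} {a : G} (h : WC (S : Subgroup G) a) {A : Set G} {g : G} (hA : A ⊆ (S : Set G))
    (hg : ∀ x ∈ A, g * x * g⁻¹ ∈ (S : Subgroup G)) :
    ∃ n : G, n * a = a * n ∧ ∀ x ∈ A, n * x * n⁻¹ = g * x * g⁻¹ := by
  set B : Set G := (fun x => g * x * g⁻¹) '' A with hB
  set C := Subgroup.centralizer B with hC
  have haC : a ∈ C := by
    rw [hC, Subgroup.mem_centralizer_iff]
    rintro _ ⟨x, hx, rfl⟩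
    exact h.comm (hg x hx)
  have hgaC : g * a * g⁻¹ ∈ C := by
    rw [hC, Subgroup.mem_centralizer_iff]
    rintro _ ⟨x, hx, rfl⟩
    have := h.comm (hA hx)
    calc g * x * g⁻¹ * (g * a * g⁻¹) = g * (x * a) * g⁻¹ := by group
      _ = g * (a * x) * g⁻¹ := by rw [this]
      _ = g * a * g⁻¹ * (g * x * g⁻¹) := by group
  have hpa : IsPGroup p ↥(Subgroup.zpowers a) := S.2.to_le (by rw [Subgroup.zpowers_le]; exact h.1)
  have hpga : IsPGroup p ↥(Subgroup.zpowers (g * a * g⁻¹)) := by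
    have := isPGroup_conj hpa g
    refine this.to_le ?_
    rw [Subgroup.zpowers_le, conj_mem_conj]
    exact Subgroup.mem_zpowers a
  obtain ⟨T, hT, haT⟩ := exists_isSyl_ge (p := p) hpa (Q := Subgroup.zpowers a) (H := C) (by rwa [Subgroup.zpowers_le])
  obtain ⟨c, hc, hcT⟩ := hT.exists_conj_le hpga (by rwa [Subgroup.zpowers_le])
  have h1 : (1 : G) * a * 1⁻¹ ∈ T := by
    simpa using haT (Subgroup.mem_zpowers a)
  have h2 : (c * g) * a * (c * g)⁻¹ ∈ T := by
    have := hcT (conj_mem_conj.2 (Subgroup.mem_zpowers (g * a * g⁻¹)))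
    simpa [mul_assoc] using this
  have h3 := h.eq_of_mem hT.2.1 h2 h1
  refine ⟨c * g, ?_, ?_⟩
  · have h4 : (c * g) * a * (c * g)⁻¹ = a := by simpa using h3
    calc c * g * a = (c * g) * a * (c * g)⁻¹ * (c * g) := by group
      _ = a * (c * g) := by rw [h4]
  · intro x hx
    have h5 := (Subgroup.mem_centralizer_iff.1 hc) (g * x * g⁻¹) ⟨x, hx, rfl⟩
    calc c * g * x * (c * g)⁻¹ = c * (g * x * g⁻¹) * c⁻¹ := by group
      _ = (g * x * g⁻¹) * c * c⁻¹ := by rw [h5]
      _ = g * x * g⁻¹ := by group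

end H38.WeakClosed
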